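import Mathlib
import Cfsg.Agent.H1.Jordan
import Cfsg.Agent.H2.Components
import Cfsg.Agent.H2.MinNormal
import Cfsg.Agent.H20.Simple
import Cfsg.Agent.FT.Quo
import Cfsg.Agent.FT.Nil
/-! Permutation groups with quasisimple generalized Fitting subgroup and small Jordan sets. -/
set_option autoImplicit false
set_option linter.unusedSectionVars false
set_option linter.unusedVariables false
set_option linter.style.haveILetI false
namespace Cfsg.Agent.H21.AO
open Subgroup MulAction
open scoped Pointwise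

variable {G Ω : Type*} [Group G] [Finite G] {L : Subgroup G}

/-- a self-centralizing quasisimple normal subgroup -/
structure QL (L : Subgroup G) : Prop where
  nml : L.Normal
  qs : IsQuasisimple L
  cen : centralizer (L : Set G) ≤ L

theorem QL.dich (h : QL L) (U : Subgroup G) (hU : L ≤ normalizer (U : Set G)) :
    L ≤ U ∨ U ≤ centralizer (L : Set G) := by
  haveI := h.nml
  rcases H2.commutator_eq_self_or_bot_of_isQuasisimple (U := U) h.qs (by rw [normalizer_eq_top]; exact le_top)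
    with e | e
  · left; rw [← e]; exact le_normalizer_iff_commutator_le_right.1 hU
  · right; rw [commutator_comm] at e; exact commutator_eq_bot_iff_le_centralizer.1 e

theorem QL.dich' (h : QL L) (U : Subgroup G) [U.Normal] : L ≤ U ∨ U ≤ centralizer (L : Set G) :=
  h.dich U (by rw [normalizer_eq_top]; exact le_top)

theorem QL.hom_triv (h : QL L) {K : Type*} [Group K] [Group.IsSolvable K] (f : L →* K) (l : L) : f l = 1 := by
  have h1 : ⁅(⊤ : Subgroup L), (⊤ : Subgroup L)⁆ = ⊤ := h.qs.1.commutator_eq_top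
  have h2 : (⊤ : Subgroup L).map f = ⊥ :=
    H2.eq_bot_of_isSolvable_of_commutator_eq (by rw [← map_commutator, h1])
  have : f l ∈ (⊤ : Subgroup L).map f := ⟨l, mem_top _, rfl⟩
  rwa [h2, mem_bot] at this

variable [MulAction G Ω] [Fintype Ω] [DecidableEq Ω]

theorem QL.fix_small (h : QL L) (S : Set Ω) (hS : S.ncard ≤ 4) (hi : ∀ l ∈ L, ∀ x ∈ S, l • x ∈ S) :
    ∀ l ∈ L, ∀ x ∈ S, l • x = x := by
  let T : SubMulAction L Ω := ⟨S, fun l _ hx => hi l l.2 _ hx⟩
  haveI : Group.IsSolvable (Equiv.Perm T) := H20.perm_solvable_of_card_le_four hS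
  intro l hl x hx
  have := h.hom_triv (toPermHom L T) ⟨l, hl⟩
  exact congrArg (fun σ : Equiv.Perm T => ((σ ⟨x, hx⟩ : T) : Ω)) this

variable [FaithfulSMul G Ω]

theorem eq_one_of_fix {d : G} (h : ∀ z : Ω, d • z = z) : d = 1 :=
  eq_of_smul_eq_smul (α := Ω) fun z => by rw [h, one_smul]

theorem QL.small (h : QL L) {d : G} (hd : d ∈ centralizer (L : Set G)) (S : Set Ω) (hS : S.ncard ≤ 4)
    (hf : ∀ z, z ∉ S → d • z = z) : d = 1 := by
  have h1 := h.fix_small {z : Ω | d • z ≠ z}
    ((Set.ncard_le_ncard (fun z hz => by by_contra hc; exact hz (hf z hc)) (Set.toFinite _)).trans hS)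
    (fun l hl x hx e => hx (by
      rw [← mul_smul, ← hd l hl, mul_smul] at e
      exact smul_left_cancel _ e)) d (h.cen hd)
  exact eq_one_of_fix (Ω := Ω) fun z => by by_contra hc; exact hc (h1 z hc)

theorem QL.nofix [IsPretransitive G Ω] (h : QL L) (x : Ω) : ¬ ∀ l ∈ L, l • x = x := by
  intro hx
  refine H2.ne_bot_of_isQuasisimple h.qs (eq_bot_iff.2 fun l hl => mem_bot.2 (eq_one_of_fix (Ω := Ω) fun z => ?_))
  obtain ⟨g, rfl⟩ := exists_smul_eq G x z
  have := hx _ (h.nml.conj_mem l hl g⁻¹)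
  rw [mul_smul, mul_smul, inv_inv, inv_smul_eq_iff] at this
  exact this

/-- the kernel on the translates of a set -/
def trK (B : Set Ω) : Subgroup G := ⨅ g : G, stabilizer G (g • B)

theorem mem_trK {B : Set Ω} {k : G} : k ∈ trK (G := G) B ↔ ∀ g : G, k • g • B = g • B := by
  simp [trK, mem_iInf]

instance trK_normal (B : Set Ω) : (trK (G := G) B).Normal := ⟨fun k hk g => mem_trK.2 fun x => by
  rw [mul_smul, mul_smul, ← mul_smul g⁻¹, mem_trK.1 hk, ← mul_smul, mul_inv_cancel_left]⟩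

theorem QL.prim [IsPretransitive G Ω] (h : QL L) (Γ : Finset Ω) (h2 : 2 ≤ Γ.card) (h4 : Γ.card ≤ 4)
    (hJ : H1.JC G Γᶜ) : IsPreprimitive G Ω := by
  have hJ' : ∀ x ∈ Γ, ∀ y ∈ Γ, ∃ g : G, (∀ z, z ∉ Γ → g • z = z) ∧ g • x = y := fun x hx y hy => by
    obtain ⟨g, a, b⟩ := hJ x y (by simpa using hx) (by simpa using hy)
    exact ⟨g, fun z hz => a z (Finset.mem_compl.2 hz), b⟩
  have hΓ : (Γ : Set Ω).ncard ≤ 4 := by rwa [Set.ncard_coe_finset]
  obtain ⟨a, ha, a', ha', hne⟩ := Finset.one_lt_card.1 (show 1 < Γ.card by omega)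
  have key : ∀ B : Set Ω, IsBlock G B → a ∈ B → ¬ B.Subsingleton → B = Set.univ := by
    intro B hB haB hs
    by_contra hu
    have mv : ∀ d : G, (∀ z, z ∉ Γ → d • z = z) → ∀ g : G, d • g • B ≠ g • B → g • B ⊆ Γ := by
      intro d hd g hg z hz
      by_contra hc
      exact hg ((hB.translate g).smul_eq_of_nonempty ⟨z, ⟨z, hz, hd z hc⟩, hz⟩)
    have dj : ∀ g : G, g • B ≠ B → Disjoint (g • B) B := fun g hg => hB.smul_eq_or_disjoint g |>.resolve_left hg
    have fin : ∀ d : G, (∀ z, z ∉ Γ → d • z = z) → d • a ≠ a → d ∈ trK (G := G) B → ∀ l ∈ L, l • B = B := by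
      intro d hd h1 hk l hl
      rcases h.dich' (trK (G := G) B) with e | e
      · simpa using mem_trK.1 (e hl) 1
      · exact absurd (by rw [h.small (e hk) (Γ : Set Ω) hΓ (fun z hz => hd z hz), one_smul]) h1
    by_cases hc : (Γ : Set Ω) ⊆ B
    · obtain ⟨d, hd, h1⟩ := hJ' a ha a' ha'
      have h3 : d • B = B := hB.smul_eq_of_nonempty ⟨a', ⟨a, haB, h1⟩, hc ha'⟩
      have hk : d ∈ trK (G := G) B := mem_trK.2 fun g => by
        by_contra hg
        have h5 := (mv d hd g hg).trans hc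
        by_cases h6 : g • B = B
        · rw [h6] at hg; exact hg h3
        · exact Set.disjoint_left.1 (dj g h6) ⟨a, haB, rfl⟩ (h5 ⟨a, haB, rfl⟩)
      have hL := fin d hd (by rw [h1]; exact hne.symm) hk
      have hn : L ≤ normalizer ((fixingSubgroup G Bᶜ : Subgroup G) : Set G) := by
        refine FT.le_nrm_iff.2 fun l hl u hu => (mem_fixingSubgroup_iff G).2 fun z hz => ?_
        have : l⁻¹ • z ∈ Bᶜ := fun e => hz (by
          rw [← hL l hl]; exact Set.mem_smul_set_iff_inv_smul_mem.2 e)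
        rw [mul_smul, mul_smul, (mem_fixingSubgroup_iff G).1 hu _ this, smul_inv_smul]
      rcases h.dich _ hn with e | e
      · obtain ⟨z, hz⟩ := (Set.ne_univ_iff_exists_notMem B).1 hu
        exact h.nofix z fun l hl => (mem_fixingSubgroup_iff G).1 (e hl) z hz
      · have := h.small (e ((mem_fixingSubgroup_iff G).2 fun z hz => hd z fun e => hz (hc e))) (Γ : Set Ω) hΓ
          (fun z hz => hd z hz)
        rw [this, one_smul] at h1
        exact hne h1
    · obtain ⟨c, hcΓ, hcB⟩ := Set.not_subset.1 hc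
      obtain ⟨v, hv, h1⟩ := hJ' a ha c hcΓ
      have hBΓ : B ⊆ Γ := by
        have := mv v hv 1 (by
          rw [one_smul]; intro e
          exact hcB (e ▸ ⟨a, haB, h1⟩))
        rwa [one_smul] at this
      obtain ⟨b, hb, hba⟩ : ∃ b ∈ B, b ≠ a := by
        by_contra hx
        push Not at hx
        exact hs fun x hx1 y hy => (hx x hx1).trans (hx y hy).symm
      obtain ⟨d, hd, h5⟩ := hJ' a ha b (hBΓ hb)
      have h3 : d • B = B := hB.smul_eq_of_nonempty ⟨b, ⟨a, haB, h5⟩, hb⟩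
      have hk : d ∈ trK (G := G) B := mem_trK.2 fun g => by
        by_contra hg
        have a1 := mv d hd g hg
        have a2 : (d * g) • B ⊆ Γ := by
          rintro _ ⟨x, hx, rfl⟩
          by_contra e
          have e1 := hd _ e
          simp only [mul_smul] at e e1
          have e2 := smul_left_cancel d e1
          exact e (e2.symm ▸ a1 ⟨x, hx, rfl⟩)
        have a3 : g • B ≠ B := fun e => hg (by rw [e, h3])
        have a4 : (d * g) • B ≠ B := fun e => a3 (by
          rw [mul_smul] at e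
          exact smul_left_cancel d (e.trans h3.symm))
        have a5 : Disjoint ((d * g) • B) (g • B) := hB (by rw [mul_smul]; exact hg)
        have a6 : 2 ≤ B.ncard := (Set.one_lt_ncard (Set.toFinite _)).2 ⟨b, hb, a, haB, hba⟩
        have a7 : ((d * g) • B ∪ g • B ∪ B).ncard ≤ 4 :=
          (Set.ncard_le_ncard (Set.union_subset (Set.union_subset a2 a1) hBΓ) (Set.toFinite _)).trans hΓ
        rw [Set.ncard_union_eq (Set.disjoint_union_left.2 ⟨dj _ a4, dj _ a3⟩), Set.ncard_union_eq a5,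
          Set.ncard_smul_set, Set.ncard_smul_set] at a7
        omega
      have hL := fin d hd (by rw [h5]; exact hba) hk
      exact h.nofix a fun l hl => h.fix_small B ((Set.ncard_le_ncard hBΓ (Set.toFinite _)).trans hΓ)
        (fun l hl x hx => hL l hl ▸ ⟨x, hx, rfl⟩) l hl a haB
  refine ⟨fun {B} hB => ?_⟩
  by_cases hs : B.Subsingleton
  · exact Or.inl hs
  right
  obtain ⟨x, hx, -⟩ := Set.not_subsingleton_iff.1 hs
  obtain ⟨g, hg⟩ := exists_smul_eq G x a
  have := key (g • B) (hB.translate g) ⟨x, hx, hg⟩ (fun e => hs fun u hu v hv =>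
    smul_left_cancel g (e ⟨u, hu, rfl⟩ ⟨v, hv, rfl⟩))
  rw [← inv_smul_smul g B, this, Set.smul_set_univ]

theorem exists_small {Γ : Finset Ω} (h2 : 2 ≤ Γ.card) (hJ : H1.JC G Γᶜ) :
    ∃ d : G, toPermHom G Ω d ≠ 1 ∧ (toPermHom G Ω d).support.card ≤ Γ.card := by
  obtain ⟨x, hx, y, hy, hxy⟩ := Finset.one_lt_card.1 (show 1 < Γ.card by omega)
  obtain ⟨g, g1, g2⟩ := hJ x y (by simpa using hx) (by simpa using hy)
  refine ⟨g, fun e => ?_, Finset.card_le_card fun z hz => ?_⟩
  · have : g • x = x := congrArg (fun σ : Equiv.Perm Ω => σ x) e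
    exact hxy (this.symm.trans g2)
  · rw [Equiv.Perm.mem_support] at hz
    by_contra hc
    exact hz (g1 z (Finset.mem_compl.2 hc))

theorem QL.alt3 [IsPretransitive G Ω] (h : QL L) (Γ : Finset Ω) (h3 : Γ.card = 3)
    (hJ : H1.JC G Γᶜ) : alternatingGroup Ω ≤ (toPermHom G Ω).range := by
  haveI := h.prim Γ (by omega) (by omega) hJ
  obtain ⟨d, a, b⟩ := exists_small (by omega) hJ
  exact H16.alt_le_of_support_le_three H1.prim_range ⟨d, rfl⟩ a (by omega)

theorem smul_compl (g : G) (B : Finset Ω) : g • Bᶜ = (g • B)ᶜ := by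
  ext x
  simp only [Finset.mem_compl, ← Finset.inv_smul_mem_iff]

theorem QL.not_stn [IsPreprimitive G Ω] (h : QL L) (h8 : Fintype.card Ω = 8) (h64 : 64 ∣ Nat.card G)
    {Blk : Finset Ω → Prop} (S : H1.Stn G 3 4 Blk) : False := by
  classical
  have hc : ∀ B, Blk B → Blk Bᶜ := by
    intro B hB
    have c1 : Bᶜ.card = 4 := by rw [Finset.card_compl, S.card hB, h8]
    obtain ⟨X, hX, hX3⟩ := Finset.exists_subset_card_eq (show 3 ≤ Bᶜ.card by omega)
    obtain ⟨B', hB', hXB⟩ := S.ex X hX3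
    by_cases e : B' ⊆ Bᶜ
    · rwa [← Finset.eq_of_subset_of_card_le e (by rw [c1, S.card hB'])]
    exfalso
    obtain ⟨x, hx, hx1⟩ := Finset.not_subset.1 e
    have hxB : x ∈ B := by simpa using hx1
    have hxX : x ∉ X := fun e => hx1 (hX e)
    have e1 : B' = insert x X :=
      (Finset.eq_of_subset_of_card_le (Finset.insert_subset hx hXB)
        (by rw [Finset.card_insert_of_notMem hxX, S.card hB', hX3])).symm
    obtain ⟨w, hw, hwX⟩ : ∃ w ∈ Bᶜ, w ∉ X := Finset.exists_mem_notMem_of_card_lt_card (by omega)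
    obtain ⟨u, hu⟩ : X.Nonempty := Finset.card_pos.1 (by omega)
    obtain ⟨g, g1, g2⟩ := S.jc hB u w (by simpa using hX hu) (by simpa using hw)
    have gB : g • B = B := H1.smul_eq_of_mapsTo (fun z hz => by rw [g1 z hz]; exact hz) le_rfl
    have gX : g • X ⊆ Bᶜ := by
      rw [← gB, ← smul_compl]; exact Finset.smul_finset_subset_smul_finset hX
    have c2 : 2 ≤ (X ∩ g • X).card := by
      have := Finset.card_union_add_card_inter X (g • X)
      have := Finset.card_le_card (Finset.union_subset hX gX)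
      have : (g • X).card = 3 := by rw [Finset.card_smul_finset, hX3]
      omega
    have c3 : insert x (X ∩ g • X) ⊆ B' ∩ g • B' := by
      refine Finset.insert_subset (Finset.mem_inter.2 ⟨hx, ?_⟩)
        (Finset.inter_subset_inter hXB (Finset.smul_finset_subset_smul_finset hXB))
      rw [← g1 x hxB]; exact Finset.smul_mem_smul_finset hx
    have c4 := Finset.card_le_card c3
    rw [Finset.card_insert_of_notMem (fun e => hxX (Finset.mem_inter.1 e).1)] at c4
    have c5 := S.uniq hB' (S.smul hB' g) (by omega)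
    have c6 : w ∈ B' := by rw [c5, ← g2]; exact Finset.smul_mem_smul_finset (hXB hu)
    rw [e1, Finset.mem_insert] at c6
    rcases c6 with rfl | c6
    · exact hx1 hw
    · exact hwX c6
  obtain ⟨a⟩ : Nonempty Ω := Fintype.card_pos_iff.1 (by omega)
  let Q : Finset (Finset Ω) := Finset.univ.filter fun B => Blk B ∧ a ∈ B
  have hQ : Q.card ≤ 7 := by
    have d1 : (Q.biUnion fun B => (B.erase a).powersetCard 2).card = ∑ B ∈ Q, ((B.erase a).powersetCard 2).card := by
      refine Finset.card_biUnion fun B hB B' hB' hne => ?_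
      obtain ⟨b1, b2⟩ := (Finset.mem_filter.1 hB).2
      obtain ⟨b3, b4⟩ := (Finset.mem_filter.1 hB').2
      refine Finset.disjoint_left.2 fun Y y1 y2 => hne ?_
      obtain ⟨y3, y4⟩ := Finset.mem_powersetCard.1 y1
      obtain ⟨y5, -⟩ := Finset.mem_powersetCard.1 y2
      refine S.same (X := insert a Y) b1 b3 (Finset.insert_subset b2 (y3.trans (Finset.erase_subset _ _)))
        (Finset.insert_subset b4 (y5.trans (Finset.erase_subset _ _))) ?_
      rw [Finset.card_insert_of_notMem (fun e => by simpa using y3 e), y4]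
    have d2 : ∑ B ∈ Q, ((B.erase a).powersetCard 2).card = Q.card * 3 := by
      rw [Finset.sum_congr rfl (g := fun _ => 3), Finset.sum_const, smul_eq_mul]
      intro B hB
      obtain ⟨b1, b2⟩ := (Finset.mem_filter.1 hB).2
      rw [Finset.card_powersetCard, Finset.card_erase_of_mem b2, S.card b1]; rfl
    have d3 : (Q.biUnion fun B => (B.erase a).powersetCard 2) ⊆ (Finset.univ.erase a).powersetCard 2 :=
      Finset.biUnion_subset.2 fun B _ =>
        Finset.powersetCard_mono (Finset.erase_subset_erase _ (Finset.subset_univ _))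
    have d4 := Finset.card_le_card d3
    rw [d1, d2, Finset.card_powersetCard, Finset.card_erase_of_mem (Finset.mem_univ _), Finset.card_univ, h8] at d4
    have : Nat.choose (8 - 1) 2 = 21 := by decide
    omega
  obtain ⟨X, -, hX⟩ := Finset.exists_subset_card_eq (show 3 ≤ (Finset.univ : Finset Ω).card by simp [h8])
  obtain ⟨B, hB, -⟩ := S.ex X hX
  let s0 : Finset (Finset Ω) := {B, Bᶜ}
  have hs : ∀ g : G, g • s0 = {g • B, (g • B)ᶜ} := fun g => by
    simp only [s0, Finset.smul_finset_insert, Finset.smul_finset_singleton, smul_compl]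
  have hi : (stabilizer G s0).index ≤ 7 := by
    rw [index_stabilizer]
    refine le_trans ?_ (((Finset.card_image_le (f := fun B : Finset Ω => ({B, Bᶜ} : Finset (Finset Ω))) (s := Q))).trans hQ)
    rw [← Set.ncard_coe_finset]
    refine Set.ncard_le_ncard ?_ (Set.toFinite _)
    rintro _ ⟨g, rfl⟩
    simp only [Finset.coe_image]
    by_cases e : a ∈ g • B
    · exact ⟨g • B, Finset.mem_coe.2 (Finset.mem_filter.2 ⟨Finset.mem_univ _, S.smul hB g, e⟩), (hs g).symm⟩
    · refine ⟨(g • B)ᶜ, Finset.mem_coe.2 (Finset.mem_filter.2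
        ⟨Finset.mem_univ _, hc _ (S.smul hB g), Finset.mem_compl.2 e⟩), ?_⟩
      show ({(g • B)ᶜ, (g • B)ᶜᶜ} : Finset (Finset Ω)) = g • s0
      rw [hs, compl_compl, Finset.pair_comm]
  set T := (stabilizer G s0).normalCore with hT
  have hT0 : T ≠ ⊥ := by
    intro e
    have f1 : T.index ∣ (stabilizer G s0).index.factorial := by
      rw [hT, normalCore_eq_ker, index_ker]
      refine (card_subgroup_dvd_card _).trans ?_
      rw [Nat.card_perm]; rfl
    rw [e, index_bot] at f1
    have := h64.trans (f1.trans (Nat.factorial_dvd_factorial hi))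
    revert this; decide
  rcases h.dich' T with e | e
  · have sq : ∀ l ∈ L, l * l = 1 := by
      intro l hl
      have f1 : ∀ g : G, (l * l) • g • B = g • B := by
        intro g
        have f2 : (g⁻¹ * l * g⁻¹⁻¹) • s0 = s0 := e hl g⁻¹
        rw [inv_inv, mul_smul, mul_smul, inv_smul_eq_iff] at f2
        have f3 : l • g • B ∈ l • g • s0 :=
          Finset.smul_mem_smul_finset (Finset.smul_mem_smul_finset (Finset.mem_insert_self _ _))
        rw [f2, hs, Finset.mem_insert, Finset.mem_singleton] at f3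
        rcases f3 with f3 | f3
        · rw [mul_smul, f3, f3]
        · rw [mul_smul, f3, smul_compl, f3, compl_compl]
      refine eq_one_of_fix (Ω := Ω) fun x => ?_
      by_contra hx
      obtain ⟨x0, hx0⟩ : B.Nonempty := Finset.card_pos.1 (by rw [S.card hB]; omega)
      obtain ⟨y0, hy0⟩ : Bᶜ.Nonempty := Finset.card_pos.1 (by rw [S.card (hc B hB)]; omega)
      have hy1 := Finset.mem_compl.1 hy0
      obtain ⟨g, g1, g2⟩ := is_two_pretransitive_iff.1
        (H16.mtrans_mono S.trans (show 2 ≤ 3 by norm_num) (by rw [Nat.card_eq_fintype_card]; omega))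
        (show x0 ≠ y0 from fun e => hy1 (e ▸ hx0)) (Ne.symm hx)
      have f4 : (l * l) • x ∈ g • B := by
        rw [← f1, ← g1]; exact Finset.smul_mem_smul_finset (Finset.smul_mem_smul_finset hx0)
      rw [← g2, Finset.smul_mem_smul_finset_iff] at f4
      exact hy1 f4
    refine H2.not_le_centralizer_of_isQuasisimple h.qs fun x hx y hy => ?_
    have i1 := inv_eq_of_mul_eq_one_right (sq x hx)
    have i2 := inv_eq_of_mul_eq_one_right (sq y hy)
    have i3 := inv_eq_of_mul_eq_one_right (sq _ (mul_mem hx hy))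
    rw [mul_inv_rev, i1, i2] at i3
    exact i3
  · haveI : IsPretransitive T Ω := IsQuasiPreprimitive.isPretransitive_of_normal (G := G) (fun e1 => hT0 (by
      refine eq_bot_iff.2 fun t ht => mem_bot.2 (eq_one_of_fix (Ω := Ω) fun z => ?_)
      have : z ∈ fixedPoints T Ω := e1 ▸ Set.mem_univ z
      exact this ⟨t, ht⟩))
    refine H2.not_le_centralizer_of_isQuasisimple h.qs fun l hl => ?_
    obtain ⟨t, ht⟩ := exists_smul_eq T a (l • a)
    have : t.1⁻¹ * l = 1 := by
      refine eq_one_of_fix (Ω := Ω) fun z => ?_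
      obtain ⟨u, rfl⟩ := exists_smul_eq T a z
      have k1 : (t.1⁻¹ * l) * u.1 = u.1 * (t.1⁻¹ * l) := e u.2 _ (mul_mem (inv_mem (h.cen (e t.2))) hl)
      have k2 : (t.1⁻¹ * l) • a = a := by
        rw [mul_smul, inv_smul_eq_iff]; exact ht.symm
      show (t.1⁻¹ * l) • u.1 • a = u.1 • a
      rw [← mul_smul, k1, mul_smul, k2]
    rw [← inv_mul_eq_one.1 this]
    exact e t.2

theorem QL.alt4 [IsPretransitive G Ω] (h : QL L) (Γ : Finset Ω) (h4 : Γ.card = 4)
    (hJ : H1.JC G Γᶜ) (h64 : 64 ∣ Nat.card G) : alternatingGroup Ω ≤ (toPermHom G Ω).range := by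
  haveI := h.prim Γ (by omega) (by omega) hJ
  have h8 : 8 ≤ Fintype.card Ω := by
    by_contra hc
    have f1 := card_dvd_of_injective (toPermHom G Ω) toPerm_injective
    rw [Nat.card_perm, Nat.card_eq_fintype_card (α := Ω)] at f1
    have := h64.trans (f1.trans (Nat.factorial_dvd_factorial (show Fintype.card Ω ≤ 7 by omega)))
    revert this; decide
  have hc : Γᶜ.card = Fintype.card Ω - 4 := by rw [Finset.card_compl, h4]
  rcases h8.lt_or_eq with h9 | h9
  · exact H1.alt_le_of_jc hJ (by omega) (by omega)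
  have h3 := H1.three_trans_of_jc hJ (by omega) (by omega)
  by_cases ht : IsMultiplyPretransitive G Ω 4
  · obtain ⟨d, a, b⟩ := exists_small (by omega) hJ
    exact H16.alt_le_of_small_support (by norm_num) (by omega) (H16.mtrans_range_iff.2 ht) ⟨d, rfl⟩ a (by omega)
  obtain ⟨l, Blk, S⟩ := H1.exists_stn (by norm_num) h3 ht hJ (by omega) (by omega)
  have a1 := S.count hJ (by omega) (by omega)
  have a2 := S.lt
  rw [hc, ← h9] at a1
  obtain rfl : l = 4 := by omega
  exact (h.not_stn h9.symm h64 S).elim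

theorem QL.iso [IsPretransitive G Ω] (h : QL L) (hA : alternatingGroup Ω ≤ (toPermHom G Ω).range) :
    Nonempty (L ≃* alternatingGroup (Fin (Fintype.card Ω))) := by
  have hinj : Function.Injective (toPermHom G Ω) := toPerm_injective
  have h5 : 5 ≤ Nat.card Ω := by
    by_contra hc
    obtain ⟨l, hl, h1⟩ : ∃ l ∈ L, l ≠ 1 := by
      by_contra hx
      push Not at hx
      exact H2.ne_bot_of_isQuasisimple h.qs (eq_bot_iff.2 fun l hl => mem_bot.2 (hx l hl))
    exact h1 (eq_one_of_fix (Ω := Ω) fun z => h.fix_small Set.univ (by rw [Set.ncard_univ]; omega)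
      (fun _ _ _ _ => trivial) l hl z trivial)
  have h1 : L.map (toPermHom G Ω) ≤ alternatingGroup Ω := by
    rintro _ ⟨l, hl, rfl⟩
    exact h.hom_triv (Equiv.Perm.sign.comp ((toPermHom G Ω).comp L.subtype)) ⟨l, hl⟩
  haveI := alternatingGroup.isSimpleGroup (α := Ω) h5
  have hn : ((L.map (toPermHom G Ω)).subgroupOf (alternatingGroup Ω)).Normal := ⟨fun x hx g => by
    obtain ⟨l, hl, e⟩ := mem_subgroupOf.1 hx
    obtain ⟨u, hu⟩ := hA g.2
    refine mem_subgroupOf.2 ⟨u * l * u⁻¹, h.nml.conj_mem l hl u, ?_⟩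
    rw [map_mul, map_mul, map_inv, hu, e]; rfl⟩
  have h2 : L.map (toPermHom G Ω) = alternatingGroup Ω := by
    rcases hn.eq_bot_or_eq_top with e | e
    · exfalso
      refine H2.ne_bot_of_isQuasisimple h.qs ((map_eq_bot_iff_of_injective L hinj).1 ?_)
      rw [← map_subgroupOf_eq_of_le h1, e, Subgroup.map_bot]
    · exact le_antisymm h1 (subgroupOf_eq_top.1 e)
  exact ⟨((L.equivMapOfInjective _ hinj).trans (MulEquiv.subgroupCongr h2)).trans
    (Fintype.equivFin Ω).altCongrHom⟩

/-- reduction to the orbit on which `L` acts nontrivially -/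
theorem QL.main (h : QL L) (k : ℕ) (hk : k = 3 ∨ (k = 4 ∧ 64 ∣ Nat.card G))
    (hJ : ∀ U : Finset Ω, (∀ (g : G), ∀ x ∈ U, g • x ∈ U) → k ≤ U.card → ∃ Γ ⊆ U, Γ.card = k ∧ H1.JC G Γᶜ) :
    ∃ m, m ≤ Fintype.card Ω ∧ Fintype.card Ω < m + k ∧ Nonempty (L ≃* alternatingGroup (Fin m)) := by
  classical
  obtain ⟨x0, hx0⟩ : ∃ x : Ω, ¬ ∀ l ∈ L, l • x = x := by
    by_contra hx
    push Not at hx
    exact H2.ne_bot_of_isQuasisimple h.qs
      (eq_bot_iff.2 fun l hl => mem_bot.2 (eq_one_of_fix (Ω := Ω) fun z => hx z l hl))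
  set O := orbit G x0 with hO
  have hOi : ∀ (g : G) x, g • x ∈ O ↔ x ∈ O := fun g x =>
    ⟨fun e => by simpa using mem_orbit_of_mem_orbit g⁻¹ e, fun e => mem_orbit_of_mem_orbit g e⟩
  haveI : (fixingSubgroup G O).Normal := ⟨fun u hu g => (mem_fixingSubgroup_iff G).2 fun z hz => by
    rw [mul_smul, mul_smul, (mem_fixingSubgroup_iff G).1 hu _ ((hOi _ _).2 hz), smul_inv_smul]⟩
  have hK : fixingSubgroup G O ≤ centralizer (L : Set G) :=
    (h.dich' _).resolve_left fun e => hx0 fun l hl => (mem_fixingSubgroup_iff G).1 (e hl) x0 (mem_orbit_self x0)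
  have hc : Oᶜ.toFinset.card < k := by
    by_contra hx
    obtain ⟨Γ, a1, a2, a3⟩ := hJ Oᶜ.toFinset (fun g x hx => by
      rw [Set.mem_toFinset] at hx ⊢; exact fun e => hx ((hOi g x).1 e)) (not_lt.1 hx)
    obtain ⟨x, hx, y, hy, hxy⟩ := Finset.one_lt_card.1 (show 1 < Γ.card by omega)
    obtain ⟨g, g1, g2⟩ := a3 x y (by simpa using hx) (by simpa using hy)
    have := h.small (hK ((mem_fixingSubgroup_iff G).2 fun z hz => g1 z
      (Finset.mem_compl.2 fun e => (Set.mem_toFinset.1 (a1 e)) hz))) Γ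
      (by rw [Set.ncard_coe_finset]; omega) (fun z hz => g1 z (Finset.mem_compl.2 hz))
    rw [this, one_smul] at g2
    exact hxy g2
  haveI : FaithfulSMul G O := ⟨fun {a b} e => by
    have : b⁻¹ * a = 1 := by
      have f : ∀ z ∈ O, (b⁻¹ * a) • z = z := fun z hz => by
        rw [mul_smul, inv_smul_eq_iff]; exact congrArg Subtype.val (e ⟨z, hz⟩)
      exact h.small (hK ((mem_fixingSubgroup_iff G).2 f)) Oᶜ
        (by rw [Set.ncard_eq_toFinset_card']; omega) (fun z hz => f z (by simpa using hz))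
    exact (inv_mul_eq_one.1 this).symm⟩
  have hm : Fintype.card O + Oᶜ.toFinset.card = Fintype.card Ω := by
    rw [← Set.toFinset_card, Set.toFinset_compl, Finset.card_add_card_compl]
  have h5 : k ≤ O.toFinset.card := by
    by_contra hx
    exact hx0 fun l hl => h.fix_small O (by rw [Set.ncard_eq_toFinset_card']; omega)
      (fun l _ x hx => (hOi l x).2 hx) l hl x0 (mem_orbit_self x0)
  obtain ⟨Γ, a1, a2, a3⟩ := hJ O.toFinset (fun g x hx => by
    rw [Set.mem_toFinset] at hx ⊢; exact (hOi g x).2 hx) h5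
  have b1 : (Γ.subtype (· ∈ O)).card = k := by
    rw [Finset.card_subtype, Finset.filter_true_of_mem (fun x hx => Set.mem_toFinset.1 (a1 hx)), a2]
  have b2 : H1.JC G (Ω := O) (Γ.subtype (· ∈ O))ᶜ := by
    intro x y hx hy
    obtain ⟨g, g1, g2⟩ := a3 x y (by simpa using hx) (by simpa using hy)
    exact ⟨g, fun z hz => Subtype.ext (g1 z (by simpa using hz)), Subtype.ext g2⟩
  refine ⟨Fintype.card O, by omega, by omega, h.iso (Ω := O) ?_⟩
  rcases hk with rfl | ⟨rfl, h64⟩
  · exact h.alt3 _ b1 b2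
  · exact h.alt4 _ b1 b2 h64

open Cfsg.Agent.FT in
theorem exists_jc {α : Type*} [Fintype α] [DecidableEq α] {p k : ℕ} (V : Subgroup (Equiv.Perm (Fin k)))
    (h1 : PGrp p V) (h2 : V ≤ alternatingGroup (Fin k)) (h3 : ∀ i j, ∃ v ∈ V, v i = j)
    {A P H : Subgroup (Equiv.Perm α)} (hA : alternatingGroup α ≤ A) (hP : Syl p P A) (hH : P ≤ H)
    (U : Finset α) (hU : ∀ (g : H), ∀ x ∈ U, g • x ∈ U) (hk : k ≤ U.card) :
    ∃ Γ ⊆ U, Γ.card = k ∧ H1.JC H Γᶜ := by
  classical
  obtain ⟨f, hf⟩ := Function.Embedding.exists_of_card_le_finset (α := Fin k) (s := U) (by simpa using hk)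
  let φ := Equiv.Perm.viaEmbeddingHom f
  have st : ∀ g : Equiv.Perm α, (∀ x ∈ U, g x ∈ U) → g ∈ stabilizer (Equiv.Perm α) U := fun g hg =>
    H1.smul_eq_of_mapsTo hg le_rfl
  have hP' : Syl p P (A ⊓ stabilizer (Equiv.Perm α) U) :=
    hP.subl (le_inf hP.le fun g hg => st g (hU ⟨g, hH hg⟩)) inf_le_left
  have hQ : V.map φ ≤ A ⊓ stabilizer (Equiv.Perm α) U := by
    rintro _ ⟨v, hv, rfl⟩
    refine ⟨hA ?_, st _ fun x hx => ?_⟩
    · rw [Equiv.Perm.mem_alternatingGroup, ← Equiv.Perm.mem_alternatingGroup.1 (h2 hv)]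
      exact @Equiv.Perm.sign_extendDomain _ _ _ _ _ _ v _ (fun a => Classical.propDecidable _) _
    · by_cases e : x ∈ Set.range f
      · obtain ⟨i, rfl⟩ := e
        show v.viaEmbedding f (f i) ∈ U
        rw [Equiv.Perm.viaEmbedding_apply]; exact hf ⟨_, rfl⟩
      · show v.viaEmbedding f x ∈ U
        rw [Equiv.Perm.viaEmbedding_apply_of_notMem _ _ _ e]; exact hx
  obtain ⟨g, hg, hc⟩ := hP'.syl_Jsub (Q := V.map φ)
    (by show PiNat _ _; rw [card_map_of_injective (Equiv.Perm.viaEmbeddingHom_injective f)]; exact h1) hQ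
  refine ⟨Finset.univ.map (f.trans g.toEmbedding), fun x hx => ?_, by simp, fun x y hx hy => ?_⟩
  · obtain ⟨i, -, rfl⟩ := Finset.mem_map.1 hx
    have : g • U = U := hg.2
    rw [← this]
    exact Finset.smul_mem_smul_finset (hf ⟨i, rfl⟩)
  · obtain ⟨i, -, rfl⟩ := Finset.mem_map.1 (by simpa only [Finset.mem_compl, not_not] using hx)
    obtain ⟨j, -, rfl⟩ := Finset.mem_map.1 (by simpa only [Finset.mem_compl, not_not] using hy)
    obtain ⟨v, hv, e⟩ := h3 i j
    refine ⟨⟨g * φ v * g⁻¹, hH (hc (conj_mem_cj.2 ⟨v, hv, rfl⟩))⟩, fun z hz => ?_, ?_⟩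
    · show g (v.viaEmbedding f (g⁻¹ z)) = z
      rw [Equiv.Perm.viaEmbedding_apply_of_notMem]
      · simp
      · rintro ⟨i, hi⟩
        refine Finset.mem_compl.1 hz (Finset.mem_map.2 ⟨i, Finset.mem_univ _, ?_⟩)
        show g (f i) = z
        rw [hi]; simp
    · show g (v.viaEmbedding f (g⁻¹ (g (f i)))) = g (f j)
      rw [show g⁻¹ (g (f i)) = f i by simp, Equiv.Perm.viaEmbedding_apply, e]

theorem ql_gfit (h : IsQuasisimple (generalizedFittingSubgroup G)) : QL (generalizedFittingSubgroup G) :=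
  ⟨H2.generalizedFitting_normal G, h, H2.centralizer_generalizedFitting_le⟩

open Cfsg.Agent.FT in
theorem s2929 (n : ℕ) (H : Subgroup (Equiv.Perm (Fin n)))
    (hF : IsQuasisimple (generalizedFittingSubgroup H))
    (hS : ∃ P : Sylow 3 (Equiv.Perm (Fin n)), (P : Subgroup (Equiv.Perm (Fin n))) ≤ H) :
    ∃ m : ℕ, (m = n - 2 ∨ m = n - 1 ∨ m = n) ∧
      Nonempty (generalizedFittingSubgroup H ≃* alternatingGroup (Fin m)) := by
  obtain ⟨P, hP⟩ := hS
  obtain ⟨m, a, b, c⟩ := (ql_gfit hF).main (Ω := Fin n) 3 (Or.inl rfl)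
    (exists_jc (p := 3) (alternatingGroup (Fin 3)) (by
      show PiNat _ _
      rw [nat_card_alternatingGroup]
      intro q hq hd
      exact (Nat.prime_dvd_prime_iff_eq hq Nat.prime_three).1 (by simpa [Nat.factorial] using hd))
      le_rfl (show ∀ i j : Fin 3, ∃ v : Equiv.Perm (Fin 3), Equiv.Perm.sign v = 1 ∧ v i = j by decide) le_top (syl_top Nat.prime_three P) hP)
  rw [Fintype.card_fin] at a b
  exact ⟨m, by omega, c⟩

open Cfsg.Agent.FT in
theorem s2928 (n : ℕ) (hn : 8 ≤ n) (H : Subgroup (Equiv.Perm (Fin n)))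
    (hF : IsQuasisimple (generalizedFittingSubgroup H))
    (hS : ∃ P : Sylow 2 (alternatingGroup (Fin n)),
      (P : Subgroup (alternatingGroup (Fin n))).map (alternatingGroup (Fin n)).subtype ≤ H) :
    ∃ m : ℕ, (m = n - 3 ∨ m = n - 2 ∨ m = n - 1 ∨ m = n) ∧
      Nonempty (generalizedFittingSubgroup H ≃* alternatingGroup (Fin m)) := by
  obtain ⟨P, hP⟩ := hS
  have hS := syl_map_subtype Nat.prime_two P
  have h64 : 64 ∣ Nat.card H := by
    refine Dvd.dvd.trans ?_ (card_dvd_of_le hP)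
    haveI : Nontrivial (Fin n) := Fin.nontrivial_iff_two_le.2 (by omega)
    have a1 : 2 * Nat.card (alternatingGroup (Fin n)) = n.factorial := by
      rw [two_mul_nat_card_alternatingGroup, Nat.card_perm]; simp
    have a2 : 2 * 2 ^ 6 ∣ n.factorial := (by decide : 2 * 2 ^ 6 ∣ Nat.factorial 8).trans (Nat.factorial_dvd_factorial hn)
    rw [← a1] at a2
    obtain ⟨Q, q1, q2⟩ := exists_card_pow_le Nat.prime_two (Nat.dvd_of_mul_dvd_mul_left two_pos a2)
    have := hS.card_dvd (K := Q) (by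
      show PiNat _ _
      rw [q2]; intro q hq hd
      exact (Nat.prime_dvd_prime_iff_eq hq Nat.prime_two).1 (hq.dvd_of_dvd_pow hd)) q1
    rwa [q2] at this
  let V : Subgroup (Equiv.Perm (Fin 4)) :=
    { carrier := {σ | σ * σ = 1 ∧ Equiv.Perm.sign σ = 1}
      mul_mem' := fun {a b} => (show ∀ a b : Equiv.Perm (Fin 4), (a * a = 1 ∧ Equiv.Perm.sign a = 1) →
        (b * b = 1 ∧ Equiv.Perm.sign b = 1) → (a * b * (a * b) = 1 ∧ Equiv.Perm.sign (a * b) = 1) by
          decide +kernel) a b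
      one_mem' := by simp
      inv_mem' := fun {a} ha => by rw [inv_eq_of_mul_eq_one_right ha.1]; exact ha }
  obtain ⟨m, a, b, c⟩ := (ql_gfit hF).main (Ω := Fin n) 4 (Or.inr ⟨rfl, h64⟩)
    (exists_jc (p := 2) V (piGrp_iff_forall.2 fun x hx => pElt_of_pow_eq_one Nat.prime_two (by rw [pow_two]; exact hx.1))
      (fun x hx => Equiv.Perm.mem_alternatingGroup.2 hx.2)
      (show ∀ i j : Fin 4, ∃ v : Equiv.Perm (Fin 4), (v * v = 1 ∧ Equiv.Perm.sign v = 1) ∧ v i = j by decide)
      le_rfl hS hP)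
  rw [Fintype.card_fin] at a b
  exact ⟨m, by omega, c⟩

end Cfsg.Agent.H21.AO
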