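import Cfsg.Agent.H10.Am0
import Cfsg.Agent.L1.Se0

/-! The centralizer of `t` in a completion of the amalgam. -/

set_option autoImplicit false
set_option linter.unusedVariables false

namespace Cfsg.Agent.H10.Am

open Subgroup

universe u

variable {G : Type u} [Group G] {a b z t s m n : G}

def T1 : Prop := ∀ {L : Type u} [Group L] [Finite L] {b s c : L} (hb : orderOf b = 3)
  (cb : ∀ g, Commute g b → g ∈ zpowers b) (sb : s*b*s⁻¹ = b⁻¹) (cs : Commute c s) (N : Subgroup L) [N.Normal]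
  (h3 : (Nat.card N).Coprime 3) (hq : Nat.card (L ⧸ N) = 3 ∨ Nonempty (L ⧸ N ≃* Equiv.Perm (Fin 3))),
  (c*b)^3 = 1 ∨ (c*s*b)^3 = 1

def T2 : Prop := ∀ {C : Type u} [Group C] [Finite C] {b s m t : C} (tc : ∀ g, Commute g t) (tt : t*t=1)
  (t1 : t ≠ 1) (hb : orderOf b = 3) (cb : ∀ g, g*b*g⁻¹*b⁻¹ ∈ zpowers t → g ∈ zpowers b ⊔ zpowers t) (ss : s*s=1)
  (sb : s*b*s⁻¹=b⁻¹) (mm : m*m=t) (ms : m*s*m⁻¹=t*s) (mb : (m*b)^3=1) (N : Subgroup C) [N.Normal] (tN : t ∈ N)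
  (hc : ∀ x ∈ N, ∀ y ∈ N, x*y*x⁻¹*y⁻¹ ∈ zpowers t) (h2 : ∀ x ∈ N, x*x ∈ zpowers t)
  (e : C ⧸ N ≃* alternatingGroup (Fin 5)), False

def T3 : Prop := ∀ {C : Type u} [Group C] {s m t : C} (tc : ∀ g, Commute g t) (tt : t*t=1) (t1 : t ≠ 1)
  (ss : s*s=1) (st : s ∉ zpowers t) (mm : m*m=t) [(zpowers t).Normal]
  (e : C ⧸ zpowers t ≃* Matrix.ProjectiveSpecialLinearGroup (Fin 2) (ZMod 7)), False

theorem t4_z {X : Type*} [Group X] {t x : X} (tt : t * t = 1) (hx : x ∈ zpowers t) : x = 1 ∨ x = t := by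
  obtain ⟨i, rfl⟩ := mem_zpowers_iff.1 hx
  have e : ∀ j : ℤ, t ^ (2 * j) = 1 := fun j => by rw [zpow_mul, zpow_two, tt, one_zpow]
  rcases Int.even_or_odd' i with ⟨j, rfl | rfl⟩
  · exact .inl (e j)
  · exact .inr (by rw [zpow_add_one, e, one_mul])

theorem t4_one {X : Type*} [Group X] {x : X} (h3 : x * x * x = 1) (h : x = x⁻¹) : x = 1 := by
  rwa [mul_eq_one_iff_eq_inv.2 h, one_mul] at h3

theorem t4_abs (t31 : L1Se.T31.{u}) (t1 : T1.{u}) (t2 : T2.{u}) (t3 : T3.{u}) {C : Type u} [Group C] [Finite C] {b s m t c : C} (tc : ∀ g, Commute g t) (tt : t * t = 1)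
    (t0 : t ≠ 1) (b3 : b * b * b = 1) (b1 : b ≠ 1) (ct : ∀ g, Commute g b → g ∈ zpowers b ⊔ zpowers t)
    (ss : s * s = 1) (sb : s * b * s⁻¹ = b⁻¹) (mm : m * m = t) (ms : m * s * m⁻¹ = t * s) (mb : (m * b) ^ 3 = 1)
    (cs : Commute c s) : ((c * b) ^ 3 = 1 ∨ (c * b) ^ 3 = t) ∨ ((c * s * b) ^ 3 = 1 ∨ (c * s * b) ^ 3 = t) := by
  have : Fact (Nat.Prime 3) := ⟨Nat.prime_three⟩
  have b3' : b ^ 3 = 1 := by rw [pow_succ, sq, b3]
  have : (zpowers t).Normal := ⟨fun x hx k => by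
    rcases t4_z tt hx with rfl | rfl
    · simp
    · rw [(tc k).eq, mul_inv_cancel_right]; exact hx⟩
  have hb : orderOf b = 3 := orderOf_eq_prime b3' b1
  have cb : ∀ g, g * b * g⁻¹ * b⁻¹ ∈ zpowers t → g ∈ zpowers b ⊔ zpowers t := fun g hg => by
    rcases t4_z tt hg with e | e
    · exact ct g (mul_inv_eq_iff_eq_mul.1 (mul_inv_eq_one.1 e))
    · have e2 : (g * b * g⁻¹) ^ 3 = (t * b) ^ 3 := by rw [mul_inv_eq_iff_eq_mul.1 e]
      rw [conj_pow, b3', (tc b).symm.mul_pow, b3', pow_succ, sq, tt] at e2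
      exact (t0 (by simpa using e2.symm)).elim
  have st : s ∉ zpowers t := fun e => b1 (t4_one b3 (by
    rcases t4_z tt e with rfl | rfl
    · simpa using sb
    · rw [← sb, ← (tc b).eq, mul_inv_cancel_right]))
  let π := QuotientGroup.mk' (zpowers t)
  have hπ : ∀ x, π x = 1 ↔ x ∈ zpowers t := fun x => QuotientGroup.eq_one_iff x
  have hs : Function.Surjective π := QuotientGroup.mk'_surjective _
  have hb' : orderOf (π b) = 3 := orderOf_eq_prime (by rw [← map_pow, b3', map_one]) fun e => by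
    rcases t4_z tt ((hπ b).1 e) with e | rfl
    · exact b1 e
    · exact b1 (t4_one b3 (eq_inv_of_mul_eq_one_left tt))
  have cb' : ∀ g, Commute g (π b) → g ∈ zpowers (π b) := fun g hg => by
    obtain ⟨g, rfl⟩ := hs g
    have := mem_map_of_mem π (cb g ((hπ _).1 (by
      rw [map_mul, map_mul, map_mul, hg.eq, map_inv, map_inv]; group)))
    rwa [Subgroup.map_sup, MonoidHom.map_zpowers, MonoidHom.map_zpowers, (hπ t).2 (mem_zpowers t),
      zpowers_one_eq_bot, sup_bot_eq] at this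
  obtain ⟨N, hN, -, h3, hq⟩ | ⟨N, hN, ab, h2, ⟨e⟩⟩ | ⟨⟨e⟩⟩ := t31 _ (zpowers (π b))
    (by rw [Nat.card_zpowers, hb']) (le_antisymm (fun g hg => cb' g (hg _ (mem_zpowers _)).symm)
      (le_centralizer_iff_isMulCommutative.2 inferInstance))
  · rcases t1 (s := π s) (c := π c) hb' cb' (by rw [← map_inv, ← map_mul, ← map_mul, sb, map_inv]) (cs.map π)
      N h3 hq with e | e
    · exact .inl (t4_z tt ((hπ _).1 (by rwa [map_pow, map_mul])))
    · exact .inr (t4_z tt ((hπ _).1 (by rwa [map_pow, map_mul, map_mul])))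
  · let f : C →* alternatingGroup (Fin 5) := e.toMonoidHom.comp ((QuotientGroup.mk' N).comp π)
    have hf : Function.Surjective f := e.surjective.comp ((QuotientGroup.mk'_surjective N).comp hs)
    have mk : ∀ x, x ∈ f.ker ↔ π x ∈ N := fun x =>
      (map_eq_one_iff e e.injective).trans (QuotientGroup.eq_one_iff _)
    refine (t2 tc tt t0 hb cb ss sb mm ms mb f.ker ((mk t).2 ?_) (fun x hx y hy => (hπ _).1 ?_)
      (fun x hx => (hπ _).1 ?_) (QuotientGroup.quotientKerEquivOfSurjective f hf)).elim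
    · rw [(hπ t).2 (mem_zpowers t)]; exact one_mem N
    · have : π x * π y = π y * π x :=
        congrArg Subtype.val (ab.is_comm.comm (⟨_, (mk x).1 hx⟩ : N) ⟨_, (mk y).1 hy⟩)
      rw [map_mul, map_mul, map_mul, this, map_inv, map_inv]; group
    · rw [map_mul, ← sq]; exact h2 _ ((mk x).1 hx)
  · exact (t3 tc tt t0 ss st mm e).elim

theorem t4_of (t31 : L1Se.T31.{u}) (t1 : T1.{u}) (t2 : T2.{u}) (t3 : T3.{u}) [Finite G] (h : AM a b z t s m n) (hz : z ≠ 1)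
    (ct : ∀ g, Commute g b → Commute g t → g ∈ zpowers b ⊔ zpowers t) :
    (((m*n)^3*b)^3 = 1 ∨ ((m*n)^3*b)^3 = t) ∨ (((m*n)^3*s*b)^3 = 1 ∨ ((m*n)^3*s*b)^3 = t) := by
  have mt : m * t * m⁻¹ = t := by rw [← h.mm]; group
  have ns : n * s * n⁻¹ = s := by rw [← h.nn]; group
  have e1 : m * n * t * (m * n)⁻¹ = s := by
    calc _ = m * (n * t * n⁻¹) * m⁻¹ := by group
      _ = s := by rw [h.nt, ← conj_mul, mt, h.ms, ← mul_assoc, h.tt, one_mul]
  have e2 : m * n * s * (m * n)⁻¹ = t * s := by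
    calc _ = m * (n * s * n⁻¹) * m⁻¹ := by group
      _ = _ := by rw [ns, h.ms]
  have e3 : m * n * (t * s) * (m * n)⁻¹ = t := by
    rw [← conj_mul, e1, e2, h.ts, ← mul_assoc, h.ss, one_mul]
  have k : ∀ x : G, (m * n) ^ 3 * x * ((m * n) ^ 3)⁻¹ =
      m * n * (m * n * (m * n * x * (m * n)⁻¹) * (m * n)⁻¹) * (m * n)⁻¹ := fun x => by
    generalize m * n = y
    rw [pow_succ, sq]; group
  have c1 : (m * n) ^ 3 * t = t * (m * n) ^ 3 := mul_inv_eq_iff_eq_mul.1 (by rw [k, e1, e2, e3])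
  have c2 : (m * n) ^ 3 * s = s * (m * n) ^ 3 := mul_inv_eq_iff_eq_mul.1 (by rw [k, e2, e3, e1])
  generalize (m * n) ^ 3 = c at c1 c2
  let C := centralizer ({t} : Set G)
  have mC : ∀ {g : G}, g * t = t * g → g ∈ C := fun e => mem_centralizer_singleton_iff.2 e
  have := t4_abs t31 t1 t2 t3 (C := C) (b := ⟨b, mC h.tb.symm⟩) (s := ⟨s, mC h.ts.symm⟩) (m := ⟨m, mC (mul_inv_eq_iff_eq_mul.1 mt)⟩)
    (t := ⟨t, mC rfl⟩) (c := ⟨c, mC c1⟩) (fun g => Subtype.ext (mem_centralizer_singleton_iff.1 g.2))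
    (Subtype.ext h.tt) (fun e => hz (t4_one h.z3 (by
      have e : t = 1 := congrArg Subtype.val e
      simpa [e] using h.tz))) (Subtype.ext h.b3) (fun e => hz (by
      have e : b = 1 := congrArg Subtype.val e
      simpa [e] using h.ab.symm)) (fun g hg => by
      have := ct g (congrArg Subtype.val hg) (mem_centralizer_singleton_iff.1 g.2)
      rw [← mem_map_iff_mem C.subtype_injective, Subgroup.map_sup, MonoidHom.map_zpowers, MonoidHom.map_zpowers]
      exact this) (Subtype.ext h.ss) (Subtype.ext h.sb) (Subtype.ext h.mm) (Subtype.ext h.ms)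
    (Subtype.ext h.mb) (Subtype.ext c2)
  simpa only [Subtype.ext_iff, coe_pow, coe_mul, coe_one] using this

end Cfsg.Agent.H10.Am
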