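import Mathlib
import Cfsg.Agent.H21.Ctl

/-! Control by a conjugacy functor together with a central functor. -/

set_option autoImplicit false

namespace Cfsg.Agent.H21

open Subgroup Cfsg.Agent.H22 Cfsg.Agent.H18
open scoped Pointwise

variable {G : Type*} [Group G] {p : ℕ}

/-- Normalizer of `W T` and centralizer of `V T`. -/
def WVAdm (W V : Subgroup G → Subgroup G) (T M : Subgroup G) : Prop := M = N[W T] ∨ M = C[V T]

theorem equivar_WVAdm {W V : Subgroup G → Subgroup G} (hW : IsConjugacyFunctor p W)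
    (hV : IsConjugacyFunctor p V) : Equivar p (WVAdm W V) := by
  rintro T _ g hT (rfl | rfl)
  · exact Or.inl (by rw [cj_N, cf_cj hW hT])
  · exact Or.inr (by rw [cj_C, cf_cj hV hT])

theorem fStep_WVAdm {W V : Subgroup G → Subgroup G} {H T : Subgroup G} {x : G} :
    FStep (WVAdm W V) H T x ↔ x ∈ H ⊓ N[W T] ∨ x ∈ H ⊓ C[V T] := by
  constructor
  · rintro ⟨_, rfl | rfl, h⟩
    exacts [Or.inl h, Or.inr h]
  · rintro (h | h)
    exacts [⟨_, Or.inl rfl, h⟩, ⟨_, Or.inr rfl, h⟩]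

theorem fusAt_WV_iff {W V : Subgroup G → Subgroup G} {H Q : Subgroup G} :
    FusAt (WVAdm W V) H Q ↔ ∀ (X : Set G) (a : G), X ⊆ Q → a ∈ H →
      (fun x => a⁻¹ * x * a) '' X ⊆ Q → ∃ c ∈ H ⊓ centralizer X, ∃ (n : ℕ) (b : Fin n → G),
        (∀ i, b i ∈ H ⊓ N[W Q] ∨ b i ∈ H ⊓ C[V Q]) ∧ a = c * (List.ofFn b).prod ∧
        ∀ k : ℕ, k ≤ n → (fun x => (((List.ofFn b).take k).prod)⁻¹ * x * ((List.ofFn b).take k).prod) ''
          ((fun x => c⁻¹ * x * c) '' X) ⊆ Q := by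
  have himg : ∀ (X : Set G) (c : G), c ∈ centralizer X → (fun x => c⁻¹ * x * c) '' X = X := by
    intro X c hc
    conv_rhs => rw [← Set.image_id X]
    refine Set.image_congr fun x hx => ?_
    rw [mul_assoc, mem_centralizer_iff.1 hc x hx]; simp
  constructor
  · intro h X a hX ha hI
    obtain ⟨l, h1, h2, h3⟩ := reach_iff_list.1
      (h X a⁻¹ (inv_mem ha) hX (into_iff_image.2 (by simpa using hI)))
    have h1' : ∀ x ∈ l, x ∈ H ⊓ N[W Q] ∨ x ∈ H ⊓ C[V Q] := fun x hx => by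
      have := FStep.inv _ (h1 x hx)
      rw [inv_inv] at this
      exact fStep_WVAdm.1 this
    have hl : l.prod ∈ H := list_prod_mem fun x hx => by
      rcases h1' x hx with h | h
      exacts [h.1, h.1]
    have hc : a * l.prod⁻¹ ∈ centralizer X := by simpa using agree_iff_mem_C.1 h2
    refine ⟨a * l.prod⁻¹, ⟨H.mul_mem ha (H.inv_mem hl), hc⟩, l.length, l.get,
      fun i => h1' _ (List.get_mem _ _), by simp, fun k hk => ?_⟩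
    rw [himg X _ hc, List.ofFn_get]
    simpa using into_iff_image.1 (h3 k hk)
  · intro h X g hg hX hI
    obtain ⟨c, hc, n, b, h1, h2, h3⟩ := h X g⁻¹ hX (inv_mem hg) (by simpa using into_iff_image.1 hI)
    refine reach_iff_list.2 ⟨List.ofFn b, ?_, ?_, fun k hk => ?_⟩
    · intro x hx
      obtain ⟨i, rfl⟩ := List.mem_ofFn.1 hx
      exact FStep.inv _ (fStep_WVAdm.2 (h1 i))
    · rw [agree_iff_mem_C, h2]
      simpa using hc.2
    · have := h3 k (by simpa using hk)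
      rw [himg X _ hc.2] at this
      exact into_iff_image.2 (by simpa using this)

theorem TrD_WVAdm (W V : Subgroup G → Subgroup G) (H Q : Subgroup G) :
    TrD (WVAdm W V) H Q = Q ⊓ ⁅H ⊓ N[W Q], H ⊓ N[W Q]⁆ ⊔ Q ⊓ ⁅H ⊓ C[V Q], H ⊓ C[V Q]⁆ := by
  refine le_antisymm (TrD_le_iff.2 ?_) (sup_le (le_TrD (Or.inl rfl)) (le_TrD (Or.inr rfl)))
  rintro _ (rfl | rfl)
  exacts [le_sup_left, le_sup_right]

theorem trAt_WV_iff {W V : Subgroup G → Subgroup G} {H Q : Subgroup G} (hQ : Q ≤ H)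
    (hV : V Q ≤ C[Q]) :
    TrAt (WVAdm W V) H Q ↔ ∀ x : G, x ∈ Q ⊓ ⁅H, H⁆ ↔ ∃ a ∈ Q ⊓ ⁅H ⊓ N[W Q], H ⊓ N[W Q]⁆,
      ∃ b ∈ Q ⊓ ⁅H ⊓ C[V Q], H ⊓ C[V Q]⁆, x = a * b := by
  rw [trAt_iff_eq, TrD_WVAdm, SetLike.ext_iff]
  have h1 : Q ≤ N[H ⊓ C[V Q]] := (le_inf hQ (le_centralizer_iff.1 hV)).trans le_normalizer
  refine forall_congr' fun x => ?_
  rw [mem_sup_of_le_N (inf_le_left.trans (le_N_inf le_normalizer (le_N_commutator h1 h1)))]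
  simp only [eq_comm]

variable [Finite G] [Fact p.Prime]

theorem WV_local {W V : Subgroup G → Subgroup G} (hW : IsConjugacyFunctor p W)
    {P : Subgroup G} (hP : SylIn p P ⊤) (hP0 : P ≠ ⊥)
    (hWZ : ∀ H : Subgroup G, IsPGroup p H → H ⊓ C[H] ≤ W H)
    (hVmono : ∀ H K : Subgroup G, IsPGroup p H → IsPGroup p K → H ≠ ⊥ → K ≠ ⊥ →
      H ⊓ C[H] ≤ K ⊓ C[K] → V H ≤ V K) {E : Subgroup G → Prop}
    (hE : ∀ U, E U ↔ U ≤ P ∧ SylIn p (P ⊓ N[U]) N[U] ∧ ∃ g, P ⊓ C[P] ≤ cj g U ∧ cj g U ≤ P) :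
    (∀ U M, E U → P ⊓ N[U] ≠ P → WVAdm W V (P ⊓ N[U]) M → (∃ M', WVAdm W V P M' ∧ M ≤ M') ∨
      ∃ V y, M ≤ N[V] ∧ P ⊓ N[U] < P ⊓ N[V] ∧ E (cj y V) ∧ cj y (P ⊓ N[V]) ≤ P) ∧
    ∀ B, B ≤ P → B ≠ ⊥ → P ⊓ C[B] ≤ B → ∃ y, E (cj y B) ∧ cj y (P ⊓ N[B]) ≤ P := by
  have key : ∀ B, B ≤ P → P ⊓ C[P] ≤ B → ∃ y, E (cj y B) ∧ cj y (P ⊓ N[B]) ≤ P := by
    intro B h1 h2
    obtain ⟨y, h3, h4⟩ := exists_cj_fn hP B
    exact ⟨y, (hE _).2 ⟨(cj_mono _ (le_inf h1 le_normalizer)).trans h4, h3, y⁻¹, by simpa using h2,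
      by simpa using h1⟩, h4⟩
  refine ⟨fun U M hU hne hM => ?_, fun B h1 _ h2 =>
    key B h1 ((inf_le_inf_left _ (C_anti h1)).trans h2)⟩
  obtain ⟨h1, -, -⟩ := (hE U).1 hU
  have hz : P ⊓ C[P] ≤ (P ⊓ N[U]) ⊓ C[P ⊓ N[U]] :=
    le_inf (inf_le_inf_left _ ((C_anti h1).trans (C_le_N _)))
      (inf_le_right.trans (C_anti inf_le_left))
  have hQ : IsPGroup p ↥(P ⊓ N[U]) := hP.isP.to_inf_left
  rcases hM with rfl | rfl
  · obtain ⟨y, h2, h3⟩ := key _ ((hW _ hQ).1.trans inf_le_left) (hz.trans (hWZ _ hQ))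
    exact Or.inr ⟨_, y, le_rfl, lt_inf_N_cf hW hP.isP (lt_of_le_of_ne inf_le_left hne), h2, h3⟩
  · refine Or.inl ⟨_, Or.inr rfl, C_anti (hVmono _ _ hP.isP hQ hP0 ?_ hz)⟩
    intro h
    exact pgrp_center_ne_bot hP.isP hP0 (le_bot_iff.1 (h ▸ hz.trans inf_le_left))

end Cfsg.Agent.H21
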