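import Mathlib
import Cfsg.Agent.FT.BG01
import Cfsg.Agent.H8.ZStar
/-! Coprime automorphisms centralizing the centralizer of an involution. -/
set_option autoImplicit false
set_option linter.unusedSectionVars false
set_option linter.unusedVariables false
set_option linter.style.haveILetI false
namespace Cfsg.Agent.H21.CI
open Subgroup Cfsg.Agent.FT

theorem inj_of_factor {ι β : Type*} [Finite β] {F Φ : ι → β} (h1 : ∀ k, ∃ l, Φ k = F l)
    (h2 : ∀ k l, Φ k = Φ l → F k = F l) {k l : ι} (h : F k = F l) : Φ k = Φ l := by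
  classical
  let F' : ι → Set.range F := fun k => ⟨F k, k, rfl⟩
  let Φ' : ι → Set.range F := fun k => ⟨Φ k, (h1 k).imp fun _ => Eq.symm⟩
  have f : F'.FactorsThrough Φ' := fun k l e => Subtype.ext (h2 k l (congrArg Subtype.val e))
  have s : Function.Surjective (Function.extend Φ' F' id) := by
    rintro ⟨_, k, rfl⟩
    exact ⟨Φ' k, f.extend_apply _ k⟩
  exact congrArg Subtype.val (Finite.injective_iff_surjective.2 s (a₁ := Φ' k) (a₂ := Φ' l)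
    (by rw [f.extend_apply, f.extend_apply]; exact Subtype.ext h))

variable {G : Type*} [Group G] [Finite G] {K : Subgroup G} {a t k x y : G}

theorem fus (ha : a ∈ N(K)) (hc : Cop K ⟪a⟫) (hk : k ∈ K) (h1 : x ∈ C[a]) (h2 : x ∈ C[k * a * k⁻¹]) :
    ∃ c ∈ K ⊓ C[x], c * (k * a * k⁻¹) * c⁻¹ = a := by
  have m : ∀ k ∈ K, k * a * k⁻¹ * a⁻¹ ∈ K := fun k hk => by
    rw [mul_assoc, mul_assoc, ← mul_assoc a]; exact mul_mem hk (conj_mem ha (inv_mem hk))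
  have m1 : k * a * k⁻¹ * a⁻¹ ∈ C[x] := mul_mem (cen1_comm.1 h2) (inv_mem (cen1_comm.1 h1))
  obtain ⟨c, c1, c2⟩ := coprime_sup_Jsub (K := K ⊓ C[x]) (A := ⟪a⟫) (B := ⟪k * a * k⁻¹⟫)
    (normsI (zpowers_le.2 ha) (norms_cen1 (zpowers_le.2 (cen1_comm.1 h1))))
    (zpowers_le.2 (by
      rw [← inv_mul_cancel_right (k * a * k⁻¹) a]
      exact mul_mem (mem_sup_left ⟨m k hk, m1⟩) (mem_sup_right (mem_zpowers a))))
    (by rw [← cj_zpowers, Cop, card_cj]; exact hc.mono_left inf_le_left) (Or.inr (cyc_zpowers _).ab.sol)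
  have m2 : c * (k * a * k⁻¹) * c⁻¹ * a⁻¹ ∈ ⟪a⟫ :=
    mul_mem (c2 (conj_mem_cj.2 (mem_zpowers _))) (inv_mem (mem_zpowers a))
  refine ⟨c, c1, mul_inv_eq_one.1 (mem_bot.1 (hc.inf ▸ ⟨?_, m2⟩))⟩
  have := m _ (mul_mem c1.1 hk)
  rwa [show c * k * a * (c * k)⁻¹ = c * (k * a * k⁻¹) * c⁻¹ by group] at this

section
variable (ha : a ∈ N(K)) (hc : Cop K ⟪a⟫) (ht : t ∈ K) (t2 : t * t = 1) (h : K ⊓ C[t] ≤ C[a])
include ha hc ht t2 h

theorem uniq (hk : k ∈ K) (h1 : k * t * k⁻¹ ∈ C[a]) : k ∈ C[a] := by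
  have ta : t ∈ C[a] := h ⟨ht, self_mem_cen1 t⟩
  obtain ⟨c, c1, c2⟩ := fus ha hc (inv_mem hk) ta (by rw [← cj_cen1, mem_cj, inv_inv]; exact h1)
  have := mem_cen1.1 (h c1)
  refine mem_cen1.2 ?_
  calc k * a = k * (c⁻¹ * (c * (k⁻¹ * a * k⁻¹⁻¹) * c⁻¹) * c) * (c⁻¹ * (c * a * c⁻¹ * a⁻¹) * c) := by
        rw [c2, this]; group; rw [mul_assoc k, mul_assoc k]; congr 1
        rw [mul_assoc, ← this]; group
    _ = _ := by rw [this]; group

theorem two {P : Subgroup G} (hP : PGrp 2 P) (hK : P ≤ K) (hn : ⟪a⟫ ≤ N(P)) : P ≤ C[a] := by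
  have ta : ⟪t⟫ ≤ C(⟪a⟫) := by rw [cen_zpowers]; exact zpowers_le.2 (h ⟨ht, self_mem_cen1 t⟩)
  obtain ⟨S, hS, h1, h2⟩ := coprime_Sylow_subset (zpowers_le.2 ha) hc (Or.inr (cyc_zpowers _).ab.sol)
    (zpowers_le.2 ht) (pElt_of_pow_eq_one Nat.prime_two (by rw [pow_two, t2])).zpowers (cents_norm (centsC ta))
  have h3 := coprime_nil_cent_stab h1 (hc.mono_left hS.le) hS.pi.nil h2 ta (by
    rw [cen_zpowers, cen_zpowers]; exact (inf_le_inf_right _ hS.le).trans h)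
  obtain ⟨c, c1, c2⟩ := coprime_Sylow_Jsub (zpowers_le.2 ha) hc (Or.inr (cyc_zpowers _).ab.sol) hS h1 hK hP hn
  rw [← cen_zpowers, ← cj_le_iff_of_mem c1.2]
  exact c2.trans (centsC h3)

theorem mid (hx : x ∈ K) (x2 : x * x = 1) (hy : y ∈ C[a]) (hn : x ∈ N(⟪y⟫)) :
    ∃ g ∈ K, g * x * g⁻¹ ∈ C[a] ∧ g * y * g⁻¹ ∈ C[a] := by
  obtain ⟨P, hP, h1⟩ := coprime_Sylow_exists 2 (K := K ⊓ N(⟪y⟫)) (A := ⟪a⟫)
    (normsI (zpowers_le.2 ha) (norms_norm (norms_zpowers_of_cen1 (zpowers_le.2 (cen1_comm.1 hy)))))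
    (hc.mono_left inf_le_left) (Or.inr (cyc_zpowers _).ab.sol)
  obtain ⟨g, hg, h2⟩ := hP.syl_elt ⟨hx, hn⟩ (pElt_of_pow_eq_one Nat.prime_two (by rw [pow_two, x2]))
  exact ⟨g, hg.1, two ha hc ht t2 h hP.pi (hP.le.trans inf_le_left) h1 h2,
    zpowers_le.2 hy (conj_mem hg.2 (mem_zpowers y))⟩

theorem core {u : G} (hu : u ∈ K ⊓ C[a]) (hk : k ∈ K) : k * (u * t * u⁻¹ * t) * k⁻¹ ∈ C[a] := by
  have sq : ∀ k : G, k * t * k⁻¹ * (k * t * k⁻¹) = 1 := fun k => by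
    rw [show k * t * k⁻¹ * (k * t * k⁻¹) = k * (t * t) * k⁻¹ by group, t2]; group
  have iv : ∀ k : G, (k * t * k⁻¹)⁻¹ = k * t * k⁻¹ := fun k => inv_eq_of_mul_eq_one_right (sq k)
  have mk : ∀ k ∈ K, k * t * k⁻¹ ∈ K := fun k hk => mul_mem (mul_mem hk ht) (inv_mem hk)
  have := inj_of_factor (F := fun k : K => k * a * (k : G)⁻¹)
    (Φ := fun k : K => (k * t * (k : G)⁻¹) * a * (k * t * (k : G)⁻¹)⁻¹) (fun k => ⟨⟨_, mk k k.2⟩, rfl⟩)
    (fun k l e => ?_) (k := ⟨k, hk⟩) (l := ⟨k * u, mul_mem hk hu.1⟩) (by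
      show k * a * k⁻¹ = k * u * a * (k * u)⁻¹
      rw [mul_assoc k u, mem_cen1.1 hu.2]; group)
  · refine mem_cen1.2 ?_
    have e : k * t * k⁻¹ * a * (k * t * k⁻¹)⁻¹ = k * u * t * (k * u)⁻¹ * a * (k * u * t * (k * u)⁻¹)⁻¹ := this
    calc k * (u * t * u⁻¹ * t) * k⁻¹ * a
        = k * u * t * (k * u)⁻¹ * (k * t * k⁻¹ * a * (k * t * k⁻¹)⁻¹) * (k * t * k⁻¹) := by group
      _ = (k * u * t * (k * u)⁻¹ * (k * u * t * (k * u)⁻¹)) * a * (k * u * t * (k * u)⁻¹)⁻¹ * (k * t * k⁻¹) := by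
        rw [e]; simp only [mul_assoc]
      _ = _ := by rw [sq, iv]; group
  · have e' : (l * t * (l : G)⁻¹) * (k * t * (k : G)⁻¹) ∈ C[a] := mem_cen1.2 (by
      have e : k * t * (k : G)⁻¹ * a * (k * t * (k : G)⁻¹)⁻¹ = l * t * (l : G)⁻¹ * a * (l * t * (l : G)⁻¹)⁻¹ := e
      have f : ∀ p q : G, q * q = 1 → p * a * p⁻¹ = q * a * q⁻¹ → q * p * a = a * (q * p) := fun p q h1 h2 => by
        calc q * p * a = q * (p * a * p⁻¹) * p := by group
          _ = q * q * a * (q * q)⁻¹ * (q * p) := by rw [h2]; group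
          _ = _ := by rw [h1]; group
      exact f _ _ (sq l) e)
    obtain ⟨g, hg, g1, g2⟩ := mid ha hc ht t2 h (mk k k.2) (sq k) e' (mem_nrm.2 (by
      rintro _ ⟨n, rfl⟩
      show _ * _ ^ n * _ ∈ _
      rw [← conj_zpow]
      refine zpow_mem (inv_mem_iff.1 ?_) n
      rw [mul_assoc (k * t * (k : G)⁻¹), mul_inv_cancel_right, mul_inv_rev, iv, iv]
      exact mem_zpowers _))
    have g3 : g * (l * t * (l : G)⁻¹) * g⁻¹ ∈ C[a] := by
      have := mul_mem g2 (inv_mem g1)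
      rwa [show ∀ p q : G, g * (p * q) * g⁻¹ * (g * q * g⁻¹)⁻¹ = g * p * g⁻¹ from fun p q => by group] at this
    have f : ∀ k ∈ K, g * (k * t * k⁻¹) * g⁻¹ ∈ C[a] → k * a * k⁻¹ = g⁻¹ * a * g := fun k hk e => by
      have := mem_cen1.1 (uniq ha hc ht t2 h (mul_mem hg hk) (by
        rwa [show g * k * t * (g * k)⁻¹ = g * (k * t * k⁻¹) * g⁻¹ by group]))
      calc k * a * k⁻¹ = g⁻¹ * (g * k * a) * k⁻¹ := by group
        _ = _ := by rw [this]; group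
    exact (f k k.2 g1).trans (f l l.2 g3).symm

end

theorem s3067 [IsSimpleGroup G] (hG : ¬ IsMulCommutative G) {τ : G} (hτ : orderOf τ = 2) {α : MulAut G} (hα : α ≠ 1)
    (hcop : (orderOf α).Coprime (Nat.card G)) (h : ∀ c ∈ C[τ], α c = c) : False := by
  have hZ : center G = ⊥ := (Normal.eq_bot_or_eq_top inferInstance).resolve_right fun e =>
    hG ⟨⟨fun a b => mem_center_iff.1 (e ▸ mem_top b : b ∈ center G) a⟩⟩
  have inj : Function.Injective (MulAut.conj : G →* MulAut G) := (injective_iff_map_eq_one _).2 fun g hg =>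
    mem_bot.1 (hZ ▸ mem_center_iff.2 fun x => (mul_inv_eq_iff_eq_mul.1 (DFunLike.congr_fun hg x)).symm)
  have cj1 : ∀ g : G, α * MulAut.conj g * α⁻¹ = MulAut.conj (α g) := fun g => by ext x; simp
  have cm : ∀ g : G, MulAut.conj g ∈ C[α] ↔ α g = g := fun g => by
    rw [mem_cen1, ← inj.eq_iff, ← cj1, mul_inv_eq_iff_eq_mul, eq_comm]
  have ha : α ∈ N((MulAut.conj : G →* MulAut G).range) := mem_nrm.2 (by
    rintro _ ⟨g, rfl⟩; exact ⟨_, (cj1 g).symm⟩)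
  have hc : Cop (MulAut.conj : G →* MulAut G).range ⟪α⟫ := by
    rw [Cop, Nat.card_zpowers]; exact hcop.symm.coprime_dvd_left (card_range_dvd _)
  have t2 : MulAut.conj τ * MulAut.conj τ = 1 := by
    rw [← map_mul, ← pow_two, ← hτ, pow_orderOf_eq_one, map_one]
  have h' : (MulAut.conj : G →* MulAut G).range ⊓ C[MulAut.conj τ] ≤ C[α] := by
    rintro _ ⟨⟨g, rfl⟩, hg⟩
    exact (cm g).2 (h g (mem_cen1.2 (inj (by rw [map_mul, map_mul]; exact mem_cen1.1 hg))))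
  have H0 : (α.toMonoidHom.eqLocus (MonoidHom.id G)).normalCore = ⊥ :=
    (Normal.eq_bot_or_eq_top inferInstance).resolve_right fun e =>
      hα (MulEquiv.ext fun x => normalCore_le _ (e ▸ mem_top x : x ∈ normalCore _))
  have iso : IsIsolatedInvolution τ := ⟨hτ, fun g hg => by
    have a1 := uniq ha hc ⟨τ, rfl⟩ t2 h' ⟨g, rfl⟩ (by
      rw [← map_inv, ← map_mul, ← map_mul, cm]; exact h _ (mem_cen1.2 hg.symm))
    have a2 : g * τ * g⁻¹ * τ ∈ (α.toMonoidHom.eqLocus (MonoidHom.id G)).normalCore := fun k => by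
      have := core ha hc ⟨τ, rfl⟩ t2 h' ⟨⟨g, rfl⟩, a1⟩ ⟨k, rfl⟩
      simp only [← map_inv, ← map_mul] at this
      exact (cm _).1 this
    rw [H0, mem_bot] at a2
    rw [eq_inv_of_mul_eq_one_left a2, inv_eq_iff_mul_eq_one, ← pow_two, ← hτ, pow_orderOf_eq_one]⟩
  have := H8.mem_center_of_isolated iso ?_
  · rw [hZ, mem_bot] at this
    simp [this] at hτ
  · rw [oddCore, ← piCore_compl_singleton Nat.prime_two, ← pcore_top]
    refine (nml_top_iff.1 (pcore_nml _ _)).eq_bot_or_eq_top.resolve_right fun e => ?_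
    have := (pElt_of_pow_eq_one Nat.prime_two (hτ ▸ pow_orderOf_eq_one τ)).eq_one_of_mem (pcore_pi _ _) (e ▸ mem_top τ)
    simp [this] at hτ

end Cfsg.Agent.H21.CI
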