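import Mathlib
import Cfsg.Agent.H19.Tr5

/-! Singular lines in primitive 3-transposition groups; recognition from the conjugation table. -/

set_option autoImplicit false
set_option linter.unusedSectionVars false
set_option linter.unusedVariables false
set_option linter.style.haveILetI false

namespace Cfsg.Agent.H21.FS

open Cfsg Subgroup Cfsg.Agent.H19

variable {G : Type*} [Group G]

/-- a bijection of generating classes compatible with conjugation gives an isomorphism -/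
theorem kei {S : Type*} [Group S] {D : Set G} {E : Set S} (hD : TG D) (hE : TG E) (f : G → S)
    (hf : Set.BijOn f D E) (hJ : ∀ d ∈ D, ∀ e ∈ D, f (J d e) = J (f d) (f e))
    (hZ : center G = ⊥) : Nonempty (G ≃* S ⧸ center S) := by
  let Γ : Subgroup (G × S) := closure ((fun d => (d, f d)) '' D)
  have key : ∀ p ∈ Γ, ∀ e ∈ D, f (J p.1 e) = J p.2 (f e) := by
    intro p hp
    induction hp using closure_induction'' with
    | one => intro e _; simp
    | mem x hx => obtain ⟨d, hd, rfl⟩ := hx; exact hJ d hd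
    | inv_mem x hx =>
      obtain ⟨d, hd, rfl⟩ := hx
      intro e he
      simp only [Prod.fst_inv, Prod.snd_inv, hD.inv hd, hE.inv (hf.mapsTo hd)]
      exact hJ d hd e he
    | mul x y _ _ hx hy =>
      intro e he
      simp only [Prod.fst_mul, Prod.snd_mul, J_mul]
      rw [hx _ (hD.conj _ _ he), hy e he]
  let p1 : Γ →* G := (MonoidHom.fst G S).comp Γ.subtype
  let p2 : Γ →* S ⧸ center S := (QuotientGroup.mk' _).comp ((MonoidHom.snd G S).comp Γ.subtype)
  have s1 : Function.Surjective p1 := by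
    rw [← MonoidHom.range_eq_top, eq_top_iff, ← hD.top, closure_le]
    intro d hd
    exact ⟨⟨(d, f d), subset_closure ⟨d, hd, rfl⟩⟩, rfl⟩
  have s2 : Function.Surjective p2 := by
    refine (QuotientGroup.mk'_surjective _).comp (g := QuotientGroup.mk' (center S))
      (f := (MonoidHom.snd G S).comp Γ.subtype) ?_
    rw [← MonoidHom.range_eq_top, eq_top_iff, ← hE.top, closure_le]
    intro s hs
    obtain ⟨d, hd, rfl⟩ := hf.surjOn hs
    exact ⟨⟨(d, f d), subset_closure ⟨d, hd, rfl⟩⟩, rfl⟩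
  have k : p1.ker = p2.ker := by
    ext p
    simp only [MonoidHom.mem_ker]
    change p.1.1 = 1 ↔ ((p.1.2 : S) : S ⧸ center S) = 1
    rw [QuotientGroup.eq_one_iff]
    constructor
    · intro h1
      refine hE.mem_center fun s hs => ?_
      obtain ⟨d, hd, rfl⟩ := hf.surjOn hs
      have := key p p.2 d hd
      rw [h1, J_one] at this
      exact J_eq_self.1 this.symm
    · intro h2
      rw [← mem_bot, ← hZ]
      refine hD.mem_center fun d hd => J_eq_self.1 (hf.injOn (hD.conj _ _ hd) hd ?_)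
      rw [key p p.2 d hd, J_of_commute (commute_of_mem_center h2 _)]
  exact ⟨(QuotientGroup.quotientKerEquivOfSurjective p1 s1).symm.trans
    ((QuotientGroup.quotientMulEquivOfEq k).trans (QuotientGroup.quotientKerEquivOfSurjective p2 s2))⟩

/-- hyperbolic lines are double perps -/
def HL (D : Set G) : Prop := ∀ a ∈ D, ∀ b ∈ D, ¬ Commute a b → ∀ z ∈ D,
  (∀ y ∈ D, Commute y a → Commute y b → Commute y z) → z = a ∨ z = b ∨ z = J a b

theorem kei2 {S : Type*} [Group S] {D : Set G} {E : Set S} (hD : TG D) (hE : TG E) (f : G → S)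
    (hf : Set.BijOn f D E) (hc : ∀ d ∈ D, ∀ e ∈ D, Commute d e ↔ Commute (f d) (f e))
    (hl : HL D) (hZ : center G = ⊥) : Nonempty (G ≃* S ⧸ center S) := by
  refine kei hD hE f hf (fun d hd e he => ?_) hZ
  by_cases c : Commute d e
  · rw [J_of_commute c, J_of_commute ((hc d hd e he).1 c)]
  have c' : ¬ Commute (f d) (f e) := fun k => c ((hc d hd e he).2 k)
  obtain ⟨z, hz, ez⟩ := hf.surjOn (hE.conj (f d) _ (hf.mapsTo he))
  rcases hl d hd e he c z hz (fun y hy k1 k2 => (hc y hy z hz).2 (ez ▸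
    T3.commute_J_both ((hc y hy d hd).1 k1) ((hc y hy e he).1 k2))) with rfl | rfl | rfl
  · exact absurd ez.symm (hE.J_ne_left (hf.mapsTo hd) c')
  · exact absurd ez.symm (hE.J_ne_right c')
  · exact ez

/-- the singular line through two commuting points -/
def Ln (D : Set G) (d e : G) : Set G :=
  {f | f ∈ D ∧ ∀ y ∈ D, Commute y d → Commute y e → Commute y f}

/-- two distinct commuting points -/
structure Ad (D : Set G) (d e : G) : Prop where
  l : d ∈ D
  r : e ∈ D
  ne : d ≠ e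
  c : Commute d e

theorem Ad.symm {D : Set G} {d e : G} (a : Ad D d e) : Ad D e d := ⟨a.r, a.l, a.ne.symm, a.c.symm⟩

theorem Ad.dd {D : Set G} {d e : G} (a : Ad D d e) : e ∈ Dd D d := ⟨a.r, a.ne.symm, a.c⟩

theorem Ln_symm (D : Set G) (d e : G) : Ln D d e = Ln D e d := by
  ext f; exact ⟨fun h => ⟨h.1, fun y hy a b => h.2 y hy b a⟩, fun h => ⟨h.1, fun y hy a b => h.2 y hy b a⟩⟩

theorem left_mem {D : Set G} {d : G} (hd : d ∈ D) (e : G) : d ∈ Ln D d e := ⟨hd, fun _ _ a _ => a⟩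

theorem right_mem {D : Set G} {e : G} (he : e ∈ D) (d : G) : e ∈ Ln D d e := ⟨he, fun _ _ _ a => a⟩

theorem J_mem_Ln {D : Set G} (h : TG D) (g : G) {d e f : G} (hf : f ∈ Ln D d e) :
    J g f ∈ Ln D (J g d) (J g e) := by
  refine ⟨h.conj _ _ hf.1, fun y hy a b => ?_⟩
  exact (commute_J_left.2 (hf.2 _ (h.conj g⁻¹ _ hy) (commute_J_left.1 a.symm).symm
    (commute_J_left.1 b.symm).symm).symm).symm

/-- the properties of a singular line -/
structure Line (D L : Set G) : Prop where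
  sub : L ⊆ D
  comm : ∀ a ∈ L, ∀ b ∈ L, Commute a b
  two : ∀ a ∈ L, ∀ b ∈ L, a ≠ b → ∀ y ∈ D, Commute y a → Commute y b → ∀ c ∈ L, Commute y c
  cl : ∀ f ∈ D, (∀ y ∈ D, (∀ c ∈ L, Commute y c) → Commute y f) → f ∈ L

theorem Line.eq {D L : Set G} (l : Line D L) {a b : G} (ha : a ∈ L) (hb : b ∈ L) (ne : a ≠ b) :
    Ln D a b = L := by
  ext f
  exact ⟨fun hf => l.cl f hf.1 fun y hy k => hf.2 y hy (k a ha) (k b hb),
    fun hf => ⟨l.sub hf, fun y hy k1 k2 => l.two a ha b hb ne y hy k1 k2 f hf⟩⟩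

theorem even_of_invol {α : Type*} {N : Set α} (hN : N.Finite) (φ : α → α) (h1 : ∀ a ∈ N, φ a ∈ N)
    (h2 : ∀ a ∈ N, φ (φ a) = a) (h3 : ∀ a ∈ N, φ a ≠ a) : Even N.ncard := by
  classical
  have := Finset.sum_involution (s := hN.toFinset) (f := fun _ => (1 : ZMod 2)) (fun a _ => φ a)
    (fun _ _ => by decide) (fun a ha _ => h3 a (by simpa using ha))
    (fun a ha => by simpa using h1 a (by simpa using ha)) (fun a ha => h2 a (by simpa using ha))
  rw [Finset.sum_const, nsmul_eq_mul, mul_one, ZMod.natCast_eq_zero_iff] at this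
  rw [Set.ncard_eq_toFinset_card N hN]
  exact even_iff_two_dvd.2 this

/-- the fourth point -/
def rr (y d e f : G) : G := J y (J d (J e (J f y)))

section
variable {D L : Set G} (h : TG D) (l : Line D L)
include h l

theorem rr_spec {y d e f : G} (hy : y ∈ D) (hd : d ∈ L) (he : e ∈ L) (hf : f ∈ L) (de : d ≠ e)
    (dy : ¬ Commute d y) (ey : ¬ Commute e y) (fy : ¬ Commute f y) :
    rr y d e f ∈ L ∧ ¬ Commute (rr y d e f) y ∧ J (rr y d e f) y = J d (J e (J f y)) := by
  have hd' := l.sub hd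
  have he' := l.sub he
  have hf' := l.sub hf
  have cde := l.comm d hd e he
  have k : ∀ z ∈ D, Commute e z → Commute d z → ¬ Commute z y →
      Commute d (rr y d e z) ∧ Commute e (rr y d e z) := fun z hz ez dz zy =>
    ⟨h.d4 hy hd' he' hz (h.conj _ _ hd') ez cde dz dy ey zy, by
      rw [rr, J_comm cde]
      exact h.d4 hy he' hd' hz (h.conj _ _ he') dz cde.symm ez ey dy zy⟩
  have hr : rr y d e f ∈ D := h.conj _ _ (h.conj _ _ (h.conj _ _ (h.conj _ _ hy)))
  have k1 := (k f hf' (l.comm e he f hf) (l.comm d hd f hf) fy).1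
  have n : ¬ Commute y (J d (J e (J f y))) := fun c => by
    rw [rr, J_of_commute c, commute_J_of' (Commute.refl d), commute_J_of' cde.symm,
      commute_J_of' (l.comm f hf d hd)] at k1
    exact dy k1
  have n2 : ¬ Commute (rr y d e f) y := fun c => h.not_commute_J_left n c.symm
  refine ⟨l.cl _ hr fun z hz cz => ?_, n2, by rw [h.br _ hr _ hy n2, rr, h.JJ hy]⟩
  by_cases zy : Commute z y
  · exact T3.commute_J_both zy (T3.commute_J_both (cz d hd) (T3.commute_J_both (cz e he)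
      (T3.commute_J_both (cz f hf) zy)))
  obtain ⟨a, b⟩ := k z hz (cz e he).symm (cz d hd).symm zy
  have c := (l.two d hd e he de _ (h.conj _ _ (h.conj _ _ (h.conj _ _ (h.conj _ _ hy)))) a.symm b.symm
    f hf).symm
  rw [← h.commute_J_swap hy, ← h.br _ hf' _ hy fy, ← h.commute_J_swap hd',
    ← h.commute_J_swap he', ← J_comm cde] at c
  rw [rr, ← h.commute_J_swap hy, ← h.br _ hz _ hy zy]
  exact c.symm

theorem rr_ne {y d e f : G} (hy : y ∈ D) (hd : d ∈ L) (he : e ∈ L) (hf : f ∈ L) (de : d ≠ e)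
    (dy : ¬ Commute d y) (ey : ¬ Commute e y) (fy : ¬ Commute f y) : rr y d e f ≠ f := by
  intro k
  have := (rr_spec h l hy hd he hf de dy ey fy).2.2
  rw [k, J_comm (l.comm e he f hf), J_comm (l.comm d hd f hf), J_inj, ← J_mul] at this
  exact dy (h.commute_mul (l.sub hd) (l.sub he) hy de (J_eq_self.1 this.symm).symm).1.symm

theorem rr_swap1 {y d e f : G} (hd : d ∈ L) (he : e ∈ L) : rr y d e f = rr y e d f := by
  rw [rr, rr, J_comm (l.comm d hd e he)]

theorem rr_swap2 {y d e f : G} (he : e ∈ L) (hf : f ∈ L) : rr y d e f = rr y d f e := by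
  rw [rr, rr, J_comm (l.comm e he f hf)]

theorem even_nc [Finite G] {y d e : G} (hy : y ∈ D) (hd : d ∈ L) (he : e ∈ L) (de : d ≠ e)
    (dy : ¬ Commute d y) (ey : ¬ Commute e y) : Even {f | f ∈ L ∧ ¬ Commute f y}.ncard := by
  refine even_of_invol (Set.toFinite _) (rr y d e) (fun f hf => ?_) (fun f hf => ?_)
    (fun f hf => rr_ne h l hy hd he hf.1 de dy ey hf.2)
  · have := rr_spec h l hy hd he hf.1 de dy ey hf.2
    exact ⟨this.1, this.2.1⟩
  · have a := rr_spec h l hy hd he hf.1 de dy ey hf.2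
    have b := rr_spec h l hy hd he a.1 de dy ey a.2.1
    refine h.eq_of_J_eq (l.sub b.1) hy (l.sub hf.1) b.2.1 hf.2 ?_
    rw [b.2.2, a.2.2, J_comm (l.comm e he d hd), h.JJ (l.sub hd), h.JJ (l.sub he)]

end

section
variable [Finite G] {D : Set G} (h : PG D)
include h

theorem step {d e f y : G} (a : Ad D d e) (hf : f ∈ Ln D d e) (ne : f ≠ d) (hy : y ∈ D)
    (c1 : Commute y d) (c2 : Commute y f) : Commute y e := by
  obtain ⟨g, g1, g2⟩ := h.pairD a.l a.l a.dd ⟨hf.1, ne, hf.2 d a.l (Commute.refl d) a.c⟩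
  have e1 := h.toTG.ncard_image g (fun y => Commute y d ∧ Commute y e)
    (fun y => Commute y d ∧ Commute y f) fun y _ => by
      conv_rhs => rw [← g1, ← g2, commute_J, commute_J]
  have := Set.eq_of_subset_of_ncard_le (s := {y | y ∈ D ∧ Commute y d ∧ Commute y e})
    (t := {y | y ∈ D ∧ Commute y d ∧ Commute y f})
    (fun y hy => ⟨hy.1, hy.2.1, hf.2 y hy.1 hy.2.1 hy.2.2⟩) e1.ge
  exact ((Set.ext_iff.1 this y).2 ⟨hy, c1, c2⟩).2.2

theorem line {d e : G} (a : Ad D d e) : Line D (Ln D d e) := by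
  have cm : ∀ f ∈ Ln D d e, Commute f d ∧ Commute f e := fun f hf =>
    ⟨(hf.2 d a.l (Commute.refl d) a.c).symm, (hf.2 e a.r a.c.symm (Commute.refl e)).symm⟩
  refine ⟨fun f hf => hf.1, fun f hf f' hf' => hf'.2 f hf.1 (cm f hf).1 (cm f hf).2,
    fun f hf f' hf' ne y hy c1 c2 c hc => ?_,
    fun f hf k => ⟨hf, fun y hy c1 c2 => k y hy fun c hc => hc.2 y hy c1 c2⟩⟩
  have k : Commute y d := by
    by_cases e1 : f = d
    · exact e1 ▸ c1
    refine step h (d := f) (f := f') ⟨hf.1, a.l, e1, (cm f hf).1⟩ ⟨hf'.1, fun z hz z1 z2 => ?_⟩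
      ne.symm hy c1 c2
    exact hf'.2 z hz z2 (step h a hf e1 hz z2 z1)
  refine hc.2 y hy k ?_
  by_cases e1 : f = d
  · exact step h a hf' (fun k => ne (e1.trans k.symm)) hy k c2
  · exact step h a hf e1 hy k c1

theorem ncard_Ln {d e d' e' : G} (a : Ad D d e) (a' : Ad D d' e') :
    (Ln D d e).ncard = (Ln D d' e').ncard := by
  obtain ⟨g, g1, g2⟩ := h.pairD a.l a'.l a.dd a'.dd
  refine h.toTG.ncard_image g _ _ fun y hy => ⟨fun k => ?_, fun k => ?_⟩
  · exact g1 ▸ g2 ▸ (J_mem_Ln h.toTG g (f := y) ⟨hy, k⟩).2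
  · have := J_mem_Ln h.toTG g⁻¹ (d := d') (e := e') ⟨h.conj g _ hy, k⟩
    rw [← g1, ← g2, J_inv_J, J_inv_J, J_inv_J] at this
    exact this.2

theorem exists_sep {d e : G} (hd : d ∈ D) (he : e ∈ D) (ne : d ≠ e) :
    ∃ y ∈ D, Commute y d ∧ ¬ Commute y e := by
  by_contra k
  push Not at k
  exact ne (h.V' hd he fun y hy c => (k y hy c.symm).symm).symm

theorem odd_line {L : Set G} (l : Line D L) (h3 : 3 ≤ L.ncard) : Odd L.ncard := by
  obtain ⟨d, e, f, hd, he, hf, de, df, ef⟩ := (Set.two_lt_ncard_iff (Set.toFinite L)).1 h3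
  obtain ⟨y, hy, c, n⟩ := exists_sep h (l.sub hd) (l.sub he) de
  have k : ∀ a ∈ L, a ≠ d → ¬ Commute a y := fun a ha ne c' =>
    n (l.two a ha d hd ne y hy c'.symm c e he)
  have := even_nc h.toTG l hy he hf ef (k e he de.symm) (k f hf df.symm)
  have e1 : {f | f ∈ L ∧ ¬ Commute f y} = L \ {d} := by
    ext a
    exact ⟨fun ha => ⟨ha.1, fun k => ha.2 (k ▸ c.symm)⟩, fun ha => ⟨ha.1, k a ha.1 ha.2⟩⟩
  rw [e1] at this
  rw [← Set.ncard_sdiff_singleton_add_one hd]
  exact this.add_one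

/-- one or all -/
theorem one {L : Set G} (l : Line D L) (h3 : 3 ≤ L.ncard) {y : G} (hy : y ∈ D) :
    ∃ c ∈ L, Commute y c := by
  by_contra k
  push Not at k
  obtain ⟨d, e, f, hd, he, hf, de, df, ef⟩ := (Set.two_lt_ncard_iff (Set.toFinite L)).1 h3
  have := even_nc h.toTG l hy hd he de (fun c => k d hd c.symm) (fun c => k e he c.symm)
  have e1 : {f | f ∈ L ∧ ¬ Commute f y} = L := by
    ext a
    exact ⟨fun ha => ha.1, fun ha => ⟨ha, fun c => k a ha c.symm⟩⟩
  rw [e1] at this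
  exact Nat.not_even_iff_odd.2 (odd_line h l h3) this

/-- thick lines -/
def Th (D : Set G) (n : ℕ) : Prop := ∀ d e, Ad D d e → (Ln D d e).ncard = n

theorem exists_th {x : G} (hx : x ∈ D)
    (hO : ¬ pCore 2 (closure (Dd D x)) ≤ center (closure (Dd D x))) : ∃ n, 3 ≤ n ∧ Th D n := by
  have t := sub_tg (h.toT3.mono (E := Dd D x) fun y hy => hy.1) (Cl.dd h.toT3 h.toTG.cl x)
  have : ¬ ∀ a ∈ sub (Dd D x), ∀ v ∈ sub (Dd D x), Vr (sub (Dd D x)) a v → v = a :=
    fun k => hO (t.O2_le_center k)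
  push Not at this
  obtain ⟨e, he, f, hf, r, ne⟩ := this
  have a : Ad D x e := ⟨hx, he.1, he.2.1.symm, he.2.2⟩
  refine ⟨_, ?_, fun d e' a' => ncard_Ln h a' a⟩
  refine (Set.two_lt_ncard_iff (Set.toFinite _)).2 ⟨x, e, f, left_mem hx _, right_mem he.1 _,
    ⟨hf.1, fun y hy c1 c2 => ?_⟩, a.ne, hf.2.1.symm, fun k => ne (Subtype.ext k.symm)⟩
  by_cases e1 : y = x
  · exact e1 ▸ hf.2.2
  have m : y ∈ Dd D x := ⟨hy, e1, c1.symm⟩
  exact (commute_coe.1 ((r ⟨y, subset_closure m⟩ m).2 (commute_coe.2 c2.symm))).symm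

theorem le_five {n : ℕ} (h3 : 3 ≤ n) (t : Th D n) : n = 3 ∨ n = 5 := by
  obtain ⟨p0, hp0, d0, hd0, ne0, c0⟩ := h.wide
  have a0 : Ad D p0 d0 := ⟨hp0, hd0, ne0, c0⟩
  have l := line h a0
  have hn := t _ _ a0
  have od := odd_line h l (hn ▸ h3)
  suffices n < 6 by
    rw [hn] at od
    obtain ⟨k, rfl⟩ := od
    omega
  by_contra h6
  obtain ⟨y, hy, yp, yd⟩ := exists_sep h hp0 hd0 ne0
  have yp' : y ≠ p0 := fun k => yd (k ▸ c0)
  obtain ⟨s, hs, sy, sp⟩ := exists_sep h hy hp0 yp'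
  have a2 : Ad D y s := ⟨hy, hs, fun k => sp (k ▸ yp), sy.symm⟩
  have l2 := line h a2
  set L := Ln D p0 d0
  set L2 := Ln D y s
  have : ∀ p, p ∈ L → ∃ c ∈ L2, Commute p c := fun p hp => one h l2 (t _ _ a2 ▸ h3) (l.sub hp)
  choose! π hπ cπ using this
  have uq : ∀ p ∈ L, ∀ q ∈ L, Commute q (π p) → q = p := fun p hp q hq c => by
    by_contra ne
    have k := l.two q hq p hp ne _ (l2.sub (hπ p hp)) c.symm (cπ p hp).symm
    have k1 := k p0 (left_mem hp0 _)
    have k2 : π p ≠ y := fun e => yd (e ▸ k d0 (right_mem hd0 _))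
    exact sp (l2.two _ (hπ p hp) y (left_mem hy _) k2 p0 hp0 k1.symm yp.symm s (right_mem hs _)).symm
  have nc : ∀ p ∈ L, ∀ q ∈ L, q ≠ p → ¬ Commute q (π p) := fun p hp q hq ne c => ne (uq p hp q hq c)
  have key : ∀ p ∈ L, ∀ p' ∈ L, ∀ d ∈ L, ∀ e ∈ L, ∀ f ∈ L, d ≠ e → d ≠ p → e ≠ p → f ≠ p → d ≠ p' →
      e ≠ p' → f ≠ p' → rr (π p) d e f ≠ p' → rr (π p') d e f = rr (π p) d e f := by
    intro p hp p' hp' d hd e he f hf de dp ep fp dp' ep' fp' rp
    have hy := l2.sub (hπ p hp)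
    have hy' := l2.sub (hπ p' hp')
    obtain ⟨r1, r2, r3⟩ := rr_spec h.toTG l hy hd he hf de (nc p hp d hd dp) (nc p hp e he ep)
      (nc p hp f hf fp)
    obtain ⟨s1, s2, s3⟩ := rr_spec h.toTG l hy' hd he hf de (nc p' hp' d hd dp') (nc p' hp' e he ep')
      (nc p' hp' f hf fp')
    set r := rr (π p) d e f
    set r' := rr (π p') d e f
    by_cases pp : p = p'
    · subst pp; rfl
    have yy : π p ≠ π p' := fun k => pp (uq p' hp' p hp (k ▸ cπ p hp))
    have c1 : Commute (J r' (π p')) (J r (π p)) := by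
      rw [r3, s3, commute_J, commute_J, commute_J]
      exact l2.comm _ (hπ p' hp') _ (hπ p hp)
    have c2 : Commute (J r' (π p')) (J r (π p')) := by
      rw [h.br _ (l.sub s1) _ hy' s2, h.br _ (l.sub r1) _ hy' (nc p' hp' r r1 rp), commute_J]
      exact l.comm _ s1 _ r1
    rw [← h.commute_J_swap (l.sub r1)] at c1 c2
    have c3 := l2.two _ (hπ p hp) _ (hπ p' hp') yy _ (h.conj _ _ (h.conj _ _ hy')) c1 c2 _ (hπ r r1)
    rw [h.commute_J_swap (l.sub r1), J_of_commute (cπ r r1)] at c3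
    exact uq r r1 r' s1 (h.commute_of_J (l.sub s1) hy' s2 (l2.comm _ (hπ r r1) _ (hπ p' hp'))
      c3.symm).symm
  obtain ⟨p, d, e, f, hp, hd, he, hf, pd, pe, pf, de, df, ef⟩ :=
    (Set.three_lt_ncard_iff (Set.toFinite L)).1 (by omega)
  have hy := l2.sub (hπ p hp)
  have n1 := nc p hp d hd pd.symm
  have n2 := nc p hp e he pe.symm
  have n3 := nc p hp f hf pf.symm
  obtain ⟨r1, r2, r3⟩ := rr_spec h.toTG l hy hd he hf de n1 n2 n3
  have rf := rr_ne h.toTG l hy hd he hf de n1 n2 n3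
  have re := rr_ne h.toTG l hy hd hf he df n1 n3 n2
  have rd := rr_ne h.toTG l hy he hf hd ef n2 n3 n1
  rw [← rr_swap2 h.toTG l he hf] at re
  rw [← rr_swap2 h.toTG l hd hf, ← rr_swap1 h.toTG l hd he] at rd
  set r := rr (π p) d e f with hr
  have rp : r ≠ p := fun k => r2 (k ▸ cπ p hp)
  have e1 : rr (π r) d e f = p := by
    by_contra ne
    have := key r r1 p hp d hd e he f hf de rd.symm re.symm rf.symm pd.symm pe.symm pf.symm ne
    have k := (rr_spec h.toTG l (l2.sub (hπ r r1)) hd he hf de (nc r r1 d hd rd.symm)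
      (nc r r1 e he re.symm) (nc r r1 f hf rf.symm)).2.1
    rw [← this, ← hr] at k
    exact k (cπ r r1)
  obtain ⟨q, hq, hq'⟩ : ∃ q ∈ L, q ∉ ({p, d, e, f, r} : Set G) := by
    by_contra k
    push Not at k
    have := (Set.ncard_le_ncard k).trans (Set.ncard_insert_le _ _)
    have h4 := Set.ncard_insert_le d ({e, f, r} : Set G)
    have h5 := Set.ncard_insert_le e ({f, r} : Set G)
    have h7 := Set.ncard_insert_le f ({r} : Set G)
    rw [Set.ncard_singleton] at h7
    omega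
  simp only [Set.mem_insert_iff, Set.mem_singleton_iff, not_or] at hq'
  obtain ⟨q1, q2, q3, q4, q5⟩ := hq'
  have a1 := key p hp q hq d hd e he f hf de pd.symm pe.symm pf.symm (Ne.symm q2) (Ne.symm q3)
    (Ne.symm q4) (Ne.symm q5)
  have a2 := key r r1 q hq d hd e he f hf de rd.symm re.symm rf.symm (Ne.symm q2) (Ne.symm q3)
    (Ne.symm q4) (by rw [e1]; exact Ne.symm q1)
  exact rp (by rw [← e1, ← a2, a1])

end

end Cfsg.Agent.H21.FS
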