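import Mathlib
import Cfsg.Agent.H21.Fs1
import Cfsg.Agent.H19.Mod1

/-! Lines with three points: the symplectic groups over the field with two elements. -/

set_option autoImplicit false
set_option linter.unusedSectionVars false
set_option linter.unusedVariables false
set_option linter.style.haveILetI false

namespace Cfsg.Agent.H21.FS

open Cfsg Subgroup Cfsg.Agent.H19 Module
open scoped commutatorElement

variable {G : Type*} [Group G]

/-- a diagram of type `A₄` -/
structure Ch (E : Set G) (a b c d : G) : Prop where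
  ha : a ∈ E
  hb : b ∈ E
  hc : c ∈ E
  hd : d ∈ E
  ab : ¬ Commute a b
  bc : ¬ Commute b c
  cd : ¬ Commute c d
  ac : Commute a c
  ad : Commute a d
  bd : Commute b d

theorem Ch.not_solv {E : Set G} (t : T3 E) (cl : Cl E) [Group.IsSolvable G] {a b c d : G}
    (k : Ch E a b c d) : False := by
  let N : Subgroup G := closure {g | ∃ a b c d, Ch E a b c d ∧ a * b = g}
  have : N ≤ ⁅N, N⁆ := by
    rw [closure_le]
    rintro _ ⟨a, b, c, d, k, rfl⟩
    have hu := cl b k.hb c k.hc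
    have hp := cl a k.ha b k.hb
    have hq := cl c k.hc d k.hd
    have aq : Commute a (J c d) := T3.commute_J_both k.ac k.ad
    have uq : Commute (J b c) (J c d) := by rw [t.br b k.hb c k.hc k.bc, commute_J]; exact k.bd
    have pu : Commute (J a b) (J b c) := by
      rw [← t.commute_J_swap k.hb, t.J_J_self k.ha k.hb k.ab]; exact k.ac
    have au : ¬ Commute a (J b c) := fun x => k.ab (t.commute_of_J k.hb k.hc k.bc k.ac x)
    have k1 : Ch E a (J b c) c (J c d) := ⟨k.ha, hu, k.hc, hq, au,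
      fun x => t.not_commute_J_right k.hb k.hc k.bc x.symm, t.not_commute_J_left k.cd, k.ac, aq, uq⟩
    have k2 : Ch E (J a b) (J c d) d (J b c) := ⟨hp, hq, k.hd, hu, fun x => by
        rw [commute_J_of aq] at x
        exact k.bc (t.commute_of_J k.hc k.hd k.cd k.bd x),
      fun x => t.not_commute_J_right k.hc k.hd k.cd x.symm, fun x => by
        rw [commute_J_of' k.bd] at x
        exact k.cd x.symm,
      (T3.commute_J_both k.ad.symm k.bd.symm).symm, pu, uq.symm⟩
    have e : a * b = ⁅a * J b c, J a b * J c d⁆ := by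
      have e1 : J (J a b * J c d) (J b c * a) = J b c * b := by
        rw [J_map_mul, J_mul, J_mul, J_of_commute uq.symm, J_of_commute pu, J_of_commute aq.symm,
          t.br _ hp _ k.ha (fun x => t.not_commute_J_left k.ab x.symm), t.JJ k.ha]
      rw [commutatorElement_def, mul_inv_rev a, t.inv hu, t.inv k.ha, mul_assoc, mul_assoc,
        ← mul_assoc (J a b * J c d), ← J_def, e1, mul_assoc, t.cancel hu]
    rw [SetLike.mem_coe, e]
    exact commutator_mem_commutator (subset_closure ⟨_, _, _, _, k1, rfl⟩)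
      (subset_closure ⟨_, _, _, _, k2, rfl⟩)
  refine (Group.IsSolvable.commutator_lt_of_ne_bot (H := N) fun e => ?_).not_ge this
  have : a * b ∈ N := subset_closure ⟨_, _, _, _, k, rfl⟩
  rw [e, mem_bot, t.mul_eq_one k.hb] at this
  exact k.ab (this ▸ Commute.refl a)

theorem Ch.not_solv' {E : Set G} (t : T3 E) (cl : Cl E) (s : Group.IsSolvable (closure E))
    {a b c d : G} (k : Ch E a b c d) : False :=
  Ch.not_solv (E := sub E) (sub_tg t cl).toT3 (sub_tg t cl).cl (a := ⟨a, subset_closure k.ha⟩)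
    (b := ⟨b, subset_closure k.hb⟩) (c := ⟨c, subset_closure k.hc⟩) (d := ⟨d, subset_closure k.hd⟩)
    ⟨k.ha, k.hb, k.hc, k.hd, fun x => k.ab (commute_coe.1 x), fun x => k.bc (commute_coe.1 x),
      fun x => k.cd (commute_coe.1 x), commute_coe.2 k.ac, commute_coe.2 k.ad, commute_coe.2 k.bd⟩

theorem mem_three {α : Type*} {L : Set α} (h : L.ncard = 3) {a b c t : α} (ha : a ∈ L) (hb : b ∈ L)
    (hc : c ∈ L) (ab : a ≠ b) (ac : a ≠ c) (bc : b ≠ c) (ht : t ∈ L) : t = a ∨ t = b ∨ t = c := by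
  have f : L.Finite := Set.finite_of_ncard_ne_zero (by omega)
  have : ({a, b, c} : Set α) = L := Set.eq_of_subset_of_ncard_le (by
    rintro _ (rfl | rfl | rfl) <;> assumption) (by
    rw [h, Set.ncard_eq_three.2 ⟨a, b, c, ab, ac, bc, rfl⟩]) f
  rw [← this] at ht
  exact ht

variable [Finite G] {D : Set G} (h : PG D)
include h

/-- a point commuting with both points of a non-commuting pair -/
theorem exists_perp {n : ℕ} (h3 : 3 ≤ n) (t : Th D n) {a b : G} (ha : a ∈ D) (hb : b ∈ D)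
    (ab : ¬ Commute a b) : ∃ m ∈ D, Commute m a ∧ Commute m b := by
  obtain ⟨e, he⟩ := h.exD ha
  have ad : Ad D a e := ⟨ha, he.1, he.2.1.symm, he.2.2⟩
  have l := line h ad
  obtain ⟨m, hm, c⟩ := one h l (t _ _ ad ▸ h3) hb
  exact ⟨m, l.sub hm, l.comm _ hm _ (left_mem ha _), c.symm⟩

theorem hyp1 (t : Th D 3) {a b m z : G} (ha : a ∈ D) (hb : b ∈ D) (hm : m ∈ D) (hz : z ∈ D)
    (ab : ¬ Commute a b) (ma : Commute m a) (mb : Commute m b) (zm : ¬ Commute z m) :
    Commute z a ∨ Commute z b ∨ Commute z (J a b) := by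
  by_contra k
  push Not at k
  obtain ⟨za, zb, zc⟩ := k
  have ad : Ad D m b := ⟨hm, hb, fun k => ab (k ▸ ma.symm), mb⟩
  have l := line h ad
  obtain ⟨b', hb', c⟩ := one h l (t _ _ ad).ge hz
  have n1 : b' ≠ m := fun k => zm (k ▸ c)
  have n2 : b' ≠ b := fun k => zb (k ▸ c)
  have n3 : ¬ Commute a b' := fun k =>
    ab (l.two m (left_mem hm _) b' hb' n1.symm a ha ma.symm k b (right_mem hb _))
  have ad' : Ad D m (J a b) := ⟨hm, h.conj _ _ hb, fun k => h.not_commute_J_left ab (k ▸ ma.symm),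
    T3.commute_J_both ma mb⟩
  obtain ⟨c', hc', c2⟩ := one h (line h ad') (t _ _ ad').ge hz
  have m1 : J a b' ∈ Ln D m (J a b) := by
    have := J_mem_Ln h.toTG a hb'
    rwa [J_of_commute ma.symm] at this
  rcases mem_three (t _ _ ad') (left_mem hm _) (right_mem ad'.r _) m1 ad'.ne
    (fun k => h.not_commute_J_left n3 (k ▸ ma.symm)) (by simpa using n2.symm) hc' with rfl | rfl | rfl
  · exact zm c2
  · exact zc c2
  · exact za (h.commute_of_J ha (l.sub hb') n3 c c2)

theorem hyp (t : Th D 3) {a b x : G} (ha : a ∈ D) (hb : b ∈ D) (hx : x ∈ D) (ab : ¬ Commute a b) :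
    Commute x a ∨ Commute x b ∨ Commute x (J a b) := by
  obtain ⟨m, hm, ma, mb⟩ := exists_perp h le_rfl t ha hb ab
  by_cases xm : Commute x m
  swap
  · exact hyp1 h t ha hb hm hx ab ma mb xm
  by_contra k
  push Not at k
  obtain ⟨z, hz, zm, za⟩ := h.toT3.diam2 subset_rfl h.toTG.cl hm (h.toTG.cn h.trans hm ha)
    (fun k => ab (k ▸ mb)) ma
  have zm' : ¬ Commute z m := fun c => zm c.symm
  have za' : ¬ Commute z a := fun c => za c.symm
  have key : ∀ b ∈ D, ∀ x ∈ D, ¬ Commute a b → Commute m b → Commute x m → ¬ Commute x a →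
      ¬ Commute x b → ¬ Commute x (J a b) → Commute z b → Commute z x → False := by
    intro b hb x hx ab mb xm xa xb xc zb zx
    have hc := h.conj a b hb
    have zc : ¬ Commute z (J a b) := fun c => za' (h.commute_of_J ha hb ab zb c)
    have e : J (J a b) b = a := by
      rw [h.br _ hc _ hb (fun c => h.not_commute_J_right ha hb ab c.symm), h.J_J_self ha hb ab]
    have cx : ¬ Commute (J a b) x := fun c => xc c.symm
    rcases hyp1 h t ha (h.conj (J a b) _ hx) hm hz (fun c => xb (by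
      nth_rw 1 [← e] at c; exact (commute_J.1 c).symm)) ma
      (T3.commute_J_both (T3.commute_J_both ma mb) xm.symm) zm' with c | c | c
    · exact za' c
    · exact zc (h.commute_of_J hc hx cx zx c)
    · nth_rw 1 [← e] at c
      rw [J_J] at c
      refine zc (h.commute_of_J hc (h.conj _ _ hx) (fun c => xa ?_) (T3.commute_J_both zb zx) c)
      rw [← h.commute_J_swap hb, h.J_J_self ha hb ab] at c
      exact c.symm
  have key2 : ∀ x ∈ D, Commute x m → ¬ Commute x a → ¬ Commute x b → ¬ Commute x (J a b) →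
      Commute z x → False := fun x hx xm xa xb xc zx => by
    rcases hyp1 h t ha hb hm hz ab ma mb zm' with c | c | c
    · exact za' c
    · exact key b hb x hx ab mb xm xa xb xc c zx
    · exact key _ (h.conj a b hb) x hx (h.not_commute_J_left ab) (T3.commute_J_both ma mb) xm xa xc
        (by rwa [h.JJ ha]) c zx
  have ax : ¬ Commute a x := fun c => k.1 c.symm
  rcases hyp1 h t ha hx hm hz ax ma xm.symm zm' with c | c | c
  · exact za' c
  · exact key2 x hx xm k.1 k.2.1 k.2.2 c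
  · exact key2 _ (h.conj a x hx) (T3.commute_J_both ma xm.symm).symm
      (fun c => h.not_commute_J_left ax c.symm) (by rw [h.commute_J_swap ha]; exact k.2.2)
      (by rw [commute_J]; exact k.2.1) c

open Classical in
/-- the points not commuting with `d` -/
noncomputable def ph (D : Set G) (d : G) : D → ZMod 2 := fun t => if Commute (t : G) d then 0 else 1

omit h in
theorem ph_eq_zero {d : G} {t : D} : ph D d t = 0 ↔ Commute (t : G) d := by
  unfold ph; split_ifs with c <;> simp [c]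

omit h in
theorem ph_symm {d e : G} (hd : d ∈ D) (he : e ∈ D) : ph D d ⟨e, he⟩ = ph D e ⟨d, hd⟩ := by
  classical
  unfold ph; exact if_congr Commute.symm_iff rfl rfl

theorem ph_inj {d e : G} (hd : d ∈ D) (he : e ∈ D) (k : ph D d = ph D e) : d = e :=
  h.V he hd fun y hy => by
    have := congrFun k ⟨y, hy⟩
    rw [Commute.symm_iff, Commute.symm_iff (a := e), ← ph_eq_zero (t := ⟨y, hy⟩),
      ← ph_eq_zero (t := ⟨y, hy⟩), this]

theorem ph_ne {d : G} (hd : d ∈ D) : ph D d ≠ 0 := fun k => by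
  obtain ⟨y, hy, n⟩ := h.exA hd
  exact n (ph_eq_zero.1 (congrFun k ⟨y, hy⟩)).symm

omit h [Finite G] in
open Classical in
theorem sum3 {p q r : Prop} (o : p ∨ q ∨ r) (h1 : p → q → r)
    (h2 : p → r → q) (h3 : q → r → p) :
    (if r then 0 else 1 : ZMod 2) = (if p then 0 else 1) + if q then 0 else 1 := by
  by_cases p <;> by_cases q <;> by_cases r <;> simp_all
  decide

theorem ph_J (t : Th D 3) {a b : G} (ha : a ∈ D) (hb : b ∈ D) (ab : ¬ Commute a b) :
    ph D (J a b) = ph D a + ph D b := funext fun y =>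
  sum3 (hyp h t ha hb y.2 ab) T3.commute_J_both
    (fun c1 c2 => h.commute_of_J hb ha (fun c => ab c.symm) c1 (h.br _ ha _ hb ab ▸ c2))
    (fun c1 c2 => h.commute_of_J ha hb ab c1 c2)

theorem ph_add (t : Th D 3) {a b : G} (ha : a ∈ D) (hb : b ∈ D) :
    ph D a + ph D b = 0 ∨ ∃ c ∈ D, ph D c = ph D a + ph D b := by
  by_cases e : a = b
  · exact .inl (funext fun y => by rw [e]; exact CharTwo.add_self_eq_zero _)
  by_cases ab : Commute a b
  swap
  · exact .inr ⟨_, h.conj _ _ hb, ph_J h t ha hb ab⟩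
  have ad : Ad D a b := ⟨ha, hb, e, ab⟩
  have l := line h ad
  obtain ⟨c, hc, hc'⟩ : ∃ c ∈ Ln D a b, c ∉ ({a, b} : Set G) := by
    by_contra k
    push Not at k
    have := Set.ncard_le_ncard k
    rw [t _ _ ad, Set.ncard_pair e] at this
    omega
  simp only [Set.mem_insert_iff, Set.mem_singleton_iff, not_or] at hc'
  refine .inr ⟨c, hc.1, funext fun y => sum3 ?_ (hc.2 y y.2) (fun c1 c2 => l.two _ (left_mem ha _) _ hc
    (Ne.symm hc'.1) _ y.2 c1 c2 _ (right_mem hb _)) fun c1 c2 => l.two _ (right_mem hb _) _ hc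
    (Ne.symm hc'.2) _ y.2 c1 c2 _ (left_mem ha _)⟩
  obtain ⟨s, hs, k⟩ := one h l (t _ _ ad).ge y.2
  rcases mem_three (t _ _ ad) (left_mem ha _) (right_mem hb _) hc e (Ne.symm hc'.1) (Ne.symm hc'.2) hs
    with rfl | rfl | rfl <;> simp [k]

open Cfsg.Agent.H10 in
theorem sp_model (t : Th D 3) : ∃ (n : ℕ) (ψ : G → (Fin n ⊕ Fin n → ZMod 2)),
    Set.BijOn ψ D {v | v ≠ 0} ∧
    (∀ d ∈ D, ∀ e ∈ D, Commute d e ↔ spBilin (Fin n) (ZMod 2) (ψ d) (ψ e) = 0) ∧
    ∀ d ∈ D, ∀ e ∈ D, ¬ Commute d e → ψ (J d e) = ψ d + ψ e := by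
  classical
  let W : Submodule (ZMod 2) (D → ZMod 2) :=
    { carrier := {w | w = 0 ∨ ∃ d ∈ D, ph D d = w}
      zero_mem' := .inl rfl
      add_mem' := by
        rintro _ _ (rfl | ⟨a, ha, rfl⟩) (rfl | ⟨b, hb, rfl⟩)
        · simp
        · exact .inr ⟨b, hb, by simp⟩
        · exact .inr ⟨a, ha, by simp⟩
        · exact ph_add h t ha hb
      smul_mem' := fun c w hw => by
        by_cases e : c = 0
        · exact .inl (by simp [e])
        · rw [z2 c e, one_smul]; exact hw }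
  let β : W → W → ZMod 2 := fun w w' =>
    if k : ∃ d ∈ D, ph D d = w then w'.1 ⟨k.choose, k.choose_spec.1⟩ else 0
  have b1 : ∀ d (hd : d ∈ D) (w w' : W), ph D d = w → β w w' = w'.1 ⟨d, hd⟩ := fun d hd w w' e => by
    have k : ∃ d ∈ D, ph D d = w := ⟨d, hd, e⟩
    simp only [β, dif_pos k]
    exact congrArg w'.1 (Subtype.ext (ph_inj h k.choose_spec.1 hd (k.choose_spec.2.trans e.symm)))
  have b0 : ∀ w', β 0 w' = 0 := fun w' => dif_neg fun ⟨d, hd, e⟩ => ph_ne h hd e
  have b0' : ∀ w, β w 0 = 0 := fun w => by simp [β]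
  have sy : ∀ w w', β w w' = β w' w := by
    rintro ⟨_, rfl | ⟨a, ha, rfl⟩⟩ ⟨_, rfl | ⟨b, hb, rfl⟩⟩
    · rfl
    · exact (b0 _).trans (b0' _).symm
    · exact (b0' _).trans (b0 _).symm
    · rw [b1 a ha _ _ rfl, b1 b hb _ _ rfl]; exact ph_symm hb ha
  have ad : ∀ w w1 w2, β w (w1 + w2) = β w w1 + β w w2 := fun w w1 w2 => by
    simp only [β]; split_ifs <;> simp
  have sm : ∀ (c : ZMod 2) w w1, β w (c • w1) = c • β w w1 := fun c w w1 => by
    simp only [β]; split_ifs <;> simp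
  let B : LinearMap.BilinForm (ZMod 2) W := LinearMap.mk₂ _ β
    (fun a b c => by rw [sy, ad, sy c, sy c]) (fun c a b => by rw [sy, sm, sy]) ad sm
  have hA : B.IsAlt := by
    rintro ⟨_, rfl | ⟨a, ha, rfl⟩⟩
    · exact b0 _
    · exact (b1 a ha _ _ rfl).trans (ph_eq_zero.2 (Commute.refl _))
  have hB : B.Nondegenerate := hA.isRefl.nondegenerate_iff_separatingLeft.2 (by
    rintro ⟨_, rfl | ⟨a, ha, rfl⟩⟩ k
    · rfl
    · obtain ⟨y, hy, n⟩ := h.exA ha
      exact absurd (ph_eq_zero.1 ((b1 a ha _ _ rfl).symm.trans (k ⟨_, .inr ⟨y, hy, rfl⟩⟩))) n)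
  obtain ⟨n, hn⟩ := even_finrank_of_alt hB hA
  obtain ⟨e, he⟩ := exists_isometry_std (l := Fin n) hB hA (by rw [hn, Fintype.card_fin]; ring)
  let φ : G → W := fun d => if k : d ∈ D then ⟨ph D d, .inr ⟨d, k, rfl⟩⟩ else 0
  have hφ : ∀ d ∈ D, (φ d).1 = ph D d := fun d hd => by simp only [φ, dif_pos hd]
  refine ⟨n, fun d => e.symm (φ d), ⟨fun d hd k => ?_, fun a ha b hb k => ?_, fun v hv => ?_⟩,
    fun a ha b hb => ?_, fun a ha b hb ab => ?_⟩
  · exact ph_ne h hd (by rw [← hφ d hd, e.symm.map_eq_zero_iff.1 k]; rfl)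
  · exact ph_inj h ha hb (by rw [← hφ a ha, ← hφ b hb, e.symm.injective k])
  · obtain k | ⟨a, ha, k⟩ := (e v).2
    · exact absurd (e.map_eq_zero_iff.1 (Subtype.ext k)) hv
    · exact ⟨a, ha, e.symm_apply_eq.2 (Subtype.ext ((hφ a ha).trans k))⟩
  · rw [← he, e.apply_symm_apply, e.apply_symm_apply, ← ph_eq_zero (t := ⟨a, ha⟩), ← hφ b hb,
      ← b1 a ha _ _ (hφ a ha).symm]
    rfl
  · rw [← map_add]
    exact congrArg _ <| Subtype.ext (by rw [Submodule.coe_add, hφ _ (h.conj a _ hb), hφ a ha, hφ b hb, ph_J h t ha hb ab])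

open Cfsg.Agent.H10 in
theorem sp_main (t : Th D 3) (hZ : center G = ⊥) : ∃ n : ℕ, 2 ≤ n ∧
    Nonempty (G ≃* Matrix.symplecticGroup (Fin n) (ZMod 2)) ∧
    (3 ≤ n → ∃ x ∈ D, ∃ a b c d, Ch (Dd D x) a b c d) := by
  obtain ⟨n, ψ, bij, cm, hJ⟩ := sp_model h t
  have hB := spBilin_nondegenerate (l := Fin n) (F := ZMod 2)
  have hA := spBilin_isAlt (l := Fin n) (F := ZMod 2)
  have c := c2_alt hB.1 hA
  have n2 : 2 ≤ n := by
    obtain ⟨a, ha, b, hb, ne, k⟩ := h.wide
    have k1 := bij.mapsTo ha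
    have k2 := bij.mapsTo hb
    have k3 : ψ a ≠ ψ b := fun e => ne (bij.injOn ha hb e)
    rw [cm a ha b hb, spBilin_apply_sum] at k
    simp only [Set.mem_ofPred_eq] at k1 k2
    by_contra hn
    obtain rfl | rfl : n = 0 ∨ n = 1 := by omega
    · exact k1 (Subsingleton.elim _ _)
    · revert k k1 k2 k3
      generalize ψ a = u
      generalize ψ b = v
      revert u v
      decide
  haveI : Nontrivial (Fin n ⊕ Fin n → ZMod 2) := by
    obtain ⟨a, ha, -⟩ := h.wide
    exact ⟨⟨_, _, bij.mapsTo ha⟩⟩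
  obtain ⟨g, -, -⟩ := tclass_iff.1 (sp_class hB hA)
  refine ⟨n, n2, ?_, fun n3 => ?_⟩
  · obtain ⟨e⟩ := kei h.toTG g (fun d => tv hA (ψ d) 1) ⟨fun d hd => ⟨_, bij.mapsTo hd, el_tv hA _⟩,
      fun a ha b hb k => by
        obtain ⟨s, hs, e⟩ := Elm.prop c (el_tv hA (ψ a)) (by
          have := el_tv hA (ψ b); rwa [← show _ = tv hA (ψ b) 1 from k] at this) (bij.mapsTo ha)
        exact bij.injOn ha hb (by rw [e, z2 s hs, one_smul]),
      fun s ⟨v, hv, k⟩ => by
        obtain ⟨d, hd, rfl⟩ := bij.surjOn hv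
        exact ⟨d, hd, Subtype.ext ((el_tv hA _).ext k)⟩⟩ (fun a ha b hb => by
        refine Subtype.ext ((el_tv hA _).ext ?_)
        have := (el_tv hA (ψ b)).conj (tv hA (ψ a) 1).2
        rw [el_tv hA] at this
        by_cases k : Commute a b
        · rw [(cm a ha b hb).1 k, zero_smul, add_zero] at this
          rw [J_of_commute k]; exact this
        · rw [z2 _ fun e => k ((cm a ha b hb).2 e), one_smul, add_comm] at this
          rw [hJ a ha b hb k]; exact this) hZ
    have z : center (isomGroup (spBilin (Fin n) (ZMod 2))) = ⊥ := eq_bot_iff.2 fun s hs => by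
      rcases (mem_center_isom_iff hB hA s).1 hs with rfl | rfl
      · exact one_mem _
      · exact negIsom_eq_one_iff.2 c.two
    exact ⟨e.trans ((QuotientGroup.quotientMulEquivOfEq z).trans
      (QuotientGroup.quotientBot.trans spEquiv.symm))⟩
  · obtain ⟨k, rfl⟩ : ∃ k, n = k + 3 := ⟨n - 3, by omega⟩
    have pt : ∀ v, v ≠ 0 → ∃ d ∈ D, ψ d = v := fun v hv => bij.surjOn hv
    have i1 : (0 : Fin (k + 3)) ≠ 2 := by simp [Fin.ext_iff, Nat.mod_eq_of_lt (show 2 < k + 3 by omega)]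
    have i2 : (1 : Fin (k + 3)) ≠ 2 := by simp [Fin.ext_iff, Nat.mod_eq_of_lt (show 2 < k + 3 by omega)]
    have i3 := i1.symm
    have i4 := i2.symm
    obtain ⟨x, hx, ex⟩ := pt (Pi.single (.inl 0) 1) (by simp)
    obtain ⟨a, ha, ea⟩ := pt (Pi.single (.inl 1) 1) (by simp)
    obtain ⟨b, hb, eb⟩ := pt (Pi.single (.inr 1) 1) (by simp)
    obtain ⟨c, hc, ec⟩ := pt (Pi.single (.inl 1) 1 + Pi.single (.inl 2) 1) fun k => by
      simpa [Pi.single_apply, i2] using congrFun k (.inl 1)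
    obtain ⟨d, hd, ed⟩ := pt (Pi.single (.inr 2) 1) (by simp)
    have ne : ∀ y, ψ y (.inl 0) = 0 → y ≠ x := fun y k e => by simp [e, ex] at k
    refine ⟨x, hx, a, b, c, d, ⟨ha, ne _ ?_, ?_⟩, ⟨hb, ne _ ?_, ?_⟩, ⟨hc, ne _ ?_, ?_⟩, ⟨hd, ne _ ?_, ?_⟩,
      ?_, ?_, ?_, ?_, ?_, ?_⟩ <;>
    simp [*, spBilin_apply_sum, Pi.single_apply]

end Cfsg.Agent.H21.FS
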