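import Mathlib
import Cfsg.Agent.H21.Fs2
import Cfsg.Agent.H21.Fs3

/-! Lines with five points: the group of translations at a point. -/

set_option autoImplicit false
set_option linter.unusedSectionVars false
set_option linter.unusedVariables false
set_option linter.style.haveILetI false

namespace Cfsg.Agent.H21.FS

open Cfsg Subgroup Cfsg.Agent.H19

variable {G : Type*} [Group G]

theorem mem_five {α : Type*} {L : Set α} (h : L.ncard = 5) {a b c d e t : α} (ha : a ∈ L) (hb : b ∈ L)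
    (hc : c ∈ L) (hd : d ∈ L) (he : e ∈ L) (ab : a ≠ b) (ac : a ≠ c) (ad : a ≠ d) (ae : a ≠ e)
    (bc : b ≠ c) (bd : b ≠ d) (be : b ≠ e) (cd : c ≠ d) (ce : c ≠ e) (de : d ≠ e) (ht : t ∈ L) :
    t = a ∨ t = b ∨ t = c ∨ t = d ∨ t = e := by
  have f : L.Finite := Set.finite_of_ncard_ne_zero (by omega)
  have : ({a, b, c, d, e} : Set α) = L := Set.eq_of_subset_of_ncard_le (by
    rintro _ (rfl | rfl | rfl | rfl | rfl) <;> assumption) (by
    rw [h, Set.ncard_insert_of_notMem (by simp [*]), Set.ncard_insert_of_notMem (by simp [*]),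
      Set.ncard_eq_three.2 ⟨c, d, e, cd, ce, de, rfl⟩]) f
  rw [← this] at ht
  exact ht

theorem four_comm {D L : Set G} (h : TG D) (l : Line D L) (h5 : L.ncard = 5) {a b c d e y : G}
    (ha : a ∈ L) (hb : b ∈ L) (hc : c ∈ L) (hd : d ∈ L) (he : e ∈ L) (ab : a ≠ b) (ac : a ≠ c)
    (ad : a ≠ d) (ae : a ≠ e) (bc : b ≠ c) (bd : b ≠ d) (be : b ≠ e) (cd : c ≠ d) (ce : c ≠ e)
    (de : d ≠ e) (hy : y ∈ D) (ya : Commute y a) : Commute (b * (c * (d * e))) y := by
  by_cases k : ∀ s ∈ L, Commute y s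
  · exact ((k b hb).mul_right ((k c hc).mul_right ((k d hd).mul_right (k e he)))).symm
  have n : ∀ s ∈ L, a ≠ s → ¬ Commute s y := fun s hs ne c => k (l.two a ha s hs ne y hy ya c.symm)
  have n1 := n b hb ab
  have n2 := n c hc ac
  have n3 := n d hd ad
  obtain ⟨r1, r2, r3⟩ := rr_spec h l hy hb hc hd bc n1 n2 n3
  have rf := rr_ne h l hy hb hc hd bc n1 n2 n3
  have re := rr_ne h l hy hb hd hc bd n1 n3 n2
  have rd := rr_ne h l hy hc hd hb cd n2 n3 n1
  rw [← rr_swap2 h l hc hd] at re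
  rw [← rr_swap2 h l hb hd, ← rr_swap1 h l hb hc] at rd
  rcases mem_five h5 ha hb hc hd he ab ac ad ae bc bd be cd ce de r1 with k | k | k | k | k
  · exact absurd (k ▸ ya.symm) r2
  · exact absurd k rd
  · exact absurd k re
  · exact absurd k rf
  rw [k] at r3
  rw [← J_eq_self, J_mul, J_mul, J_mul, r3, J_comm (l.comm d hd b hb), J_comm (l.comm c hc b hb),
    h.JJ (l.sub hb), J_comm (l.comm d hd c hc), h.JJ (l.sub hc), h.JJ (l.sub hd)]

theorem five [Finite G] {D L : Set G} (h : PG D) (hZ : center G = ⊥) (l : Line D L) (h5 : L.ncard = 5)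
    {a b c d e : G} (ha : a ∈ L) (hb : b ∈ L) (hc : c ∈ L) (hd : d ∈ L) (he : e ∈ L) (ab : a ≠ b)
    (ac : a ≠ c) (ad : a ≠ d) (ae : a ≠ e) (bc : b ≠ c) (bd : b ≠ d) (be : b ≠ e) (cd : c ≠ d)
    (ce : c ≠ e) (de : d ≠ e) : a * (b * (c * (d * e))) = 1 := by
  obtain ⟨y, hy, yb, ya⟩ := exists_sep h (l.sub hb) (l.sub ha) ab.symm
  have k : ∀ z ∈ D, Commute z a → Commute (a * (b * (c * (d * e)))) z := fun z hz za =>
    za.symm.mul_left (four_comm h.toTG l h5 ha hb hc hd he ab ac ad ae bc bd be cd ce de hz za)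
  rw [← mem_bot, ← hZ]
  refine h.central (l.sub ha) hy (fun c => ya c.symm) (k a (l.sub ha) (Commute.refl a)) ?_
    fun z hz => k z hz.1 hz.2.2.symm
  rw [← mul_assoc, (l.comm a ha b hb).eq, mul_assoc]
  exact yb.symm.mul_left
    (four_comm h.toTG l h5 hb ha hc hd he ab.symm bc bd be ac ad ae cd ce de hy yb)

/-- the standing hypotheses -/
structure Cx (D : Set G) (x b : G) : Prop where
  pg : PG D
  th : Th D 5
  z : center G = ⊥
  hx : x ∈ D
  hb : b ∈ D
  xb : ¬ Commute x b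

/-- the points commuting with `x` and `b` -/
def MM (D : Set G) (x b : G) : Set G := {m | m ∈ D ∧ Commute m x ∧ Commute m b}

/-- the translations -/
def QQ (D : Set G) (x b : G) : Subgroup G :=
  closure ({x} ∪ {g | ∃ m ∈ MM D x b, ∃ e ∈ Ln D x m, e ≠ x ∧ e * m = g})

/-- coordinates on the lines through `x` -/
structure Par {F : Type*} [Field F] (D : Set G) (x b : G) (P : G → F → G) : Prop where
  zero : ∀ m ∈ MM D x b, P m 0 = m
  inj : ∀ m ∈ MM D x b, Function.Injective (P m)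
  mem : ∀ m ∈ MM D x b, ∀ a, P m a ∈ Ln D x m
  ne : ∀ m ∈ MM D x b, ∀ a, P m a ≠ x
  surj : ∀ m ∈ MM D x b, ∀ e ∈ Ln D x m, e ≠ x → ∃ a, P m a = e

open Classical in
/-- `x ^ c` for `c` in the prime field -/
noncomputable def XX {F : Type*} [Field F] (x : G) (c : F) : G := if c = 0 then 1 else x

@[simp] theorem XX_zero {F : Type*} [Field F] (x : G) : XX x (0 : F) = 1 := if_pos rfl

@[simp] theorem XX_one {F : Type*} [Field F] (x : G) : XX x (1 : F) = x := if_neg one_ne_zero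

theorem XX_comm {F : Type*} [Field F] {x g : G} (h : Commute g x) (c : F) : Commute g (XX x c) := by
  unfold XX; split_ifs
  · exact Commute.one_right g
  · exact h

namespace Cx

variable [Finite G] {D : Set G} {x b : G} (c : Cx D x b)
include c

theorem ad {m : G} (hm : m ∈ MM D x b) : Ad D x m :=
  ⟨c.hx, hm.1, fun e => c.xb (e ▸ hm.2.2), hm.2.1.symm⟩

theorem ln {m : G} (hm : m ∈ MM D x b) : Line D (Ln D x m) := line c.pg (c.ad hm)

theorem cx {m e : G} (hm : m ∈ MM D x b) (he : e ∈ Ln D x m) : Commute e x :=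
  (c.ln hm).comm _ he _ (left_mem c.hx _)

theorem cm {m e : G} (hm : m ∈ MM D x b) (he : e ∈ Ln D x m) : Commute e m :=
  (c.ln hm).comm _ he _ (right_mem hm.1 _)

theorem mu {e : G} (he : e ∈ D) (ne : e ≠ x) (k : Commute e x) : ∃ m ∈ MM D x b, e ∈ Ln D x m := by
  have a : Ad D x e := ⟨c.hx, he, ne.symm, k.symm⟩
  have l := line c.pg a
  obtain ⟨m, hm, k⟩ := one c.pg l (by rw [c.th _ _ a]; omega) c.hb
  refine ⟨m, ⟨l.sub hm, l.comm _ hm _ (left_mem c.hx _), k.symm⟩, ?_⟩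
  rw [l.eq (left_mem c.hx _) hm fun e => c.xb (e ▸ k.symm)]
  exact right_mem he _

theorem tr {m e y : G} (hm : m ∈ MM D x b) (he : e ∈ Ln D x m) (ne : e ≠ x) (hy : y ∈ D)
    (yx : Commute y x) : Commute y e ↔ Commute y m :=
  ⟨fun k => (c.ln hm).two _ (left_mem c.hx _) _ he ne.symm y hy yx k _ (right_mem hm.1 _),
    he.2 y hy yx⟩

theorem eq_of {m e e' y : G} (hm : m ∈ MM D x b) (he : e ∈ Ln D x m) (he' : e' ∈ Ln D x m)
    (hy : y ∈ D) (n : ¬ Commute x y) (k : Commute y e) (k' : Commute y e') : e = e' := by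
  by_contra ne
  exact n ((c.ln hm).two _ he _ he' ne y hy k k' _ (left_mem c.hx _)).symm

theorem eq_m {m e : G} (hm : m ∈ MM D x b) (he : e ∈ Ln D x m) (k : Commute e b) : e = m :=
  c.eq_of hm he (right_mem hm.1 _) c.hb c.xb k.symm hm.2.2.symm

theorem eq_line {m m' e : G} (hm : m ∈ MM D x b) (hm' : m' ∈ MM D x b) (he : e ∈ Ln D x m)
    (he' : e ∈ Ln D x m') (ne : e ≠ x) : m' = m := by
  refine c.eq_m hm ?_ hm'.2.2
  rw [← (c.ln hm).eq (left_mem c.hx _) he ne.symm, (c.ln hm').eq (left_mem c.hx _) he' ne.symm]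
  exact right_mem hm'.1 _

theorem t3 : T3 (MM D x b) := c.pg.toT3.mono fun _ h => h.1

theorem cl : Cl (MM D x b) := fun _ hd _ he => ⟨c.pg.conj _ _ he.1,
  (T3.commute_J_both hd.2.1.symm he.2.1.symm).symm, (T3.commute_J_both hd.2.2.symm he.2.2.symm).symm⟩

theorem exM : ∃ m, m ∈ MM D x b := exists_perp c.pg (by omega) c.th c.hx c.hb c.xb

theorem nb : ∀ a ∈ MM D x b, ∀ d ∈ MM D x b, ∃ n ∈ MM D x b, ¬ Commute a n ∧ ¬ Commute n d := by
  intro a ha d hd
  suffices ∃ z ∈ Dd D x, ¬ Commute a z ∧ ¬ Commute d z by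
    obtain ⟨z, hz, k1, k2⟩ := this
    obtain ⟨n, hn, k⟩ := c.mu hz.1 hz.2.1 hz.2.2.symm
    exact ⟨n, hn, fun e => k1 (k.2 a ha.1 ha.2.1 e), fun e => k2 (k.2 d hd.1 hd.2.1 e.symm)⟩
  by_cases e : a = d
  · obtain ⟨y, hy, k1, k2⟩ := exists_sep c.pg c.hx ha.1 (c.ad ha).ne
    exact ⟨y, ⟨hy, fun k => k2 (k ▸ ha.2.1.symm), k1.symm⟩, fun k => k2 k.symm,
      fun k => k2 (e ▸ k.symm)⟩
  by_cases k : Commute a d
  · exact c.pg.toT3.diam2 (fun _ h => h.1) (Cl.dd c.pg.toT3 c.pg.toTG.cl x) (c.ad ha).dd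
      (c.pg.rankD c.hx (c.ad ha).dd (c.ad hd).dd) e k
  · exact ⟨_, (c.ad (c.cl a ha d hd)).dd, c.pg.not_commute_J_left k,
      c.pg.not_commute_J_right ha.1 hd.1 k⟩

theorem gen_mem {m m' e f : G} (hm : m ∈ MM D x b) (hm' : m' ∈ MM D x b) (he : e ∈ Ln D x m)
    (ne : e ≠ x) (hf : f ∈ Ln D x m') (nf : f ≠ x) : J (e * m) f ∈ Ln D x m' := by
  have h := c.pg
  rw [← (c.ln hm').eq (left_mem c.hx _) hf nf.symm]
  refine ⟨h.conj _ _ hf.1, fun z hz zx zf => ?_⟩
  by_cases zm : Commute z m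
  · exact T3.commute_J_both ((he.2 z hz zx zm).mul_right zm) zf
  have fx := c.cx hm' hf
  by_cases fm : Commute f m
  · rwa [J_of_commute ((he.2 f hf.1 fx fm).mul_right fm).symm]
  have := he.2 _ (h.conj _ _ (h.conj _ _ hm.1)) (T3.commute_J_both zx.symm
    (T3.commute_J_both fx.symm hm.2.1.symm)).symm (h.s4 hz hm.1 hf.1 zf zm fm).symm
  rw [h.commute_J_swap hz, h.br _ hf.1 _ hm.1 fm,
    h.br _ hz _ he.1 fun k => zm ((c.tr hm he ne hz zx).1 k), ← h.commute_J_swap he.1] at this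
  rw [J_mul]
  exact this.symm

theorem x_mem : x ∈ QQ D x b := subset_closure (.inl rfl)

theorem gen {m e : G} (hm : m ∈ MM D x b) (he : e ∈ Ln D x m) (ne : e ≠ x) : e * m ∈ QQ D x b :=
  subset_closure (.inr ⟨m, hm, e, he, ne, rfl⟩)

theorem Q_ind {p : G → Prop} (h1 : p 1) (hx : p x)
    (hg : ∀ m ∈ MM D x b, ∀ e ∈ Ln D x m, e ≠ x → p (e * m))
    (hm : ∀ g ∈ QQ D x b, ∀ k ∈ QQ D x b, p g → p k → p (g * k)) {g : G} (h : g ∈ QQ D x b) : p g := by
  induction h using closure_induction'' with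
  | one => exact h1
  | mem g hg' =>
    rcases hg' with rfl | ⟨m, a, e, b, k, rfl⟩
    · exact hx
    · exact hg m a e b k
  | inv_mem g hg' =>
    rcases hg' with rfl | ⟨m, a, e, b, k, rfl⟩
    · rwa [c.pg.inv c.hx]
    · rw [inv_of_sq (c.pg.mul_sq b.1 a.1 (c.cm a b))]; exact hg m a e b k
  | mul g k a b p1 p2 => exact hm g a k b p1 p2

theorem Q_comm {z g : G} (h : ∀ y ∈ D, Commute y x → Commute z y) (hg : g ∈ QQ D x b) : Commute z g :=
  c.Q_ind (Commute.one_right z) (h x c.hx (Commute.refl x))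
    (fun m hm e he _ => (h e he.1 (c.cx hm he)).mul_right (h m hm.1 hm.2.1))
    (fun _ _ _ _ a b => a.mul_right b) hg

theorem Qx {g : G} (hg : g ∈ QQ D x b) : Commute g x := (c.Q_comm (fun _ _ k => k.symm) hg).symm

theorem Q_J {m g : G} (hm : m ∈ MM D x b) (hg : g ∈ QQ D x b) : J m g ∈ QQ D x b := by
  refine c.Q_ind (p := fun g => J m g ∈ QQ D x b) (by simp) ?_ (fun n hn e he ne => ?_)
    (fun g _ k _ a b => by rw [J_map_mul]; exact mul_mem a b) hg
  · rw [J_of_commute hm.2.1]; exact c.x_mem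
  · have := J_mem_Ln c.pg.toTG m he
    rw [J_of_commute hm.2.1] at this
    rw [J_map_mul]
    exact c.gen (c.cl m hm n hn) this fun k => ne (J_injective m (k.trans (J_of_commute hm.2.1).symm))

theorem Q_trans {y : G} (hy : y ∈ D) (n : ¬ Commute x y) : ∃ g ∈ QQ D x b, J g b = y := by
  refine Cn.induction c.pg.toT3 (E := Pp D x) (fun _ h => h.1) (P := fun y => ∃ g ∈ QQ D x b, J g b = y)
    ⟨1, one_mem _, J_one b⟩ ?_ (c.pg.rankA c.hx c.hb hy c.xb n)
  rintro e he _ ⟨g, hg, rfl⟩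
  by_cases k : e = x
  · exact ⟨x * g, mul_mem c.x_mem hg, by rw [J_mul, k]⟩
  obtain ⟨m, hm, k'⟩ := c.mu he.1 k he.2.symm
  refine ⟨e * m * J m g, mul_mem (c.gen hm k' k) (c.Q_J hm hg), ?_⟩
  conv_lhs => rw [← J_of_commute hm.2.2]
  rw [J_mul, J_J, J_mul, c.pg.JJ hm.1]

variable {F : Type*} [Field F] {σ : F →+* F} {ω : F} (f : F4 σ ω)
include f

theorem exists_par : ∃ P : G → F → G, Par D x b P := by
  haveI : Finite F := Nat.finite_of_card_ne_zero (by rw [f.card]; omega)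
  have : ∀ m, m ∈ MM D x b → ∃ p : F → G, p 0 = m ∧ Function.Injective p ∧
      Set.range p = Ln D x m \ {x} := fun m hm => by
    have k := Set.ncard_sdiff_singleton_add_one (left_mem c.hx m)
    rw [c.th _ _ (c.ad hm)] at k
    obtain ⟨e⟩ : Nonempty (F ≃ ↥(Ln D x m \ {x})) :=
      Finite.card_eq.1 (by rw [f.card, Nat.card_coe_set_eq]; omega)
    let s := e.symm ⟨m, right_mem hm.1 _, (c.ad hm).ne.symm⟩
    refine ⟨fun a => e (a + s), by simp [s], fun a a' k => ?_, Set.ext fun y => ⟨?_, fun hy => ?_⟩⟩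
    · simpa using e.injective (Subtype.ext k)
    · rintro ⟨a, rfl⟩; exact (e _).2
    · exact ⟨e.symm ⟨y, hy⟩ - s, by simp⟩
  choose! P h1 h2 h3 using this
  exact ⟨P, h1, h2, fun m hm a => ((h3 m hm).le ⟨a, rfl⟩).1, fun m hm a => ((h3 m hm).le ⟨a, rfl⟩).2,
    fun m hm e he ne => (h3 m hm).ge ⟨he, ne⟩⟩

theorem XX_add {s t : F} (hs : σ s = s) (ht : σ t = t) : XX x (s + t) = XX x s * XX x t := by
  rcases f.real hs with rfl | rfl <;> rcases f.real ht with rfl | rfl <;>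
    simp [f.add_self, c.pg.sq x c.hx]

theorem XX_inj {s t : F} (hs : σ s = s) (ht : σ t = t) (e : XX x s = XX x t) : s = t := by
  have := c.pg.ne x c.hx
  rcases f.real hs with rfl | rfl <;> rcases f.real ht with rfl | rfl <;> simp_all

omit f in
theorem XX_mem (s : F) : XX x s ∈ QQ D x b := by
  unfold XX; split_ifs
  · exact one_mem _
  · exact c.x_mem

variable {P : G → F → G} (p : Par D x b P)
include p

omit f in
theorem tm {m : G} (hm : m ∈ MM D x b) (a : F) : P m a * m ∈ QQ D x b :=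
  c.gen hm (p.mem m hm a) (p.ne m hm a)

theorem PP {m : G} (hm : m ∈ MM D x b) (a s : F) :
    P m a * P m s = P m (a + s) * m * XX x (σ a * s + σ (σ a * s)) := by
  have l := c.ln hm
  have h := c.pg
  by_cases ha : a = 0
  · simp [ha, p.zero m hm, (c.cm hm (p.mem m hm s)).eq]
  by_cases hs : s = 0
  · simp [hs, p.zero m hm]
  by_cases as : a = s
  · subst as
    simp [f.add_self, f.nm ha, p.zero m hm, h.sq _ hm.1, h.sq _ (p.mem m hm a).1]
  have n : ∀ {a s : F}, a ≠ s → P m a ≠ P m s := fun k e => k (p.inj m hm e)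
  have := five h c.z l (c.th _ _ (c.ad hm)) (p.mem m hm s) (p.mem m hm a) (p.mem m hm (a + s))
    (p.mem m hm 0) (left_mem c.hx m) (n (Ne.symm as)) (n (by simpa)) (n hs) (p.ne m hm _)
    (n (by simpa)) (n ha) (p.ne m hm _) (n fun k => as (by linear_combination k - f.add_self s))
    (p.ne m hm _) (p.ne m hm _)
  rw [p.zero m hm, ← mul_assoc, mul_eq_one_iff_inv_eq, mul_inv_rev, h.inv (p.mem m hm a).1,
    h.inv (p.mem m hm s).1] at this
  rw [f.tr_eq_one ha hs as, XX_one, this, mul_assoc]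

theorem act {g : G} (hg : g ∈ QQ D x b) : ∀ m ∈ MM D x b, ∃ s, ∀ a, J g (P m a) = P m (a + s) := by
  refine c.Q_ind (p := fun g => ∀ m ∈ MM D x b, ∃ s, ∀ a, J g (P m a) = P m (a + s))
    (fun m hm => ⟨0, by simp⟩)
    (fun m hm => ⟨0, fun a => by rw [add_zero, J_of_commute (c.cx hm (p.mem m hm a)).symm]⟩)
    (fun n hn e he ne m hm => ?_) (fun g _ k _ a b m hm => ?_) hg
  · have sq := c.pg.mul_sq he.1 hn.1 (c.cm hn he)
    have : ∀ a, ∃ a', P m a' = J (e * n) (P m a) := fun a =>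
      p.surj m hm _ (c.gen_mem hn hm he ne (p.mem m hm a) (p.ne m hm a)) fun k => p.ne m hm a
        (J_injective (e * n) (k.trans (J_of_commute (c.Qx (c.gen hn he ne))).symm))
    choose π hπ using this
    by_cases k : ∃ a, π a = a
    · obtain ⟨a, k⟩ := k
      refine ⟨0, fun a' => ?_⟩
      rw [add_zero, J_eq_self]
      by_cases en : e = n
      · rw [en, c.pg.sq _ hn.1]; exact Commute.one_left _
      have k1 := hπ a
      rw [k, eq_comm, J_eq_self] at k1
      have k2 := (c.pg.commute_mul he.1 hn.1 (p.mem m hm a).1 en k1.symm).2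
      have k3 := (p.mem m hm a').2 n hn.1 hn.2.1
        ((c.tr hm (p.mem m hm a) (p.ne m hm a) hn.1 hn.2.1).1 k2.symm)
      exact (he.2 _ (p.mem m hm a').1 (c.cx hm (p.mem m hm a')) k3.symm).symm.mul_left k3
    · push Not at k
      exact ⟨π 0, fun a => by
        rw [← hπ, f.transl (fun a => p.inj m hm (by rw [hπ, hπ, ← J_mul, sq, J_one])) k]⟩
  · obtain ⟨s, hs⟩ := a m hm
    obtain ⟨t, ht⟩ := b m hm
    exact ⟨t + s, fun a => by rw [J_mul, ht, hs, add_assoc]⟩

end Cx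

/-- the coordinates of a translation -/
noncomputable def uu {F : Type*} [Field F] (P : G → F → G) (g m : G) : F := Function.invFun (P m) (J g m)

namespace Cx

variable [Finite G] {D : Set G} {x b : G} (c : Cx D x b)
  {F : Type*} [Field F] {σ : F →+* F} {ω : F} (f : F4 σ ω) {P : G → F → G} (p : Par D x b P)
include c p

theorem uu_eq {g m : G} {s : F} (hm : m ∈ MM D x b) (e : J g m = P m s) : uu P g m = s := by
  rw [uu, e, Function.leftInverse_invFun (p.inj m hm)]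

include f

theorem act' {g m : G} (hg : g ∈ QQ D x b) (hm : m ∈ MM D x b) (a : F) :
    J g (P m a) = P m (a + uu P g m) := by
  obtain ⟨s, hs⟩ := c.act f p hg m hm
  rw [hs, c.uu_eq p hm (s := s) (by simpa [p.zero m hm] using hs 0)]

theorem act0 {g m : G} (hg : g ∈ QQ D x b) (hm : m ∈ MM D x b) : J g m = P m (uu P g m) := by
  simpa [p.zero m hm] using c.act' f p hg hm 0

theorem uu_mul {g k m : G} (hg : g ∈ QQ D x b) (hk : k ∈ QQ D x b) (hm : m ∈ MM D x b) :
    uu P (g * k) m = uu P g m + uu P k m :=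
  c.uu_eq p hm (by rw [J_mul, c.act0 f p hk hm, c.act' f p hg hm, add_comm])

omit f in
theorem uu_comm {g m : G} (hm : m ∈ MM D x b) (k : Commute g m) : uu P g m = 0 :=
  c.uu_eq p hm (by rw [J_of_commute k, p.zero m hm])

theorem uu_zero {g m : G} (hg : g ∈ QQ D x b) (hm : m ∈ MM D x b) (k : uu P g m = 0) : Commute g m := by
  rw [← J_eq_self, c.act0 f p hg hm, k, p.zero m hm]

theorem uu_inv {g m : G} (hg : g ∈ QQ D x b) (hm : m ∈ MM D x b) : uu P g⁻¹ m = uu P g m := by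
  have := c.uu_mul f p (inv_mem hg) hg hm
  rw [inv_mul_cancel, c.uu_comm p hm (Commute.one_left m)] at this
  linear_combination -this + f.add_self (uu P g m) - uu P g m * f.two - uu P g m * f.two

theorem J_eq {g n : G} (hg : g ∈ QQ D x b) (hn : n ∈ MM D x b) : J n g = g * (P n (uu P g n) * n) := by
  rw [← c.uu_inv f p hg hn, ← c.act0 f p (inv_mem hg) hn, c.pg.J_eq hn.1, J_def]
  group

theorem tau_add {m n : G} (hm : m ∈ MM D x b) (hn : n ∈ MM D x b) (a s : F) :
    uu P (P m (a + s) * m) n = uu P (P m a * m) n + uu P (P m s * m) n := by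
  rw [← c.uu_mul f p (c.tm p hm a) (c.tm p hm s) hn, mul_assoc, ← mul_assoc m,
    ← (c.cm hm (p.mem m hm s)).eq, mul_assoc, c.pg.sq _ hm.1, mul_one, c.PP f p hm,
    c.uu_mul f p (c.tm p hm _) (c.XX_mem _) hn, c.uu_comm p hn (XX_comm hn.2.1 _).symm, add_zero]

theorem tau_zero {m n : G} (hm : m ∈ MM D x b) (hn : n ∈ MM D x b) (k : ¬ Commute m n) (a : F)
    (e : uu P (P m a * m) n = 0) : a = 0 := by
  by_contra ne
  exact k (c.pg.commute_mul (p.mem m hm a).1 hm.1 hn.1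
    (fun k => ne (p.inj m hm (k.trans (p.zero m hm).symm)))
    (c.uu_zero f p (c.tm p hm a) hn e).symm).2.symm

omit f in
theorem tau_comm {m n : G} (hm : m ∈ MM D x b) (hn : n ∈ MM D x b) (k : Commute m n) (a : F) :
    uu P (P m a * m) n = 0 :=
  c.uu_comm p hn (((p.mem m hm a).2 n hn.1 hn.2.1 k.symm).mul_right k.symm).symm

theorem tau_inv {m n : G} (hm : m ∈ MM D x b) (hn : n ∈ MM D x b) (k : ¬ Commute m n) (a : F) :
    uu P (P n (uu P (P m a * m) n) * n) m = a := by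
  have h := c.pg
  have hk := c.cl m hm n hn
  have ek : ¬ Commute (P m a) (J m n) := fun e => h.not_commute_J_left k
    ((c.tr hm (p.mem m hm a) (p.ne m hm a) hk.1 hk.2.1).1 e.symm).symm
  refine c.uu_eq p hm ?_
  rw [← c.act0 f p (c.tm p hm a) hn, J_mul, J_mul, ← h.br _ hm.1 _ hn.1 k,
    h.br _ (h.conj _ _ hk.1) _ hk.1 fun e => h.not_commute_J_right (p.mem m hm a).1 hk.1 ek e.symm,
    h.J_J_self (p.mem m hm a).1 hk.1 ek]

theorem tau_tri {m n r : G} (hm : m ∈ MM D x b) (hn : n ∈ MM D x b) (hr : r ∈ MM D x b) (a : F) :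
    ∃ a', (a' = 0 → a = 0) ∧ uu P (P (J m n) a' * J m n) r =
      uu P (P n a * n) r + uu P (P m (uu P (P n a * n) m) * m) r := by
  have hk := c.cl m hm n hn
  have := J_mem_Ln c.pg.toTG m (p.mem n hn a)
  rw [J_of_commute hm.2.1] at this
  obtain ⟨a', e⟩ := p.surj _ hk _ this fun k => p.ne n hn a
    (J_injective m (k.trans (J_of_commute hm.2.1).symm))
  refine ⟨a', fun k => ?_, ?_⟩
  · rw [k, p.zero _ hk, J_inj] at e
    exact p.inj n hn (e.symm.trans (p.zero n hn).symm)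
  · rw [e, ← J_map_mul, c.J_eq f p (c.tm p hn a) hm, c.uu_mul f p (c.tm p hn a) (c.tm p hm _) hr]

omit p in
/-- coordinates in which all transition maps are linear -/
theorem exists_lin : ∃ P : G → F → G, Par D x b P ∧ ∀ m ∈ MM D x b, ∀ n ∈ MM D x b, ∀ a,
    uu P (P m a * m) n = a * uu P (P m 1 * m) n := by
  obtain ⟨P, p⟩ := c.exists_par f
  have : ∀ m n, m ∈ MM D x b → n ∈ MM D x b → ¬ Commute m n →
      ∃ i, Ty σ (fun a => uu P (P m a * m) n) i := fun m n hm hn k =>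
    f.ty_exists (c.tau_add f p hm hn) (c.tau_zero f p hm hn k)
  choose! ε hε using this
  have id0 : Ty σ (fun a => a) 0 := ⟨1, one_ne_zero, by simp⟩
  obtain ⟨η, hη⟩ := orient c.t3 c.cl c.nb ε (fun m hm n hn k => by
    have := f.ty_eq (f.ty_comp (hε n m hn hm fun e => k e.symm) (hε m n hm hn k)) id0
      (.inl fun a => by rw [c.tau_inv f p hm hn k, f.add_self])
    linear_combination this - z2s (ε n m)) fun n hn m hm r hr nm mr nr => by
    rw [add_comm]
    refine f.ty_eq (hε n r hn hr nr) (f.ty_comp (hε m r hm hr mr) (hε n m hn hm nm)) ?_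
    have hk := c.cl m hm n hn
    by_cases k : Commute (J m n) r
    · exact .inl fun a => by
        obtain ⟨a', -, e⟩ := c.tau_tri f p hm hn hr a
        rw [← e, c.tau_comm p hk hr k]
    · exact .inr fun a z => by
        obtain ⟨a', k1, e⟩ := c.tau_tri f p hm hn hr a
        exact k1 (c.tau_zero f p hk hr k _ (e.trans z))
  have ss : ∀ i a, sg σ i (sg σ i a) = a := fun i a => by rw [f.sg_sg, z2s, sg_zero]
  have p' : Par D x b fun m a => P m (sg σ (η m) a) :=
    ⟨fun m hm => by rw [sg_eq_zero.2 rfl, p.zero m hm],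
      fun m hm a a' e => by rw [← ss (η m) a, p.inj m hm e, ss], fun m hm a => p.mem m hm _,
      fun m hm a => p.ne m hm _, fun m hm e he ne => by
        obtain ⟨a, rfl⟩ := p.surj m hm e he ne
        exact ⟨sg σ (η m) a, by rw [ss]⟩⟩
  refine ⟨_, p', fun m hm n hn a => ?_⟩
  by_cases k : Commute m n
  · rw [c.tau_comm p' hm hn k, c.tau_comm p' hm hn k, mul_zero]
  obtain ⟨α, -, e⟩ := hε m n hm hn k
  have : ∀ a, uu (fun m a => P m (sg σ (η m) a)) (P m (sg σ (η m) a) * m) n = sg σ (η n) α * a :=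
    fun a => c.uu_eq p' hn (by
      have := e (sg σ (η m) a)
      simp only at this
      rw [c.act0 f p (c.tm p hm _) hn, this, sg_mul, ss, f.sg_sg, hη m hm n hn k, add_right_comm, z2s,
        zero_add])
  rw [this, this, mul_one, mul_comm]

end Cx

end Cfsg.Agent.H21.FS
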