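import Mathlib
import Cfsg.Agent.H21.Fs4

/-! Lines with five points: the hermitian form on the translations. -/

set_option autoImplicit false
set_option linter.unusedSectionVars false
set_option linter.unusedVariables false
set_option linter.style.haveILetI false

namespace Cfsg.Agent.H21.FS

open Cfsg Subgroup Cfsg.Agent.H19

variable {G : Type*} [Group G]

/-- the hermitian space of translations -/
structure Dat {F : Type*} [Field F] (σ : F →+* F) (D : Set G) (x b : G) (P : G → F → G) {U : Type*}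
    [AddCommGroup U] [Module F U] (u v : G → U) (B : U →ₛₗ[σ] U →ₗ[F] F) : Prop where
  mul : ∀ g ∈ QQ D x b, ∀ k ∈ QQ D x b, u (g * k) = u g + u k
  ux : u x = 0
  surj : ∀ w, ∃ g ∈ QQ D x b, u g = w
  ut : ∀ m ∈ MM D x b, ∀ a, u (P m a * m) = a • v m
  act : ∀ g ∈ QQ D x b, ∀ m ∈ MM D x b, ∀ a, J g (P m a) = P m (a + B (v m) (u g))
  comm : ∀ g ∈ QQ D x b, ∀ k ∈ QQ D x b, g * k = k * g * XX x (B (u k) (u g) + σ (B (u k) (u g)))
  herm : ∀ w w', σ (B w w') = B w' w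
  sep : ∀ w, (∀ m ∈ MM D x b, B (v m) w = 0) → w = 0

namespace Cx

variable [Finite G] {D : Set G} {x b : G} (c : Cx D x b)
  {F : Type*} [Field F] {σ : F →+* F} {ω : F} (f : F4 σ ω)
include c f

theorem fix {P : G → F → G} (p : Par D x b P) {g : G} (hg : g ∈ QQ D x b)
    (h : ∀ m ∈ MM D x b, ∀ a, J g (P m a) = P m a) : ∀ y ∈ D, Commute y x → Commute g y := by
  intro y hy k
  by_cases e : y = x
  · exact e ▸ c.Qx hg
  obtain ⟨m, hm, k'⟩ := c.mu hy e k
  obtain ⟨a, rfl⟩ := p.surj m hm y k' e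
  exact J_eq_self.1 (h m hm a)

theorem exists_dat : ∃ (U : Submodule F (MM D x b → F)) (P : G → F → G) (u v : G → U)
    (B : U →ₛₗ[σ] U →ₗ[F] F), Par D x b P ∧ Dat σ D x b P u v B := by
  classical
  obtain ⟨P, p, lin⟩ := c.exists_lin f
  let uf : G → MM D x b → F := fun g m => uu P g m
  have um : ∀ g ∈ QQ D x b, ∀ k ∈ QQ D x b, uf (g * k) = uf g + uf k := fun g hg k hk =>
    funext fun m => c.uu_mul f p hg hk m.2
  have u1 : uf 1 = 0 := funext fun m => c.uu_comm p m.2 (Commute.one_left _)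
  have ux : uf x = 0 := funext fun m => c.uu_comm p m.2 m.2.2.1.symm
  have ut : ∀ m ∈ MM D x b, ∀ s a, uf (P m (s * a) * m) = s • uf (P m a * m) := fun m hm s a =>
    funext fun n => by
      simp only [uf, Pi.smul_apply, smul_eq_mul]
      rw [lin m hm n n.2, lin m hm n n.2 a, mul_assoc]
  have sm : ∀ g ∈ QQ D x b, ∀ s : F, ∃ k ∈ QQ D x b, uf k = s • uf g := fun g hg =>
    c.Q_ind (p := fun g => ∀ s : F, ∃ k ∈ QQ D x b, uf k = s • uf g)
      (fun s => ⟨1, one_mem _, by rw [u1, smul_zero]⟩) (fun s => ⟨1, one_mem _, by rw [u1, ux, smul_zero]⟩)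
      (fun m hm e he ne s => by
        obtain ⟨a, rfl⟩ := p.surj m hm e he ne
        exact ⟨_, c.tm p hm _, ut m hm s a⟩)
      (fun g hg k hk a b s => by
        obtain ⟨g', hg', e1⟩ := a s
        obtain ⟨k', hk', e2⟩ := b s
        exact ⟨_, mul_mem hg' hk', by rw [um _ hg' _ hk', um _ hg _ hk, e1, e2, smul_add]⟩) hg
  let U : Submodule F (MM D x b → F) :=
    { carrier := {w | ∃ g ∈ QQ D x b, uf g = w}
      zero_mem' := ⟨1, one_mem _, u1⟩
      add_mem' := by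
        rintro _ _ ⟨g, hg, rfl⟩ ⟨k, hk, rfl⟩
        exact ⟨_, mul_mem hg hk, um g hg k hk⟩
      smul_mem' := by
        rintro s _ ⟨g, hg, rfl⟩
        exact sm g hg s }
  let R : (MM D x b → F) → ((MM D x b → F) →ₗ[F] F) → Prop := fun w φ =>
    ∀ k ∈ QQ D x b, uf k = w → ∀ g ∈ QQ D x b, g * k = k * g * XX x (φ (uf g) + σ (φ (uf g)))
  have R1 : ∀ k ∈ QQ D x b, ∀ φ : (MM D x b → F) →ₗ[F] F,
      (∀ g ∈ QQ D x b, g * k = k * g * XX x (φ (uf g) + σ (φ (uf g)))) → R (uf k) φ := by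
    intro k0 hk0 φ h k hk e g hg
    have hz := mul_mem (inv_mem hk0) hk
    have cz : Commute (k0⁻¹ * k) g := c.Q_comm (c.fix f p hz fun m hm a => by
      rw [c.act' f p hz hm, c.uu_mul f p (inv_mem hk0) hk hm, c.uu_inv f p hk0 hm,
        show uu P k m = uu P k0 m from congrFun e ⟨m, hm⟩, f.add_self, add_zero]) hg
    rw [show k = k0 * (k0⁻¹ * k) by group, ← mul_assoc, h g hg, mul_assoc,
      ← (XX_comm (c.Qx hz) _).eq, ← mul_assoc, mul_assoc k0, ← cz.eq, ← mul_assoc]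
  have Ra : ∀ w ∈ U, ∀ w' ∈ U, ∀ φ φ', R w φ → R w' φ' → R (w + w') (φ + φ') := by
    rintro _ ⟨k, hk, rfl⟩ _ ⟨k', hk', rfl⟩ φ φ' a b
    rw [← um k hk k' hk']
    refine R1 _ (mul_mem hk hk') _ fun g hg => ?_
    rw [← mul_assoc, a k hk rfl g hg, mul_assoc, ← (XX_comm (c.Qx hk') _).eq, ← mul_assoc,
      mul_assoc k, b k' hk' rfl g hg, ← mul_assoc, ← mul_assoc, mul_assoc,
      ← c.XX_add f (f.tr_real _) (f.tr_real _), LinearMap.add_apply, map_add]
    congr 2
    ring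
  have Ru : ∀ w ∈ U, ∀ φ φ', R w φ → R w φ' → ∀ w' ∈ U, φ w' = φ' w' := by
    rintro _ ⟨k, hk, rfl⟩ φ φ' a b
    have : ∀ w' ∈ U, φ w' + σ (φ w') = φ' w' + σ (φ' w') := by
      rintro _ ⟨g, hg, rfl⟩
      exact c.XX_inj f (f.tr_real _) (f.tr_real _)
        (mul_left_cancel ((a k hk rfl g hg).symm.trans (b k hk rfl g hg)))
    intro w hw
    have e1 := this w hw
    have e2 := this _ (U.smul_mem ω hw)
    simp only [map_smul, smul_eq_mul, map_mul] at e2
    exact sub_eq_zero.1 (f.eq_of_tr (by rw [map_sub]; linear_combination e1)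
      (by rw [map_mul, map_sub]; linear_combination e2))
  have Rg : ∀ m (hm : m ∈ MM D x b) a, R (uf (P m a * m)) (σ a • LinearMap.proj ⟨m, hm⟩) :=
    fun m hm a => R1 _ (c.tm p hm a) _ fun g hg => by
      rw [show g * (P m a * m) = J g (P m a * m) * g by rw [J_def]; group, J_map_mul, c.act' f p hg hm,
        c.act0 f p hg hm, c.PP f p hm, add_assoc, f.add_self, add_zero, mul_assoc,
        ← (XX_comm (c.Qx hg) _).eq, ← mul_assoc]
      congr 2
      simp only [uf, LinearMap.smul_apply, LinearMap.proj_apply, smul_eq_mul, map_add, map_mul, f.invol]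
      linear_combination f.add_self (σ (uu P g m) * uu P g m)
  have R0 : R 0 0 := u1 ▸ R1 1 (one_mem _) 0 fun g _ => by simp
  have Re : ∀ w : U, ∃ φ, ∀ s : F, R (s • w.1) (σ s • φ) := by
    rintro ⟨_, g, hg, rfl⟩
    refine c.Q_ind (p := fun g => ∃ φ, ∀ s : F, R (s • uf g) (σ s • φ))
      ⟨0, fun s => by rw [u1, smul_zero, smul_zero]; exact R0⟩
      ⟨0, fun s => by rw [ux, smul_zero, smul_zero]; exact R0⟩ (fun m hm e he ne => ?_)
      (fun g hg k hk ⟨φ, a⟩ ⟨φ', b⟩ => ⟨φ + φ', fun s => ?_⟩) hg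
    · obtain ⟨a, rfl⟩ := p.surj m hm e he ne
      exact ⟨σ a • LinearMap.proj ⟨m, hm⟩, fun s => by
        rw [← ut m hm, smul_smul, ← map_mul]; exact Rg m hm _⟩
    · rw [um g hg k hk, smul_add, smul_add]
      exact Ra _ (sm g hg s) _ (sm k hk s) _ _ (a s) (b s)
  choose Φ hΦ using Re
  have hΦ1 : ∀ w : U, R w.1 (Φ w) := fun w => by simpa using hΦ w 1
  let B : U →ₛₗ[σ] U →ₗ[F] F := LinearMap.mk₂'ₛₗ σ (RingHom.id F) (fun w w' => Φ w w'.1)
    (fun a b w => Ru _ (a + b).2 _ _ (hΦ1 _) (Ra _ a.2 _ b.2 _ _ (hΦ1 a) (hΦ1 b)) _ w.2)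
    (fun s a w => Ru _ (s • a).2 _ _ (hΦ1 _) (hΦ a s) _ w.2) (fun _ _ _ => by simp) (fun _ _ _ => by simp)
  let u : G → U := fun g => if h : g ∈ QQ D x b then ⟨uf g, g, h, rfl⟩ else 0
  have hu : ∀ g ∈ QQ D x b, (u g).1 = uf g := fun g hg => by simp only [u, dif_pos hg]
  have bv : ∀ m (hm : m ∈ MM D x b) (w : U), B (u (P m 1 * m)) w = w.1 ⟨m, hm⟩ := fun m hm w => by
    have := Ru _ (u (P m 1 * m)).2 _ _ (hΦ1 _) (by rw [hu _ (c.tm p hm 1)]; exact Rg m hm 1) _ w.2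
    exact this.trans (by simp)
  have cm : ∀ g ∈ QQ D x b, ∀ k ∈ QQ D x b,
      g * k = k * g * XX x (B (u k) (u g) + σ (B (u k) (u g))) := fun g hg k hk => by
    have := hΦ1 (u k) k hk (hu k hk).symm g hg
    rwa [← hu g hg] at this
  have sj : ∀ w : U, ∃ g ∈ QQ D x b, u g = w := fun ⟨_, g, hg, rfl⟩ => ⟨g, hg, Subtype.ext (hu g hg)⟩
  refine ⟨U, P, u, fun m => u (P m 1 * m), B, p, fun g hg k hk => Subtype.ext ?_,
    Subtype.ext ((hu x c.x_mem).trans ux), sj, fun m hm a => Subtype.ext ?_, fun g hg m hm a => ?_, cm,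
    fun w w' => ?_, fun w h => Subtype.ext (funext fun m => (bv m m.2 w).symm.trans (h m m.2))⟩
  · rw [Submodule.coe_add, hu _ (mul_mem hg hk), hu g hg, hu k hk, um g hg k hk]
  · rw [Submodule.coe_smul, hu _ (c.tm p hm _), hu _ (c.tm p hm _), ← ut m hm, mul_one]
  · rw [bv m hm, hu g hg, c.act' f p hg hm]
  · have : ∀ w w', B w w' + σ (B w w') = B w' w + σ (B w' w) := fun w w' => by
      obtain ⟨g, hg, rfl⟩ := sj w
      obtain ⟨k, hk, rfl⟩ := sj w'
      have e := cm g hg k hk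
      rw [cm k hk g hg, mul_assoc, ← c.XX_add f (f.tr_real _) (f.tr_real _), eq_comm, mul_eq_left,
        ← XX_zero (F := F) x] at e
      have := c.XX_inj f (by rw [map_add, f.tr_real, f.tr_real]) (map_zero σ) e
      linear_combination this - f.add_self (B (u k) (u g) + σ (B (u k) (u g)))
    have e1 := this w w'
    have e2 := this (ω • w) w'
    simp only [map_smulₛₗ, LinearMap.smul_apply, smul_eq_mul, map_mul, f.invol, RingHom.id_apply] at e2
    exact sub_eq_zero.1 (f.eq_of_tr (by rw [map_sub, f.invol]; linear_combination e1)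
      (by rw [map_mul, map_sub, f.invol]; linear_combination e2))

variable {P : G → F → G} (p : Par D x b P) {U : Type*} [AddCommGroup U] [Module F U] {u v : G → U}
  {B : U →ₛₗ[σ] U →ₗ[F] F} (d : Dat σ D x b P u v B)
include p d

theorem u_one : u 1 = 0 := by simpa using d.mul 1 (one_mem _) 1 (one_mem _)

theorem U2 (w : U) : w + w = 0 := by rw [← two_smul F, f.two, zero_smul]

theorem u_inv {g : G} (hg : g ∈ QQ D x b) : u g⁻¹ = u g := by
  have := d.mul _ (inv_mem hg) _ hg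
  rw [inv_mul_cancel, c.u_one f p d] at this
  linear_combination (norm := abel) -this - c.U2 f p d (u g)

theorem u_XX (s : F) : u (XX x s) = 0 := by
  unfold XX; split_ifs
  · exact c.u_one f p d
  · exact d.ux

theorem act1 {g m : G} (hg : g ∈ QQ D x b) (hm : m ∈ MM D x b) : J g m = P m (B (v m) (u g)) := by
  simpa [p.zero m hm] using d.act g hg m hm 0

theorem Pz {m : G} (hm : m ∈ MM D x b) {a : F} : P m a = m ↔ a = 0 :=
  ⟨fun e => p.inj m hm (e.trans (p.zero m hm).symm), fun e => by rw [e, p.zero m hm]⟩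

theorem perp {m n : G} (hm : m ∈ MM D x b) (hn : n ∈ MM D x b) :
    B (v m) (v n) = 0 ↔ Commute m n := by
  have := c.act1 f p d (c.tm p hn 1) hm
  rw [d.ut n hn, one_smul] at this
  rw [← c.Pz f p d hm, ← this, J_eq_self]
  exact ⟨fun k => (c.pg.commute_mul (p.mem n hn 1).1 hn.1 hm.1
    (fun e => one_ne_zero ((c.Pz f p d hn).1 e)) k.symm).2,
    fun k => (((p.mem n hn 1).2 m hm.1 hm.2.1 k).mul_right k).symm⟩

theorem vv {m : G} (hm : m ∈ MM D x b) : B (v m) (v m) = 0 := (c.perp f p d hm hm).2 (Commute.refl m)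

theorem sq {g : G} (hg : g ∈ QQ D x b) : g * g = XX x (B (u g) (u g)) := by
  refine c.Q_ind (p := fun g => g * g = XX x (B (u g) (u g))) (by simp [c.u_one f p d])
    (by simp [d.ux, c.pg.sq x c.hx]) (fun m hm e he ne => ?_) (fun g hg k hk a b => ?_) hg
  · obtain ⟨a, rfl⟩ := p.surj m hm e he ne
    simp [d.ut m hm, c.vv f p d hm, c.pg.mul_sq he.1 hm.1 (c.cm hm he)]
  · rw [mul_assoc, ← mul_assoc k, d.comm k hk g hg, mul_assoc (g * k), ← (XX_comm (c.Qx hk) _).eq,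
      ← mul_assoc, ← mul_assoc, ← mul_assoc, a, mul_assoc (XX _ _) k, b,
      ← c.XX_add f (d.herm _ _) (d.herm _ _),
      ← c.XX_add f (by rw [map_add, d.herm, d.herm]) (f.tr_real _), d.mul g hg k hk, d.herm]
    congr 1
    simp only [map_add, LinearMap.add_apply]
    ring

theorem semi {g y : G} (hg : g ∈ QQ D x b) (hy : y ∈ D) (n : ¬ Commute x y) (k : Commute g y) :
    g = 1 := by
  rw [← mem_bot, ← c.z]
  refine c.pg.central c.hx hy n (c.Qx hg) k fun z hz => c.fix f p hg (fun m hm a => ?_) z hz.1 hz.2.2.symm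
  obtain ⟨e, he, k'⟩ := one c.pg (c.ln hm) (by rw [c.th _ _ (c.ad hm)]; omega) hy
  obtain ⟨s, rfl⟩ := p.surj m hm e he fun e => n (e ▸ k'.symm)
  have := c.eq_of hm (p.mem m hm (s + B (v m) (u g))) he hy n (by
    rw [← d.act g hg m hm, commute_J_of' k]; exact k') k'
  rw [d.act g hg m hm, show B (v m) (u g) = 0 by simpa using p.inj m hm this, add_zero]

omit f p d in
theorem Jb {m e : G} (hm : m ∈ MM D x b) (he : e ∈ Ln D x m) (ne : e ≠ m) :
    J (x * (e * m)) b = J (J x b) e := by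
  rw [J_mul, J_mul, J_of_commute hm.2.2, c.pg.br _ he.1 _ c.hb fun k => ne (c.eq_m hm he k), ← J_J,
    J_of_commute (c.cx hm he).symm]

omit f p d in
theorem Jb1 : J (J x b) b = x := by
  rw [c.pg.br _ (c.pg.conj _ _ c.hb) _ c.hb fun k => c.pg.not_commute_J_right c.hx c.hb c.xb k.symm,
    c.pg.J_J_self c.hx c.hb c.xb]

omit f p d in
theorem Jb2 {m : G} (hm : m ∈ MM D x b) : J (J x b) m = m :=
  J_of_commute (T3.commute_J_both hm.2.1 hm.2.2).symm

omit f p d in
theorem ncQ {g : G} (hg : g ∈ QQ D x b) : ¬ Commute x (J g b) := by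
  rw [commute_J_of' (c.Qx hg)]; exact c.xb

theorem L1 {k : G} (hk : k ∈ QQ D x b) (h : Commute (J k b) b) :
    k = 1 ∨ ∃ m ∈ MM D x b, ∃ a, a ≠ 0 ∧ k = x * (P m a * m) := by
  by_cases e : J k b = b
  · exact .inl (c.semi f p d hk c.hb c.xb (J_eq_self.1 e))
  right
  have hb' := c.pg.conj x b c.hb
  have a : Ad D b (J k b) := ⟨c.hb, c.pg.conj _ _ c.hb, Ne.symm e, h.symm⟩
  have l := line c.pg a
  obtain ⟨m, hm, k'⟩ := one c.pg l (by rw [c.th _ _ a]; omega) c.hx
  have mM : m ∈ MM D x b := ⟨l.sub hm, k'.symm, l.comm _ hm _ (left_mem c.hb _)⟩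
  have y1 : J k b ∈ Ln D b m := by
    rw [l.eq (left_mem c.hb _) hm fun e => c.xb (e ▸ k')]; exact right_mem a.r _
  have y2 := J_mem_Ln c.pg.toTG (J x b) y1
  rw [c.Jb1, c.Jb2 mM] at y2
  obtain ⟨s, hs⟩ := p.surj m mM _ y2 fun k => e (J_injective _ (k.trans c.Jb1.symm))
  have s0 : P m s ≠ m := fun k => c.ncQ hk (by
    rw [J_injective _ (hs.symm.trans (k.trans (c.Jb2 mM).symm))]; exact k')
  refine ⟨m, mM, s, fun k => s0 ((c.Pz f p d mM).2 k), ?_⟩
  have hg := mul_mem c.x_mem (c.tm p mM s)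
  refine (inv_mul_eq_one.1 (c.semi f p d (mul_mem (inv_mem hk) hg) c.hb c.xb ?_))
  rw [← J_eq_self, J_mul, c.Jb mM (p.mem m mM s) s0, hs, c.pg.JJ hb', J_inv_J]

theorem L0 {k : G} (hk : k ∈ QQ D x b) (h : B (u k) (u k) = 0) :
    Commute (J k b) b ∨ Commute (J (x * k) b) b := by
  by_contra n
  push Not at n
  have kk := c.sq f p d hk
  rw [h, XX_zero] at kk
  have hy := c.pg.conj k b c.hb
  have := c.semi f p d hk (c.pg.conj b _ hy) (fun e => n.2 (by
    rw [← c.pg.commute_J_swap c.hb, ← c.pg.br _ c.hx _ c.hb c.xb, c.pg.commute_J_swap c.hx] at e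
    rw [J_mul]; exact e.symm)) (by
    rw [← J_eq_self, ← J_J, ← J_mul k k, kk, J_one, c.pg.br _ hy _ c.hb n.1])
  exact n.1 (by rw [this, J_one])

theorem v_ne {m : G} (hm : m ∈ MM D x b) : v m ≠ 0 := fun e => by
  obtain ⟨n, hn, k, -⟩ := c.nb m hm m hm
  exact k ((c.perp f p d hm hn).1 (by simp [e]))

theorem u_gen {m : G} (hm : m ∈ MM D x b) (a : F) : u (x * (P m a * m)) = a • v m := by
  rw [d.mul _ c.x_mem _ (c.tm p hm a), d.ux, zero_add, d.ut m hm]

theorem ker {k : G} (hk : k ∈ QQ D x b) (h : u k = 0) : k = 1 ∨ k = x := by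
  have : ∀ k ∈ QQ D x b, u k = 0 → Commute (J k b) b → k = 1 := fun k hk h e => by
    rcases c.L1 f p d hk e with e | ⟨m, hm, a, ha, rfl⟩
    · exact e
    · rw [c.u_gen f p d hm] at h
      exact absurd h (smul_ne_zero ha (c.v_ne f p d hm))
  refine (c.L0 f p d hk (by simp [h])).imp (this k hk h) fun e => ?_
  have := this _ (mul_mem c.x_mem hk) (by rw [d.mul _ c.x_mem _ hk, d.ux, h, add_zero]) e
  rw [← c.pg.cancel c.hx k, this, mul_one]

theorem ker' {g k : G} (hg : g ∈ QQ D x b) (hk : k ∈ QQ D x b) (h : u g = u k) :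
    k = g ∨ k = g * x := by
  rcases c.ker f p d (mul_mem (inv_mem hg) hk) (by
    rw [d.mul _ (inv_mem hg) _ hk, c.u_inv f p d hg, h, c.U2 f p d]) with e | e
  · exact .inl (inv_mul_eq_one.1 e).symm
  · exact .inr (by rw [← e]; group)

theorem s_ex {w : U} (h : B w w = 0) : ∃ g ∈ QQ D x b, u g = w ∧ Commute (J g b) b := by
  obtain ⟨k, hk, rfl⟩ := d.surj w
  rcases c.L0 f p d hk h with e | e
  · exact ⟨k, hk, rfl, e⟩
  · exact ⟨_, mul_mem c.x_mem hk, by rw [d.mul _ c.x_mem _ hk, d.ux, zero_add], e⟩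

omit f p d in
theorem s_not {g : G} (hg : g ∈ QQ D x b) (a : Commute (J g b) b) : ¬ Commute (J (g * x) b) b := by
  rw [(c.Qx hg).eq, J_mul]
  exact fun e => c.xb (c.pg.commute_of_J c.hx (c.pg.conj _ _ c.hb) (c.ncQ hg) a.symm e.symm).symm

theorem s_uq {g k : G} (hg : g ∈ QQ D x b) (hk : k ∈ QQ D x b) (h : u g = u k)
    (a : Commute (J g b) b) (a' : Commute (J k b) b) : k = g :=
  (c.ker' f p d hg hk h).resolve_right fun e => c.s_not hg a (e ▸ a')

theorem s_iso {g : G} (hg : g ∈ QQ D x b) (a : Commute (J g b) b) : B (u g) (u g) = 0 := by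
  rcases c.L1 f p d hg a with rfl | ⟨m, hm, a, ha, rfl⟩
  · simp [c.u_one f p d]
  · simp [c.u_gen f p d hm, c.vv f p d hm]

theorem s_add {g k : G} (hg : g ∈ QQ D x b) (hk : k ∈ QQ D x b) (a : Commute (J g b) b)
    (a' : Commute (J k b) b) (r : σ (B (u g) (u k)) = B (u g) (u k)) :
    Commute (J (g * k * XX x (B (u g) (u k))) b) b := by
  have gg := c.sq f p d hg
  have kk := c.sq f p d hk
  rw [c.s_iso f p d hg a, XX_zero] at gg
  rw [c.s_iso f p d hk a', XX_zero] at kk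
  rcases c.L1 f p d hg a with rfl | ⟨m, hm, s, hs, eg⟩
  · simpa [c.u_one f p d] using a'
  rcases c.L1 f p d hk a' with rfl | ⟨n, hn, t, ht, ek⟩
  · simpa [c.u_one f p d] using a
  rw [mul_assoc, J_mul, commute_J_left, inv_of_sq gg]
  have ln : ∀ {m : G} {s : F}, m ∈ MM D x b → s ≠ 0 → J (x * (P m s * m)) b ∈ Ln D b m := by
    intro m s hm hs
    have := J_mem_Ln c.pg.toTG (J x b) (p.mem m hm s)
    rw [c.Jb2 hm, c.pg.br _ (c.pg.conj _ _ c.hb) _ c.hx fun e => c.pg.not_commute_J_left c.xb e.symm,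
      c.pg.JJ c.hx] at this
    rwa [c.Jb hm (p.mem m hm s) (mt (c.Pz f p d hm).1 hs)]
  rcases f.real r with e | e
  · rw [e, XX_zero, mul_one]
    rw [eg, ek, c.u_gen f p d hm, c.u_gen f p d hn] at e
    have mn : Commute m n := (c.perp f p d hm hn).1 (by simpa [hs, ht] using e)
    have y1 := eg ▸ ln hm hs
    have y2 := ek ▸ ln hn ht
    exact (y2.2 _ y1.1 a (y1.2 n hn.1 hn.2.2 mn.symm).symm).symm
  · rw [e, XX_one]
    rw [eg, c.u_gen f p d hm, map_smulₛₗ, LinearMap.smul_apply, smul_eq_mul] at e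
    have e2 : J k m = P m s := by
      rw [c.act1 f p d hk hm, mul_left_cancel₀ (show σ s ≠ 0 by simpa) (e.trans (f.nm hs).symm)]
    rw [eg, (c.Qx hk).eq, J_mul, J_mul, commute_J, J_mul, J_of_commute hm.2.2, ← e2]
    nth_rw 2 [← J_one b]
    rw [← kk, J_mul, J_J, commute_J, commute_J_of' hm.2.2]
    exact a'.symm

end Cx

end Cfsg.Agent.H21.FS
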