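import Mathlib
import Cfsg.Agent.H19.Sm2
import Cfsg.Agent.H2.Fitting
/-! Primitive 3-transposition groups in which `O(⟨D_x⟩)` is not central. -/
set_option autoImplicit false
set_option linter.unusedSectionVars false
set_option linter.unusedVariables false
set_option linter.style.haveILetI false
namespace Cfsg.Agent.H21.TO
open Cfsg Subgroup Cfsg.Agent.H19
variable {G : Type*} [Group G] [Finite G] {D : Set G}

theorem odd_comm {H : Type*} [Group H] [Finite H] {E : Set H} (t : T3 E) {O : Subgroup H} [O.Normal]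
    (hO : Odd (Nat.card O)) {e w u : H} (he : e ∈ E) (hw : w ∈ E) (hu : u ∈ E) (m : e * w ∈ O)
    (ne : u ≠ e) (c : Commute e u) : u ≠ w ∧ Commute w u := by
  have key : u * e ∉ O := fun h => by
    have h1 : (u * e) ^ 2 = 1 := by rw [pow_two]; exact t.mul_sq hu he c.symm
    have h2 : (u * e) ^ Nat.card O = 1 := by
      have := pow_card_eq_one' (G := O) (x := ⟨_, h⟩)
      exact congrArg Subtype.val this
    exact ne ((t.mul_eq_one he).1 (eq_one_of_coprime h1 h2 (Nat.coprime_two_left.2 hO)))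
  have hq : (w : H ⧸ O) = e := by
    rw [eq_comm, QuotientGroup.eq, t.inv he]; exact m
  refine ⟨fun h => key ?_, ?_⟩
  · subst h; rw [← c.eq]; exact m
  · by_contra n
    apply key
    have h1 : ((u * e : H) : H ⧸ O) ^ 2 = 1 := by
      rw [← QuotientGroup.mk_pow, pow_two, t.mul_sq hu he c.symm, QuotientGroup.mk_one]
    have h2 : ((u * e : H) : H ⧸ O) ^ 3 = 1 := by
      rw [QuotientGroup.mk_mul, ← hq, ← QuotientGroup.mk_mul, ← QuotientGroup.mk_pow,
        t.cube hu hw (fun k => n k.symm), QuotientGroup.mk_one]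
    exact (QuotientGroup.eq_one_iff _).1 (eq_one_of_coprime h1 h2 (by norm_num))

theorem exists_W (h : PG D) {d : G} (hd : d ∈ D)
    (hO : ¬ oddCore (closure (Dd D d)) ≤ center (closure (Dd D d))) :
    ∃ e ∈ Dd D d, ∃ w ∈ Dd D d, w ≠ e ∧ ∀ u ∈ Dd D d, (u ∈ Dd D e ↔ u ∈ Dd D w) := by
  have t : T3 (Dd D d) := h.toT3.mono fun _ hy => hy.1
  have g := sub_tg t (h.toTG.cl.dd h.toT3 d)
  haveI : (oddCore (closure (Dd D d))).Normal :=
    haveI := H2.pPrimeCore_characteristic (G := closure (Dd D d)) (p := 2); inferInstance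
  have ho := H2.odd_card_oddCore (G := closure (Dd D d))
  obtain ⟨y, hy, hyc⟩ := SetLike.not_le_iff_exists.1 hO
  obtain ⟨e, he, n⟩ : ∃ e ∈ sub (Dd D d), ¬ Commute y e := by
    by_contra k
    push Not at k
    exact hyc (g.mem_center k)
  have hw := g.conj y e he
  have m : e * J y e ∈ oddCore (closure (Dd D d)) := mul_J_mem' (g.sq e he) hy
  have m' : J y e * e ∈ oddCore (closure (Dd D d)) := by
    have := inv_mem m
    rwa [mul_inv_rev, g.toT3.inv he, g.toT3.inv hw] at this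
  refine ⟨e, he, J y e, hw, fun k => n (J_eq_self.1 (Subtype.ext k)), fun u hu => ⟨fun k => ?_, fun k => ?_⟩⟩
  · have := odd_comm g.toT3 ho he hw (u := ⟨u, subset_closure hu⟩) hu m
      (fun q => k.2.1 (congrArg Subtype.val q)) (commute_coe.2 k.2.2)
    exact ⟨hu.1, fun q => this.1 (Subtype.ext q), commute_coe.1 this.2⟩
  · have := odd_comm g.toT3 ho hw he (u := ⟨u, subset_closure hu⟩) hu m'
      (fun q => k.2.1 (congrArg Subtype.val q)) (commute_coe.2 k.2.2)
    exact ⟨hu.1, fun q => this.1 (Subtype.ext q), commute_coe.1 this.2⟩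

theorem no_tri (h : PG D) {d e w : G} (hd : d ∈ D) (he : e ∈ Dd D d) (hw : w ∈ Dd D d) (ne : w ≠ e)
    (r : ∀ u ∈ Dd D d, (u ∈ Dd D e ↔ u ∈ Dd D w)) {c : G} (hc : c ∈ Dd D d) (hc' : c ∈ Dd D e) :
    False := by
  have t := h.toT3
  have ew : ¬ Commute e w := fun k => ((r w hw).1 ⟨hw.1, ne, k⟩).2.1 rfl
  have yd : ∀ y ∈ Dd D e, ¬ Commute y w → ¬ Commute d y := fun y hy n k => by
    by_cases q : y = d
    · exact n (q ▸ hw.2.2)
    · exact n ((r y ⟨hy.1, q, k⟩).1 hy).2.2.symm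
  have c1 : ∀ y ∈ Dd D e, ¬ Commute y w → ∀ c ∈ Dd D d, c ∈ Dd D e → Commute c y := by
    intro y hy n c hc hc'
    by_contra cy
    have dy := yd y hy n
    have cw : Commute w c := ((r c hc).1 hc').2.2
    have wy : ¬ Commute w y := fun k => n k.symm
    have hb : J y (J w (J d (J c y))) ∈ D := h.conj _ _ (h.conj _ _ (h.conj _ _ (h.conj _ _ hy.1)))
    have b1 : Commute w (J y (J w (J d (J c y)))) :=
      t.d4 hy.1 hw.1 hd hc.1 (h.conj _ _ hw.1) hc.2.2 hw.2.2.symm cw wy dy cy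
    have b2 : Commute d (J y (J w (J d (J c y)))) := by
      have := t.d4 hy.1 hd hw.1 hc.1 (h.conj _ _ hd) cw hw.2.2 hc.2.2 dy wy cy
      rwa [J_comm hw.2.2] at this
    have ea : Commute e (J d (J c y)) :=
      T3.commute_J_both he.2.2.symm (T3.commute_J_both hc'.2.2 hy.2.2)
    have b3 : ¬ Commute e (J y (J w (J d (J c y)))) := fun k => by
      rw [commute_J_of' hy.2.2.symm, ← t.commute_J_swap hw.1] at k
      have k2 := t.commute_of_J hw.1 he.1 (fun q => ew q.symm) ea.symm k.symm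
      rw [commute_J_of hw.2.2, commute_J_of cw.symm] at k2
      exact n k2
    have b4 : J y (J w (J d (J c y))) ≠ w := fun k => by
      rw [t.J_eq_iff hy.1, t.br y hy.1 w hw.1 n, J_inj] at k
      exact t.s4_ne hd hy.1 hc.1 hc.2.1.symm dy cy k
    have b5 : J y (J w (J d (J c y))) ≠ d := fun k => b3 (k.symm ▸ he.2.2.symm)
    exact b3 ((r _ ⟨hb, b5, b2⟩).2 ⟨hb, b4, b1⟩).2.2
  obtain ⟨y0, hy0, n0⟩ := h.W' he.1 hw.1 ew
  have cE : Cl (Dd D e) := h.toTG.cl.dd t e
  have sE : Dd D e ⊆ D := fun _ hy => hy.1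
  have a1 : ∀ y ∈ Dd D e, ¬ Commute y0 y → Commute c y := by
    intro y hy n
    by_cases k : Commute y w
    · have hz : J y y0 ∈ Dd D e := cE _ hy _ hy0
      have nz : ¬ Commute (J y y0) w := by rwa [commute_J_of k]
      rw [← t.J_J_self hy.1 hy0.1 (fun q => n q.symm)]
      exact T3.commute_J_both (c1 _ hy0 n0 c hc hc') (c1 _ hz nz c hc hc')
    · exact c1 y hy k c hc hc'
  have a2 : ∀ z ∈ Dd D e, Commute c z := by
    intro z hz
    by_cases k : Commute y0 z
    · by_cases q : y0 = z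
      · exact q ▸ c1 _ hy0 n0 c hc hc'
      obtain ⟨z', hz', n1, n2⟩ := t.diam2 sE cE hy0 (h.rankD he.1 hy0 hz) q k
      have n3 : ¬ Commute y0 (J z z') := by rwa [commute_J_of' k.symm]
      rw [← t.J_J_self hz.1 hz'.1 n2]
      exact T3.commute_J_both (a1 _ hz' n1) (a1 _ (cE _ hz _ hz') n3)
    · exact a1 z hz k
  obtain ⟨g, hg, e1⟩ := h.rankD he.1 hc' (⟨hd, he.2.1.symm, he.2.2.symm⟩ : d ∈ Dd D e)
  rw [J_of_commute (commute_of_mem_closure a2 hg).symm] at e1
  exact hc.2.1 e1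

/-- products of two points -/
def R (E : Set G) : Subgroup G := closure {g | ∃ a ∈ E, ∃ b ∈ E, a * b = g}

theorem R_le (E : Set G) : R E ≤ closure E := by
  refine (closure_le _).2 ?_
  rintro _ ⟨a, ha, b, hb, rfl⟩
  exact mul_mem (subset_closure ha) (subset_closure hb)

theorem R_p {E : Set G} (t : T3 E) (c : Cl E) (w : W1 E) : IsPGroup 3 (R E) := by
  obtain ⟨P, hP, h1, -⟩ := t.exists_three_group c w
  refine hP.to_le ((closure_le _).2 ?_)
  rintro _ ⟨a, ha, b, hb, rfl⟩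
  exact h1 a ha b hb

theorem R_mul {E : Set G} (t : T3 E) {p : G} (hp : p ∈ R E) : ∀ u ∈ E, ∀ v ∈ E, u * p * v ∈ R E := by
  have g : ∀ a ∈ E, ∀ b ∈ E, a * b ∈ R E := fun a ha b hb => subset_closure ⟨a, ha, b, hb, rfl⟩
  induction hp using closure_induction with
  | mem x hx =>
    obtain ⟨a, ha, b, hb, rfl⟩ := hx
    intro u hu v hv
    have := mul_mem (g u hu a ha) (g b hb v hv)
    simpa only [mul_assoc] using this
  | one => intro u hu v hv; simpa using g u hu v hv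
  | mul x y _ _ h1 h2 =>
    intro u hu v hv
    have := mul_mem (h1 u hu u hu) (h2 u hu v hv)
    simpa only [mul_assoc, t.cancel hu] using this
  | inv x _ h1 =>
    intro u hu v hv
    have := inv_mem (h1 v hv u hu)
    simpa only [mul_inv_rev, t.inv hu, t.inv hv, mul_assoc] using this

theorem card_pow {E : Set G} (t : T3 E) (c : Cl E) (w : W1 E) {d : G} (hd : d ∈ E) :
    ∃ k, E.ncard = 3 ^ k := by
  haveI : Fact (Nat.Prime 3) := ⟨Nat.prime_three⟩
  refine ncard_pow (R_p t c w) (fun g hg => c.J_mem t (R_le E hg)) hd fun x hx => ?_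
  refine ⟨d * x, subset_closure ⟨d, hd, x, hx, rfl⟩, ?_⟩
  by_cases k : Commute x d
  · rw [← w x hx d hd k, J_mul, J_self, J_self]
  · rw [J_mul, t.J_J_self hx hd k]

theorem pl (h : PG D) (w1 : ∀ d ∈ D, W1 (Dd D d)) (two : ∀ e ∈ D, ∀ d ∈ Dd D e, ∃ y ∈ Dd D e, y ≠ d) :
    PL D := by
  haveI : Fact (Nat.Prime 3) := ⟨Nat.prime_three⟩
  have t := h.toT3
  intro e he
  obtain ⟨d, hd⟩ := h.exD he
  have hed : e ∈ Dd D d := ⟨he, hd.2.1.symm, hd.2.2.symm⟩
  have tE : T3 (Dd D d) := t.mono fun _ hy => hy.1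
  have cE : Cl (Dd D d) := h.toTG.cl.dd t d
  have dR : ∀ p ∈ R (Dd D d), Commute d p := fun p hp =>
    commute_of_mem_closure (fun s hs => hs.2.2) (R_le _ hp)
  have nd : ∀ y ∈ Dd D e, y ≠ d → ¬ Commute d y := fun y hy n k => n (w1 e he d hd y hy k).symm
  let T : Subgroup G := R (Dd D d) ⊓ centralizer {e}
  have hT : IsPGroup 3 T := (R_p tE cE (w1 d hd.1)).to_le inf_le_left
  have act : ∀ g ∈ T, ∀ x ∈ Dd D e \ {d}, J g x ∈ Dd D e \ {d} := by
    intro g hg x hx
    have ge : J g e = e := J_of_commute ((mem_centralizer_singleton_iff.1 hg.2 : g * e = e * g))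
    have gd : J g d = d := J_of_commute (dR g hg.1).symm
    refine ⟨ge ▸ J_mem_Dd (h.conj g) hx.1, fun k => hx.2 ?_⟩
    have k' : J g x = d := k
    rw [← gd, J_inj] at k'
    exact k'
  obtain ⟨k, hk⟩ := card_pow (t.mono fun _ hy => hy.1) (h.toTG.cl.dd t e) (w1 e he) hd
  have hc : ¬ 3 ∣ (Dd D e \ {d}).ncard := by
    have h1 := Set.ncard_sdiff_singleton_add_one hd (Set.toFinite _)
    obtain ⟨y, hy, n⟩ := two e he d hd
    have h2 : 0 < (Dd D e \ {d}).ncard := (Set.ncard_pos (Set.toFinite _)).2 ⟨y, hy, n⟩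
    rcases k with _ | k
    · omega
    · rw [pow_succ] at hk; omega
  obtain ⟨y, hy, hf⟩ := exists_fixed hT act hc
  have hy' : J d y ∈ Dd D e := (h.toTG.cl.dd t e) _ hd _ hy.1
  have hf' : ∀ g ∈ T, J g (J d y) = J d y := fun g hg => by
    rw [J_comm (dR g hg.1).symm, hf g hg]
  refine ⟨d, hd, y, hy.1, nd y hy.1 hy.2, Set.Subset.antisymm (fun z hz => ?_) ?_⟩
  · by_cases q : z = d
    · exact .inl q
    have k1 := h.rankA hd.1 hy.1.1 hz.1 (nd y hy.1 hy.2) (nd z hz q)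
    have k2 : ∃ p ∈ R (Dd D d), J p y = z ∨ J p (J d y) = z := by
      refine Cn.induction t (fun _ hy => hy.1) (P := fun z => ∃ p ∈ R (Dd D d), J p y = z ∨ J p (J d y) = z)
        ⟨1, one_mem _, .inl (J_one _)⟩ ?_ k1
      rintro u hu z ⟨p, hp, hz⟩
      by_cases q : u = d
      · subst q
        refine ⟨p, hp, ?_⟩
        rcases hz with rfl | rfl
        · exact .inr (J_comm (dR p hp).symm _)
        · left; rw [J_comm (dR p hp), t.JJ hu.1]
      · refine ⟨u * p * e, R_mul tE hp u ⟨hu.1, q, hu.2⟩ e hed, ?_⟩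
        rcases hz with rfl | rfl
        · left; rw [J_mul, J_mul, J_of_commute hy.1.2.2]
        · right; rw [J_mul, J_mul, J_of_commute hy'.2.2]
    have fix : ∀ y1 ∈ Dd D e, ∀ p ∈ R (Dd D d), J p y1 = z → ∃ g ∈ T, J g y1 = z := by
      intro y1 hy1 p hp e1
      by_cases q : J p e = e
      · exact ⟨p, ⟨hp, mem_centralizer_singleton_iff.2 (J_eq_self.1 q).eq⟩, e1⟩
      have hpe : J p e ∈ Dd D d := cE.J_mem tE (R_le _ hp) e hed
      have n : ¬ Commute e (J p e) := fun k => q (w1 d hd.1 e hed _ hpe k).symm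
      have zpe : Commute z (J p e) := by rw [← e1, commute_J]; exact hy1.2.2.symm
      have hu : J e (J p e) ∈ Dd D d := cE _ hed _ hpe
      refine ⟨J e (J p e) * p * e, ⟨R_mul tE hp _ hu e hed, mem_centralizer_singleton_iff.2
        (J_eq_self.1 ?_).eq⟩, ?_⟩
      · rw [J_mul, J_mul, J_self, t.br _ hu.1 _ hpe.1 (fun k => t.not_commute_J_right he hpe.1 n k.symm),
          t.J_J_self he hpe.1 n]
      · rw [J_mul, J_mul, J_of_commute hy1.2.2, e1]
        exact J_of_commute (T3.commute_J_both hz.2.2.symm zpe).symm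
    obtain ⟨p, hp, e1 | e1⟩ := k2
    · obtain ⟨g, hg, e2⟩ := fix y hy.1 p hp e1
      exact .inr (.inl (by rw [← e2, hf g hg]))
    · obtain ⟨g, hg, e2⟩ := fix _ hy' p hp e1
      exact .inr (.inr (by rw [← e2, hf' g hg]; rfl))
  · rintro z (rfl | rfl | rfl)
    exacts [hd, hy.1, hy']

theorem main (h : PG D) {x : G} (hx : x ∈ D)
    (hO : ¬ oddCore (closure (Dd D x)) ≤ center (closure (Dd D x))) :
    Nonempty (G ≃* Equiv.Perm (Fin 5)) := by
  obtain ⟨e, he, w, hw, ne, r⟩ := exists_W h hx hO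
  have w1 : ∀ d ∈ D, W1 (Dd D d) := by
    intro d hd a ha b hb c
    by_contra n
    obtain ⟨g, g1, g2⟩ := h.pairD hd hx ha he
    exact no_tri h hx he hw ne r (c := J g b) (g1 ▸ J_mem_Dd (h.conj g) hb)
      (g2 ▸ J_mem_Dd (h.conj g) ⟨hb.1, fun k => n k.symm, c⟩)
  have two : ∀ a ∈ D, ∀ d ∈ Dd D a, ∃ y ∈ Dd D a, y ≠ d := by
    intro a ha d hd
    obtain ⟨g, g1, g2⟩ := h.pairD hx ha he hd
    exact ⟨J g w, g1 ▸ J_mem_Dd (h.conj g) hw, fun k => ne (J_inj.1 (k.trans g2.symm))⟩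
  obtain ⟨φ⟩ := (pl h w1 two).s5 h.toT3 h.toTG.cl ⟨x, hx⟩ fun d hd e he r => h.W hd he r
  exact ⟨(topEquiv.symm.trans (MulEquiv.subgroupCongr h.top.symm)).trans φ⟩

end Cfsg.Agent.H21.TO
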