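import Mathlib
import Cfsg.Agent.H21.Fs5
import Cfsg.Agent.H21.TrOdd
import Cfsg.Agent.H11.UBridge
import Cfsg.Agent.H10.SmallIso2

/-! Lines with five points: the unitary groups over the field with four elements. -/

set_option autoImplicit false
set_option linter.unusedSectionVars false
set_option linter.unusedVariables false
set_option linter.style.haveILetI false

namespace Cfsg.Agent.H21.FS

open Cfsg Subgroup Cfsg.Agent.H19 Cfsg.Agent.H11 Module

variable {G : Type*} [Group G]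

/-- the form on the sum of a hyperbolic plane and `U` -/
def BB {F : Type*} [Field F] {σ : F →+* F} {U : Type*} [AddCommGroup U] [Module F U]
    (B : U →ₛₗ[σ] U →ₗ[F] F) : (F × U × F) →ₛₗ[σ] (F × U × F) →ₗ[F] F :=
  LinearMap.mk₂'ₛₗ σ (RingHom.id F) (fun w w' => σ w.1 * w'.2.2 + B w.2.1 w'.2.1 + σ w.2.2 * w'.1)
    (fun _ _ _ => by simp; ring) (fun _ _ _ => by simp; ring) (fun _ _ _ => by simp; ring)
    (fun _ _ _ => by simp; ring)

theorem BB_apply {F : Type*} [Field F] {σ : F →+* F} {U : Type*} [AddCommGroup U] [Module F U]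
    (B : U →ₛₗ[σ] U →ₗ[F] F) (w w' : F × U × F) :
    BB B w w' = σ w.1 * w'.2.2 + B w.2.1 w'.2.1 + σ w.2.2 * w'.1 := rfl

namespace Cx

variable [Finite G] {D : Set G} {x b : G} (c : Cx D x b)
  {F : Type*} [Field F] {σ : F →+* F} {ω : F} (f : F4 σ ω)
  {P : G → F → G} (p : Par D x b P) {U : Type*} [AddCommGroup U] [Module F U] {u v : G → U}
  {B : U →ₛₗ[σ] U →ₗ[F] F} (d : Dat σ D x b P u v B)
include c f p d

theorem exists_sec : ∃ S : U → G, (∀ w, S w ∈ QQ D x b) ∧ (∀ w, u (S w) = w) ∧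
    (∀ w w', S (w + w') = S w * S w' * XX x (B w w' + ω * (B w w' + σ (B w w')))) ∧
    ∀ g ∈ QQ D x b, Commute (J g b) b → S (u g) = g := by
  classical
  let l : F → F := fun a => a + ω * (a + σ a)
  have lr : ∀ a, σ (l a) = l a := fun a => by
    simp only [l, map_add, map_mul, f.invol, f.sw]
    linear_combination f.add_self (σ a)
  have la : ∀ a s, l (a + s) = l a + l s := fun a s => by simp only [l, map_add]; ring
  have l1 : ∀ a, σ a = a → l a = a := fun a h => by simp [l, h, f.add_self]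
  have l0 : l 0 = 0 := l1 0 (map_zero σ)
  have uX : ∀ (g : QQ D x b) (s : F), u (g * XX x s) = u g := fun g s => by
    rw [d.mul _ g.2 _ (c.XX_mem s), c.u_XX f p d, add_zero]
  letI : Add (QQ D x b) := ⟨fun g k => ⟨g * k * XX x (l (B (u g) (u k))),
    mul_mem (mul_mem g.2 k.2) (c.XX_mem _)⟩⟩
  letI : Zero (QQ D x b) := ⟨1⟩
  letI : Neg (QQ D x b) := ⟨id⟩
  have ad : ∀ g k : QQ D x b, ((g + k : QQ D x b) : G) = g * k * XX x (l (B (u g) (u k))) :=
    fun _ _ => rfl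
  have ua : ∀ g k : QQ D x b, u (g + k : QQ D x b) = u g + u k := fun g k => by
    rw [ad, ← coe_mul, uX, coe_mul, d.mul _ g.2 _ k.2]
  have s2 : ∀ g : QQ D x b, g + g = 0 := fun g => Subtype.ext (by
    rw [ad, c.sq f p d g.2, l1 _ (d.herm _ _), ← c.XX_add f (d.herm _ _) (d.herm _ _), f.add_self,
      XX_zero]; rfl)
  letI : AddGroup (QQ D x b) := AddGroup.ofLeftAxioms (fun g k r => Subtype.ext (by
      rw [ad (g + k), ad g (k + r), ua, ua, ad, ad, mul_assoc (g * k : G), ← (XX_comm (c.Qx r.2) _).eq, mul_assoc,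
        mul_assoc, mul_assoc, mul_assoc, mul_assoc, mul_assoc, ← c.XX_add f (lr _) (lr _),
        ← c.XX_add f (lr _) (lr _), ← la, ← la]
      congr 5
      simp only [map_add, LinearMap.add_apply]
      ring))
    (fun g => Subtype.ext (by
      rw [ad, show ((0 : QQ D x b) : G) = 1 from rfl, c.u_one f p d, map_zero, LinearMap.zero_apply, l0,
        XX_zero, one_mul, mul_one])) s2
  letI : AddCommGroup (QQ D x b) := { (inferInstance : AddGroup (QQ D x b)) with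
    add_comm := fun g k => Subtype.ext (by
      rw [ad, ad, d.comm _ g.2 _ k.2, mul_assoc, ← c.XX_add f (f.tr_real _) (lr _), ← d.herm (u k)]
      congr 2
      simp only [l, f.invol]
      linear_combination f.add_self (σ (B (u k) (u g)))) }
  let ζ : F → ZMod 2 := fun a => if a = 0 then 0 else 1
  have ζa : ∀ a s, σ a = a → σ s = s → ζ (a + s) = ζ a + ζ s := fun a s ha hs => by
    rcases f.real ha with rfl | rfl <;> rcases f.real hs with rfl | rfl <;> simp [ζ, f.add_self, z2s]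
  have ζ0 : ∀ a, ζ a = 0 → a = 0 := fun a h => by
    by_contra k; simp [ζ, k] at h
  have : ∀ w, B w w = 0 → ∃ g : QQ D x b, u g = w ∧ Commute (J (g : G) b) b := fun w h => by
    obtain ⟨g, hg, k⟩ := c.s_ex f p d h
    exact ⟨⟨g, hg⟩, k⟩
  choose! δ h1 h2 using this
  obtain ⟨m, hm⟩ := c.exM
  obtain ⟨n, hn, mn, -⟩ := c.nb m hm m hm
  obtain ⟨q, q1, q2⟩ : ∃ q, B (v m) q = 1 ∧ B q q = 0 := ⟨(B (v m) (v n))⁻¹ • v n, by
    rw [map_smul, smul_eq_mul, inv_mul_cancel₀ (mt (c.perp f p d hm hn).1 mn)], by simp [c.vv f p d hn]⟩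
  have q3 : B q (v m) = 1 := by rw [← d.herm, q1, map_one]
  have q4 := c.vv f p d hm
  have w1 : ω + (ω + 1) ≠ 0 := by rw [← add_assoc, f.add_self, zero_add]; exact one_ne_zero
  have w2 : ω + 1 + ω ≠ 0 := add_comm ω (ω + 1) ▸ w1
  have w3 : ω * (ω + 1) = 1 := by linear_combination f.w + f.add_self ω
  have w4 : ω + 1 + 1 = ω := by rw [add_assoc, f.add_self, add_zero]
  obtain ⟨S, hS, hS'⟩ := ext_lin (c.U2 f p d) s2 (fun w => ζ (B w w)) (fun w w' => ζ (B w w' + σ (B w w')))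
    (fun a s w => by
      rw [← ζa _ _ (f.tr_real _) (f.tr_real _)]
      congr 1
      simp only [map_add, LinearMap.add_apply]
      ring)
    (fun a s => by
      rw [← ζa _ _ (d.herm _ _) (d.herm _ _), ← ζa _ _ (by rw [map_add, d.herm, d.herm]) (f.tr_real _),
        d.herm]
      congr 1
      simp only [map_add, LinearMap.add_apply]
      ring) δ
    (fun w w' a a' a'' => by
      have k := ζ0 _ a
      have k' := ζ0 _ a'
      have k'' := ζ0 _ a''
      have r : σ (B w w') = B w w' := by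
        simp only [map_add, LinearMap.add_apply, k, k'] at k''
        rw [d.herm]
        linear_combination k'' - f.add_self (B w w')
      refine Subtype.ext (c.s_uq f p d (δ w + δ w').2 (δ (w + w')).2 (by rw [ua, h1 _ k, h1 _ k', h1 _ k''])
        ?_ (h2 _ k''))
      rw [ad, l1 _ (by rwa [h1 _ k, h1 _ k'])]
      exact c.s_add f p d (δ w).2 (δ w').2 (h2 _ k) (h2 _ k') (by rwa [h1 _ k, h1 _ k']))
    (p := v m) (p' := ω • q) (r := ω • v m) (r' := q) (by simp [ζ, q4]) (by simp [ζ, q2])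
    (by simp [ζ, q4]) (by simp [ζ, q2]) (by simp [ζ, q1, f.sw, w1]) (by simp [ζ, q1, f.sw, w2, w4])
    (by simp [ζ, q4]) (by simp [ζ, q1, f.sw, w3, f.add_self]) (by simp [ζ, q3, f.add_self])
    (by simp [ζ, q2])
  have S0 : S 0 = 0 := by simpa using hS 0 0
  have uS : ∀ w, u (S w) = w := fun w => by
    obtain ⟨g, hg, rfl⟩ := d.surj w
    refine c.Q_ind (p := fun g => u (S (u g)) = u g) ?_ ?_ (fun m hm e he ne => ?_)
      (fun g hg k hk a b => by rw [d.mul g hg k hk, hS, ua, a, b]) hg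
    · rw [c.u_one f p d, S0]; exact c.u_one f p d
    · rw [d.ux, S0]; exact c.u_one f p d
    · obtain ⟨a, rfl⟩ := p.surj m hm e he ne
      have : B (u (P m a * m)) (u (P m a * m)) = 0 := by simp [d.ut m hm, c.vv f p d hm]
      rw [hS' _ (by simp [ζ, this]), h1 _ this]
  refine ⟨fun w => S w, fun w => (S w).2, uS, fun w w' => by simp only [hS, ad, uS, l],
    fun g hg k => ?_⟩
  have := c.s_iso f p d hg k
  simp only
  rw [hS' _ (by simp [ζ, this])]
  exact c.s_uq f p d hg (δ _).2 (h1 _ this).symm k (h2 _ this)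

theorem exists_cc : ∃ cc : G → F,
    (∀ g ∈ QQ D x b, ∀ k ∈ QQ D x b, cc (g * k) = cc g + cc k + B (u g) (u k)) ∧ cc x = 1 ∧
    (∀ g ∈ QQ D x b, cc g + σ (cc g) = B (u g) (u g)) ∧
    ∀ g ∈ QQ D x b, Commute (J g b) b ↔ cc g = 0 := by
  obtain ⟨S, h1, h2, h3, h4⟩ := c.exists_sec f p d
  have : ∀ g, g ∈ QQ D x b → ∃ s : F, σ s = s ∧ g = S (u g) * XX x s := fun g hg => by
    rcases c.ker' f p d (h1 (u g)) hg (h2 _) with e | e
    · exact ⟨0, map_zero σ, by simpa using e⟩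
    · exact ⟨1, map_one σ, by simpa using e⟩
  choose! χ r1 r2 using this
  have uq : ∀ g ∈ QQ D x b, ∀ s, σ s = s → g = S (u g) * XX x s → χ g = s := fun g hg s hs e =>
    c.XX_inj f (r1 g hg) hs (mul_left_cancel ((r2 g hg).symm.trans e))
  have tr : ∀ g ∈ QQ D x b, B (u g) (u g) * ω + χ g + σ (B (u g) (u g) * ω + χ g) = B (u g) (u g) :=
    fun g hg => by
      rw [map_add, map_mul, d.herm, r1 g hg, f.sw]
      linear_combination f.add_self (B (u g) (u g) * ω + χ g)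
  have S0 : S 0 = 1 := by
    have := h4 1 (one_mem _) (by simp)
    rwa [c.u_one f p d] at this
  refine ⟨fun g => B (u g) (u g) * ω + χ g, fun g hg k hk => ?_, ?_, tr, fun g hg => ⟨fun k => ?_, fun k => ?_⟩⟩
  · have lr : σ (B (u g) (u k) + ω * (B (u g) (u k) + σ (B (u g) (u k)))) =
        B (u g) (u k) + ω * (B (u g) (u k) + σ (B (u g) (u k))) := by
      simp only [map_add, map_mul, f.invol, f.sw]
      linear_combination f.add_self (σ (B (u g) (u k)))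
    have := uq _ (mul_mem hg hk) (B (u g) (u k) + ω * (B (u g) (u k) + σ (B (u g) (u k))) + (χ g + χ k))
      (by rw [map_add, lr, map_add, r1 g hg, r1 k hk]) (by
        rw [d.mul g hg k hk, h3, mul_assoc, ← c.XX_add f lr (by rw [map_add, lr, map_add, r1 g hg, r1 k hk]),
          ← add_assoc, f.add_self, zero_add, c.XX_add f (r1 g hg) (r1 k hk), mul_assoc,
          ← mul_assoc (S (u k)), (XX_comm (c.Qx (h1 _)) _).eq, mul_assoc, ← r2 k hk, ← mul_assoc,
          ← r2 g hg])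
    simp only [this, d.mul g hg k hk, map_add, LinearMap.add_apply, d.herm]
    linear_combination f.add_self (ω * (B (u g) (u k) + B (u k) (u g)))
  · simp [d.ux, uq x c.x_mem 1 (map_one σ) (by simp [d.ux, S0])]
  · simp [c.s_iso f p d hg k, uq g hg 0 (map_zero σ) (by simp [h4 g hg k])]
  · have e := tr g hg
    simp only at k
    rw [k, map_zero, add_zero] at e
    rw [← e, zero_mul, zero_add] at k
    obtain ⟨g', hg', e1, e2⟩ := c.s_ex f p d e.symm
    rwa [r2 g hg, k, XX_zero, mul_one, ← e1, h4 g' hg' e2]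

theorem hl {z : G} (hz : z ∈ D) (h : ∀ y ∈ D, Commute y x → Commute y b → Commute y z) :
    z = x ∨ z = b ∨ z = J x b := by
  by_cases k : Commute x z
  · left
    by_contra ne
    obtain ⟨m, hm, k'⟩ := c.mu hz ne k.symm
    obtain ⟨n, hn, mn, -⟩ := c.nb m hm m hm
    exact mn ((c.tr hm k' ne hn.1 hn.2.1).1 (h n hn.1 hn.2.1 hn.2.2)).symm
  obtain ⟨g, hg, rfl⟩ := c.Q_trans hz k
  suffices u g = 0 by rcases c.ker f p d hg this with rfl | rfl <;> simp
  refine d.sep _ fun m hm => ?_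
  have := commute_J_left.1 (h m hm.1 hm.2.1 hm.2.2).symm
  rw [c.act1 f p d (inv_mem hg) hm] at this
  rw [← c.u_inv f p d hg, ← c.Pz f p d hm]
  exact c.eq_m hm (p.mem m hm _) this.symm

theorem model0 : ∃ ψ : G → F × U × F, (∀ a ∈ D, ψ a ≠ 0) ∧
    (∀ a ∈ D, ∀ a' ∈ D, Commute a a' ↔ BB B (ψ a) (ψ a') = 0) ∧
    ∀ w, w ≠ 0 → BB B w w = 0 → ∃ a ∈ D, ∃ s : F, s ≠ 0 ∧ w = s • ψ a := by
  obtain ⟨cc, c1, c2, c3, c4⟩ := c.exists_cc f p d
  let R : G → F × U × F → Prop := fun a w => (a = x ∧ w = (1, 0, 0)) ∨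
    (∃ m ∈ MM D x b, ∃ s, a = P m s ∧ w = (σ s, v m, 0)) ∨ ∃ g ∈ QQ D x b, a = J g b ∧ w = (cc g, u g, 1)
  have ex : ∀ a, a ∈ D → ∃ w, R a w := fun a ha => by
    by_cases e : a = x
    · exact ⟨_, .inl ⟨e, rfl⟩⟩
    by_cases k : Commute x a
    · obtain ⟨m, hm, k'⟩ := c.mu ha e k.symm
      obtain ⟨s, rfl⟩ := p.surj m hm a k' e
      exact ⟨_, .inr (.inl ⟨m, hm, s, rfl, rfl⟩)⟩
    · obtain ⟨g, hg, rfl⟩ := c.Q_trans ha k
      exact ⟨_, .inr (.inr ⟨g, hg, rfl, rfl⟩)⟩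
  choose! ψ hψ using ex
  have px : ∀ m ∈ MM D x b, ∀ s, Commute x (P m s) := fun m hm s => (c.cx hm (p.mem m hm s)).symm
  have fn : ∀ a w w', R a w → R a w' → w = w' := by
    rintro a w w' (⟨e, rfl⟩ | ⟨m, hm, s, e, rfl⟩ | ⟨g, hg, e, rfl⟩)
      (⟨e', rfl⟩ | ⟨m', hm', s', e', rfl⟩ | ⟨g', hg', e', rfl⟩)
    · rfl
    · exact absurd (e'.symm.trans e) (p.ne _ hm' _)
    · exact absurd (by rw [← e', e]) (c.ncQ hg')
    · exact absurd (e.symm.trans e') (p.ne _ hm _)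
    · obtain rfl := c.eq_line hm hm' (p.mem m hm s) (by rw [← e, e']; exact p.mem _ hm' _) (p.ne _ hm _)
      rw [p.inj _ hm (e.symm.trans e')]
    · exact absurd (by rw [← e', e]; exact px _ hm _) (c.ncQ hg')
    · exact absurd (by rw [← e, e']) (c.ncQ hg)
    · exact absurd (by rw [← e, e']; exact px _ hm' _) (c.ncQ hg)
    · rw [inv_mul_eq_one.1 (c.semi f p d (mul_mem (inv_mem hg) hg') c.hb c.xb
        (by rw [← J_eq_self, J_mul, ← e', e, J_inv_J]))]
  have da : ∀ m ∈ MM D x b, ∀ s, ∀ g ∈ QQ D x b, Commute (P m s) (J g b) ↔ s + B (v m) (u g) = 0 :=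
    fun m hm s g hg => by
      rw [Commute.symm_iff, commute_J_left, d.act _ (inv_mem hg) m hm, c.u_inv f p d hg, ← c.Pz f p d hm]
      exact ⟨fun k => c.eq_m hm (p.mem m hm _) k.symm, fun k => by rw [k]; exact hm.2.2.symm⟩
  have ci : ∀ g ∈ QQ D x b, cc g⁻¹ = σ (cc g) := fun g hg => by
    have e1 := c1 _ (inv_mem hg) _ hg
    have e2 := c1 1 (one_mem _) 1 (one_mem _)
    rw [inv_mul_cancel, c.u_inv f p d hg, ← c3 g hg] at e1
    simp only [c.u_one f p d, map_zero, mul_one, add_zero, left_eq_add] at e2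
    linear_combination e2 - e1 - f.add_self (cc g + σ (cc g))
  have cm : ∀ a w a' w', R a w → R a' w' → (Commute a a' ↔ BB B w w' = 0) := by
    rintro a w a' w' (⟨rfl, rfl⟩ | ⟨m, hm, s, rfl, rfl⟩ | ⟨g, hg, rfl, rfl⟩)
      (⟨rfl, rfl⟩ | ⟨m', hm', s', rfl, rfl⟩ | ⟨g', hg', rfl, rfl⟩) <;> rw [BB_apply]
    · simp
    · simpa using px _ hm' _
    · simpa using c.ncQ hg'
    · simpa using (px _ hm _).symm
    · rw [c.tr hm' (p.mem _ hm' _) (p.ne _ hm' _) (p.mem _ hm _).1 (px _ hm _).symm, Commute.symm_iff,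
        c.tr hm (p.mem _ hm _) (p.ne _ hm _) hm'.1 hm'.2.1, Commute.symm_iff, ← c.perp f p d hm hm']
      simp
    · simp [da m hm s g' hg', f.invol]
    · simpa using fun k => c.ncQ hg (Commute.symm k)
    · rw [Commute.symm_iff, da m' hm' s' g hg, ← map_eq_zero σ, map_add, d.herm]
      simp [add_comm]
    · rw [Commute.symm_iff, ← commute_J (g := g⁻¹), J_inv_J, ← J_mul, c4 _ (mul_mem (inv_mem hg) hg'),
        c1 _ (inv_mem hg) _ hg', c.u_inv f p d hg, ci g hg]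
      simp [add_right_comm]
  refine ⟨ψ, fun a ha => ?_, fun a ha a' ha' => cm _ _ _ _ (hψ a ha) (hψ a' ha'), ?_⟩
  · rcases hψ a ha with ⟨-, e⟩ | ⟨m, hm, s, -, e⟩ | ⟨g, hg, -, e⟩ <;> rw [e]
    · simp
    · simp [c.v_ne f p d hm]
    · simp
  suffices ∀ w, w ≠ 0 → BB B w w = 0 → ∃ a ∈ D, ∃ w', R a w' ∧ ∃ s : F, s ≠ 0 ∧ w = s • w' by
    intro w h1 h2
    obtain ⟨a, ha, w', r, s, hs, e⟩ := this w h1 h2
    exact ⟨a, ha, s, hs, by rw [e, fn _ _ _ r (hψ a ha)]⟩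
  rintro ⟨α, w, β⟩ h1 h2
  rw [BB_apply] at h2
  simp only at h2
  by_cases hβ : β = 0
  · subst hβ
    obtain ⟨g, hg, rfl, k⟩ := c.s_ex f p d (w := w) (by simpa using h2)
    rcases c.L1 f p d hg k with rfl | ⟨m, hm, s, hs, rfl⟩
    · exact ⟨x, c.hx, _, .inl ⟨rfl, rfl⟩, α, fun e => h1 (by simp [e, c.u_one f p d]),
        by simp [c.u_one f p d]⟩
    · exact ⟨_, (p.mem m hm (σ (α / s))).1, _, .inr (.inl ⟨m, hm, _, rfl, rfl⟩), s, hs, by
        simp [c.u_gen f p d hm, f.invol, mul_div_cancel₀ _ hs]⟩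
  · obtain ⟨g, hg, e⟩ := d.surj (β⁻¹ • w)
    have e1 : w = β • u g := by rw [e, smul_smul, mul_inv_cancel₀ hβ, one_smul]
    obtain ⟨γ, rfl⟩ : ∃ γ, α = β * γ := ⟨α / β, by field_simp⟩
    have e2 : σ (γ + cc g) = γ + cc g := by
      have := c3 g hg
      have nm := f.nm hβ
      simp only [e1, map_smulₛₗ, LinearMap.smul_apply, smul_eq_mul, map_mul, RingHom.id_apply] at h2
      rw [map_add]
      linear_combination h2 + this - (σ γ + γ + B (u g) (u g)) * nm - f.add_self (γ + cc g)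
    rcases f.real e2 with k | k
    · exact ⟨_, c.pg.conj g _ c.hb, _, .inr (.inr ⟨g, hg, rfl, rfl⟩), β, hβ, by
        simp [e1, show γ = cc g by linear_combination k - f.add_self (cc g)]⟩
    · refine ⟨_, c.pg.conj (g * x) _ c.hb, _, .inr (.inr ⟨_, mul_mem hg c.x_mem, rfl, rfl⟩), β, hβ, ?_⟩
      simp [e1, c1 g hg x c.x_mem, d.mul g hg x c.x_mem, d.ux, c2,
        show γ = cc g + 1 by linear_combination k - f.add_self (cc g)]

theorem BB_sep : (BB B).SeparatingLeft := by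
  rintro ⟨α, w, β⟩ h
  have e1 := h (0, 0, 1)
  have e2 := h (1, 0, 0)
  have e3 : w = 0 := d.sep w fun m hm => by
    have := h (0, v m, 0)
    rw [← d.herm]
    simpa [BB_apply] using this
  simp only [BB_apply] at e1 e2
  simp_all

theorem BB_rank [FiniteDimensional F U] : 4 ≤ finrank F (F × U × F) := by
  obtain ⟨m, hm⟩ := c.exM
  obtain ⟨n, hn, mn, -⟩ := c.nb m hm m hm
  have : LinearIndependent F ![v m, v n] := LinearIndependent.pair_iff.2 fun s t e => by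
    have e1 := congrArg (B (v m)) e
    have e2 := congrArg (B (v n)) e
    have k1 := mt (c.perp f p d hm hn).1 mn
    have k2 := mt (c.perp f p d hn hm).1 fun k => mn k.symm
    simp only [map_add, map_smul, map_zero, c.vv f p d hm, c.vv f p d hn, smul_eq_mul, mul_zero,
      zero_add, add_zero, mul_eq_zero, k1, k2, or_false] at e1 e2
    exact ⟨e2, e1⟩
  have := this.fintype_card_le_finrank
  simp only [Module.finrank_prod, Module.finrank_self, Fintype.card_fin] at this ⊢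
  omega

end Cx

variable [Finite G] {D : Set G} (h : PG D)
include h

theorem u_model (t : Th D 5) (hZ : center G = ⊥) {F : Type} [Field F] {σ : F →+* F} {ω : F}
    (f : F4 σ ω) (q : QConj σ 2) : HL D ∧ ∃ (n : ℕ) (ψ : G → Fin n → F), 4 ≤ n ∧ (∀ a ∈ D, ψ a ≠ 0) ∧
    (∀ a ∈ D, ∀ a' ∈ D, Commute a a' ↔ hermB (Fin n) σ (ψ a) (ψ a') = 0) ∧
    ∀ w, w ≠ 0 → hermB (Fin n) σ w w = 0 → ∃ a ∈ D, ∃ s : F, s ≠ 0 ∧ w = s • ψ a := by
  refine ⟨fun x hx b hb xb z hz k => ?_, ?_⟩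
  · have c : Cx D x b := ⟨h, t, hZ, hx, hb, xb⟩
    obtain ⟨U, P, u, v, B, p, d⟩ := c.exists_dat f
    exact c.hl f p d hz k
  obtain ⟨x, hx, -⟩ := h.wide
  obtain ⟨b, hb, xb⟩ := h.exA hx
  have c : Cx D x b := ⟨h, t, hZ, hx, hb, xb⟩
  obtain ⟨U, P, u, v, B, p, d⟩ := c.exists_dat f
  obtain ⟨ψ, h1, h2, h3⟩ := c.model0 f p d
  haveI := q.finite
  have hh : IsHerm (BB B) := ⟨q.ne_id, q.invol, fun w w' => by
    simp only [BB_apply, map_add, map_mul, f.invol, d.herm]; ring⟩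
  obtain ⟨e, he⟩ := hh.exists_equiv (c.BB_sep f p d) (q.isHerm (Fin (finrank F (F × U × F))))
    (hermB_sep _) (by simp)
  refine ⟨_, fun a => e (ψ a), c.BB_rank f p d, fun a ha => by simpa using h1 a ha,
    fun a ha a' ha' => by rw [he, h2 a ha a' ha'], fun w hw k => ?_⟩
  obtain ⟨a, ha, s, hs, k⟩ := h3 (e.symm w) (by simpa) (by rw [← he]; simpa)
  exact ⟨a, ha, s, hs, by rw [← map_smul, ← k, e.apply_symm_apply]⟩

theorem u_main (t : Th D 5) (hZ : center G = ⊥) {F : Type} [Field F] [Fintype F]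
    (hF : Fintype.card F = 2 ^ 2) : ∃ n : ℕ, 4 ≤ n ∧ Nonempty (G ≃* PSU n F 2) ∧
    (6 ≤ n → ∃ x ∈ D, ∃ a b c d, Ch (Dd D x) a b c d) := by
  obtain ⟨ω, f⟩ := exists_F4 hF
  have q := qConj_conjQ hF
  obtain ⟨hl, n, ψ, n4, h1, h2, h3⟩ := u_model h t hZ f q
  set σ := conjQ hF
  have hh := q.isHerm (Fin n)
  have c := c2_herm q hh (hermB_sep _)
  have k : (1 : F) + σ 1 = 0 := by rw [map_one, f.add_self]
  have iso : ∀ a ∈ D, hermB (Fin n) σ (ψ a) (ψ a) = 0 := fun a ha => (h2 a ha a ha).1 (Commute.refl a)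
  refine ⟨n, n4, ?_, fun n6 => ?_⟩
  · obtain ⟨g, -, -⟩ := tclass_iff.1 (u_class q hh (hermB_sep _) (by simpa))
    have : ∀ a, a ∈ D → ∃ s : SIsom (hermB (Fin n) σ), Elm (hermB (Fin n) σ) s.1.1 (ψ a) := fun a ha =>
      ⟨⟨hh.trv (iso a ha) k, hh.eich_mem_sisom _ _ _⟩, el_trv q hh (iso a ha) k⟩
    choose! T hT using this
    have cm : ∀ a ∈ D, ∀ a' ∈ D, Commute a a' ↔ Commute (T a) (T a') := fun a ha a' ha' => by
      rw [h2 a ha a' ha', commute_coe, commute_coe,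
        Elm.commute_iff c (hT a ha) (hT a' ha') (iso a ha) (iso a' ha')]
    obtain ⟨e⟩ := kei2 h.toTG g T ⟨fun a ha => ⟨_, ⟨h1 a ha, iso a ha⟩, hT a ha⟩,
      fun a ha a' ha' e => h.V ha' ha fun y hy => by rw [cm a ha y hy, cm a' ha' y hy, e],
      fun s ⟨w, hw, k⟩ => by
        obtain ⟨a, ha, r, hr, rfl⟩ := h3 w hw.1 hw.2
        exact ⟨a, ha, Subtype.ext (Subtype.ext (((hT a ha).smul c hr).ext k))⟩⟩ cm hl hZ
    exact ⟨e.trans (psuEquiv q n).symm⟩
  · obtain ⟨k, rfl⟩ : ∃ k, n = k + 6 := ⟨n - 6, by omega⟩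
    let E : (Fin 6 → F) → Fin (k + 6) → F := fun w => Fin.append (0 : Fin k → F) w
    have hE : ∀ w w', hermB _ σ (E w) (E w') = hermB _ σ w w' := fun w w' => by
      simp [E, hermB_apply, Fin.sum_univ_add]
    have pt : ∀ w : Fin 6 → F, w ≠ 0 → hermB _ σ w w = 0 → ∃ a ∈ D, ∃ s : F, s ≠ 0 ∧ ψ a = s • E w :=
      fun w hw e => by
        obtain ⟨a, ha, s, hs, e⟩ := h3 (E w) (fun e => hw (funext fun i => by
          simpa [E] using congrFun e (Fin.natAdd k i))) (by rw [hE, e])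
        exact ⟨a, ha, s⁻¹, inv_ne_zero hs, by rw [e, smul_smul, inv_mul_cancel₀ hs, one_smul]⟩
    have cm : ∀ a ∈ D, ∀ a' ∈ D, ∀ (s s' : F) w w', s ≠ 0 → s' ≠ 0 → ψ a = s • E w → ψ a' = s' • E w' →
        (Commute a a' ↔ hermB _ σ w w' = 0) := fun a ha a' ha' s s' w w' hs hs' e e' => by
      rw [h2 a ha a' ha', e, e']
      simp [hE, hs, hs']
    have w1 : ω + 1 ≠ 0 := fun k => f.w1 (by linear_combination k - f.two)
    have w2 : 1 + ω ≠ 0 := add_comm ω 1 ▸ w1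
    have w3 : 1 + (ω + 1) * ω = 0 := by linear_combination f.w + f.add_self (ω + 1)
    have w4 : 1 + (ω + 1) ≠ 0 := by rw [add_left_comm, f.add_self, add_zero]; exact f.w0
    have w5 : (1 : F) + 1 + 1 + 1 = 0 := by linear_combination 2 * f.two
    obtain ⟨x, hx, sx, nx, ex⟩ := pt ![0, 0, 0, 0, 1, 1] (fun k => by simpa using congrFun k 4)
      (by simp [hermB_apply, Fin.sum_univ_six, f.add_self])
    obtain ⟨y, hy, sy, ny, ey⟩ := pt ![0, 0, 0, 0, 1, ω] (fun k => by simpa using congrFun k 4)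
      (by simp [hermB_apply, Fin.sum_univ_six, f.sw, w3])
    obtain ⟨a, ha, sa, na, ea⟩ := pt ![1, 1, 0, 0, 0, 0] (fun k => by simpa using congrFun k 0)
      (by simp [hermB_apply, Fin.sum_univ_six, f.add_self])
    obtain ⟨b, hb, sb, nb, eb⟩ := pt ![1, ω, 0, 0, 0, 0] (fun k => by simpa using congrFun k 0)
      (by simp [hermB_apply, Fin.sum_univ_six, f.sw, w3])
    obtain ⟨c, hc, sc, nc, ec⟩ := pt ![1, 1, 1, 1, 0, 0] (fun k => by simpa using congrFun k 0)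
      (by simp [hermB_apply, Fin.sum_univ_six, w5])
    obtain ⟨d, hd, sd, nd, ed⟩ := pt ![0, 0, 1, ω, 0, 0] (fun k => by simpa using congrFun k 2)
      (by simp [hermB_apply, Fin.sum_univ_six, f.sw, w3])
    have ne : ∀ z, Commute z y → z ≠ x := fun z k e => by
      rw [e, cm _ hx _ hy _ _ _ _ nx ny ex ey] at k
      simp [hermB_apply, Fin.sum_univ_six, w2] at k
    refine ⟨x, hx, a, b, c, d, ⟨ha, ne _ ((cm _ ha _ hy _ _ _ _ na ny ea ey).2 ?_),
      (cm _ hx _ ha _ _ _ _ nx na ex ea).2 ?_⟩, ⟨hb, ne _ ((cm _ hb _ hy _ _ _ _ nb ny eb ey).2 ?_),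
      (cm _ hx _ hb _ _ _ _ nx nb ex eb).2 ?_⟩, ⟨hc, ne _ ((cm _ hc _ hy _ _ _ _ nc ny ec ey).2 ?_),
      (cm _ hx _ hc _ _ _ _ nx nc ex ec).2 ?_⟩, ⟨hd, ne _ ((cm _ hd _ hy _ _ _ _ nd ny ed ey).2 ?_),
      (cm _ hx _ hd _ _ _ _ nx nd ex ed).2 ?_⟩, mt (cm _ ha _ hb _ _ _ _ na nb ea eb).1 ?_,
      mt (cm _ hb _ hc _ _ _ _ nb nc eb ec).1 ?_, mt (cm _ hc _ hd _ _ _ _ nc nd ec ed).1 ?_,
      (cm _ ha _ hc _ _ _ _ na nc ea ec).2 ?_, (cm _ ha _ hd _ _ _ _ na nd ea ed).2 ?_,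
      (cm _ hb _ hd _ _ _ _ nb nd eb ed).2 ?_⟩ <;>
    simp [hermB_apply, Fin.sum_univ_six, f.sw, f.add_self, w2, w4]

theorem main (hZ : center G = ⊥) {x : G} (hx : x ∈ D)
    (hO : ¬ pCore 2 (closure (Dd D x)) ≤ center (closure (Dd D x))) {F : Type} [Field F] [Fintype F]
    (hF : Fintype.card F = 2 ^ 2) :
    (∃ n : ℕ, 2 ≤ n ∧ Nonempty (G ≃* Matrix.symplecticGroup (Fin n) (ZMod 2)) ∧
      (3 ≤ n → ∃ x ∈ D, ∃ a b c d, Ch (Dd D x) a b c d)) ∨
    ∃ n : ℕ, 4 ≤ n ∧ Nonempty (G ≃* PSU n F 2) ∧ (6 ≤ n → ∃ x ∈ D, ∃ a b c d, Ch (Dd D x) a b c d) := by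
  obtain ⟨n, h3, t⟩ := exists_th h hx hO
  rcases le_five h h3 t with rfl | rfl
  · exact .inl (sp_main h t hZ)
  · exact .inr (u_main h t hZ hF)

omit h [Finite G] in
theorem Ch.conj {x a b c d : G} (h : TG D) (k : Ch (Dd D x) a b c d) (g : G) :
    Ch (Dd D (J g x)) (J g a) (J g b) (J g c) (J g d) :=
  ⟨J_mem_Dd (h.conj g) k.ha, J_mem_Dd (h.conj g) k.hb, J_mem_Dd (h.conj g) k.hc,
    J_mem_Dd (h.conj g) k.hd, mt commute_J.1 k.ab, mt commute_J.1 k.bc, mt commute_J.1 k.cd,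
    commute_J.2 k.ac, commute_J.2 k.ad, commute_J.2 k.bd⟩

theorem solv_main (hZ : center G = ⊥) {x : G} (hx : x ∈ D) (hs : Group.IsSolvable (closure (Dd D x)))
    {F : Type} [Field F] [Fintype F] (hF : Fintype.card F = 2 ^ 2) :
    Nonempty (G ≃* Equiv.Perm (Fin 5)) ∨ Nonempty (G ≃* Equiv.Perm (Fin 6)) ∨
      Nonempty (G ≃* PSU 4 F 2) ∨ Nonempty (G ≃* PSU 5 F 2) := by
  have t3 : T3 (Dd D x) := h.toT3.mono fun y hy => hy.1
  have cl := Cl.dd h.toT3 h.toTG.cl x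
  have t := sub_tg t3 cl
  have nch : ¬ ∃ x ∈ D, ∃ a b c d, Ch (Dd D x) a b c d := fun ⟨y, hy, a, b, c, d, k⟩ => by
    obtain ⟨g, rfl⟩ := h.trans y hy x hx
    exact (k.conj h.toTG g).not_solv' t3 cl hs
  by_cases h2 : pCore 2 (closure (Dd D x)) ≤ center (closure (Dd D x))
  swap
  · rcases main h hZ hx h2 hF with ⟨n, n2, ⟨e⟩, k⟩ | ⟨n, n4, e, k⟩
    · obtain rfl : n = 2 := by have := mt k nch; omega
      obtain ⟨e'⟩ := H10.Sp4_zmod_two
      exact .inr (.inl ⟨e.trans e'⟩)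
    · obtain rfl | rfl : n = 4 ∨ n = 5 := by have := mt k nch; omega
      · exact .inr (.inr (.inl e))
      · exact .inr (.inr (.inr e))
  refine .inl (TO.main h hx fun h3 => ?_)
  have := H2.centralizer_fittingSubgroup_le (G := closure (Dd D x))
  rw [t.fitting_eq h2 (le_trans ?_ h3)] at this
  · obtain ⟨e, he⟩ := h.exD hx
    refine he.2.1 (h.V' hx he.1 fun y hy k => ?_)
    by_cases e1 : y = x
    · exact e1 ▸ he.2.2.symm
    exact commute_coe.1 (commute_of_mem_center (x := (⟨e, subset_closure he⟩ : closure (Dd D x)))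
      (this (mem_centralizer_iff.2 fun z hz => (commute_of_mem_center hz _).eq))
      ⟨y, subset_closure ⟨hy, e1, k⟩⟩)
  · haveI : Fact (Nat.Prime 3) := ⟨by norm_num⟩
    exact H2.pCore_le_pPrimeCore (by norm_num)

end Cfsg.Agent.H21.FS
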