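import Mathlib
import Cfsg.Agent.H21.Fs6
import Cfsg.Agent.H19.Ind

/-! Fischer's classification: residues, double perps, symmetric groups. -/

set_option autoImplicit false
set_option linter.unusedSectionVars false
set_option linter.unusedVariables false
set_option linter.style.haveILetI false

namespace Cfsg.Agent.H21.FS

open Cfsg Subgroup Cfsg.Agent.H19

variable {G : Type*} [Group G]

theorem kei' {S : Type*} [Group S] {D : Set G} {E : Set S} (hD : TG D) (hE : TG E) (f : G → S)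
    (hf : Set.BijOn f D E) (hJ : ∀ d ∈ D, ∀ e ∈ D, f (J d e) = J (f d) (f e))
    (hZ : center G = ⊥) : ∃ e : G ≃* S ⧸ center S, ∀ d ∈ D, e d = QuotientGroup.mk (f d) := by
  let Γ : Subgroup (G × S) := closure ((fun d => (d, f d)) '' D)
  have key : ∀ p ∈ Γ, ∀ e ∈ D, f (J p.1 e) = J p.2 (f e) := by
    intro p hp
    induction hp using closure_induction'' with
    | one => intro e _; simp
    | mem x hx => obtain ⟨d, hd, rfl⟩ := hx; exact hJ d hd
    | inv_mem x hx =>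
      obtain ⟨d, hd, rfl⟩ := hx
      intro e he
      simp only [Prod.fst_inv, Prod.snd_inv, hD.inv hd, hE.inv (hf.mapsTo hd)]
      exact hJ d hd e he
    | mul x y _ _ hx hy =>
      intro e he
      simp only [Prod.fst_mul, Prod.snd_mul, J_mul]
      rw [hx _ (hD.conj _ _ he), hy e he]
  let p1 : Γ →* G := (MonoidHom.fst G S).comp Γ.subtype
  let p2 : Γ →* S ⧸ center S := (QuotientGroup.mk' _).comp ((MonoidHom.snd G S).comp Γ.subtype)
  have s1 : Function.Surjective p1 := by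
    rw [← MonoidHom.range_eq_top, eq_top_iff, ← hD.top, closure_le]
    intro d hd
    exact ⟨⟨(d, f d), subset_closure ⟨d, hd, rfl⟩⟩, rfl⟩
  have s2 : Function.Surjective p2 := by
    refine (QuotientGroup.mk'_surjective _).comp (g := QuotientGroup.mk' (center S))
      (f := (MonoidHom.snd G S).comp Γ.subtype) ?_
    rw [← MonoidHom.range_eq_top, eq_top_iff, ← hE.top, closure_le]
    intro s hs
    obtain ⟨d, hd, rfl⟩ := hf.surjOn hs
    exact ⟨⟨(d, f d), subset_closure ⟨d, hd, rfl⟩⟩, rfl⟩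
  have k : p1.ker = p2.ker := by
    ext p
    simp only [MonoidHom.mem_ker]
    change p.1.1 = 1 ↔ ((p.1.2 : S) : S ⧸ center S) = 1
    rw [QuotientGroup.eq_one_iff]
    constructor
    · intro h1
      refine hE.mem_center fun s hs => ?_
      obtain ⟨d, hd, rfl⟩ := hf.surjOn hs
      have := key p p.2 d hd
      rw [h1, J_one] at this
      exact J_eq_self.1 this.symm
    · intro h2
      rw [← mem_bot, ← hZ]
      refine hD.mem_center fun d hd => J_eq_self.1 (hf.injOn (hD.conj _ _ hd) hd ?_)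
      rw [key p p.2 d hd, J_of_commute (commute_of_mem_center h2 _)]
  refine ⟨(QuotientGroup.quotientKerEquivOfSurjective p1 s1).symm.trans
    ((QuotientGroup.quotientMulEquivOfEq k).trans (QuotientGroup.quotientKerEquivOfSurjective p2 s2)),
    fun d hd => ?_⟩
  have : (QuotientGroup.quotientKerEquivOfSurjective p1 s1).symm d =
      QuotientGroup.mk ⟨(d, f d), subset_closure ⟨d, hd, rfl⟩⟩ := by
    rw [MulEquiv.symm_apply_eq]; rfl
  rw [MulEquiv.trans_apply, this]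
  rfl

/-- with trivial centres -/
theorem kei'' {S : Type*} [Group S] {D : Set G} {E : Set S} (hD : TG D) (hE : TG E) (f : G → S)
    (hf : Set.BijOn f D E) (hJ : ∀ d ∈ D, ∀ e ∈ D, f (J d e) = J (f d) (f e))
    (hZ : center G = ⊥) (hS : center S = ⊥) : ∃ e : G ≃* S, e '' D = E := by
  obtain ⟨e, he⟩ := kei' hD hE f hf hJ hZ
  refine ⟨e.trans ((QuotientGroup.quotientMulEquivOfEq hS).trans QuotientGroup.quotientBot), ?_⟩
  rw [← hf.image_eq]
  exact Set.image_congr fun d hd => by rw [MulEquiv.trans_apply, he d hd]; rfl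

theorem hJ_of_hl {S : Type*} [Group S] {D : Set G} {E : Set S} (hD : T3 D) (cD : Cl D) (hE : T3 E)
    (cE : Cl E) (f : G → S) (hf : Set.BijOn f D E)
    (hc : ∀ d ∈ D, ∀ e ∈ D, Commute d e ↔ Commute (f d) (f e)) (hl : HL D) :
    ∀ d ∈ D, ∀ e ∈ D, f (J d e) = J (f d) (f e) := by
  intro d hd e he
  by_cases c : Commute d e
  · rw [J_of_commute c, J_of_commute ((hc d hd e he).1 c)]
  have c' := (hc d hd e he).not.1 c
  obtain ⟨z, hz, k⟩ := hf.surjOn (cE _ (hf.mapsTo hd) _ (hf.mapsTo he))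
  rcases hl d hd e he c z hz fun y hy c1 c2 => by
      rw [hc y hy z hz, k]; exact T3.commute_J_both ((hc y hy d hd).1 c1) ((hc y hy e he).1 c2)
    with rfl | rfl | rfl
  · exact absurd k.symm (hE.J_ne_left (hf.mapsTo hd) c')
  · exact absurd k.symm (hE.J_ne_right c')
  · exact k

/-- symplectic type -/
def Sy (D : Set G) : Prop := ∀ a ∈ D, ∀ b ∈ D, ∀ x ∈ D, ¬ Commute a b →
  Commute x a ∨ Commute x b ∨ Commute x (J a b)

/-- singular lines have two points -/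
def Thin (D : Set G) : Prop := ∀ d e, Ad D d e → ∀ f ∈ Ln D d e, f = d ∨ f = e

/-- trivial `W`-classes in the residues -/
def WT (D : Set G) : Prop :=
  ∀ d ∈ D, ∀ e ∈ Dd D d, ∀ w ∈ Dd D d, Dd (Dd D d) e = Dd (Dd D d) w → w = e

/-- perps of lines contain commuting pairs -/
def CP (D : Set G) : Prop := ∀ a ∈ D, ∀ b ∈ D, ¬ Commute a b → ∃ u ∈ D, ∃ v ∈ D, u ≠ v ∧
  Commute u v ∧ Commute u a ∧ Commute u b ∧ Commute v a ∧ Commute v b

/-- isomorphisms of spaces -/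
structure Iso {H : Type*} [Group H] (E : Set G) (E' : Set H) (π : G → H) : Prop where
  cl : Cl E
  bij : Set.BijOn π E E'
  cm : ∀ x ∈ E, ∀ y ∈ E, Commute (π x) (π y) ↔ Commute x y
  hJ : ∀ x ∈ E, ∀ y ∈ E, π (J x y) = J (π x) (π y)

namespace Iso
variable {H : Type*} [Group H] {E : Set G} {E' : Set H} {π : G → H} (i : Iso E E' π)
include i

theorem mem {x : G} (hx : x ∈ E) : π x ∈ E' := i.bij.mapsTo hx
theorem eq {x y : G} (hx : x ∈ E) (hy : y ∈ E) : π x = π y ↔ x = y := i.bij.injOn.eq_iff hx hy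
theorem ex {x : H} (hx : x ∈ E') : ∃ y ∈ E, π y = x := i.bij.surjOn hx

theorem sy (s : Sy E') : Sy E := fun a ha b hb x hx n => by
  have := s _ (i.mem ha) _ (i.mem hb) _ (i.mem hx) ((i.cm a ha b hb).not.2 n)
  rwa [← i.hJ a ha b hb, i.cm x hx a ha, i.cm x hx b hb, i.cm x hx _ (i.cl a ha b hb)] at this

theorem hl (s : HL E') : HL E := fun a ha b hb n z hz k => by
  have := s _ (i.mem ha) _ (i.mem hb) ((i.cm a ha b hb).not.2 n) _ (i.mem hz) fun y hy c1 c2 => by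
    obtain ⟨y, hy', rfl⟩ := i.ex hy
    rw [i.cm y hy' _ hz]
    exact k y hy' ((i.cm y hy' _ ha).1 c1) ((i.cm y hy' _ hb).1 c2)
  rwa [← i.hJ a ha b hb, i.eq hz ha, i.eq hz hb, i.eq hz (i.cl a ha b hb)] at this

theorem ad {d e : G} (a : Ad E d e) : Ad E' (π d) (π e) :=
  ⟨i.mem a.l, i.mem a.r, (i.eq a.l a.r).not.2 a.ne, (i.cm _ a.l _ a.r).2 a.c⟩

theorem ln {d e f : G} (hd : d ∈ E) (he : e ∈ E) (hf : f ∈ E) :
    π f ∈ Ln E' (π d) (π e) ↔ f ∈ Ln E d e :=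
  ⟨fun k => ⟨hf, fun y hy c1 c2 => (i.cm y hy f hf).1
      (k.2 _ (i.mem hy) ((i.cm y hy d hd).2 c1) ((i.cm y hy e he).2 c2))⟩,
    fun k => ⟨i.mem hf, fun y hy c1 c2 => by
      obtain ⟨y, hy', rfl⟩ := i.ex hy
      exact (i.cm y hy' f hf).2 (k.2 y hy' ((i.cm y hy' d hd).1 c1) ((i.cm y hy' e he).1 c2))⟩⟩

theorem image_ln {d e : G} (hd : d ∈ E) (he : e ∈ E) : π '' Ln E d e = Ln E' (π d) (π e) := by
  ext f
  constructor
  · rintro ⟨f, hf, rfl⟩; exact (i.ln hd he hf.1).2 hf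
  · intro k
    obtain ⟨f, hf, rfl⟩ := i.ex k.1
    exact ⟨f, (i.ln hd he hf).1 k, rfl⟩

theorem dd {d x : G} (hd : d ∈ E) (hx : x ∈ E) : π x ∈ Dd E' (π d) ↔ x ∈ Dd E d :=
  ⟨fun k => ⟨hx, (i.eq hx hd).not.1 k.2.1, (i.cm d hd x hx).1 k.2.2⟩,
    fun k => ⟨i.mem hx, (i.eq hx hd).not.2 k.2.1, (i.cm d hd x hx).2 k.2.2⟩⟩

theorem comp {K : Type*} [Group K] {E'' : Set K} {ρ : H → K} (j : Iso E' E'' ρ) :
    Iso E E'' (fun x => ρ (π x)) :=
  ⟨i.cl, j.bij.comp i.bij, fun x hx y hy => by rw [j.cm _ (i.mem hx) _ (i.mem hy), i.cm x hx y hy],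
    fun x hx y hy => by rw [i.hJ x hx y hy, j.hJ _ (i.mem hx) _ (i.mem hy)]⟩

end Iso

theorem iso_conj {D : Set G} (h : TG D) (g d : G) : Iso (Dd D d) (Dd D (J g d)) (J g) :=
  ⟨Cl.dd h.toT3 h.cl d, ⟨fun x hx => J_mem_Dd (h.conj g) hx, (J_injective g).injOn, fun x hx =>
    ⟨J g⁻¹ x, by simpa using J_mem_Dd (h.conj g⁻¹) hx, J_J_inv g x⟩⟩,
    fun x _ y _ => commute_J, fun x _ y _ => (J_J g x y).symm⟩

open Classical in
/-- the map to the central quotient -/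
noncomputable def pq (E : Set G) (x : G) : Qt E :=
  if k : x ∈ closure E then QuotientGroup.mk ⟨x, k⟩ else 1

theorem pq_eq {E : Set G} (x : closure E) : pq E x = QuotientGroup.mk x := dif_pos x.2

theorem center_qt {E : Set G} (h : T3 E) (c : Cl E) : center (Qt E) = ⊥ := by
  rw [eq_bot_iff]
  intro z hz
  obtain ⟨z, rfl⟩ := QuotientGroup.mk_surjective z
  rw [mem_bot, QuotientGroup.eq_one_iff]
  exact (sub_tg h c).mem_center fun x hx => commute_coe.2 (q_J h c hx (commute_of_mem_center hz _))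

section
variable [Finite G] {D : Set G} (h : PG D)
include h

theorem iso_qt {d : G} (hd : d ∈ D) : Iso (Dd D d) (qt (Dd D d)) (pq (Dd D d)) := by
  have t : T3 (Dd D d) := h.toT3.mono fun y hy => hy.1
  have c := Cl.dd h.toT3 h.toTG.cl d
  have e : ∀ x (hx : x ∈ Dd D d), pq (Dd D d) x = QuotientGroup.mk ⟨x, subset_closure hx⟩ :=
    fun x hx => pq_eq ⟨x, subset_closure hx⟩
  refine ⟨c, ⟨fun x hx => ⟨⟨x, subset_closure hx⟩, hx, (e x hx).symm⟩, fun x hx y hy k => ?_, ?_⟩,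
    fun x hx y hy => ?_, fun x hx y hy => ?_⟩
  · rw [e x hx, e y hy] at k
    exact congrArg Subtype.val (h.q_inj hd (show _ ∈ sub _ from hx) (show _ ∈ sub _ from hy) k)
  · rintro _ ⟨x, hx, rfl⟩
    exact ⟨x, hx, pq_eq x⟩
  · rw [e x hx, e y hy, q_comm t c (show _ ∈ sub _ from hy)]
  · rw [e x hx, e y hy, e _ (c x hx y hy)]; rfl

theorem iso_res {d x : G} (hd : d ∈ D) (hx : x ∈ D) : ∃ π, Iso (Dd D x) (qt (Dd D d)) π := by
  obtain ⟨g, rfl⟩ := h.trans x hx d hd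
  exact ⟨_, (iso_conj h.toTG g x).comp (iso_qt h hd)⟩

theorem lift_qt {d : G} (hd : d ∈ D) (k : Qt (Dd D d)) : ∃ g, Commute g d ∧
    ∀ x ∈ Dd D d, ∀ y ∈ Dd D d, J k (pq _ x) = pq _ y → J g x = y := by
  obtain ⟨g, rfl⟩ := QuotientGroup.mk_surjective k
  have cg : Commute g.1 d := (commute_of_mem_closure (fun s hs => hs.2.2) g.2).symm
  refine ⟨g, cg, fun x hx y hy e => ?_⟩
  have m : J g.1 x ∈ Dd D d := by simpa [J_of_commute cg] using J_mem_Dd (h.conj g) hx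
  rw [← (iso_qt h hd).eq m hy, ← e, pq_eq ⟨x, subset_closure hx⟩, pq_eq ⟨_, subset_closure m⟩]
  rfl

theorem res_pairA {d a b c e : G} (hd : d ∈ D) (p : PG (qt (Dd D d))) (ha : a ∈ Dd D d)
    (hb : b ∈ Dd D d) (hc : c ∈ Dd D d) (he : e ∈ Dd D d) (ab : ¬ Commute a b)
    (ce : ¬ Commute c e) : ∃ g, Commute g d ∧ J g a = c ∧ J g b = e := by
  have i := iso_qt h hd
  obtain ⟨k, k1, k2⟩ := p.pairA (i.mem ha) (i.mem hb) (i.mem hc) (i.mem he)
    ((i.cm a ha b hb).not.2 ab) ((i.cm c hc e he).not.2 ce)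
  obtain ⟨g, g1, g2⟩ := lift_qt h hd k
  exact ⟨g, g1, g2 a ha c hc k1, g2 b hb e he k2⟩

theorem res_pairD {d a b c e : G} (hd : d ∈ D) (p : PG (qt (Dd D d))) (ha : a ∈ Dd D d)
    (hc : c ∈ Dd D d) (hb : b ∈ Dd (Dd D d) a) (he : e ∈ Dd (Dd D d) c) :
    ∃ g, Commute g d ∧ J g a = c ∧ J g b = e := by
  have i := iso_qt h hd
  obtain ⟨k, k1, k2⟩ := p.pairD (i.mem ha) (i.mem hc) ((i.dd ha hb.1).2 hb) ((i.dd hc he.1).2 he)
  obtain ⟨g, g1, g2⟩ := lift_qt h hd k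
  exact ⟨g, g1, g2 a ha c hc k1, g2 b hb.1 e he.1 k2⟩

/-- every primitive space contains a chain of four points -/
theorem exists_ch : ∃ a b c d, Ch D a b c d := by
  obtain ⟨d, hd, x, hx, ne, c⟩ := h.wide
  obtain ⟨y, hy, n⟩ := h.noiso hd ⟨hx, ne.symm, c⟩
  by_contra k
  have key : ∀ z ∈ D, Commute z y → ¬ Commute z d → Commute z x := fun z hz c1 c2 => by
    by_contra c3
    exact k ⟨y, x, z, d, hy.1, hx, hz, hd, fun e => n e.symm, fun e => c3 e.symm, c2, c1.symm,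
      hy.2.2.symm, c.symm⟩
  obtain ⟨z, hz, zy, zd⟩ := exists_sep h hy.1 hd hy.2.1
  obtain ⟨w, hw, wx⟩ := h.W' hy.1 hx fun e => n e.symm
  have cm : ∀ z ∈ D, ∀ w ∈ D, Commute z y → ¬ Commute z d → Commute w y → ¬ Commute w x →
      Commute w z := fun z hz w hw zy zd wy wx => by
    by_contra c3
    have wd : Commute w d := by_contra fun e => wx (key w hw wy e)
    have := key (J w z) (h.conj _ _ hz) (T3.commute_J_both wy.symm zy.symm).symm
      (by rwa [commute_J_of wd])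
    exact wx (h.commute_of_J hw hz c3 (key z hz zy zd).symm this.symm).symm
  have zy' : z ≠ y := fun e => zd (e ▸ hy.2.2.symm)
  have mz : z ∈ Dd D y := ⟨hz, zy', zy.symm⟩
  have wz := cm z hz w hw.1 zy zd hw.2.2.symm wx
  obtain ⟨t, ht, n1, n2⟩ := h.toT3.diam2 (fun _ k => k.1) (Cl.dd h.toT3 h.toTG.cl y) mz
    (h.rankD hy.1 mz hw) (fun e => wx (e ▸ key z hz zy zd)) wz.symm
  have tx : Commute t x := by_contra fun e => n1 (cm z hz t ht.1 zy zd ht.2.2.symm e).symm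
  have := cm z hz (J t w) (h.conj _ _ hw.1) zy zd (T3.commute_J_both ht.2.2 hw.2.2).symm
    (by rwa [commute_J_of tx])
  exact n1 (h.commute_of_J ht.1 hw.1 (fun e => n2 e.symm) wz.symm this.symm)

theorem tri : Th D 3 ∨ Th D 5 ∨ PL D ∨ (Thin D ∧ WT D) := by
  by_cases t : Thin D
  · by_cases w : WT D
    · exact .inr (.inr (.inr ⟨t, w⟩))
    refine .inr (.inr (.inl ?_))
    simp only [WT] at w
    push Not at w
    obtain ⟨x, hx, e, he, w, hw, r0, ne⟩ := w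
    have r : ∀ u ∈ Dd D x, (u ∈ Dd D e ↔ u ∈ Dd D w) := fun u hu =>
      ⟨fun k => (Dd_Dd.subset (r0.subset (Dd_Dd.symm.subset ⟨hu, k⟩))).2,
        fun k => (Dd_Dd.subset (r0.symm.subset (Dd_Dd.symm.subset ⟨hu, k⟩))).2⟩
    have w1 : ∀ d ∈ D, W1 (Dd D d) := by
      intro d hd a ha b hb c
      by_contra n
      obtain ⟨g, g1, g2⟩ := h.pairD hd hx ha he
      exact TO.no_tri h hx he hw ne r (c := J g b) (g1 ▸ J_mem_Dd (h.conj g) hb)
        (g2 ▸ J_mem_Dd (h.conj g) ⟨hb.1, fun k => n k.symm, c⟩)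
    refine TO.pl h w1 fun a ha d hd => ?_
    obtain ⟨g, g1, g2⟩ := h.pairD hx ha he hd
    exact ⟨J g w, g1 ▸ J_mem_Dd (h.conj g) hw, fun k => ne (J_inj.1 (k.trans g2.symm))⟩
  simp only [Thin] at t
  push Not at t
  obtain ⟨d, e, a, f, hf, n1, n2⟩ := t
  have t : Th D (Ln D d e).ncard := fun d' e' a' => ncard_Ln h a' a
  rcases le_five h ((Set.two_lt_ncard_iff (Set.toFinite _)).2 ⟨d, e, f, left_mem a.l _,
    right_mem a.r _, hf, a.ne, n1.symm, n2.symm⟩) t with k | k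
  · exact .inl (k ▸ t)
  · exact .inr (.inl (k ▸ t))

theorem Thin.V (t : Thin D) {d e f : G} (hd : d ∈ D) (he : e ∈ Dd D d) (hf : f ∈ Dd D d)
    (r : ∀ y ∈ Dd D d, Commute y e → Commute y f) : f = e :=
  (t d e ⟨hd, he.1, he.2.1.symm, he.2.2⟩ f ⟨hf.1, fun y hy c1 c2 => by
    by_cases k : y = d
    · exact k ▸ hf.2.2
    · exact r y ⟨hy, k, c1.symm⟩ c2⟩).resolve_left hf.2.1

theorem res_cp (t : Thin D) (w : WT D) : CP D := by
  have : ∃ a ∈ D, ∃ b ∈ D, ¬ Commute a b ∧ ∃ u ∈ D, ∃ v ∈ D, u ≠ v ∧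
      Commute u v ∧ Commute u a ∧ Commute u b ∧ Commute v a ∧ Commute v b := by
    by_contra k
    obtain ⟨d, hd, x, hx, ne, c⟩ := h.wide
    have mx : x ∈ Dd D d := ⟨hx, ne.symm, c⟩
    have w1 : ∀ a ∈ Dd D d, Dd (Dd D d) a = ∅ := fun a ha => by
      rw [Set.eq_empty_iff_forall_notMem]
      intro b hb
      refine hb.2.1 (t.V h hd ha hb.1 fun y hy c1 => ?_)
      by_contra n
      exact k ⟨y, hy.1, b, hb.1.1, n, d, hd, a, ha.1, ha.2.1.symm, ha.2.2, hy.2.2, hb.1.2.2, c1.symm,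
        hb.2.2⟩
    obtain ⟨y, hy, n⟩ := h.noiso hd mx
    exact n (w d hd x mx y hy ((w1 x mx).trans (w1 y hy).symm) ▸ Commute.refl _)
  obtain ⟨a, ha, b, hb, n, u, hu, v, hv, ne, c1, c2, c3, c4, c5⟩ := this
  intro a' ha' b' hb' n'
  obtain ⟨g, rfl, rfl⟩ := h.pairA ha hb ha' hb' n n'
  exact ⟨J g u, h.conj _ _ hu, J g v, h.conj _ _ hv, fun e => ne (J_inj.1 e), commute_J.2 c1,
    commute_J.2 c2, commute_J.2 c3, commute_J.2 c4, commute_J.2 c5⟩

theorem res_pg (t : Thin D) (w : WT D) {d : G} (hd : d ∈ D) : PG (qt (Dd D d)) := by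
  have i := iso_qt h hd
  have g := h.tg_qt hd
  obtain ⟨x, hx⟩ := h.exD hd
  obtain ⟨y, hy, n⟩ := h.noiso hd hx
  obtain ⟨u, hu, v, hv, ne, c1, c2, c3, c4, c5⟩ := res_cp h t w x hx.1 y hy.1 n
  have nc : ∀ {u}, Commute u x → Commute u y → u ≠ x ∧ u ≠ y := fun c2 c3 =>
    ⟨fun e => n (e ▸ c3), fun e => n (e ▸ c2).symm⟩
  have dm := fun a ha b hb ab => h.inner_diam hx.1 hy.1 n (u := u) (v := v)
    ⟨⟨hu, (nc c2 c3).1, c2.symm⟩, hu, (nc c2 c3).2, c3.symm⟩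
    ⟨⟨hv, (nc c4 c5).1, c4.symm⟩, hv, (nc c4 c5).2, c5.symm⟩ ne c1 hd (a := a) (b := b) ha hb ab
  refine ⟨g, g.prim_of_conn (h.trans_qt hd) ⟨_, i.mem hx, _, i.mem hy, (i.eq hx hy).not.2 fun e =>
    n (e ▸ Commute.refl _)⟩ (g.O2_le_center fun a ha b hb r => ?_)
    (g.O3_le_center fun a ha b hb r => ?_) fun B sB ⟨b, hb⟩ hB a ha => ?_, ?_⟩
  · obtain ⟨a, ha', rfl⟩ := i.ex ha
    obtain ⟨b, hb', rfl⟩ := i.ex hb
    rw [t.V h hd ha' hb' fun z hz c => ((i.cm _ hb' _ hz).1 ((r _ (i.mem hz)).2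
      ((i.cm _ ha' _ hz).2 c.symm))).symm]
  · obtain ⟨a, ha', rfl⟩ := i.ex ha
    obtain ⟨b, hb', rfl⟩ := i.ex hb
    rw [w d hd a ha' b hb' (Set.ext fun z => ⟨fun k => (i.dd hb' k.1).1 (r ▸ (i.dd ha' k.1).2 k),
      fun k => (i.dd ha' k.1).1 (r ▸ (i.dd hb' k.1).2 k)⟩)]
  · obtain ⟨a, ha', rfl⟩ := i.ex ha
    obtain ⟨b, hb', rfl⟩ := i.ex (sB hb)
    by_cases c : Commute b a
    · exact hB _ hb _ ha ((i.cm _ hb' _ ha').2 c)
    obtain ⟨z, hz, z1, z2⟩ := dm b hb' a ha' c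
    exact hB _ (hB _ hb _ (i.mem hz) ((i.cm _ hb' _ hz).2 z1.2.2)) _ ha ((i.cm _ hz _ ha').2 z2.2.2.symm)
  · obtain ⟨z, hz, z1, z2⟩ := dm x hx y hy n
    exact ⟨_, i.mem hx, _, i.mem hz, (i.eq hx hz).not.2 z1.2.1.symm, (i.cm _ hx _ hz).2 z1.2.2⟩

omit h [Finite G] in
theorem hl_of_res (c : CP D) (l : ∀ d ∈ D, HL (Dd D d)) : HL D := by
  intro a ha b hb n z hz k
  have : ∃ u ∈ D, u ≠ z ∧ Commute u a ∧ Commute u b := by
    obtain ⟨u, hu, v, hv, ne, c1, c2, c3, c4, c5⟩ := c a ha b hb n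
    by_cases e : u = z
    · exact ⟨v, hv, fun e' => ne (e.trans e'.symm), c4, c5⟩
    · exact ⟨u, hu, e, c2, c3⟩
  obtain ⟨u, hu, ne, c1, c2⟩ := this
  exact l u hu a ⟨ha, fun e => n (e ▸ c2), c1⟩ b ⟨hb, fun e => n (e ▸ c1).symm, c2⟩ n z
    ⟨hz, ne.symm, k u hu c1 c2⟩ fun y hy => k y hy.1

omit h [Finite G] in
/-- an element fixing `d` and normalising the common perp -/
theorem HL.fix (l : HL D) (h : TG D) {d a g : G} (hd : d ∈ D) (ha : a ∈ D) (n : ¬ Commute d a)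
    (gd : Commute g d) (k : ∀ y ∈ D, Commute y d → Commute y a → Commute y (J g a)) :
    J g a = a ∨ J g a = J d a :=
  (l d hd a ha n _ (h.conj _ _ ha) k).resolve_left fun e => n (by
    rw [← commute_J (g := g), e, J_of_commute gd])

omit h [Finite G] in
theorem t1 (h : T3 D) {d a e f : G} (hd : d ∈ D) (ha : a ∈ D) (he : e ∈ Dd D d) (hf : f ∈ Dd D d)
    (n : ¬ Commute d a) (ne : e ≠ f) (c : Commute e f)
    (k : J (e * f) a = a ∨ J (e * f) a = J d a) : Commute a e := by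
  rcases k with k | k
  · exact (h.commute_mul he.1 hf.1 ha ne (J_eq_self.1 k).symm).1
  · have : J (d * e * f) a = a := by rw [mul_assoc, J_mul, k, h.JJ hd]
    exact (h.commute_mul3 hd he.1 hf.1 ha he.2.1.symm hf.2.1.symm ne he.2.2 hf.2.2 c
      (J_eq_self.1 this).symm).2.1

theorem HL.zc (l : HL D) (hZ : center G = ⊥) {d u : G} (hd : d ∈ D) (ud : Commute u d)
    (k : ∀ y ∈ Dd D d, Commute u y) : u = 1 ∨ u = d := by
  obtain ⟨a, ha, n⟩ := h.exA hd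
  rcases l.fix h.toTG hd ha n ud fun y hy c1 c2 =>
    T3.commute_J_both (k y ⟨hy, fun e => n (e ▸ c2), c1.symm⟩).symm c2 with e | e
  · exact .inl (mem_bot.1 (hZ ▸ h.central hd ha n ud (J_eq_self.1 e) k))
  · have : J (d * u) a = a := by rw [J_mul, e, h.JJ hd]
    have := mem_bot.1 (hZ ▸ h.central hd ha n ((Commute.refl d).mul_left ud) (J_eq_self.1 this)
      fun y hy => hy.2.2.mul_left (k y hy))
    exact .inr (by rw [← h.cancel hd u, this, mul_one])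

end

theorem star1 {D : Set G} (h : T3 D) (cl : Cl D) {y a e f : G} (hy : y ∈ D) (ha : a ∈ D)
    (he : e ∈ D) (hf : f ∈ D) (ne : e ≠ f) (ef : Commute e f) (ae : Commute a e) (af : Commute a f)
    (ay : ¬ Commute a y) (ey : ¬ Commute e y) (fy : ¬ Commute f y) :
    Commute a (J y (J a (J e (J f y)))) ∧ J y (J a (J e (J f y))) ≠ a ∧
      ¬ Commute (J a (J e (J f y))) y := by
  have m1 := h.s4 he hy hf ef ey fy
  refine ⟨h.d4 hy ha he hf (cl y hy a ha) ef ae af ay ey fy, fun k => ?_, fun k => ay ?_⟩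
  · rw [h.J_eq_iff hy, ← h.br a ha y hy ay, J_inj] at k
    exact h.s4_ne he hy hf ne ey fy k
  · rw [h.commute_J_swap ha] at k
    have := h.commute_of_J ha hy ay m1.symm k
    rwa [commute_J_of ae.symm, commute_J_of af.symm, Commute.symm_iff] at this

theorem star3 {D : Set G} (h : T3 D) (cl : Cl D) {y a e f : G} (hy : y ∈ D) (ha : a ∈ D)
    (he : e ∈ D) (hf : f ∈ D) (n1 : a ≠ e) (n2 : a ≠ f) (n3 : e ≠ f) (ae : Commute a e)
    (af : Commute a f) (ef : Commute e f)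
    (ay : ¬ Commute a y) (ey : ¬ Commute e y) (fy : ¬ Commute f y) :
    ¬ Commute (J (a * e * f) y) y ∧ ∀ x ∈ [a, e, f], Commute x (J y (J (a * e * f) y)) ∧
      J y (J (a * e * f) y) ≠ x := by
  have k1 := star1 h cl hy ha he hf n3 ef ae af ay ey fy
  have k2 := star1 h cl hy he ha hf n2 af ae.symm ef ey ay fy
  have k3 := star1 h cl hy hf ha he n1 ae af.symm ef.symm fy ay ey
  rw [J_comm ae.symm] at k2
  rw [J_comm af.symm, J_comm ef.symm] at k3
  simp only [J_mul, List.mem_cons, List.not_mem_nil, or_false, forall_eq_or_imp, forall_eq]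
  exact ⟨k1.2.2, ⟨k1.1, k1.2.1⟩, ⟨k2.1, k2.2.1⟩, k3.1, k3.2.1⟩

/-- six commuting points with trivial product -/
theorem six {D : Set G} (h : T3 D) (cl : Cl D) {a : G} (ha : a ∈ D) {e : Fin 6 → G}
    (he : ∀ i, e i ∈ D) (inj : Function.Injective e) (cm : ∀ i j, Commute (e i) (e j))
    (n : ∀ i, ¬ Commute (e i) a) (pr : e 1 * e 2 * (e 3 * e 4 * e 5) = 1 ∨
      e 1 * e 2 * (e 3 * e 4 * e 5) = e 0)
    (mx : ∀ r ∈ D, (∀ i, Commute (e i) r) → ∃ i, r = e i) : False := by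
  have s := fun i j k (h1 : i ≠ j) (h2 : i ≠ k) (h3 : j ≠ k) => star3 h cl ha (he i) (he j) (he k)
    (inj.ne h1) (inj.ne h2) (inj.ne h3) (cm _ _) (cm _ _) (cm _ _) (n i) (n j) (n k)
  have s2 := s 3 4 5 (by decide) (by decide) (by decide)
  have e12 : (e 1 * e 2)⁻¹ = e 1 * e 2 := by
    rw [mul_inv_rev, h.inv (he 1), h.inv (he 2), (cm 1 2).eq]
  rcases pr with pr | pr
  · have : e 3 * e 4 * e 5 = e 1 * e 2 := by rw [← e12]; exact (inv_eq_of_mul_eq_one_right pr).symm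
    rw [this, J_mul] at s2
    exact s2.1 (h.s4 (he 1) ha (he 2) (cm _ _) (n 1) (n 2)).symm
  have : e 3 * e 4 * e 5 = e 0 * e 1 * e 2 := by
    rw [← inv_mul_cancel_left (e 1 * e 2) (e 3 * e 4 * e 5), pr, e12, mul_assoc (e 0)]
    exact ((cm 1 0).mul_left (cm 2 0)).eq
  have s1 := s 0 1 2 (by decide) (by decide) (by decide)
  rw [← this] at s1
  simp only [List.mem_cons, List.not_mem_nil, or_false, forall_eq_or_imp, forall_eq] at s1 s2
  have m : J a (J (e 3 * e 4 * e 5) a) ∈ D := by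
    simp only [J_mul]
    exact cl _ ha _ (cl _ (he _) _ (cl _ (he _) _ (cl _ (he _) _ ha)))
  obtain ⟨i, hi⟩ := mx _ m fun i => by
    fin_cases i
    exacts [s1.2.1.1, s1.2.2.1.1, s1.2.2.2.1, s2.2.1.1, s2.2.2.1.1, s2.2.2.2.1]
  fin_cases i
  exacts [s1.2.1.2 hi, s1.2.2.1.2 hi, s1.2.2.2.2 hi, s2.2.1.2 hi, s2.2.2.1.2 hi, s2.2.2.2.2 hi]

end Cfsg.Agent.H21.FS
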