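import Mathlib
import Cfsg.Agent.H21.Fc1

/-! Fischer's classification: spaces of symplectic type. -/

set_option autoImplicit false
set_option linter.unusedSectionVars false
set_option linter.unusedVariables false
set_option linter.style.haveILetI false

namespace Cfsg.Agent.H21.FS

open Cfsg Subgroup Cfsg.Agent.H19 Cfsg.Agent.H11 Module Equiv

universe u

variable {G : Type u} [Group G]

theorem J_J_left' (g x y : G) : J (J g x) y = J g (J x (J g⁻¹ y)) := by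
  rw [← J_J, J_J_inv]

theorem swap_nc {α : Type*} [DecidableEq α] {i j k : α} (h1 : i ≠ j) (h2 : j ≠ k) (h3 : i ≠ k) :
    ¬ Commute (swap i j) (swap j k) := fun c => h1 (by
  have := congrArg (fun σ : Perm α => σ k) c.eq
  simpa [Perm.mul_apply, swap_apply_of_ne_of_ne h3.symm h2.symm] using this)

theorem J_swap {α : Type*} [DecidableEq α] (σ : Perm α) (i j : α) :
    J σ (swap i j) = swap (σ i) (σ j) := (swap_apply_apply σ i j).symm

theorem swap_J {α : Type*} [DecidableEq α] {i j k : α} (h2 : j ≠ k) (h3 : i ≠ k) :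
    J (swap i j) (swap j k) = swap i k := by
  rw [J_swap, swap_apply_right, swap_apply_of_ne_of_ne h3.symm h2.symm]

theorem swap_c {α : Type*} [DecidableEq α] {i j k l : α} (h1 : k ≠ i) (h2 : k ≠ j) (h3 : l ≠ i)
    (h4 : l ≠ j) : Commute (swap i j) (swap k l) := J_eq_self.1 (by
  rw [J_swap, swap_apply_of_ne_of_ne h1 h2, swap_apply_of_ne_of_ne h3 h4])

/-- a diagram of type `D₄` -/
def D4 (D : Set G) : Prop := ∃ y ∈ D, ∃ a ∈ D, ∃ e ∈ D, ∃ f ∈ D, a ≠ e ∧ a ≠ f ∧ e ≠ f ∧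
  Commute a e ∧ Commute a f ∧ Commute e f ∧ ¬ Commute a y ∧ ¬ Commute e y ∧ ¬ Commute f y

/-- an embedded symmetric group -/
structure Sm (D : Set G) {α : Type} [DecidableEq α] (φ : Perm α →* G) : Prop where
  inj : Function.Injective φ
  mem : ∀ i j, i ≠ j → φ (swap i j) ∈ D

theorem Sm.cm {D : Set G} {α : Type} [DecidableEq α] {φ : Perm α →* G} (m : Sm D φ) {σ τ : Perm α} :
    Commute (φ σ) (φ τ) ↔ Commute σ τ := commute_map m.inj

theorem Sm.tri {D E : Set G} (s : Sy D) (sE : E ⊆ D) {α : Type} [DecidableEq α] {φ : Perm α →* G}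
    (m : Sm E φ) {x : G} (hx : x ∈ D) {i j k : α} (h1 : i ≠ j) (h2 : j ≠ k) (h3 : i ≠ k) :
    Commute x (φ (swap i j)) ∨ Commute x (φ (swap j k)) ∨ Commute x (φ (swap i k)) := by
  have := s _ (sE (m.mem i j h1)) _ (sE (m.mem j k h2)) x hx (m.cm.not.2 (swap_nc h1 h2 h3))
  rwa [← map_J, swap_J h2 h3] at this

theorem sm_of_one {D : Set G} (t : T3 D) (c : Cl D) {n : ℕ} {φ : Perm (Fin (n + 1)) →* G}
    (inj : Function.Injective φ) (m : ∀ i < n, φ (adjSwap n i) ∈ D) : Sm D φ := by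
  refine ⟨inj, fun i j ne => ?_⟩
  have n0 : 0 < n := by
    by_contra k
    obtain rfl : n = 0 := by omega
    exact ne (Subsingleton.elim (α := Fin 1) i j)
  have r : ∀ σ, φ σ ∈ closure D := fun σ => by
    have : σ ∈ Submonoid.closure (Set.range fun i : Fin n => swap i.castSucc i.succ) := by
      rw [Perm.mclosure_swap_castSucc_succ]; trivial
    induction this using Submonoid.closure_induction with
    | one => rw [map_one]; exact one_mem _
    | mem x hx =>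
      obtain ⟨i, rfl⟩ := hx
      have := m i i.2
      rw [adjSwap, dif_pos i.2] at this
      exact subset_closure this
    | mul x y _ _ hx hy => rw [map_mul]; exact mul_mem hx hy
  obtain ⟨σ, hσ⟩ := isConj_iff.1 (Perm.isConj_swap (Fin.castSucc_lt_succ (i := ⟨0, n0⟩)).ne ne)
  have := m 0 n0
  rw [adjSwap, dif_pos n0] at this
  rw [← hσ, ← J_def, map_J]
  exact c.J_mem t (r σ) _ this

theorem Ch.sm {D : Set G} (t : T3 D) (cl : Cl D) {a b c d : G} (k : Ch D a b c d) :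
    ∃ φ : Perm (Fin 5) →* G, Sm D φ := by
  obtain ⟨φ, i, e1, e2, e3, e4⟩ := t.hom5 k.ha k.hb k.hc k.hd k.ab k.bc k.cd k.ac k.ad k.bd
  refine ⟨φ, sm_of_one t cl i fun i hi => ?_⟩
  interval_cases i
  exacts [e1 ▸ k.ha, e2 ▸ k.hb, e3 ▸ k.hc, e4 ▸ k.hd]

theorem Sm.cut {D : Set G} (s : Sy D) (n4 : ¬ D4 D) {α : Type} [DecidableEq α] {φ : Perm α →* G}
    (m : Sm D φ) {x : G} (hx : x ∈ D) (nx : ∀ i j, i ≠ j → x ≠ φ (swap i j)) {i k : α} (ik : i ≠ k)
    (c : ¬ Commute x (φ (swap i k))) :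
    ∃ p, ∀ j l, j ≠ l → (Commute x (φ (swap j l)) ↔ j ≠ p ∧ l ≠ p) := by
  have st : ∀ p, (∀ j, j ≠ p → ¬ Commute x (φ (swap p j))) →
      ∀ j l, j ≠ l → (Commute x (φ (swap j l)) ↔ j ≠ p ∧ l ≠ p) := fun p hp j l jl =>
    ⟨fun c => ⟨fun e => hp l (e ▸ jl.symm) (e ▸ c), fun e => hp j (e ▸ jl) (by rwa [swap_comm, ← e])⟩,
      fun ⟨n1, n2⟩ => ((m.tri s subset_rfl hx n1.symm jl n2.symm).resolve_left (hp j n1)).resolve_right
        (hp l n2)⟩
  by_cases h1 : ∀ j, j ≠ i → ¬ Commute x (φ (swap i j))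
  · exact ⟨i, st i h1⟩
  refine ⟨k, st k fun l lk c2 => ?_⟩
  push Not at h1
  obtain ⟨j, ji, c1⟩ := h1
  have jk : j ≠ k := fun e => c (e ▸ c1)
  have li : l ≠ i := fun e => c (by rwa [swap_comm, ← e])
  by_cases e : j = l
  · subst e
    rw [swap_comm] at c2
    have := T3.commute_J_both c1 c2
    rw [← map_J, swap_J jk ik] at this
    exact c this
  refine n4 ⟨_, m.mem i k ik, x, hx, _, m.mem i j ji.symm, _, m.mem k l lk.symm, nx _ _ ji.symm,
    nx _ _ lk.symm, fun e => ?_, c1, c2, m.cm.2 (swap_c ik.symm jk.symm li (Ne.symm e)), c,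
    m.cm.not.2 ?_, m.cm.not.2 ?_⟩
  · have := congrArg (fun σ : Perm α => σ i) (m.inj e)
    simp only [swap_apply_left, swap_apply_of_ne_of_ne ik li.symm] at this
    exact ji this
  · rw [swap_comm]; exact swap_nc ji ik jk
  · rw [swap_comm k, swap_comm i]; exact swap_nc lk ik.symm li

theorem Sm.ext {D : Set G} (t : T3 D) (cl : Cl D) {n : ℕ} (n4 : 3 ≤ n) {φ : Perm (Fin (n + 1)) →* G}
    (m : Sm D φ) {x : G} (hx : x ∈ D) {p : Fin (n + 1)}
    (hp : ∀ j l, j ≠ l → (Commute x (φ (swap j l)) ↔ j ≠ p ∧ l ≠ p)) :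
    ∃ φ' : Perm (Fin (n + 1 + 1)) →* G, Sm D φ' := by
  let σ := swap p (Fin.last n)
  let s : ℕ → G := fun i => if h : i < n then φ (swap (σ ⟨i, by omega⟩) (σ ⟨i + 1, by omega⟩)) else x
  have ne : ∀ {i j : ℕ} (hi : i < n + 1) (hj : j < n + 1), i ≠ j → σ ⟨i, hi⟩ ≠ σ ⟨j, hj⟩ :=
    fun hi hj h e => h (congrArg Fin.val (σ.injective e))
  have np : ∀ {i : ℕ} (hi : i < n + 1), σ ⟨i, hi⟩ ≠ p ↔ i ≠ n := fun hi => by
    rw [show p = σ (Fin.last n) from (swap_apply_right _ _).symm, σ.injective.ne_iff, Fin.ne_iff_vne]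
    rfl
  have hs : ∀ i < n + 1, s i ∈ D := fun i hi => by
    simp only [s]; split_ifs
    exacts [m.mem _ _ (ne _ _ (by omega)), hx]
  have h1 : ∀ i, i + 1 < n + 1 → ¬ Commute (s i) (s (i + 1)) := fun i hi => by
    simp only [s, dif_pos (show i < n by omega)]; split_ifs
    · exact m.cm.not.2 (swap_nc (ne _ _ (by omega)) (ne _ _ (by omega)) (ne _ _ (by omega)))
    · rw [Commute.symm_iff, hp _ _ (ne _ _ (by omega)), np, np]; omega
  obtain ⟨φ', e, -⟩ := (t.coxA hs h1 fun i j h1 h2 => by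
    simp only [s, dif_pos (show i < n by omega)]; split_ifs
    · exact m.cm.2 (swap_c (ne _ _ (by omega)) (ne _ _ (by omega)) (ne _ _ (by omega))
        (ne _ _ (by omega)))
    · rw [Commute.symm_iff, hp _ _ (ne _ _ (by omega)), np, np]; omega).exists_hom
  refine ⟨φ', sm_of_one t cl (inj_perm (by omega) φ' fun k => h1 0 (by omega) ?_)
    fun i hi => e i hi ▸ hs i hi⟩
  rw [← e 0 (by omega), ← e (0 + 1) (by omega), k]

variable [Finite G] {D : Set G} (h : PG D)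
include h

theorem sym_class (s : Sy D) (n4 : ¬ D4 D) : ∃ (n : ℕ) (e : G ≃* Perm (Fin n)), 5 ≤ n ∧
    e '' D = {σ | σ.IsSwap} := by
  classical
  have bd : ∀ n, (∃ φ : Perm (Fin (n + 1)) →* G, Sm D φ) → n ≤ Nat.card G := fun n ⟨φ, m⟩ => by
    have := Nat.card_le_card_of_injective φ m.inj
    rw [Nat.card_perm, Nat.card_fin] at this
    exact (Nat.le_succ n).trans ((Nat.self_le_factorial _).trans this)
  obtain ⟨a, b, c, d, k⟩ := exists_ch h
  have p4 := k.sm h.toT3 h.toTG.cl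
  let P : ℕ → Prop := fun n => ∃ φ : Perm (Fin (n + 1)) →* G, Sm D φ
  obtain ⟨φ, m⟩ : P (Nat.findGreatest P (Nat.card G)) := Nat.findGreatest_spec (bd 4 p4) p4
  have l4 : 4 ≤ Nat.findGreatest P (Nat.card G) := Nat.le_findGreatest (bd 4 p4) p4
  have mx : ¬ P (Nat.findGreatest P (Nat.card G) + 1) := fun k =>
    Nat.findGreatest_is_greatest (Nat.lt_succ_self _) (bd _ k) k
  generalize Nat.findGreatest P (Nat.card G) = n at φ m l4 mx
  have all : ∀ x ∈ D, ∃ i j, i ≠ j ∧ x = φ (swap i j) := fun x hx => by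
    refine Cn.induction (P := fun y => ∃ i j, i ≠ j ∧ y = φ (swap i j)) h.toT3 subset_rfl
      ⟨0, Fin.last n, (Fin.ne_iff_vne _ _).2 (by simp; omega), rfl⟩ ?_
      (h.toTG.cn h.trans (m.mem _ _ ((Fin.ne_iff_vne _ _).2 (by simp; omega))) hx)
    rintro e he _ ⟨i, j, ij, rfl⟩
    by_cases k : ∃ i j, i ≠ j ∧ e = φ (swap i j)
    · obtain ⟨k, l, kl, rfl⟩ := k
      exact ⟨_, _, (swap k l).injective.ne ij, by rw [← map_J, J_swap]⟩
    push Not at k
    by_cases c : Commute e (φ (swap i j))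
    · exact ⟨i, j, ij, J_of_commute c⟩
    obtain ⟨p, hp⟩ := m.cut s n4 he k ij c
    exact absurd (m.ext h.toT3 h.toTG.cl (by omega) he hp) mx
  have sj : Function.Surjective φ := by
    rw [← MonoidHom.range_eq_top, eq_top_iff, ← h.top, closure_le]
    intro x hx
    obtain ⟨i, j, -, rfl⟩ := all x hx
    exact ⟨_, rfl⟩
  refine ⟨n + 1, (MulEquiv.ofBijective φ ⟨m.inj, sj⟩).symm, by omega, ?_⟩
  ext σ
  constructor
  · rintro ⟨x, hx, rfl⟩
    obtain ⟨i, j, ij, rfl⟩ := all x hx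
    exact ⟨i, j, ij, (MulEquiv.symm_apply_eq _).2 rfl⟩
  · rintro ⟨i, j, ij, rfl⟩
    exact ⟨_, m.mem i j ij, (MulEquiv.symm_apply_eq _).2 rfl⟩

theorem sy_of_pl (p : PL D) : Sy D := by
  intro a ha b hb x hx ab
  by_contra k
  push Not at k
  obtain ⟨xa, xb, xc⟩ := k
  obtain ⟨d0, hd0, -⟩ := h.wide
  obtain ⟨u, hu, v, hv, uv, -⟩ := p d0 hd0
  obtain ⟨g, rfl, rfl⟩ := h.pairA hu.1 hv.1 ha hb uv ab
  have ma := J_mem_Dd (h.conj g) hu
  have mb := J_mem_Dd (h.conj g) hv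
  have hd := h.conj g _ hd0
  generalize J g d0 = d at *
  generalize J g u = a at *
  generalize J g v = b at *
  have mc := Cl.dd h.toT3 h.toTG.cl d a ma b mb
  have xd : ¬ Commute d x := fun c => by
    have := (p.line h.toT3 hd ma mb fun e => ab (e ▸ Commute.refl _)).2.subset
      ⟨hx, fun e => xa (e ▸ ma.2.2), c⟩
    rcases this with e | e | e
    exacts [xa (e ▸ Commute.refl _), xb (e ▸ Commute.refl _), xc (e ▸ Commute.refl _)]
  have key : ∀ y ∈ D, ∀ e ∈ Dd D d, ¬ Commute d y → ¬ Commute y e → J e y ∈ Dd D (J d y) :=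
    fun y hy e he n1 n2 => ⟨h.conj _ _ hy, fun k => he.2.1 (h.eq_of_J_eq he.1 hy hd
      (fun c => n2 c.symm) n1 k), (h.commute_J_swap hd).2 (h.s4 hd hy he.1 he.2.2 n1 fun c => n2 c.symm)⟩
  have hx2 := h.conj a _ (h.conj b _ hx)
  have d2 : ¬ Commute d (J a (J b x)) := by rwa [commute_J_of' ma.2.2.symm, commute_J_of' mb.2.2.symm]
  have k1 := key _ hx2 a ma d2 (by
    rwa [commute_J_of (Commute.refl a), h.commute_J_swap hb, ← h.br a ha b hb ab])
  have k2 := key _ hx2 b mb d2 (by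
    rwa [h.commute_J_swap ha, h.commute_J_swap hb, h.J_J_self ha hb ab])
  rw [h.JJ ha] at k1
  have e2 : J b (J a (J b x)) = J (J a b) x := by rw [h.br a ha b hb ab, J_J_left', h.inv hb]
  rw [e2] at k2
  have ne : J b x ≠ J (J a b) x := fun e => h.J_ne_right ab
    (h.eq_of_J_eq hb hx mc.1 (fun c => xb c.symm) (fun c => xc c.symm) e).symm
  have := h.W (h.conj d _ hx) (h.conj d _ hx2) ((p.line h.toT3 (h.conj d _ hx) (key x hx b mb xd xb)
    (key x hx _ mc xd xc) ne).2.trans (p.line h.toT3 (h.conj d _ hx2) k1 k2 ne).2.symm)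
  rw [J_inj, h.J_eq_iff ha] at this
  exact ab (h.eq_of_J_eq hb hx ha (fun c => xb c.symm) (fun c => xa c.symm) this ▸ Commute.refl _)

omit h [Finite G] in
theorem Iso.ch {H : Type*} [Group H] {E : Set G} {E' : Set H} {π : G → H} (i : Iso E E' π)
    (k : ∃ a b c d, Ch E' a b c d) : ∃ a b c d, Ch E a b c d := by
  obtain ⟨a, b, c, d, k⟩ := k
  obtain ⟨a, ha, rfl⟩ := i.ex k.ha
  obtain ⟨b, hb, rfl⟩ := i.ex k.hb
  obtain ⟨c, hc, rfl⟩ := i.ex k.hc
  obtain ⟨d, hd, rfl⟩ := i.ex k.hd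
  exact ⟨a, b, c, d, ha, hb, hc, hd, (i.cm _ ha _ hb).not.1 k.ab, (i.cm _ hb _ hc).not.1 k.bc,
    (i.cm _ hc _ hd).not.1 k.cd, (i.cm _ ha _ hc).1 k.ac, (i.cm _ ha _ hd).1 k.ad, (i.cm _ hb _ hd).1 k.bd⟩

/-- no isolated points in the perp of a line -/
def NI (D : Set G) : Prop := ∀ d ∈ D, ∀ a ∈ D, ¬ Commute d a → ∀ m ∈ D, Commute m d → Commute m a →
  ∃ y ∈ D, Commute y d ∧ Commute y a ∧ ¬ Commute y m

theorem trans_perp (t : Thin D) (w : WT D) {d a m m' : G} (hd : d ∈ D) (ha : a ∈ D)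
    (n : ¬ Commute d a) (hm : m ∈ D) (hm' : m' ∈ D) (c1 : Commute m d) (c2 : Commute m a)
    (c3 : Commute m' d) (c4 : Commute m' a) : ∃ g, J g d = d ∧ J g a = a ∧ J g m = m' := by
  obtain ⟨g, rfl⟩ := h.trans m hm m' hm'
  obtain ⟨k, k1, k2, k3⟩ := res_pairA h hm' (res_pg h t w hm')
    (J_mem_Dd (h.conj g) (d := m) ⟨hd, fun e => n (e ▸ c2), c1⟩)
    (J_mem_Dd (h.conj g) (d := m) ⟨ha, fun e => n (e ▸ c1).symm, c2⟩)
    ⟨hd, fun e => n (e ▸ c4), c3⟩ ⟨ha, fun e => n (e ▸ c3).symm, c4⟩ (commute_J.not.2 n) n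
  exact ⟨k * g, by rw [J_mul, k2], by rw [J_mul, k3], by rw [J_mul, J_of_commute k1]⟩

theorem ni (s : Sy D) (t : Thin D) (w : WT D) : NI D := by
  intro d hd a ha n m hm c1 c2
  by_contra k
  push Not at k
  have cq : ∀ x ∈ Dd D d, ∀ y ∈ Dd D d, Commute a x → Commute a y → Commute x y :=
    fun x hx y hy c3 c4 => by
      obtain ⟨g, g1, g2, rfl⟩ := trans_perp h t w hd ha n hm hy.1 c1 c2 hy.2.2.symm c4.symm
      rw [Commute.symm_iff, commute_J_left, Commute.symm_iff]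
      exact k _ (h.conj _ _ hx.1) (by rw [← commute_J (g := g), J_J_inv, g1]; exact hx.2.2.symm)
        (by rw [← commute_J (g := g), J_J_inv, g2]; exact c3.symm)
  obtain ⟨_, _, _, _, k⟩ := (iso_qt h hd).ch (exists_ch (res_pg h t w hd))
  obtain ⟨φ, m⟩ := k.sm (h.toT3.mono fun _ k => k.1) (Cl.dd h.toT3 h.toTG.cl d)
  have A := fun i j k (h1 : i ≠ j) (h2 : j ≠ k) (h3 : i ≠ k) => m.tri s (fun _ k => k.1) ha h1 h2 h3
  have B : ∀ i j k, i ≠ j → i ≠ k → j ≠ k → Commute a (φ (swap i j)) → ¬ Commute a (φ (swap i k)) :=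
    fun i j k h1 h2 h3 c1 c2 => swap_nc h1.symm h2 h3
      (by rw [swap_comm]; exact m.cm.1 (cq _ (m.mem _ _ h1) _ (m.mem _ _ h2) c1 c2))
  have C : ∀ i j k, i ≠ 0 → j ≠ 0 → k ≠ 0 → i ≠ j → i ≠ k → j ≠ k → ¬ Commute a (φ (swap 0 i)) →
      ¬ Commute a (φ (swap 0 j)) → Commute a (φ (swap 0 k)) := fun i j k i0 j0 k0 h1 h2 h3 n1 n2 => by
    by_contra n3
    exact B i j k h1 h2 h3 (((A 0 i j i0.symm h1 j0.symm).resolve_left n1).resolve_right n2)
      (((A 0 i k i0.symm h2 k0.symm).resolve_left n1).resolve_right n3)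
  have b := B 0
  have aux : ∀ p q r s : Prop, (p → ¬ q) → (p → ¬ r) → (p → ¬ s) → (q → ¬ r) → (q → ¬ s) → (r → ¬ s) →
      (¬ p → ¬ q → r) → (¬ p → ¬ q → s) → (¬ p → ¬ r → s) → (¬ q → ¬ r → s) → False := by tauto
  exact aux _ _ _ _ (b 1 2 (by decide) (by decide) (by decide)) (b 1 3 (by decide) (by decide) (by decide))
    (b 1 4 (by decide) (by decide) (by decide)) (b 2 3 (by decide) (by decide) (by decide))
    (b 2 4 (by decide) (by decide) (by decide)) (b 3 4 (by decide) (by decide) (by decide))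
    (C 1 2 3 (by decide) (by decide) (by decide) (by decide) (by decide) (by decide))
    (C 1 2 4 (by decide) (by decide) (by decide) (by decide) (by decide) (by decide))
    (C 1 3 4 (by decide) (by decide) (by decide) (by decide) (by decide) (by decide))
    (C 2 3 4 (by decide) (by decide) (by decide) (by decide) (by decide) (by decide))

omit h [Finite G] in
theorem Sy.ph_J (s : Sy D) (t : T3 D) {a b : G} (ha : a ∈ D) (hb : b ∈ D) (ab : ¬ Commute a b) :
    ph D (J a b) = ph D a + ph D b := funext fun x =>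
  sum3 (s a ha b hb x x.2 ab) T3.commute_J_both
    (fun c1 c2 => (commute_J_of' c1.symm).1 c2)
    (fun c1 c2 => t.commute_of_J ha hb ab c1 c2)

omit h [Finite G] in
theorem ph_conj (h : TG D) (g z : G) (x : D) : ph D (J g z) x = ph D z ⟨J g⁻¹ x, h.conj _ _ x.2⟩ := by
  simp only [ph]
  congr 1
  rw [Commute.symm_iff, commute_J_left, Commute.symm_iff]

theorem triple (s : Sy D) (t : Thin D) (w : WT D) (d4 : D4 D) {a b c : G} (ha : a ∈ D) (hb : b ∈ D)
    (hc : c ∈ D) (n1 : a ≠ b) (n2 : a ≠ c) (n3 : b ≠ c) (c1 : Commute a b) (c2 : Commute a c)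
    (c3 : Commute b c) : ∃ z ∈ D, ph D z = ph D a + ph D b + ph D c := by
  obtain ⟨y, hy, a0, ha0, e, he, f, hf, m1, m2, m3, k1, k2, k3, l1, l2, l3⟩ := d4
  have e0 : ph D (J y (J a0 (J e (J f y)))) = ph D a0 + ph D e + ph D f := by
    have := (star1 h.toT3 h.toTG.cl hy ha0 he hf m3 k3 k1 k2 l1 l2 l3).2.2
    rw [s.ph_J h.toT3 hy (h.conj _ _ (h.conj _ _ (h.conj _ _ hy))) fun c => this c.symm,
      s.ph_J h.toT3 ha0 (h.conj _ _ (h.conj _ _ hy))
        (by rwa [commute_J_of' k1.symm, commute_J_of' k2.symm]),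
      s.ph_J h.toT3 he (h.conj _ _ hy) (by rwa [commute_J_of' k3.symm]), s.ph_J h.toT3 hf hy l3]
    funext x
    simp only [Pi.add_apply]
    linear_combination z2s (ph D y x)
  obtain ⟨g, rfl, g2⟩ := h.pairD ha0 ha ⟨he, m1.symm, k1⟩ ⟨hb, n1.symm, c1⟩
  have mb : b ∈ Dd D (J g a0) := ⟨hb, n1.symm, c1⟩
  obtain ⟨k, q1, q2, q3⟩ := res_pairD h ha (res_pg h t w ha) mb mb (b := J g f) (e := c)
    ⟨J_mem_Dd (h.conj g) ⟨hf, m2.symm, k2⟩, g2 ▸ fun e => m3 (J_inj.1 e).symm, g2 ▸ commute_J.2 k3⟩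
    ⟨⟨hc, n2.symm, c2⟩, n3.symm, c3⟩
  refine ⟨J (k * g) (J y (J a0 (J e (J f y)))),
    h.conj _ _ (h.conj _ _ (h.conj _ _ (h.conj _ _ (h.conj _ _ hy)))), funext fun x => ?_⟩
  have r1 : J g a0 = J (k * g) a0 := by rw [J_mul, J_of_commute q1]
  have r2 : b = J (k * g) e := by rw [J_mul, g2, q2]
  have r3 : c = J (k * g) f := by rw [J_mul, q3]
  rw [r1, r2, r3]
  simp only [Pi.add_apply, ph_conj h.toTG (k * g), e0]

omit h [Finite G] in
/-- a model by a quadratic form over the field with two elements -/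
structure O2M (D : Set G) {V : Type*} [AddCommGroup V] [Module (ZMod 2) V]
    (B : V →ₗ[ZMod 2] V →ₗ[ZMod 2] ZMod 2) (Q : V → ZMod 2) (ψ : G → V) : Prop where
  q : IsQuad B Q
  sep : B.SeparatingLeft
  bij : Set.BijOn ψ D {v | Q v = 1}
  cm : ∀ d ∈ D, ∀ e ∈ D, Commute d e ↔ B (ψ d) (ψ e) = 0
  hJ : ∀ d ∈ D, ∀ e ∈ D, ¬ Commute d e → ψ (J d e) = ψ d + ψ e

theorem o2_model (s : Sy D) (t : Thin D) (w : WT D) (d4 : D4 D) :
    ∃ (V : Type u) (_ : AddCommGroup V) (_ : Module (ZMod 2) V) (_ : Finite V)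
      (B : V →ₗ[ZMod 2] V →ₗ[ZMod 2] ZMod 2) (Q : V → ZMod 2) (ψ : G → V), O2M D B Q ψ := by
  classical
  let p : D → D → ZMod 2 := fun d => ph D d
  let W : Submodule (ZMod 2) (D → ZMod 2) :=
    { carrier := {w | ∃ l : List D, (l.map p).sum = w}
      zero_mem' := ⟨[], rfl⟩
      add_mem' := by
        rintro _ _ ⟨l, rfl⟩ ⟨l', rfl⟩
        exact ⟨l ++ l', by simp⟩
      smul_mem' := fun c w hw => by
        by_cases e : c = 0
        · exact ⟨[], by simp [e]⟩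
        · rw [z2 c e, one_smul]; exact hw }
  let ev : List D → (D → ZMod 2) → ZMod 2 := fun l w => (l.map w).sum
  have ev_add : ∀ l w w', ev l (w + w') = ev l w + ev l w' := fun l w w' => List.sum_map_add
  have ev_sm : ∀ l (c : ZMod 2) w, ev l (c • w) = c • ev l w := fun l c w => by
    simp only [ev]; rw [List.smul_sum, List.map_map]; rfl
  have ev_p : ∀ l (d : D), ev l (p d) = (l.map p).sum d := fun l d => by
    induction l with
    | nil => rfl
    | cons a l ih =>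
      simp only [ev, List.map_cons, List.sum_cons, Pi.add_apply] at ih ⊢
      rw [ih]; exact congrArg (· + _) (ph_symm d.2 a.2)
  have ev_sy : ∀ l l' : List D, ev l (l'.map p).sum = ev l' (l.map p).sum := fun l l' => by
    induction l' with
    | nil => simp [ev]
    | cons a l' ih => rw [List.map_cons, List.sum_cons, ev_add, ih, ev_p]; rfl
  let β : W → W → ZMod 2 := fun w w' => ev w.2.choose w'
  have sy : ∀ w w', β w w' = β w' w := fun w w' => by
    simp only [β]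
    conv_lhs => rw [← w'.2.choose_spec]
    rw [ev_sy, w.2.choose_spec]
  have b1 : ∀ (l : List D) (w w' : W), (l.map p).sum = w → β w w' = ev l w' := fun l w w' e => by
    rw [sy]; simp only [β]; rw [← e, ev_sy, w'.2.choose_spec]
  let B : W →ₗ[ZMod 2] W →ₗ[ZMod 2] ZMod 2 := LinearMap.mk₂ _ β
    (fun a b c => by rw [sy, sy a, sy b]; exact ev_add _ _ _)
    (fun c a b => by rw [sy, sy a]; exact ev_sm _ _ _) (fun a b c => ev_add _ _ _)
    (fun c a b => ev_sm _ _ _)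
  let q : (D → ZMod 2) → ZMod 2 := fun w => if ∃ d ∈ D, ph D d = w then 1 else 0
  have q0 : q 0 = 0 := if_neg fun ⟨d, hd, e⟩ => ph_ne h hd e
  have q1 : ∀ d ∈ D, q (ph D d) = 1 := fun d hd => if_pos ⟨d, hd, rfl⟩
  have q2 : ∀ a b, Ad D a b → q (ph D a + ph D b) = 0 := fun a b k => if_neg fun ⟨c, hc, e⟩ => by
    rcases t a b k c ⟨hc, fun y hy c1 c2 => (ph_eq_zero (t := ⟨y, hy⟩)).1 (by
      rw [e, Pi.add_apply, (ph_eq_zero (t := ⟨y, hy⟩)).2 c1, (ph_eq_zero (t := ⟨y, hy⟩)).2 c2,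
        add_zero])⟩ with rfl | rfl
    · exact ph_ne h k.r (left_eq_add.1 e)
    · exact ph_ne h k.l (right_eq_add.1 e)
  have ss : ∀ w : D → ZMod 2, w + w = 0 := fun w => funext fun x => z2s _
  have pc : ∀ {c a : G} (hc : c ∈ D), Commute c a → ph D a ⟨c, hc⟩ = 0 := fun hc k => ph_eq_zero.2 k
  have pn : ∀ {c a : G} (hc : c ∈ D), ¬ Commute c a → ph D a ⟨c, hc⟩ = 1 := fun hc k =>
    (z2c _).resolve_left (ph_eq_zero.not.2 k)
  let Ty : (D → ZMod 2) → Prop := fun w =>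
    w = 0 ∨ (∃ a ∈ D, w = ph D a) ∨ ∃ a b, Ad D a b ∧ w = ph D a + ph D b
  have two : ∀ a ∈ D, ∀ c (hc : c ∈ D), Ty (ph D a + ph D c) ∧
      q (ph D a + ph D c) = ph D a ⟨c, hc⟩ := fun a ha c hc => by
    by_cases e : a = c
    · subst e
      rw [ss, q0, pc ha (Commute.refl _)]; exact ⟨.inl rfl, rfl⟩
    by_cases k : Commute a c
    · rw [q2 a c ⟨ha, hc, e, k⟩, pc hc k.symm]; exact ⟨.inr (.inr ⟨a, c, ⟨ha, hc, e, k⟩, rfl⟩), rfl⟩
    · rw [← s.ph_J h.toT3 ha hc k, q1 _ (h.conj _ _ hc), pn hc fun c => k c.symm]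
      exact ⟨.inr (.inl ⟨_, h.conj _ _ hc, rfl⟩), rfl⟩
  have thr : ∀ a b, Ad D a b → ∀ c (hc : c ∈ D), ¬ Commute c a → Ty (ph D a + ph D b + ph D c) ∧
      q (ph D a + ph D b + ph D c) = 1 + (ph D a + ph D b) ⟨c, hc⟩ := fun a b k c hc n => by
    rw [add_right_comm, ← s.ph_J h.toT3 k.l hc fun c => n c.symm]
    refine ⟨(two _ (h.conj _ _ hc) b k.r).1, ?_⟩
    rw [(two _ (h.conj _ _ hc) b k.r).2, s.ph_J h.toT3 k.l hc fun c => n c.symm, Pi.add_apply,
      Pi.add_apply, pc k.r k.c.symm, pn hc n, ph_symm hc k.r, ← add_assoc, z2s]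
  have stp : ∀ w, Ty w → ∀ c (hc : c ∈ D), Ty (w + ph D c) ∧ q (w + ph D c) = q w + 1 + w ⟨c, hc⟩ := by
    rintro _ (rfl | ⟨a, ha, rfl⟩ | ⟨a, b, k, rfl⟩) c hc
    · rw [zero_add, q0, q1 c hc]; exact ⟨.inr (.inl ⟨c, hc, rfl⟩), by simp⟩
    · rw [q1 a ha, z2s, zero_add]; exact two a ha c hc
    rw [q2 a b k, zero_add]
    by_cases c1 : Commute c a
    swap
    · exact thr a b k c hc c1
    by_cases c2 : Commute c b
    swap
    · rw [add_comm (ph D a)]; exact thr b a k.symm c hc c2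
    have : ∃ z ∈ D, ph D z = ph D a + ph D b + ph D c := by
      by_cases e1 : a = c
      · exact ⟨b, k.r, by rw [← e1, add_right_comm, ss, zero_add]⟩
      by_cases e2 : b = c
      · exact ⟨a, k.l, by rw [← e2, add_assoc, ss, add_zero]⟩
      exact triple h s t w d4 k.l k.r hc k.ne e1 e2 k.c c1.symm c2.symm
    obtain ⟨z, hz, e⟩ := this
    rw [← e, q1 z hz, Pi.add_apply, pc hc c1, pc hc c2]
    exact ⟨.inr (.inl ⟨z, hz, rfl⟩), by simp⟩
  have ty : ∀ l : List D, Ty (l.map p).sum := fun l => by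
    induction l with
    | nil => exact .inl rfl
    | cons a l ih => rw [List.map_cons, List.sum_cons, add_comm]; exact (stp _ ih a a.2).1
  have qa : ∀ l l' : List D, q ((l.map p).sum + (l'.map p).sum) =
      q (l.map p).sum + q (l'.map p).sum + ev l' (l.map p).sum := fun l l' => by
    induction l' with
    | nil => simp [ev, q0]
    | cons a l' ih =>
      have := ty (l ++ l')
      rw [List.map_append, List.sum_append] at this
      rw [List.map_cons, List.sum_cons, add_comm (p a), ← add_assoc, (stp _ this a a.2).2,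
        (stp _ (ty l') a a.2).2, ih]
      simp only [ev, List.map_cons, List.sum_cons, Pi.add_apply]
      ring
  let φ : G → W := fun d => if k : d ∈ D then ⟨ph D d, [⟨d, k⟩], by simp [p]⟩ else 0
  have hφ : ∀ d ∈ D, (φ d).1 = ph D d := fun d hd => by simp only [φ, dif_pos hd]
  have bφ : ∀ d (hd : d ∈ D) (w : W), B (φ d) w = w.1 ⟨d, hd⟩ := fun d hd w =>
    (b1 [⟨d, hd⟩] _ _ (by simp [p, hφ d hd])).trans (by simp [ev])
  refine ⟨W, inferInstance, inferInstance, inferInstance, B, fun w => q w, φ,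
    IsQuad.of_add_smul (fun x y => ?_) fun c x => ?_, fun x k => ?_,
    ⟨fun d hd => by simp only [Set.mem_ofPred_eq, hφ d hd, q1 d hd], fun a ha b hb k => ?_, fun v hv => ?_⟩,
    fun a ha b hb => ?_, fun a ha b hb ab => ?_⟩
  · obtain ⟨_, l, rfl⟩ := x
    obtain ⟨_, l', rfl⟩ := y
    exact (qa l l').trans (congrArg _ ((sy ⟨_, l, rfl⟩ ⟨_, l', rfl⟩).trans (b1 l' _ _ rfl)).symm)
  · rcases z2c c with rfl | rfl
    · simp [q0]
    · simp
  · exact Subtype.ext (funext fun d => by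
      rw [← bφ d d.2 x]; exact (sy _ _).trans (k _))
  · exact ph_inj h ha hb (by rw [← hφ a ha, ← hφ b hb, k])
  · have : ∃ d ∈ D, ph D d = v := by
      by_contra k
      exact absurd (hv.symm.trans (if_neg k)) (by decide)
    obtain ⟨d, hd, e⟩ := this
    exact ⟨d, hd, Subtype.ext ((hφ d hd).trans e)⟩
  · rw [bφ a ha, hφ b hb, ph_eq_zero]
  · exact Subtype.ext (by rw [Submodule.coe_add, hφ _ (h.conj a _ hb), hφ a ha, hφ b hb,
      s.ph_J h.toT3 ha hb ab])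

end Cfsg.Agent.H21.FS
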