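import Mathlib
import Cfsg.Agent.H21.Fc2
import Cfsg.Agent.H11.ClassifyQ

/-! Fischer's classification: models over the field with three elements. -/

set_option autoImplicit false
set_option linter.unusedSectionVars false
set_option linter.unusedVariables false
set_option linter.style.haveILetI false

namespace Cfsg.Agent.H21.FS

open Cfsg Subgroup Cfsg.Agent.H19 Cfsg.Agent.H11 Module

theorem z3c : ∀ a : ZMod 3, a ≠ 0 → a = 1 ∨ a = -1 := by decide
theorem z3sq : ∀ a : ZMod 3, a ≠ 0 → a * a = 1 := by decide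
theorem z3three : (3 : ZMod 3) = 0 := by decide
theorem z3or : ∀ a c : ZMod 3, a ≠ 0 → c ≠ 0 → a = c ∨ a = -c := by decide

section
variable {V : Type*} [AddCommGroup V] [Module (ZMod 3) V] [FiniteDimensional (ZMod 3) V]
  {B : V →ₗ[ZMod 3] V →ₗ[ZMod 3] ZMod 3} {Q : V → ZMod 3} (q : IsQuad B Q) (sep : B.SeparatingLeft)
include q sep

theorem KL {ι : Type} [Fintype ι] (v : ι → V) {w : V} (hw : Q w = 0) (p : ∀ i, B (v i) w = 0)
    (n : ∀ a : ι → ZMod 3, ∑ i, a i • v i ≠ w) (c : ZMod 3) :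
    ∃ y, Q y = c ∧ (∀ i, B (v i) y = 0) ∧ B w y = 1 := by
  obtain ⟨z, h1, h2⟩ := q.exists_perp_not sep (W := Submodule.span _ (Set.range v)) (x := w)
    fun k => by
      obtain ⟨a, e⟩ := (Submodule.mem_span_range_iff_exists_fun _).1 k
      exact n a e
  refine ⟨z + (c - Q z) • w, ?_, fun i => ?_, ?_⟩
  · rw [q.add', q.smul', hw, map_smul, q.comm z w, h2]; simp
  · simp [h1 _ (Submodule.subset_span ⟨i, rfl⟩), p i]
  · simp [h2, q.diag_zero hw]

theorem exP {n : ℕ} (hn : n < finrank (ZMod 3) V) (v : Fin n → V) : ∃ u, u ≠ 0 ∧ ∀ i, B (v i) u = 0 := by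
  have d1 := q.finrank_perp sep (Submodule.span (ZMod 3) (Set.range v))
  have d2 := finrank_range_le_card (R := ZMod 3) v
  rw [Set.finrank, Fintype.card_fin] at d2
  obtain ⟨u, hu, u0⟩ := Submodule.exists_mem_ne_zero_of_ne_bot
    (p := perp B (Submodule.span (ZMod 3) (Set.range v))) fun k => by
      rw [k, finrank_bot] at d1; omega
  exact ⟨u, u0, fun i => mem_perp_span.1 hu _ ⟨i, rfl⟩⟩

theorem exN (hn : 5 ≤ finrank (ZMod 3) V) {d r : V} (hd : Q d ≠ 0) (hr : Q r = 0) (r0 : r ≠ 0)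
    (dr : B d r = 0) (c : ZMod 3) : ∃ y, Q y = c ∧ B d y = 0 ∧ B r y = 0 := by
  obtain ⟨r', k1, k2, k3⟩ := KL q sep ![d] hr (by simpa) (fun a e => by
    have := congrArg Q e
    simp only [Finset.univ_unique, Finset.sum_singleton, Matrix.cons_val_fin_one] at this e
    rw [q.smul', hr] at this
    rw [show a default = 0 by simpa [hd] using this, zero_smul] at e
    exact r0 e.symm) 0
  have k2 : B d r' = 0 := k2 0
  have nd : NondegOn B (Submodule.span (ZMod 3) (Set.range ![d, r, r'])) := by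
    intro x hx k
    obtain ⟨a, rfl⟩ := (Submodule.mem_span_range_iff_exists_fun _).1 hx
    have e1 := k d (Submodule.subset_span ⟨0, rfl⟩)
    have e2 := k r (Submodule.subset_span ⟨1, rfl⟩)
    have e3 := k r' (Submodule.subset_span ⟨2, rfl⟩)
    simp [Fin.sum_univ_three, q.diag', q.comm r d, q.comm r' d, q.comm r' r, dr, k1, k2, k3, hr, hd,
      show (2 : ZMod 3) ≠ 0 by decide] at e1 e2 e3
    simp [Fin.sum_univ_three, e1, e2, e3]
  have d1 := q.finrank_perp sep (Submodule.span (ZMod 3) (Set.range ![d, r, r']))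
  have d2 := finrank_range_le_card (R := ZMod 3) ![d, r, r']
  rw [Set.finrank, Fintype.card_fin] at d2
  obtain ⟨y, hy, e⟩ := q.exists_eq_on (q.nondegOn_perp sep nd) (by omega) c
  exact ⟨y, e, mem_perp_span.1 hy _ ⟨0, rfl⟩, mem_perp_span.1 hy _ ⟨1, rfl⟩⟩

theorem LCv (hn : 5 ≤ finrank (ZMod 3) V) {c : ZMod 3} (c0 : c ≠ 0) {d r v : V} (hd : Q d = c)
    (hr : Q r = 0) (r0 : r ≠ 0) (dr : B d r = 0) (hv : Q v = c)
    (k : ∀ y, Q y = c → B d y = 0 → B r y = 0 → B v y = 0) :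
    ∃ s t : ZMod 3, s ≠ 0 ∧ v = s • (d + t • r) := by
  obtain ⟨x, x1, x2, x3⟩ := exN q sep hn (hd ▸ c0) hr r0 dr c
  have vr : B v r = 0 := by
    have := k (x + r) (by rw [q.add', x1, hr, q.comm, x3]; simp) (by simp [x2, dr])
      (by simp [x3, q.diag_zero hr])
    simpa [k x x1 x2 x3] using this
  have vd : B d v ≠ 0 := fun e => by
    have := k v hv e (q.refl vr)
    rw [q.diag', hv] at this
    revert this c0; generalize c = c; revert c; decide
  let s := -c * B d v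
  have s0 : s ≠ 0 := by simp [s, c0, vd]
  have u1 : B d (v - s • d) = 0 := by
    rw [map_sub, map_smul, q.diag', hd, smul_eq_mul]
    simp only [s]; revert c0; generalize B d v = x; generalize c = c; revert x c; decide
  by_contra n
  obtain ⟨y, y1, y2, y3⟩ := KL q sep ![d, r] (w := v - s • d) (by
      rw [q.sub', q.smul', map_smul, q.comm v d, hv, hd, smul_eq_mul]
      simp only [s]; revert c0 vd; generalize B d v = x; generalize c = c; revert x c; decide)
    (fun i => by fin_cases i; exacts [u1, by simp [q.refl vr, q.refl dr]]) (fun a e => by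
      simp only [Fin.sum_univ_two, Matrix.cons_val_zero, Matrix.cons_val_one] at e
      have := u1
      rw [← e] at this
      simp only [map_add, map_smul, q.diag', hd, dr, smul_eq_mul, mul_zero, add_zero, mul_eq_zero, c0,
        show (2 : ZMod 3) ≠ 0 by decide, or_false] at this
      rw [this, zero_smul, zero_add] at e
      refine n ⟨s, s * a 1, s0, ?_⟩
      rw [smul_add, smul_smul, ← mul_assoc, z3sq s s0, one_mul, e]; abel) c
  have := k y y1 (y2 0) (y2 1)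
  simp [this, show B d y = 0 from y2 0] at y3

theorem prop_of {c : ZMod 3} (c0 : c ≠ 0) {ι : Type} [Fintype ι] [DecidableEq ι] (v : ι → V)
    (v1 : ∀ i, Q (v i) = c) (v2 : ∀ i j, i ≠ j → B (v i) (v j) = 0) {w w' : V} (hw : Q w = 0)
    (hw' : Q w' = 0) (w0 : w' ≠ 0) (p1 : ∀ i, B (v i) w = 0) (p2 : ∀ i, B (v i) w' = 0)
    (p3 : B w w' = 0) (k : ∀ y, Q y = c → (∀ i, B (v i) y = 0) → B w y = 0 → B w' y = 0) :
    w' = w ∨ w' = -w := by
  by_contra n
  obtain ⟨y, y1, y2, y3⟩ := KL q sep (fun i : Option ι => i.elim w v) hw'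
    (fun i => by cases i; exacts [p3, p2 _]) (fun a e => by
      rw [Fintype.sum_option] at e
      have : ∀ i, a (some i) = 0 := fun i => by
        have := p2 i
        rw [← e, map_add, map_smul, map_sum, Finset.sum_eq_single i
          (fun j _ ji => by simp [v2 i j ji.symm]) (by simp)] at this
        simpa [p1 i, q.diag', v1 i, c0, show (2 : ZMod 3) ≠ 0 by decide] using this
      simp only [this, zero_smul, Finset.sum_const_zero, add_zero, Option.elim_none] at e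
      rcases z3c (a none) (fun k => w0 (by rw [← e, k, zero_smul])) with k | k <;> rw [k] at e
      · exact n (.inl (by rw [← e, one_smul]))
      · exact n (.inr (by rw [← e, neg_one_smul]))) c
  exact one_ne_zero (y3.symm.trans (k y y1 (fun i => y2 (some i)) (y2 none)))

omit sep [FiniteDimensional (ZMod 3) V] in
theorem mk_sing {z u : V} (hu : Q u = 0) (k : B u z ≠ 0) : ∃ l : ZMod 3, Q (z + l • u) = 0 :=
  q.exists_add_smul_singular hu k

theorem E2 {p0 p : V} (h0 : Q p0 = 0) (n0 : p0 ≠ 0) (n : p ≠ 0) (k : B p p0 = 0) :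
    ∃ t, Q t = 0 ∧ B p0 t ≠ 0 ∧ B p t ≠ 0 := by
  have : ∃ z, B p0 z ≠ 0 ∧ B p z ≠ 0 := by
    obtain ⟨z1, k1⟩ : ∃ z, B p0 z ≠ 0 := not_forall.1 fun k => n0 (sep _ k)
    obtain ⟨z2, k2⟩ : ∃ z, B p z ≠ 0 := not_forall.1 fun k => n (sep _ k)
    by_cases e1 : B p z1 = 0
    · by_cases e2 : B p0 z2 = 0
      · exact ⟨z1 + z2, by simpa [e2], by simpa [e1]⟩
      · exact ⟨z2, e2, k2⟩
    · exact ⟨z1, k1, e1⟩
  obtain ⟨z, k1, k2⟩ := this
  obtain ⟨l, e⟩ := mk_sing q h0 k1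
  exact ⟨_, e, by simpa [q.diag_zero h0], by simpa [k]⟩

theorem E3 {p0 p p' : V} (h0 : Q p0 = 0) (h1 : Q p = 0) (h2 : Q p' = 0) (n0 : p0 ≠ 0)
    (k1 : B p p0 = 0) (k2 : B p' p0 = 0) (k : B p p' ≠ 0) :
    ∃ t, Q t = 0 ∧ B p0 t ≠ 0 ∧ B p t ≠ 0 ∧ B p' t ≠ 0 := by
  obtain ⟨z, k3⟩ : ∃ z, B p0 z ≠ 0 := not_forall.1 fun k => n0 (sep _ k)
  obtain ⟨a, ha⟩ := (by decide : ∀ x y : ZMod 3, y ≠ 0 → ∃ a, x + a * y ≠ 0) (B p' z) _ k
  obtain ⟨b, hb⟩ := (by decide : ∀ x y : ZMod 3, y ≠ 0 → ∃ a, x + a * y ≠ 0) (B p z) _ k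
  obtain ⟨l, e⟩ := mk_sing q h0 (z := z + a • p + b • p') (by simpa [q.refl k1, q.refl k2])
  exact ⟨_, e, by simpa [q.refl k1, q.refl k2, q.diag_zero h0], by simpa [k1, q.diag_zero h1],
    by simpa [k2, q.diag_zero h2, q.comm p' p]⟩

theorem E4 (hn : 5 ≤ finrank (ZMod 3) V) {p0 p r r' : V} (h0 : Q p0 = 0) (h1 : Q r = 0)
    (k1 : B p p0 = 0) (k2 : B r' r = 0) (n1 : B p0 r ≠ 0) (n2 : B p r ≠ 0) (n3 : B p0 r' ≠ 0) :
    ∃ t, Q t = 0 ∧ B p0 t ≠ 0 ∧ B p t ≠ 0 ∧ B r t ≠ 0 ∧ B r' t ≠ 0 := by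
  obtain ⟨u, u0, hu⟩ := exP q sep (n := 4) (by omega) ![p0, p, r, r']
  have u1 : B p0 u = 0 := hu 0
  have u2 : B p u = 0 := hu 1
  have u3 : B r u = 0 := hu 2
  have u4 : B r' u = 0 := hu 3
  have av := (by decide : ∀ x y x' y' : ZMod 3, y ≠ 0 → y' ≠ 0 → ∃ a, x + a * y ≠ 0 ∧ x' + a * y' ≠ 0)
  by_cases e : Q u = 0
  · obtain ⟨z, k3⟩ : ∃ z, B u z ≠ 0 := not_forall.1 fun k => u0 (sep _ k)
    obtain ⟨a, a1, a2⟩ := av (B p0 z) _ (B p z) _ n1 n2
    obtain ⟨b, b1, b2⟩ := av (B r z) _ (B r' z) _ n1 n3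
    obtain ⟨l, e⟩ := mk_sing q e (z := z + a • r + b • p0) (by simpa [q.refl u1, q.refl u3])
    exact ⟨_, e, by simpa [u1, q.diag_zero h0], by simpa [u2, k1],
      by simpa [u3, q.diag_zero h1, q.comm r p0], by simpa [u4, k2, q.comm r' p0]⟩
  obtain ⟨s, s0, hs⟩ := (by decide : ∀ x y : ZMod 3, x ≠ 0 → y ≠ 0 → ∃ s, s ≠ 0 ∧ s * x + y = 0) _ _ n1 e
  exact ⟨s • p0 + r + u, by simp [q.add', q.smul', h0, h1, u1, u3, hs], by simpa [u1, q.diag_zero h0],
    by simpa [u2, k1], by simp [u3, q.diag_zero h1, q.comm r p0, s0, n1],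
    by simp [u4, k2, q.comm r' p0, s0, n3]⟩

end

variable {G : Type*} [Group G]

/-- a model by the vectors of norm `c` of a quadratic space over the field with three elements -/
structure M3M (D : Set G) {V : Type*} [AddCommGroup V] [Module (ZMod 3) V]
    (B : V →ₗ[ZMod 3] V →ₗ[ZMod 3] ZMod 3) (Q : V → ZMod 3) (c : ZMod 3) (P : G → V → Prop) : Prop where
  q : IsQuad B Q
  sep : B.SeparatingLeft
  dim : 5 ≤ finrank (ZMod 3) V
  c0 : c ≠ 0
  mem : ∀ {d v}, P d v → d ∈ D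
  nm : ∀ {d v}, P d v → Q v = c
  ex1 : ∀ {d}, d ∈ D → ∃ v, P d v
  ex2 : ∀ {v}, Q v = c → ∃ d, P d v
  neg : ∀ {d v}, P d v → P d (-v)
  un1 : ∀ {d e v}, P d v → P e v → d = e
  un2 : ∀ {d v w}, P d v → P d w → w = v ∨ w = -v
  cm : ∀ {d e v w}, P d v → P e w → d ≠ e → (Commute d e ↔ B v w = 0)

/-- a model exists -/
def M3 (D : Set G) : Prop := ∃ (V : Type) (_ : AddCommGroup V) (_ : Module (ZMod 3) V) (_ : Finite V)
  (B : V →ₗ[ZMod 3] V →ₗ[ZMod 3] ZMod 3) (Q : V → ZMod 3) (c : ZMod 3) (P : G → V → Prop),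
  M3M D B Q c P

/-- `y` commutes with exactly one point of a line -/
def Tr1 (y x x' : G) : Prop := (Commute y x ∧ ¬ Commute y x' ∧ y ≠ x) ∨
  (Commute y x' ∧ ¬ Commute y x ∧ y ≠ x') ∨ (Commute y (J x x') ∧ ¬ Commute y x ∧ y ≠ J x x')

variable {V : Type*} [AddCommGroup V] [Module (ZMod 3) V] [FiniteDimensional (ZMod 3) V]
  {B : V →ₗ[ZMod 3] V →ₗ[ZMod 3] ZMod 3} {Q : V → ZMod 3} {c : ZMod 3}

theorem Iso.m3 {H : Type*} [Group H] {E : Set G} {E' : Set H} {π : G → H} (i : Iso E E' π)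
    {P : H → V → Prop} (m : M3M E' B Q c P) : M3M E B Q c fun x v => x ∈ E ∧ P (π x) v :=
  ⟨m.q, m.sep, m.dim, m.c0, fun k => k.1, fun k => m.nm k.2,
    fun k => (m.ex1 (i.mem k)).imp fun _ k' => ⟨k, k'⟩, fun k => by
      obtain ⟨d, hd⟩ := m.ex2 k
      obtain ⟨d, hd', rfl⟩ := i.ex (m.mem hd)
      exact ⟨d, hd', hd⟩, fun k => ⟨k.1, m.neg k.2⟩, fun k k' => (i.eq k.1 k'.1).1 (m.un1 k.2 k'.2),
    fun k k' => m.un2 k.2 k'.2, fun k k' n => by
      rw [← i.cm _ k.1 _ k'.1, m.cm k.2 k'.2 ((i.eq k.1 k'.1).not.2 n)]⟩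

namespace M3M
variable {D : Set G} {P : G → V → Prop} (m : M3M D B Q c P) {d e : G} {u v : V}
include m

theorem smul (k : P d v) {s : ZMod 3} (s0 : s ≠ 0) : P d (s • v) := by
  rcases z3c s s0 with rfl | rfl
  · rwa [one_smul]
  · rw [neg_one_smul]; exact m.neg k

theorem self_ne (k : P d v) : B v v ≠ 0 := by
  rw [m.q.diag', m.nm k]; exact mul_ne_zero (by decide) m.c0

theorem ne_of (k : P d u) (k' : P e v) {w : V} (h1 : B w u = 0) (h2 : B w v ≠ 0) : d ≠ e := by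
  rintro rfl
  rcases m.un2 k k' with rfl | rfl
  · exact h2 h1
  · exact h2 (by simp [h1])

theorem cm0 (k : P d u) (k' : P e v) (h : B u v = 0) : d ≠ e ∧ Commute d e :=
  have n : d ≠ e := (m.ne_of k' k h (m.self_ne k)).symm
  ⟨n, (m.cm k k' n).2 h⟩

theorem nc (k : P d u) (k' : P e v) (h : ¬ Commute d e) : B u v ≠ 0 := fun b => h (m.cm0 k k' b).2

theorem dir (k : P d u) (he : e ∈ D) (n : ¬ Commute d e) :
    ∃ r, Q r = 0 ∧ r ≠ 0 ∧ B u r = 0 ∧ P e (u + r) := by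
  obtain ⟨v, k', b⟩ : ∃ v, P e v ∧ B u v = -c := by
    obtain ⟨v, k'⟩ := m.ex1 he
    rcases z3or _ _ (m.nc k k' n) m.c0 with b | b
    · exact ⟨-v, m.neg k', by simp [b]⟩
    · exact ⟨v, k', b⟩
  refine ⟨v - u, ?_, fun e0 => n (m.un1 k (sub_eq_zero.1 e0 ▸ k') ▸ Commute.refl _), ?_, by simpa⟩
  · rw [m.q.sub', m.nm k, m.nm k', m.q.comm, b]; linear_combination c * z3three
  · rw [map_sub, b, m.q.diag', m.nm k]; linear_combination -c * z3three

theorem nm_add (k : P d u) {r : V} (hr : Q r = 0) (ur : B u r = 0) (t : ZMod 3) :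
    Q (u + t • r) = c := by
  simp [m.q.add', m.q.smul', hr, ur, m.nm k]

theorem dbl (k : P d u) {r : V} (hr : Q r = 0) (r0 : r ≠ 0) (ur : B u r = 0) (k' : P e (u + r)) {z : G}
    (hz : z ∈ D) (h : ∀ y ∈ D, Commute y d → Commute y e → Commute y z) :
    z = d ∨ z = e ∨ P z (u - r) := by
  obtain ⟨v, kv⟩ := m.ex1 hz
  have nc : ¬ Commute d e := fun cm => by
    have n : d ≠ e := fun e => by
      subst e
      rcases m.un2 k k' with e | e
      · exact r0 (by simpa using e)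
      · have := congrArg (B u) e
        simp only [map_add, map_neg, ur, add_zero] at this
        exact (by decide : ∀ x : ZMod 3, x ≠ 0 → x ≠ -x) _ (m.self_ne k) this
    exact m.self_ne k (by simpa [ur] using (m.cm k k' n).1 cm)
  obtain ⟨s, t, s0, rfl⟩ := LCv m.q m.sep m.dim m.c0 (m.nm k) hr r0 ur (m.nm kv) fun y y1 y2 y3 => by
    obtain ⟨x, kx⟩ := m.ex2 y1
    have c1 := (m.cm0 k kx y2).2.symm
    have c2 := (m.cm0 k' kx (by simp [y2, y3])).2.symm
    refine (m.cm kv kx fun e => ?_).1 (h x (m.mem kx) c1 c2).symm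
    subst e
    obtain ⟨x', kx'⟩ := m.ex2 (m.nm_add kx hr (m.q.refl y3) 1)
    have := h x' (m.mem kx') (m.cm0 k kx' (by simp [y2, ur])).2.symm
      (m.cm0 k' kx' (by simp [y2, y3, ur, m.q.diag_zero hr])).2.symm
    have n : x' ≠ z := fun e => by
      subst e
      rcases m.un2 kx kx' with e | e
      · exact r0 (by simpa using e)
      · have := congrArg (B y) e
        simp only [map_add, map_neg, map_smul, m.q.refl y3, smul_zero, add_zero] at this
        exact (by decide : ∀ x : ZMod 3, x ≠ 0 → x ≠ -x) _ (m.self_ne kx) this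
    exact m.self_ne kx (by simpa [y3] using (m.cm kx' kx n).1 this)
  have kv' := m.smul kv s0
  rw [smul_smul, z3sq s s0, one_smul] at kv'
  by_cases t0 : t = 0
  · exact .inl (m.un1 (by simpa [t0] using kv') k)
  rcases z3c t t0 with rfl | rfl
  · exact .inr (.inl (m.un1 (by simpa using kv') k'))
  · exact .inr (.inr (by simpa [sub_eq_add_neg] using kv'))

variable (t : T3 D) (cl : Cl D)
include t cl

theorem pJ (k : P d u) {r : V} (hr : Q r = 0) (r0 : r ≠ 0) (ur : B u r = 0) (k' : P e (u + r))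
    (n : ¬ Commute d e) : P (J d e) (u - r) :=
  ((m.dbl k hr r0 ur k' (cl _ (m.mem k) _ (m.mem k')) fun y hy => T3.commute_J_both).resolve_left
    (t.J_ne_left (m.mem k) n)).resolve_left (t.J_ne_right n)

theorem refl (k : P d u) (k' : P e v) : P (J d e) (v - (c * B u v) • u) := by
  have two : c * B u u = 2 := by rw [m.q.diag', m.nm k]; linear_combination 2 * z3sq c m.c0
  by_cases n : Commute d e
  · rw [J_of_commute n]
    by_cases de : d = e
    · subst de
      rcases m.un2 k k' with rfl | rfl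
      · rw [two]; convert m.neg k using 1; module
      · rw [map_neg, mul_neg, two]; convert k using 1; module
    · simpa [(m.cm k k' de).1 n]
  obtain ⟨r, hr, r0, ur, k2⟩ := m.dir k (m.mem k') n
  have := m.pJ t cl k hr r0 ur k2 n
  rcases m.un2 k2 k' with rfl | rfl
  · rw [map_add, ur, add_zero, two]; convert m.neg this using 1; module
  · rw [map_neg, map_add, ur, add_zero, mul_neg, two]; convert this using 1; module

theorem hl : HL D := fun a ha b hb n z hz h => by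
  obtain ⟨u, k⟩ := m.ex1 ha
  obtain ⟨r, hr, r0, ur, k2⟩ := m.dir k hb n
  exact (m.dbl k hr r0 ur k2 hz h).imp_right (Or.imp_right fun k3 => m.un1 k3 (m.pJ t cl k hr r0 ur k2 n))

theorem tr1 {x x' y : G} {r : V} (k : P x u) (hr : Q r = 0) (r0 : r ≠ 0) (ur : B u r = 0)
    (k' : P x' (u + r)) (n : ¬ Commute x x') (ky : P y v) : Tr1 y x x' ↔ B r v ≠ 0 := by
  have k3 := m.pJ t cl k hr r0 ur k' n
  have rr := m.q.diag_zero hr
  constructor
  · intro h b
    rcases h with ⟨h1, h2, h3⟩ | ⟨h1, h2, h3⟩ | ⟨h1, h2, h3⟩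
    · exact h2 (m.cm0 k' ky (by simp [b, (m.cm k ky h3.symm).1 h1.symm])).2.symm
    · exact h2 (m.cm0 k ky (by simpa [b] using (m.cm k' ky h3.symm).1 h1.symm)).2.symm
    · exact h2 (m.cm0 k ky (by simpa [b] using (m.cm k3 ky h3.symm).1 h1.symm)).2.symm
  · intro b
    have n1 := m.ne_of k ky (m.q.refl ur) b
    have n2 := m.ne_of k' ky (by simp [m.q.refl ur, rr]) b
    have n3 := m.ne_of k3 ky (by simp [m.q.refl ur, rr]) b
    simp only [Tr1, Commute.symm_iff (a := y), m.cm k ky n1, m.cm k' ky n2, m.cm k3 ky n3, map_add,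
      map_sub, LinearMap.add_apply, LinearMap.sub_apply, ne_eq, n1.symm, n2.symm, n3.symm,
      not_false_eq_true, and_true]
    revert b; generalize B u v = a; generalize B r v = b; revert a b; decide

end M3M

end Cfsg.Agent.H21.FS
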