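import Mathlib
import Cfsg.Agent.H21.Fc3

/-! Fischer's classification: the perp of a line in a space with orthogonal residues. -/

set_option autoImplicit false
set_option linter.unusedSectionVars false
set_option linter.unusedVariables false
set_option linter.style.haveILetI false

namespace Cfsg.Agent.H21.FS

open Cfsg Subgroup Cfsg.Agent.H19 Cfsg.Agent.H11 Module

variable {G : Type*} [Group G] {V : Type*} [AddCommGroup V] [Module (ZMod 3) V]
  [FiniteDimensional (ZMod 3) V]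
  {B : V →ₗ[ZMod 3] V →ₗ[ZMod 3] ZMod 3} {Q : V → ZMod 3} {c : ZMod 3}

theorem M3M.ncl {D : Set G} {P : G → V → Prop} (m : M3M D B Q c P) {d e : G} {u r : V} (k : P d u)
    (r0 : r ≠ 0) (ur : B u r = 0) (k' : P e (u + r)) : ¬ Commute d e := fun cm => by
  have n : d ≠ e := fun e => by
    subst e
    rcases m.un2 k k' with e | e
    · exact r0 (by simpa using e)
    · have := congrArg (B u) e
      simp only [map_add, map_neg, ur, add_zero] at this
      exact (by decide : ∀ x : ZMod 3, x ≠ 0 → x ≠ -x) _ (m.self_ne k) this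
  exact m.self_ne k (by simpa [ur] using (m.cm k k' n).1 cm)

/-- the direction seen from `h` -/
structure Dir (B : V →ₗ[ZMod 3] V →ₗ[ZMod 3] ZMod 3) (Q : V → ZMod 3) (P : G → V → Prop) (a h : G)
    (w : V) : Prop where
  q : Q w = 0
  ne : w ≠ 0
  h0 : ∀ v, P h v → B w v = 0
  iff : ∀ y v, P y v → y ≠ h → Commute h y → (Commute a y ↔ B w v = 0)

/-- the form in coordinates -/
def g5 (a b : Fin 5 → ZMod 3) : ZMod 3 :=
  2 * a 0 * b 0 + 2 * a 1 * b 1 + a 2 * b 3 + a 3 * b 2 - 2 * a 4 * b 4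

/-- a frame -/
def fr5 : Fin 5 → Fin 5 → ZMod 3 :=
  ![![0, 0, 1, -1, 1], ![1, 1, -1, 0, -1], ![1, 1, 1, 0, 1], ![1, -1, 0, 1, -1], ![1, -1, 0, -1, 1]]

/-- reflections in coordinates -/
def rf5 (a b : Fin 5 → ZMod 3) : Fin 5 → ZMod 3 := b - g5 a b • a

theorem fr5_1 : ∀ i j, g5 (fr5 i) (fr5 j) = if i = j then 2 else 0 := by decide +kernel
theorem fr5_2 : ∀ b, rf5 (fr5 0) (rf5 (fr5 1) (rf5 (fr5 2) (rf5 (fr5 3) (rf5 (fr5 4) b)))) = -b := by
  decide +kernel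
theorem fr5_3 : ∀ b, (∀ i, g5 (fr5 i) b = 0) → g5 b b = 0 := by decide +kernel
theorem fr5_4 : ∀ i, ∃ a, g5 a a = 2 ∧ (g5 ![1, 0, 0, 0, 0] a = 0 ∧ g5 ![0, 0, 1, 0, 0] a = 0 ∨
      g5 ![0, 1, 0, 0, 0] a = 0 ∧ g5 ![0, 0, 0, 1, 0] a = 0) ∧
    (g5 ![1, 0, 0, 0, 0] (rf5 a (fr5 i)) = 0 ∧ g5 ![0, 0, 1, 0, 0] (rf5 a (fr5 i)) ≠ 0 ∨
      g5 ![0, 1, 0, 0, 0] (rf5 a (fr5 i)) = 0 ∧ g5 ![0, 0, 0, 1, 0] (rf5 a (fr5 i)) ≠ 0) := by
  decide +kernel

theorem Dir.neg {P : G → V → Prop} {a h : G} {w : V} (q : IsQuad B Q) (k : Dir B Q P a h w) :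
    Dir B Q P a h (-w) :=
  ⟨by rw [q.neg, k.q], neg_ne_zero.2 k.ne, fun v hv => by simp [k.h0 v hv],
    fun y v h1 h2 h3 => by simp [k.iff y v h1 h2 h3]⟩

theorem Dir.pm {P : G → V → Prop} {a h : G} {w w' : V} (q : IsQuad B Q) (k : Dir B Q P a h w)
    (e : w = w' ∨ w = -w') : Dir B Q P a h w' := by
  rcases e with rfl | rfl
  · exact k
  · simpa using k.neg q

/-- the situation of the inductive step -/
structure S3 (D : Set G) (B : V →ₗ[ZMod 3] V →ₗ[ZMod 3] ZMod 3) (Q : V → ZMod 3) (c : ZMod 3)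
    (d : G) (P : G → V → Prop) : Prop where
  pg : PG D
  z : center G = ⊥
  th : Thin D
  wt : WT D
  M : ∀ x ∈ D, ∃ P, M3M (Dd D x) B Q c P
  hd : d ∈ D
  m : M3M (Dd D d) B Q c P

namespace S3
variable [Finite G] {D : Set G} {d : G} {P : G → V → Prop} (s : S3 D B Q c d P)
include s

theorem t3 (x : G) : T3 (Dd D x) := s.pg.toT3.mono fun _ k => k.1
theorem cl (x : G) : Cl (Dd D x) := Cl.dd s.pg.toT3 s.pg.toTG.cl x

theorem hl : HL D := hl_of_res (res_cp s.pg s.th s.wt) fun x hx => by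
  obtain ⟨P, m⟩ := s.M x hx
  exact m.hl (s.t3 x) (s.cl x)

theorem refl {x y : G} {u v : V} (k : P x u) (k' : P y v) : P (J x y) (v - (c * B u v) • u) :=
  s.m.refl (s.t3 d) (s.cl d) k k'

variable {a : G} (ha : a ∈ D) (n : ¬ Commute d a)
include ha n

theorem loc1 {h x : G} (hh : h ∈ Dd D d) (hx : x ∈ Dd D d) (ah : Commute a h) (ax : Commute a x)
    (ne : x ≠ h) (cx : Commute h x) : ∃ w, Dir B Q P a h w := by
  obtain ⟨P', m'⟩ := s.M h hh.1
  have md : d ∈ Dd D h := ⟨s.hd, hh.2.1.symm, hh.2.2.symm⟩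
  have ma : a ∈ Dd D h := ⟨ha, fun e => n (e ▸ hh.2.2), ah.symm⟩
  obtain ⟨u0, k0⟩ := m'.ex1 md
  obtain ⟨r, hr, r0, ur, ka⟩ := m'.dir k0 ma n
  have key : ∀ y v', P' y v' → y ∈ Dd D d → B u0 v' = 0 ∧ (Commute a y ↔ B r v' = 0) :=
    fun y v' ky hy => by
      have b := (m'.cm k0 ky hy.2.1.symm).1 hy.2.2
      exact ⟨b, by rw [m'.cm ka ky fun e => n (e ▸ hy.2.2)]; simp [b]⟩
  obtain ⟨u', kx⟩ := m'.ex1 (⟨hx.1, ne, cx⟩ : x ∈ Dd D h)
  have b1 := m'.q.refl ((key x u' kx hx).2.1 ax)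
  obtain ⟨x', kx'⟩ := m'.ex2 (m'.nm_add kx hr b1 1)
  rw [one_smul] at kx'
  have nx := m'.ncl kx r0 b1 kx'
  have := m'.cm0 k0 kx' (by simp [(key x u' kx hx).1, ur])
  have hx' : x' ∈ Dd D d := ⟨(m'.mem kx').1, this.1.symm, this.2⟩
  obtain ⟨u, ku⟩ := s.m.ex1 hx
  obtain ⟨w, hw, w0, uw, ku'⟩ := s.m.dir ku hx' nx
  refine ⟨w, hw, w0, fun v hv => ?_, fun y v hy n1 c1 => ?_⟩
  · have b2 := (s.m.cm ku hv ne).1 cx.symm
    simpa [b2] using (s.m.cm ku' hv (m'.mem kx').2.1).1 (m'.mem kx').2.2.symm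
  · obtain ⟨v', ky⟩ := m'.ex1 (⟨(s.m.mem hy).1, n1, c1⟩ : y ∈ Dd D h)
    rw [(key y v' ky (s.m.mem hy)).2, ← not_iff_not]
    exact (m'.tr1 (s.t3 h) (s.cl h) kx hr r0 b1 kx' nx ky).symm.trans
      (s.m.tr1 (s.t3 d) (s.cl d) ku hw w0 uw ku' nx hy)

omit ha n in
theorem Dir_mem {h y : G} {w e v : V} (k : Dir B Q P a h w) (kh : P h e) (ky : P y v)
    (b : B e v = 0) : Commute a y ↔ B w v = 0 :=
  k.iff y v ky (s.m.cm0 kh ky b).1.symm (s.m.cm0 kh ky b).2

theorem exc {h x : G} {e0 e1 w w' : V} (kh : P h e0) (kx : P x e1) (ah : Commute a h)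
    (ax : Commute a x) (b01 : B e0 e1 = 0) (dh : Dir B Q P a h w) (dx : Dir B Q P a x w')
    (ww : B w w' = c) : False := by
  have m := s.m
  have q := m.q
  have c0 := m.c0
  have cc := z3sq c c0
  have b1 := dh.h0 _ kh
  have b2 := (s.Dir_mem dh kh kx b01).1 ax
  have b3 := dx.h0 _ kx
  have b4 := (s.Dir_mem dx kx kh (q.refl b01)).1 ah
  have nz : ∀ y, Q y = c → B e0 y = 0 → B e1 y = 0 → B w y = 0 → False := fun y y1 y2 y3 y4 => by
    have : ∀ y, Q y = c → B e0 y = 0 → B e1 y = 0 → B w y = 0 → B w' y = 0 := fun y y1 y2 y3 y4 => by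
      obtain ⟨z, kz⟩ := m.ex2 y1
      exact (s.Dir_mem dx kx kz y3).1 ((s.Dir_mem dh kh kz y2).2 y4)
    have k := this (y + w) (by simp [q.add', y1, dh.q, q.refl y4]) (by simp [y2, q.refl b1])
      (by simp [y3, q.refl b2]) (by simp [y4, q.diag_zero dh.q])
    rw [map_add, this y y1 y2 y3 y4, zero_add, q.comm, ww] at k
    exact c0 k
  have Qu : ∀ u, u ≠ 0 → (∀ i, B (![e0, e1, w, w'] i) u = 0) → Q u = -c := fun u u0 hu => by
    refine (z3or _ _ (fun e => ?_) c0).resolve_left fun e => nz u e (hu 0) (hu 1) (hu 2)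
    obtain ⟨y, y1, y2, -⟩ := KL q m.sep _ e hu (fun t e => by
      have k0 := hu 0
      have k1 := hu 1
      have k2 := hu 2
      have k3 := hu 3
      rw [← e] at k0 k1 k2 k3 u0
      simp [Fin.sum_univ_four, q.diag', m.nm kh, m.nm kx, dh.q, dx.q, b01, b1, b2, b3, b4, ww, q.refl b01,
        q.refl b1, q.refl b2, q.refl b3, q.refl b4, q.comm w' w, c0,
        show (2 : ZMod 3) ≠ 0 by decide] at k0 k1 k2 k3
      simp [Fin.sum_univ_four, k0, k1, k2, k3] at u0) c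
    exact nz y y1 (y2 0) (y2 1) (y2 2)
  obtain ⟨u, u0, hu⟩ := exP q m.sep (n := 4) (by have := m.dim; omega) ![e0, e1, w, w']
  have qu := Qu u u0 hu
  have u1 : B e0 u = 0 := hu 0
  have u2 : B e1 u = 0 := hu 1
  have u3 : B w u = 0 := hu 2
  have u4 : B w' u = 0 := hu 3
  have tot : ∀ v, (∀ i, B (![e0, e1, w, w'] i) v = 0) → B u v = 0 → v = 0 := fun v hv uv => by
    by_contra v0
    have k1 := Qu v v0 hv
    refine nz (u + v) ?_ (by simp [u1, show B e0 v = 0 from hv 0]) (by simp [u2, show B e1 v = 0 from hv 1])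
      (by simp [u3, show B w v = 0 from hv 2])
    rw [q.add', qu, k1, uv]; linear_combination -c * z3three
  let L := Fintype.linearCombination (ZMod 3) ![e0, e1, w, w', u]
  have LL : ∀ a, L a = a 0 • e0 + a 1 • e1 + a 2 • w + a 3 • w' + a 4 • u := fun a => by
    simp [L, Fintype.linearCombination_apply, Fin.sum_univ_five]
  have BL : ∀ a b, B (L a) (L b) = c * g5 a b := fun a b => by
    simp [LL, g5, q.diag', m.nm kh, m.nm kx, dh.q, dx.q, b01, b1, b2, b3, b4, ww, q.refl b01,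
      q.refl b1, q.refl b2, q.refl b3, q.refl b4, q.comm w' w, u1, u2, u3, u4, q.refl u1, q.refl u2,
      q.refl u3, q.refl u4, qu]
    ring
  have QL : ∀ a, g5 a a = 2 → ∃ y, P y (L a) := fun a e => m.ex2 (by
    have := BL a a
    rw [q.diag', e] at this
    linear_combination 2 * this + (c - Q (L a)) * z3three)
  have l0 : L ![1, 0, 0, 0, 0] = e0 := by simp [LL]
  have l1 : L ![0, 1, 0, 0, 0] = e1 := by simp [LL]
  have l2 : L ![0, 0, 1, 0, 0] = w := by simp [LL]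
  have l3 : L ![0, 0, 0, 1, 0] = w' := by simp [LL]
  have l4 : L ![0, 0, 0, 0, 1] = u := by simp [LL]
  have sj : ∀ v, ∃ a, v = L a := fun v => by
    refine ⟨![-c * B e0 v, -c * B e1 v, c * B w' v, c * B w v, c * B u v], sub_eq_zero.1 (tot _
      (fun i => ?_) ?_)⟩
    · fin_cases i
      · show B e0 _ = 0
        rw [map_sub]; conv_lhs => arg 2; rw [← l0, BL]
        simp [g5, l0]; linear_combination 2 * B e0 v * cc + B e0 v * z3three
      · show B e1 _ = 0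
        rw [map_sub]; conv_lhs => arg 2; rw [← l1, BL]
        simp [g5, l1]; linear_combination 2 * B e1 v * cc + B e1 v * z3three
      · show B w _ = 0
        rw [map_sub]; conv_lhs => arg 2; rw [← l2, BL]
        simp [g5, l2]; linear_combination - B w v * cc
      · show B w' _ = 0
        rw [map_sub]; conv_lhs => arg 2; rw [← l3, BL]
        simp [g5, l3]; linear_combination - B w' v * cc
    · rw [map_sub]; conv_lhs => arg 2; rw [← l4, BL]
      simp [g5, l4]; linear_combination 2 * B u v * cc + B u v * z3three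
  have rf : ∀ {y z a b}, P y (L a) → P z (L b) → P (J y z) (L (rf5 a b)) := fun {y z a b} k k' => by
    have := s.refl k k'
    rwa [BL, ← mul_assoc, cc, one_mul, ← map_smul, ← map_sub] at this
  have dm : ∀ {y b}, P y (L b) → (g5 ![1, 0, 0, 0, 0] b = 0 → (Commute a y ↔ g5 ![0, 0, 1, 0, 0] b = 0)) ∧
      (g5 ![0, 1, 0, 0, 0] b = 0 → (Commute a y ↔ g5 ![0, 0, 0, 1, 0] b = 0)) := fun {y b} k =>
    ⟨fun e => by rw [s.Dir_mem dh kh k (by rw [← l0, BL, e, mul_zero]), ← l2, BL]; simp [c0],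
      fun e => by rw [s.Dir_mem dx kx k (by rw [← l1, BL, e, mul_zero]), ← l3, BL]; simp [c0]⟩
  choose y ky using fun i => QL (fr5 i) (by rw [fr5_1, if_pos rfl])
  have c1 : ∀ i j, i ≠ j → y i ≠ y j ∧ Commute (y i) (y j) := fun i j ij =>
    m.cm0 (ky i) (ky j) (by rw [BL, fr5_1, if_neg ij, mul_zero])
  have my := fun i => m.mem (ky i)
  refine six s.pg.toT3 s.pg.toTG.cl ha (e := Fin.cons d y) (fun i => ?_) ?_ (fun i j => ?_)
    (fun i => ?_) ?_ fun r hr k => ?_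
  · refine Fin.cases s.hd (fun i => (my i).1) i
  · rw [Fin.cons_injective_iff]
    exact ⟨fun ⟨i, e⟩ => (my i).2.1 e, fun i j e => by_contra fun ij => (c1 i j ij).1 e⟩
  · refine Fin.cases (Fin.cases (Commute.refl _) (fun j => (my j).2.2) j)
      (fun i => Fin.cases (my i).2.2.symm (fun j => ?_) j) i
    by_cases e : i = j
    · rw [e]
    · exact (c1 i j e).2
  · refine Fin.cases n (fun i cm => ?_) i
    obtain ⟨b, e1, e2, e3⟩ := fr5_4 i
    obtain ⟨z, kz⟩ := QL b e1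
    have az : Commute a z := e2.elim (fun e => ((dm kz).1 e.1).2 e.2) fun e => ((dm kz).2 e.1).2 e.2
    have := T3.commute_J_both az cm.symm
    exact e3.elim (fun e => e.2 (((dm (rf kz (ky i))).1 e.1).1 this))
      fun e => e.2 (((dm (rf kz (ky i))).2 e.1).1 this)
  · refine s.hl.zc s.pg s.z s.hd ?_ fun z hz => J_eq_self.1 ?_
    · exact ((my 0).2.2.symm.mul_left (my 1).2.2.symm).mul_left
        (((my 2).2.2.symm.mul_left (my 3).2.2.symm).mul_left (my 4).2.2.symm)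
    obtain ⟨v, kv⟩ := m.ex1 hz
    obtain ⟨b, rfl⟩ := sj v
    have := rf (ky 0) (rf (ky 1) (rf (ky 2) (rf (ky 3) (rf (ky 4) kv))))
    rw [fr5_2, map_neg] at this
    simp only [J_mul]
    exact m.un1 this (m.neg kv)
  · by_contra nr
    push Not at nr
    obtain ⟨v, kv⟩ := m.ex1 (⟨hr, nr 0, k 0⟩ : r ∈ Dd D d)
    obtain ⟨b, rfl⟩ := sj v
    refine m.self_ne kv ?_
    rw [BL, fr5_3 b fun i => ?_, mul_zero]
    simpa [BL, c0] using (m.cm (ky i) kv (nr i.succ).symm).1 (k i.succ)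

theorem dir_step {h x : G} {e0 e1 w w' : V} (kh : P h e0) (kx : P x e1) (ah : Commute a h)
    (ax : Commute a x) (b01 : B e0 e1 = 0) (dh : Dir B Q P a h w) (dx : Dir B Q P a x w') :
    w' = w ∨ w' = -w := by
  have q := s.m.q
  by_cases ww : B w w' = 0
  · refine prop_of q s.m.sep s.m.c0 ![e0, e1] (fun i => ?_) (fun i j ij => ?_) dh.q dx.q dx.ne
      (fun i => ?_) (fun i => ?_) ww fun y y1 y2 y3 => ?_
    · fin_cases i; exacts [s.m.nm kh, s.m.nm kx]
    · fin_cases i <;> fin_cases j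
      exacts [absurd rfl ij, b01, q.refl b01, absurd rfl ij]
    · fin_cases i; exacts [q.refl (dh.h0 _ kh), q.refl ((s.Dir_mem dh kh kx b01).1 ax)]
    · fin_cases i; exacts [q.refl ((s.Dir_mem dx kx kh (q.refl b01)).1 ah), q.refl (dx.h0 _ kx)]
    · obtain ⟨z, kz⟩ := s.m.ex2 y1
      exact (s.Dir_mem dx kx kz (y2 1)).1 ((s.Dir_mem dh kh kz (y2 0)).2 y3)
  rcases z3or _ _ ww s.m.c0 with e | e
  · exact (s.exc ha n kh kx ah ax b01 dh dx e).elim
  · exact (s.exc ha n kh kx ah ax b01 dh (dx.neg q) (by simp [e])).elim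

theorem nb {h : G} (hh : h ∈ Dd D d) (ah : Commute a h) :
    ∃ x ∈ Dd D d, Commute a x ∧ x ≠ h ∧ Commute h x := by
  obtain ⟨u, hu, v, hv, ne, c1, c2, c3, c4, c5⟩ := res_cp s.pg s.th s.wt d s.hd a ha n
  obtain ⟨g, g1, g2, rfl⟩ := trans_perp s.pg s.th s.wt s.hd ha n hu hh.1 c2 c3 hh.2.2.symm ah.symm
  exact ⟨J g v, g1 ▸ J_mem_Dd (s.pg.conj g) ⟨hv, fun e => n (e ▸ c5), c4.symm⟩,
    g2 ▸ commute_J.2 c5.symm, fun e => ne (J_inj.1 e).symm, commute_J.2 c1⟩

theorem ex_dir {h : G} (hh : h ∈ Dd D d) (ah : Commute a h) : ∃ w, Dir B Q P a h w := by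
  obtain ⟨x, hx, ax, ne, cx⟩ := s.nb ha n hh ah
  exact s.loc1 ha n hh hx ah ax ne cx

theorem perp_of {h y : G} {w v : V} (hh : h ∈ Dd D d) (ah : Commute a h) (dh : Dir B Q P a h w)
    (ky : P y v) (ay : Commute a y) : B w v = 0 := by
  have m := s.m
  have q := m.q
  by_contra b
  obtain ⟨e, kh⟩ := m.ex1 hh
  obtain ⟨x, hx, ax, ne, cx⟩ := s.nb ha n hh ah
  obtain ⟨u, ku⟩ := m.ex1 hx
  have b1 := (dh.iff x u ku ne cx).1 ax
  obtain ⟨t, ht⟩ := (by decide : ∀ x y : ZMod 3, y ≠ 0 → ∃ t, x + t * y = 0) (B u v) _ b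
  obtain ⟨z, kz⟩ := m.ex2 (m.nm_add ku dh.q (q.refl b1) t)
  have b2 : B e (u + t • w) = 0 := by simp [(m.cm kh ku ne.symm).1 cx, q.refl (dh.h0 _ kh)]
  have az := (s.Dir_mem dh kh kz b2).2 (by simp [b1, q.diag_zero dh.q])
  obtain ⟨w', dz⟩ := s.ex_dir ha n (m.mem kz) az
  exact b ((s.Dir_mem (dz.pm q (s.dir_step ha n kh kz ah az b2 dh dz)) kz ky (by simpa)).1 ay)

theorem perp_model : ∃ w, Q w = 0 ∧ w ≠ 0 ∧ ∀ x v, P x v → (Commute a x ↔ B w v = 0) := by
  have m := s.m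
  have q := m.q
  obtain ⟨h, hh0, -, -, -, -, c2, c3, -⟩ := res_cp s.pg s.th s.wt d s.hd a ha n
  have hh : h ∈ Dd D d := ⟨hh0, fun e => n (e ▸ c3), c2.symm⟩
  obtain ⟨w, dh⟩ := s.ex_dir ha n hh c3.symm
  have ww := q.diag_zero dh.q
  have all : ∀ h' ∈ Dd D d, Commute a h' → Dir B Q P a h' w := fun h' hh' ah' => by
    obtain ⟨w', dh'⟩ := s.ex_dir ha n hh' ah'
    obtain ⟨e, kh⟩ := m.ex1 hh'
    have key : ∀ y, Q y = c → B e y = 0 → B w' y = 0 → B w y = 0 := fun y y1 y2 y3 => by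
      obtain ⟨z, kz⟩ := m.ex2 y1
      exact s.perp_of ha n hh c3.symm dh kz ((s.Dir_mem dh' kh kz y2).2 y3)
    obtain ⟨x, hx, ax, ne, cx⟩ := s.nb ha n hh' ah'
    obtain ⟨u, ku⟩ := m.ex1 hx
    have b1 := (dh'.iff x u ku ne cx).1 ax
    have b2 := (m.cm kh ku ne.symm).1 cx
    have := key _ (m.nm_add ku dh'.q (q.refl b1) 1) (by simp [b2, q.refl (dh'.h0 _ kh)])
      (by simp [b1, q.diag_zero dh'.q])
    rcases prop_of q m.sep m.c0 ![e] (fun i => by simp [m.nm kh]) (fun i j ij => absurd (Subsingleton.elim i j) ij)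
      dh'.q dh.q dh.ne (fun i => by simp [q.refl (dh'.h0 _ kh)])
      (fun i => by simp [q.refl (s.perp_of ha n hh c3.symm dh kh ah')])
      (q.refl (by simpa [key u (m.nm ku) b2 b1] using this)) (fun y y1 y2 => key y y1 (y2 0)) with e | e
    · exact e ▸ dh'
    · exact e ▸ dh'.neg q
  have par : ∀ z v (t : ZMod 3) z', P z v → Commute a z → P z' (v + t • w) → Commute a z' :=
    fun z v t z' kz az kz' => by
      obtain ⟨x, hx, ax, ne, cx⟩ := s.nb ha n (m.mem kz) az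
      obtain ⟨u, ku⟩ := m.ex1 hx
      have dx := all x hx ax
      exact (s.Dir_mem dx ku kz' (by simp [(m.cm ku kz ne).1 cx.symm, q.refl (dx.h0 _ ku)])).2
        (by simp [ww, s.perp_of ha n hh c3.symm dh kz az])
  refine ⟨w, dh.q, dh.ne, fun y v ky => ⟨s.perp_of ha n hh c3.symm dh ky, fun b => ?_⟩⟩
  obtain ⟨y', ky'⟩ := m.ex2 (m.nm_add ky dh.q (q.refl b) 1)
  rw [one_smul] at ky'
  have ny := m.ncl ky dh.ne (q.refl b) ky'
  have my := m.mem ky
  have my' := m.mem ky'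
  have cd : Commute (y' * y) d := my'.2.2.symm.mul_left my.2.2.symm
  rcases s.hl.fix s.pg.toTG s.hd ha n cd (fun z hz c1 c2 => by
    obtain ⟨u, ku⟩ := m.ex1 (⟨hz, fun e => n (e ▸ c2), c1.symm⟩ : z ∈ Dd D d)
    have b1 := s.perp_of ha n hh c3.symm dh ku c2.symm
    rw [J_mul, ← s.pg.commute_J_swap my'.1, ← s.pg.commute_J_swap my.1]
    refine (par z u (-(c * B v u)) _ ku c2.symm ?_).symm
    convert s.refl ky (s.refl ky' ku) using 1
    simp only [map_add, map_sub, map_smul, LinearMap.add_apply, b1, q.refl b, q.diag', m.nm ky,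
      smul_eq_mul, add_zero]
    match_scalars <;> first | ring1 | linear_combination (-2 * c * B v u) * z3sq c m.c0) with e | e
  · exact (s.pg.commute_mul my'.1 my.1 ha (fun e => ny (e ▸ Commute.refl _)) (J_eq_self.1 e).symm).2
  · have e2 : J (y' * y) (J d a) = a := by rw [J_comm cd, e, s.pg.JJ s.hd]
    have e3 : J ((y' * y) ^ 3) a = J d a := by
      rw [pow_succ, pow_two, J_mul, J_mul, e, e2, e]
    rw [s.pg.cube my'.1 my.1 fun c => ny c.symm, J_one] at e3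
    exact absurd e3.symm (s.pg.J_ne_right n)

end S3

end Cfsg.Agent.H21.FS
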