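import Mathlib
import Cfsg.Agent.H21.Fc4

/-! Fischer's classification: spaces with orthogonal residues are orthogonal. -/

set_option autoImplicit false
set_option linter.unusedSectionVars false
set_option linter.unusedVariables false
set_option linter.style.haveILetI false

namespace Cfsg.Agent.H21.FS

open Cfsg Subgroup Cfsg.Agent.H19 Cfsg.Agent.H11 Module

variable {G : Type*} [Group G] {V : Type*} [AddCommGroup V] [Module (ZMod 3) V]
  [FiniteDimensional (ZMod 3) V]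
  {B : V →ₗ[ZMod 3] V →ₗ[ZMod 3] ZMod 3} {Q : V → ZMod 3} {c : ZMod 3}

/-- `w` is the singular vector of the line through `d` and `a` -/
structure WW (D : Set G) (B : V →ₗ[ZMod 3] V →ₗ[ZMod 3] ZMod 3) (Q : V → ZMod 3) (d : G)
    (P : G → V → Prop) (a : G) (w : V) : Prop where
  ha : a ∈ D
  n : ¬ Commute d a
  q : Q w = 0
  ne : w ≠ 0
  iff : ∀ x v, P x v → (Commute a x ↔ B w v = 0)

/-- compatible signs -/
def CC (B : V →ₗ[ZMod 3] V →ₗ[ZMod 3] ZMod 3) (c : ZMod 3) (a : G) (w : V) (a' : G) (w' : V) : Prop :=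
  Commute a a' ↔ B w w' = c

namespace S3
variable [Finite G] {D : Set G} {d : G} {P : G → V → Prop} (s : S3 D B Q c d P)
  {a a' a'' : G} {w w' w'' : V}
include s

theorem W_ex (ha : a ∈ D) (n : ¬ Commute d a) : ∃ w, WW D B Q d P a w := by
  obtain ⟨w, h1, h2, h3⟩ := s.perp_model ha n
  exact ⟨w, ha, n, h1, h2, h3⟩

theorem W_neg (k : WW D B Q d P a w) : WW D B Q d P a (-w) :=
  ⟨k.ha, k.n, by rw [s.m.q.neg, k.q], neg_ne_zero.2 k.ne, fun x v hx => by simp [k.iff x v hx]⟩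

theorem W_d (k : WW D B Q d P a w) : WW D B Q d P (J d a) w :=
  ⟨s.pg.conj _ _ k.ha, s.pg.not_commute_J_left k.n, k.q, k.ne, fun x v hx => by
    rw [commute_J_of (s.m.mem hx).2.2, k.iff x v hx]⟩

theorem W_un1 (k : WW D B Q d P a w) (k' : WW D B Q d P a' w) : a' = a ∨ a' = J d a :=
  (s.hl d s.hd a k.ha k.n a' k'.ha fun y hy c1 c2 => by
    obtain ⟨v, kv⟩ := s.m.ex1 (⟨hy, fun e => k.n (e ▸ c2), c1.symm⟩ : y ∈ Dd D d)
    exact ((k'.iff y v kv).2 ((k.iff y v kv).1 c2.symm)).symm).resolve_left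
    fun e => k'.n (e ▸ Commute.refl _)

theorem W_un2 (k : WW D B Q d P a w) (k' : WW D B Q d P a w') : w' = w ∨ w' = -w := by
  have m := s.m
  have key : ∀ y, Q y = c → B w y = 0 → B w' y = 0 := fun y y1 y2 => by
    obtain ⟨z, kz⟩ := m.ex2 y1
    exact (k'.iff z y kz).1 ((k.iff z y kz).2 y2)
  obtain ⟨h, hh0, -, -, -, -, c2, c3, -⟩ := res_cp s.pg s.th s.wt d s.hd a k.ha k.n
  obtain ⟨u, ku⟩ := m.ex1 (⟨hh0, fun e => k.n (e ▸ c3), c2.symm⟩ : h ∈ Dd D d)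
  have b1 := (k.iff h u ku).1 c3.symm
  have := key _ (m.nm_add ku k.q (m.q.refl b1) 1) (by simp [b1, m.q.diag_zero k.q])
  exact prop_of m.q m.sep m.c0 (ι := Empty) (fun i => i.elim) (fun i => i.elim) (fun i => i.elim) k.q k'.q
    k'.ne (fun i => i.elim) (fun i => i.elim) (m.q.refl (by simpa [key u (m.nm ku) b1] using this))
    fun y y1 _ => key y y1

theorem W_J (k : WW D B Q d P a w) {x : G} {u : V} (kx : P x u) :
    WW D B Q d P (J x a) (w - (c * B u w) • u) := by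
  have m := s.m
  have cc := z3sq c m.c0
  refine ⟨s.pg.conj _ _ k.ha, by rw [commute_J_of' (m.mem kx).2.2.symm]; exact k.n, ?_, fun e => ?_,
    fun y v ky => ?_⟩
  · rw [m.q.sub', m.q.smul', map_smul, k.q, m.nm kx, m.q.comm w u, smul_eq_mul]
    linear_combination c * B u w * B u w * cc
  · have e := sub_eq_zero.1 e
    have := k.q
    rw [e, m.q.smul', m.nm kx] at this
    rw [show c * B u w = 0 by simpa [m.c0] using this, zero_smul] at e
    exact k.ne e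
  · rw [s.pg.commute_J_swap (m.mem kx).1, k.iff _ _ (s.refl kx ky)]
    simp only [map_sub, map_smul, LinearMap.sub_apply, LinearMap.smul_apply, smul_eq_mul, m.q.comm w u]
    rw [show c * B u v * B u w = c * B u w * B u v by ring]

theorem s4x (k : WW D B Q d P a w) (hw : Q w' = 0) (b : B w w' = c) :
    ∃ x, P x (w + w') ∧ ¬ Commute x a ∧ WW D B Q d P (J x a) w' := by
  have m := s.m
  obtain ⟨x, kx⟩ := m.ex2 (v := w + w') (by simp [m.q.add', k.q, hw, b])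
  have b1 : B w (w + w') = c := by simp [m.q.diag_zero k.q, b]
  refine ⟨x, kx, fun cm => m.c0 (b1.symm.trans ((k.iff x _ kx).1 cm.symm)), ?_⟩
  convert s.W_neg (s.W_J k kx) using 1
  rw [m.q.comm, b1, z3sq c m.c0]; module

theorem W_s4 (k : WW D B Q d P a w) (k' : WW D B Q d P a' w') (b : B w w' ≠ 0) :
    Commute a a' ↔ ¬ Commute a (J d a') := by
  have : ∃ x ∈ Dd D d, ¬ Commute x a ∧ (J x a = a' ∨ J x a = J d a') := by
    rcases z3or _ _ b s.m.c0 with e | e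
    · obtain ⟨x, kx, n, k2⟩ := s.s4x k k'.q e
      exact ⟨x, s.m.mem kx, n, s.W_un1 k' k2⟩
    · obtain ⟨x, kx, n, k2⟩ := s.s4x k (s.W_neg k').q (by simp [e])
      exact ⟨x, s.m.mem kx, n, s.W_un1 (s.W_neg k') k2⟩
  obtain ⟨x, hx, n, e⟩ := this
  have c1 := s.pg.s4 s.hd k.ha hx.1 hx.2.2 k.n n
  have c2 := s.pg.not_commute_J_right hx.1 k.ha n
  rcases e with e | e <;> rw [e] at c1 c2
  · exact iff_of_false c2 (not_not.2 c1)
  · rw [s.pg.JJ s.hd] at c1; exact iff_of_true c1 c2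

theorem W_ag (k : WW D B Q d P a w) (k' : WW D B Q d P a' w') (ne : a ≠ a') (cm : Commute a a') :
    B w w' ≠ 0 := by
  have m := s.m
  have n1 : ¬ Commute a (J d a') := fun c1 =>
    k.n (s.pg.commute_of_J s.hd k'.ha k'.n cm c1).symm
  have hx : J a (J d a') ∈ Dd D d := by
    refine ⟨s.pg.conj _ _ (s.pg.conj _ _ k'.ha), ?_, ?_⟩ <;> rw [s.pg.br _ s.hd _ k'.ha k'.n]
    · exact s.pg.s4_ne k.ha s.hd k'.ha ne (fun c => k.n c.symm) fun c => k'.n c.symm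
    · exact s.pg.s4 k.ha s.hd k'.ha cm (fun c => k.n c.symm) fun c => k'.n c.symm
  obtain ⟨u, kx⟩ := m.ex1 hx
  have n2 := s.pg.not_commute_J_left n1
  have k2 := s.W_J k kx
  rw [← s.pg.br _ k.ha _ hx.1 n2, s.pg.JJ k.ha] at k2
  have b := (k.iff _ u kx).not.1 n2
  have : B w (w - (c * B u w) • u) ≠ 0 := by simp [m.q.diag_zero k.q, m.c0, b, m.q.comm u w]
  rcases s.W_un2 k2 (s.W_d k') with e | e <;> rw [e]
  · exact this
  · rwa [map_neg, neg_ne_zero]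

omit [Finite G] in
theorem C_symm : CC B c a w a' w' ↔ CC B c a' w' a w := by
  rw [CC, CC, Commute.symm_iff, s.m.q.comm]

omit [Finite G] in
theorem C_neg (b : B w w' ≠ 0) : CC B c a w a' (-w') ↔ ¬ CC B c a w a' w' := by
  rw [CC, CC, map_neg, (by decide : ∀ x c : ZMod 3, x ≠ 0 → c ≠ 0 → (-x = c ↔ ¬ x = c)) _ _ b s.m.c0]
  tauto

theorem C_flip (k : WW D B Q d P a w) (k' : WW D B Q d P a' w') (b : B w w' ≠ 0) :
    CC B c a w (J d a') (-w') ↔ CC B c a w a' w' := by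
  rw [s.C_neg b, CC, CC, s.W_s4 k k' b]; tauto

theorem TL (k : WW D B Q d P a w) (k' : WW D B Q d P a' w') (k'' : WW D B Q d P a'' w'')
    (b1 : B w w' ≠ 0) (b2 : B w w'' ≠ 0) (b3 : B w' w'' ≠ 0) (c1 : CC B c a w a' w')
    (c2 : CC B c a w a'' w'') : CC B c a' w' a'' w'' := by
  have m := s.m
  have q := m.q
  wlog e1 : B w w' = c generalizing a' w'
  · have e := (z3or _ _ b1 m.c0).resolve_left e1
    exact s.C_symm.1 ((s.C_flip k'' k' (q.comm w' w'' ▸ b3)).1 (s.C_symm.1 (this (s.W_neg (s.W_d k'))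
      (by simpa) (by simpa) ((s.C_flip k k' b1).2 c1) (by simp [e]))))
  wlog e2 : B w w'' = c generalizing a'' w''
  · have e := (z3or _ _ b2 m.c0).resolve_left e2
    exact (s.C_flip k' k'' b3).1 (this (s.W_neg (s.W_d k'')) (by simpa) ((s.C_flip k k'' b2).2 c2)
      (by simpa) (by simp [e]))
  have key : ∀ {a' w'}, WW D B Q d P a' w' → B w w' = c → Commute a a' → P (J a (J d a')) (w + w') :=
    fun {a' w'} k' e cm => by
      obtain ⟨x, kx, n, k2⟩ := s.s4x k k'.q e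
      have := (s.W_un1 k' k2).resolve_left fun e =>
        s.pg.not_commute_J_right (m.mem kx).1 k.ha n (e ▸ cm)
      rwa [← this, s.pg.J_J_self (m.mem kx).1 k.ha n]
  have := m.cm (key k' e1 (c1.2 e1)) (key k'' e2 (c2.2 e2)) fun e => by
    rw [J_inj, J_inj] at e
    subst e
    rcases s.W_un2 k' k'' with e | e <;> simp [e, q.diag_zero k'.q] at b3
  rw [commute_J, commute_J] at this
  rw [CC, this]
  simp only [map_add, LinearMap.add_apply, q.diag_zero k.q, e2, q.comm w' w, e1]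
  exact (by decide : ∀ x c : ZMod 3, 0 + c + (c + x) = 0 ↔ x = c) _ _

theorem W_sj1 (k : WW D B Q d P a w) (hw : Q w' = 0) (b : B w w' ≠ 0) : ∃ a', WW D B Q d P a' w' := by
  rcases z3or _ _ b s.m.c0 with e | e
  · obtain ⟨x, -, -, k2⟩ := s.s4x k hw e
    exact ⟨_, k2⟩
  · obtain ⟨x, -, -, k2⟩ := s.s4x (s.W_neg k) hw (by simp [e])
    exact ⟨_, k2⟩

theorem W_sj (k : WW D B Q d P a w) (hw : Q w' = 0) (w0 : w' ≠ 0) : ∃ a', WW D B Q d P a' w' := by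
  by_cases b : B w w' = 0
  · obtain ⟨t, t1, t2, t3⟩ := E2 s.m.q s.m.sep hw w0 k.ne b
    obtain ⟨y, ky⟩ := s.W_sj1 k t1 t3
    exact s.W_sj1 ky hw (s.m.q.comm _ _ ▸ t2)
  · exact s.W_sj1 k hw b

/-- a singular vector with a compatible point -/
theorem W_c (k : WW D B Q d P a w) (hw : Q w' = 0) (b : B w w' ≠ 0) :
    ∃ a', WW D B Q d P a' w' ∧ CC B c a w a' w' := by
  obtain ⟨a', k'⟩ := s.W_sj1 k hw b
  by_cases e : CC B c a w a' w'
  · exact ⟨a', k', e⟩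
  · refine ⟨_, s.W_d k', ?_⟩
    have := (s.C_flip k (s.W_neg k') (by simpa)).2 ((s.C_neg b).2 e)
    rwa [neg_neg] at this

end S3

/-- the chosen sign -/
structure RR (D : Set G) (B : V →ₗ[ZMod 3] V →ₗ[ZMod 3] ZMod 3) (Q : V → ZMod 3) (c : ZMod 3) (d : G)
    (P : G → V → Prop) (a0 : G) (w0 : V) (a : G) (w : V) : Prop where
  k : WW D B Q d P a w
  r1 : B w0 w ≠ 0 → CC B c a0 w0 a w
  r2 : B w0 w = 0 → ∀ y t, WW D B Q d P y t → B w0 t ≠ 0 → B w t ≠ 0 → CC B c a0 w0 y t → CC B c a w y t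

namespace S3
variable [Finite G] {D : Set G} {d : G} {P : G → V → Prop} (s : S3 D B Q c d P)
  {a0 a a' : G} {w0 w w' : V} (k0 : WW D B Q d P a0 w0)
include s k0

theorem R_ex (k : WW D B Q d P a w) : RR D B Q c d P a0 w0 a w ∨ RR D B Q c d P a0 w0 a (-w) := by
  have q := s.m.q
  by_cases b : B w0 w = 0
  swap
  · by_cases e : CC B c a0 w0 a w
    · exact .inl ⟨k, fun _ => e, fun e => absurd e b⟩
    · exact .inr ⟨s.W_neg k, fun _ => (s.C_neg b).2 e, fun e => absurd (by simpa using e) b⟩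
  obtain ⟨t, t1, t2, t3⟩ := E2 q s.m.sep k0.q k0.ne k.ne (q.refl b)
  obtain ⟨y, ky, cy⟩ := s.W_c k0 t1 t2
  have key : ∀ w, WW D B Q d P a w → B w0 w = 0 → B w t ≠ 0 → CC B c a w y t →
      RR D B Q c d P a0 w0 a w := fun w k b t3 e => ⟨k, fun n => absurd b n, fun _ y' t' ky' n1 n2 cy' => by
    have T : ∀ {y t y' t'}, WW D B Q d P y t → WW D B Q d P y' t' → B w0 t ≠ 0 → B w0 t' ≠ 0 →
        B w t ≠ 0 → B w t' ≠ 0 → B t t' ≠ 0 → CC B c a0 w0 y t → CC B c a0 w0 y' t' →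
        CC B c a w y t → CC B c a w y' t' := fun ky ky' n1 n2 n3 n4 n5 c1 c2 c3 =>
      s.TL ky k ky' (q.comm _ _ ▸ n3) n5 n4 (s.C_symm.1 c3) (s.TL k0 ky ky' n1 n2 n5 c1 c2)
    by_cases b' : B t' t = 0
    · obtain ⟨z, z1, z2, z3, z4, z5⟩ := E4 q s.m.sep s.m.dim k0.q t1 (q.refl b) b' t2 t3 n1
      obtain ⟨x, kx, cx⟩ := s.W_c k0 z1 z2
      exact T kx ky' z2 n1 z3 n2 (q.comm _ _ ▸ z5) cx cy' (T ky kx t2 z2 t3 z3 z4 cy cx e)
    · exact T ky ky' t2 n1 t3 n2 (q.comm _ _ ▸ b') cy cy' e⟩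
  by_cases e : CC B c a w y t
  · exact .inl (key w k b t3 e)
  · exact .inr (key _ (s.W_neg k) (by simp [b]) (by simpa)
      (s.C_symm.1 ((s.C_neg (q.comm _ _ ▸ t3)).2 fun c => e (s.C_symm.1 c))))

theorem R_pair (r : RR D B Q c d P a0 w0 a w) (r' : RR D B Q c d P a0 w0 a' w') (b : B w w' ≠ 0) :
    CC B c a w a' w' := by
  have q := s.m.q
  by_cases b1 : B w0 w = 0 <;> by_cases b2 : B w0 w' = 0
  · obtain ⟨t, t1, t2, t3, t4⟩ := E3 q s.m.sep k0.q r.k.q r'.k.q k0.ne (q.refl b1) (q.refl b2) b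
    obtain ⟨y, ky, cy⟩ := s.W_c k0 t1 t2
    exact s.TL ky r.k r'.k (q.comm _ _ ▸ t3) (q.comm _ _ ▸ t4) b (s.C_symm.1 (r.r2 b1 y t ky t2 t3 cy))
      (s.C_symm.1 (r'.r2 b2 y t ky t2 t4 cy))
  · exact r.r2 b1 _ _ r'.k b2 b (r'.r1 b2)
  · exact s.C_symm.1 (r'.r2 b2 _ _ r.k b1 (q.comm _ _ ▸ b) (r.r1 b1))
  · exact s.TL k0 r.k r'.k b1 b2 b (r.r1 b1) (r'.r1 b2)

theorem R_flip (r : RR D B Q c d P a0 w0 a w) : RR D B Q c d P a0 w0 (J d a) (-w) :=
  ⟨s.W_neg (s.W_d r.k), fun b => (s.C_flip k0 r.k (by simpa using b)).2 (r.r1 (by simpa using b)),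
    fun b y t ky n1 n2 cy => s.C_symm.1 ((s.C_flip ky r.k (by simpa [s.m.q.comm t w] using n2)).2
      (s.C_symm.1 (r.r2 (by simpa using b) y t ky n1 (by simpa using n2) cy)))⟩

theorem R_not (r : RR D B Q c d P a0 w0 a w) (r' : RR D B Q c d P a0 w0 a (-w)) : False := by
  obtain ⟨t, ht, b, -⟩ := s.m.q.exists_partner s.m.sep r.k.q r.k.ne |>.imp fun t k => (⟨k.1, k.2, trivial⟩ : _ ∧ _ ∧ True)
  have b0 : B w t ≠ 0 := b ▸ one_ne_zero
  obtain ⟨y, ky⟩ := s.W_sj1 r.k ht b0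
  have key : ∀ t, RR D B Q c d P a0 w0 y t → B t w ≠ 0 → False := fun t ry b =>
    (s.C_neg b).1 (s.R_pair k0 ry r' (by simpa)) (s.R_pair k0 ry r b)
  rcases s.R_ex k0 ky with ry | ry
  · exact key _ ry (s.m.q.comm _ _ ▸ b0)
  · exact key _ ry (by simpa [s.m.q.comm t w])

theorem R_un1 (r : RR D B Q c d P a0 w0 a w) (r' : RR D B Q c d P a0 w0 a' w) : a = a' := by
  rcases s.W_un1 r'.k r.k with e | rfl
  · exact e
  · exact (s.R_not k0 r (s.R_flip k0 r') |>.elim)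

theorem R_un2 (r : RR D B Q c d P a0 w0 a w) (r' : RR D B Q c d P a0 w0 a w') : w' = w :=
  (s.W_un2 r.k r'.k).resolve_right fun e => s.R_not k0 r (e ▸ r')

theorem R_cm (r : RR D B Q c d P a0 w0 a w) (r' : RR D B Q c d P a0 w0 a' w') (ne : a ≠ a') :
    Commute a a' ↔ B w w' = c := by
  by_cases b : B w w' = 0
  · exact iff_of_false (fun cm => s.W_ag r.k r'.k ne cm b) fun e => s.m.c0 (e.symm.trans b)
  · exact s.R_pair k0 r r' b

theorem model : M3M D (prodB ((2 * c) • LinearMap.mul (ZMod 3) (ZMod 3)) B)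
    (fun z => c * z.1 * z.1 + Q z.2) c fun y z => ∃ e : ZMod 3, e ≠ 0 ∧ ((y = d ∧ z = e • (1, 0)) ∨
      (∃ v, P y v ∧ z = e • (0, v)) ∨ ∃ w, RR D B Q c d P a0 w0 y w ∧ z = e • (1, w)) := by
  have m := s.m
  have q := m.q
  have c0 := m.c0
  have c2 : 2 * c ≠ 0 := mul_ne_zero (by decide) c0
  refine ⟨IsQuad.of_add_smul (fun x y => ?_) fun t x => ?_, fun x k => ?_, ?_, c0, ?_, ?_, fun {y} hy => ?_,
    fun {z} hz => ?_, ?_, ?_, ?_, ?_⟩
  · simp [q.add']; ring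
  · simp [q.smul']; ring
  · refine Prod.ext ?_ (m.sep _ fun y => by simpa using k (0, y))
    simpa [c2] using k (1, 0)
  · have := m.dim
    rw [finrank_prod]; omega
  · rintro y z ⟨e, -, ⟨rfl, -⟩ | ⟨v, k, -⟩ | ⟨w, k, -⟩⟩
    exacts [s.hd, (m.mem k).1, k.k.ha]
  · rintro y z ⟨e, e0, ⟨-, rfl⟩ | ⟨v, k, rfl⟩ | ⟨w, k, rfl⟩⟩
    · simp [q.map_zero, mul_assoc, z3sq e e0]
    · simp [q.smul', m.nm k, z3sq e e0]
    · simp [q.smul', k.k.q, mul_assoc, z3sq e e0]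
  · by_cases e : y = d
    · exact ⟨_, 1, one_ne_zero, .inl ⟨e, rfl⟩⟩
    by_cases n : Commute d y
    · obtain ⟨v, k⟩ := m.ex1 (⟨hy, e, n⟩ : y ∈ Dd D d)
      exact ⟨_, 1, one_ne_zero, .inr (.inl ⟨v, k, rfl⟩)⟩
    obtain ⟨w, k⟩ := s.W_ex hy n
    rcases s.R_ex k0 k with r | r
    · exact ⟨_, 1, one_ne_zero, .inr (.inr ⟨_, r, rfl⟩)⟩
    · exact ⟨_, 1, one_ne_zero, .inr (.inr ⟨_, r, rfl⟩)⟩
  · obtain ⟨t, v⟩ := z
    by_cases t0 : t = 0
    · obtain ⟨y, k⟩ := m.ex2 (v := v) (by simpa [t0] using hz)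
      exact ⟨y, 1, one_ne_zero, .inr (.inl ⟨v, k, by simp [t0]⟩)⟩
    have tt := z3sq t t0
    by_cases v0 : v = 0
    · exact ⟨d, t, t0, .inl ⟨rfl, by simp [v0]⟩⟩
    obtain ⟨y, k⟩ := s.W_sj k0 (w' := t • v) (by
      rw [q.smul', tt, one_mul]; simpa [mul_assoc, tt] using hz) (smul_ne_zero t0 v0)
    have e : (t, v) = t • ((1 : ZMod 3), t • v) := by simp [smul_smul, tt]
    rcases s.R_ex k0 k with r | r
    · exact ⟨y, t, t0, .inr (.inr ⟨_, r, e⟩)⟩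
    · exact ⟨_, t, t0, .inr (.inr ⟨_, neg_neg (t • v) ▸ s.R_flip k0 r, e⟩)⟩
  · rintro y z ⟨e, e0, k⟩
    exact ⟨-e, neg_ne_zero.2 e0, k.imp (fun k => ⟨k.1, by rw [k.2, neg_smul]⟩)
      (Or.imp (fun ⟨v, k⟩ => ⟨v, k.1, by rw [k.2, neg_smul]⟩) fun ⟨v, k⟩ => ⟨v, k.1, by rw [k.2, neg_smul]⟩)⟩
  · have pz : ∀ {y v}, P y v → v ≠ 0 := fun k e => m.self_ne k (by simp [e])
    rintro y y' z ⟨e, e0, ⟨rfl, rfl⟩ | ⟨v, k, rfl⟩ | ⟨w, k, rfl⟩⟩
      ⟨e', e0', ⟨rfl, h⟩ | ⟨v', k', h⟩ | ⟨w', k', h⟩⟩ <;>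
      simp only [Prod.smul_mk, Prod.mk.injEq, smul_eq_mul, mul_one, mul_zero, smul_zero] at h
    · rfl
    · exact absurd h.1 e0
    · exact absurd h.2.symm (smul_ne_zero e0' k'.k.ne)
    · exact absurd h.1.symm e0'
    · exact m.un1 (m.smul k e0) (h.2 ▸ m.smul k' e0')
    · exact absurd h.1.symm e0'
    · exact absurd h.2 (smul_ne_zero e0 k.k.ne)
    · exact absurd h.1 e0
    · obtain ⟨rfl, h⟩ := h
      exact s.R_un1 k0 k (smul_right_injective _ e0 h ▸ k')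
  · have pm : ∀ {e e' : ZMod 3} (z : ZMod 3 × V), e ≠ 0 → e' ≠ 0 → e' • z = e • z ∨ e' • z = -(e • z) :=
      fun z e0 e0' => (z3or _ _ e0' e0).imp (fun k => by rw [k]) fun k => by rw [k, neg_smul]
    rintro y z z' ⟨e, e0, ⟨rfl, rfl⟩ | ⟨v, k, rfl⟩ | ⟨w, k, rfl⟩⟩
      ⟨e', e0', ⟨h, rfl⟩ | ⟨v', k', rfl⟩ | ⟨w', k', rfl⟩⟩
    · exact pm _ e0 e0'
    · exact absurd rfl (m.mem k').2.1
    · exact absurd (Commute.refl _) k'.k.n
    · exact absurd h (m.mem k).2.1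
    · rcases m.un2 k k' with rfl | rfl
      · exact pm _ e0 e0'
      · simpa using pm (0, v) e0 (neg_ne_zero.2 e0')
    · exact absurd (m.mem k).2.2 k'.k.n
    · exact absurd (h ▸ Commute.refl _) k.k.n
    · exact absurd (m.mem k').2.2 k.k.n
    · rw [s.R_un2 k0 k k']; exact pm _ e0 e0'
  · rintro y y' z z' ⟨e, e0, ⟨rfl, rfl⟩ | ⟨v, k, rfl⟩ | ⟨w, k, rfl⟩⟩
      ⟨e', e0', ⟨rfl, rfl⟩ | ⟨v', k', rfl⟩ | ⟨w', k', rfl⟩⟩ ne <;>
      simp only [map_smul, LinearMap.smul_apply, smul_eq_mul, mul_eq_zero, e0, e0', false_or,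
        prodB_apply, LinearMap.mul_apply', mul_one, mul_zero, map_zero, LinearMap.zero_apply,
        add_zero, zero_add]
    · exact absurd rfl ne
    · exact iff_of_true (m.mem k').2.2 trivial
    · exact iff_of_false k'.k.n (mul_eq_zero.not.1 c2)
    · exact iff_of_true (m.mem k).2.2.symm trivial
    · exact m.cm k k' ne
    · rw [Commute.symm_iff, k'.k.iff _ _ k, q.comm]
    · exact iff_of_false (fun c => k.k.n c.symm) (mul_eq_zero.not.1 c2)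
    · exact k.k.iff _ _ k'
    · rw [s.R_cm k0 k k' ne]
      exact (by decide : ∀ x c : ZMod 3, x = c ↔ 2 * c + x = 0) _ _

end S3

theorem Iso.m3' {H : Type*} [Group H] {E : Set G} {E' : Set H} {π : G → H} (i : Iso E E' π)
    (m : M3 E') : M3 E := by
  obtain ⟨V, _, _, _, B, Q, c, P, m⟩ := m
  exact ⟨V, _, _, inferInstance, B, Q, c, _, i.m3 m⟩

theorem m3_step [Finite G] {D : Set G} (h : PG D) (hZ : center G = ⊥) (t : Thin D) (w : WT D) {d : G}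
    (hd : d ∈ D) (m : M3 (Dd D d)) : M3 D := by
  obtain ⟨V, _, _, _, B, Q, c, P, m⟩ := m
  have s : S3 D B Q c d _ := ⟨h, hZ, t, w, fun x hx => by
    obtain ⟨g, rfl⟩ := h.trans x hx d hd
    exact ⟨_, (iso_conj h.toTG g x).m3 m⟩, hd, m⟩
  obtain ⟨a, ha, n⟩ := h.exA hd
  obtain ⟨w, k⟩ := s.W_ex ha n
  exact ⟨_, _, _, inferInstance, _, _, _, _, s.model k⟩

end Cfsg.Agent.H21.FS
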