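import Mathlib
import Cfsg.Agent.H21.Fc3

/-! Fischer's classification: the tables of `W(E₆)` and `U₄(2)`. -/

set_option autoImplicit false
set_option linter.unusedSectionVars false
set_option linter.unusedVariables false
set_option linter.style.haveILetI false

namespace Cfsg.Agent.H21.FS

open Cfsg Subgroup Cfsg.Agent.H19 Cfsg.Agent.H11 Module

/-- the field with four elements -/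
abbrev K4 : Type := QuadraticAlgebra (ZMod 2) 1 1

instance factK4 : Fact (∀ r : ZMod 2, r ^ 2 ≠ 1 + 1 * r) := ⟨by decide⟩
instance fintypeK4 : Fintype K4 := Fintype.ofEquiv _ (QuadraticAlgebra.equivProd (1 : ZMod 2) 1).symm

theorem cardK4 : Fintype.card K4 = 4 := by decide
theorem f4K4 : F4 (starRingEnd K4) ⟨0, 1⟩ :=
  ⟨by decide, by decide, by decide, by decide, Nat.card_eq_fintype_card.trans cardK4⟩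
theorem qcK4 : QConj (starRingEnd K4) 2 := ⟨f4K4.card, le_rfl, f4K4.eq⟩

/-- a table -/
def e6a : Fin 36 → Fin 6 → ZMod 2 := ![![0, 0, 0, 0, 0, 1], ![0, 0, 0, 0, 1, 0], ![0, 0, 0, 0, 1,
  1], ![0, 0, 0, 1, 0, 0], ![0, 0, 1, 0, 0, 0], ![0, 0, 1, 1, 0, 0], ![0, 1, 0, 0, 0, 0], ![0, 1, 0,
  1, 0, 1], ![0, 1, 0, 1, 1, 0], ![0, 1, 0, 1, 1, 1], ![0, 1, 1, 0, 0, 1], ![0, 1, 1, 0, 1, 0], ![0,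
  1, 1, 0, 1, 1], ![0, 1, 1, 1, 0, 1], ![0, 1, 1, 1, 1, 0], ![0, 1, 1, 1, 1, 1], ![1, 0, 0, 0, 0,
  0], ![1, 0, 0, 1, 0, 1], ![1, 0, 0, 1, 1, 0], ![1, 0, 0, 1, 1, 1], ![1, 0, 1, 0, 0, 1], ![1, 0, 1,
  0, 1, 0], ![1, 0, 1, 0, 1, 1], ![1, 0, 1, 1, 0, 1], ![1, 0, 1, 1, 1, 0], ![1, 0, 1, 1, 1, 1], ![1,
  1, 0, 0, 0, 0], ![1, 1, 0, 1, 0, 1], ![1, 1, 0, 1, 1, 0], ![1, 1, 0, 1, 1, 1], ![1, 1, 1, 0, 0,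
  1], ![1, 1, 1, 0, 1, 0], ![1, 1, 1, 0, 1, 1], ![1, 1, 1, 1, 0, 1], ![1, 1, 1, 1, 1, 0], ![1, 1, 1,
  1, 1, 1]]

/-- a table -/
def e6b : Fin 36 → Fin 5 → ZMod 3 := ![![0, 0, 0, 1, 1], ![0, 0, 1, 0, 1], ![0, 0, 1, 2, 0], ![1,
  1, 0, 0, 0], ![1, 1, 1, 1, 2], ![1, 1, 2, 2, 1], ![1, 2, 0, 0, 0], ![0, 0, 0, 1, 2], ![0, 0, 1, 0,
  2], ![0, 0, 1, 1, 0], ![1, 1, 2, 1, 2], ![1, 1, 1, 2, 2], ![1, 1, 1, 1, 1], ![1, 1, 1, 2, 1], ![1,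
  1, 2, 1, 1], ![1, 1, 2, 2, 2], ![1, 2, 1, 1, 2], ![1, 2, 2, 1, 2], ![1, 2, 1, 2, 2], ![1, 2, 1, 1,
  1], ![1, 0, 2, 0, 0], ![1, 0, 0, 2, 0], ![1, 0, 0, 0, 1], ![0, 1, 1, 0, 0], ![0, 1, 0, 1, 0], ![0,
  1, 0, 0, 2], ![1, 2, 2, 2, 1], ![1, 2, 1, 2, 1], ![1, 2, 2, 1, 1], ![1, 2, 2, 2, 2], ![0, 1, 2, 0,
  0], ![0, 1, 0, 2, 0], ![0, 1, 0, 0, 1], ![1, 0, 1, 0, 0], ![1, 0, 0, 1, 0], ![1, 0, 0, 0, 2]]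

/-- a table -/
def u4a : Fin 45 → Fin 4 → K4 := ![![0, 0, 1, 1], ![0, 0, 1, ⟨0, 1⟩], ![0, 0, 1, ⟨1, 1⟩], ![0, 1,
  0, 1], ![0, 1, 0, ⟨0, 1⟩], ![0, 1, 0, ⟨1, 1⟩], ![0, 1, 1, 0], ![0, 1, ⟨0, 1⟩, 0], ![0, 1, ⟨1, 1⟩,
  0], ![1, 0, 0, 1], ![1, 0, 0, ⟨0, 1⟩], ![1, 0, 0, ⟨1, 1⟩], ![1, 0, 1, 0], ![1, 0, ⟨0, 1⟩, 0], ![1,
  0, ⟨1, 1⟩, 0], ![1, 1, 0, 0], ![1, 1, 1, 1], ![1, 1, 1, ⟨0, 1⟩], ![1, 1, 1, ⟨1, 1⟩], ![1, 1, ⟨0,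
  1⟩, 1], ![1, 1, ⟨0, 1⟩, ⟨0, 1⟩], ![1, 1, ⟨0, 1⟩, ⟨1, 1⟩], ![1, 1, ⟨1, 1⟩, 1], ![1, 1, ⟨1, 1⟩, ⟨0,
  1⟩], ![1, 1, ⟨1, 1⟩, ⟨1, 1⟩], ![1, ⟨0, 1⟩, 0, 0], ![1, ⟨0, 1⟩, 1, 1], ![1, ⟨0, 1⟩, 1, ⟨0, 1⟩],
  ![1, ⟨0, 1⟩, 1, ⟨1, 1⟩], ![1, ⟨0, 1⟩, ⟨0, 1⟩, 1], ![1, ⟨0, 1⟩, ⟨0, 1⟩, ⟨0, 1⟩], ![1, ⟨0, 1⟩, ⟨0,
  1⟩, ⟨1, 1⟩], ![1, ⟨0, 1⟩, ⟨1, 1⟩, 1], ![1, ⟨0, 1⟩, ⟨1, 1⟩, ⟨0, 1⟩], ![1, ⟨0, 1⟩, ⟨1, 1⟩, ⟨1, 1⟩],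
  ![1, ⟨1, 1⟩, 0, 0], ![1, ⟨1, 1⟩, 1, 1], ![1, ⟨1, 1⟩, 1, ⟨0, 1⟩], ![1, ⟨1, 1⟩, 1, ⟨1, 1⟩], ![1, ⟨1,
  1⟩, ⟨0, 1⟩, 1], ![1, ⟨1, 1⟩, ⟨0, 1⟩, ⟨0, 1⟩], ![1, ⟨1, 1⟩, ⟨0, 1⟩, ⟨1, 1⟩], ![1, ⟨1, 1⟩, ⟨1, 1⟩,
  1], ![1, ⟨1, 1⟩, ⟨1, 1⟩, ⟨0, 1⟩], ![1, ⟨1, 1⟩, ⟨1, 1⟩, ⟨1, 1⟩]]

/-- a table -/
def u4b : Fin 45 → Fin 5 → ZMod 3 := ![![0, 0, 0, 0, 1], ![0, 1, 1, 1, 1], ![0, 1, 1, 1, 2], ![1,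
  0, 1, 2, 1], ![1, 2, 0, 1, 1], ![1, 1, 2, 0, 1], ![1, 0, 1, 2, 2], ![1, 2, 0, 1, 2], ![1, 1, 2, 0,
  2], ![1, 0, 2, 1, 2], ![1, 1, 0, 2, 2], ![1, 2, 1, 0, 2], ![1, 0, 2, 1, 1], ![1, 1, 0, 2, 1], ![1,
  2, 1, 0, 1], ![1, 0, 0, 0, 0], ![0, 1, 0, 0, 0], ![0, 1, 1, 2, 2], ![0, 1, 2, 1, 1], ![0, 1, 1, 2,
  1], ![0, 0, 1, 0, 0], ![0, 1, 2, 2, 1], ![0, 1, 2, 1, 2], ![0, 1, 2, 2, 2], ![0, 0, 0, 1, 0], ![1,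
  2, 2, 2, 0], ![1, 1, 2, 1, 0], ![1, 0, 2, 2, 2], ![1, 2, 2, 0, 1], ![1, 0, 2, 2, 1], ![1, 1, 1, 2,
  0], ![1, 2, 0, 2, 2], ![1, 2, 2, 0, 2], ![1, 2, 0, 2, 1], ![1, 2, 1, 1, 0], ![1, 1, 1, 1, 0], ![1,
  2, 2, 1, 0], ![1, 1, 0, 1, 1], ![1, 0, 1, 1, 2], ![1, 1, 0, 1, 2], ![1, 1, 2, 2, 0], ![1, 1, 1, 0,
  1], ![1, 0, 1, 1, 1], ![1, 1, 1, 0, 2], ![1, 2, 1, 2, 0]]

/-- the standard form -/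
def dt5 (u v : Fin 5 → ZMod 3) : ZMod 3 := u 0 * v 0 + u 1 * v 1 + u 2 * v 2 + u 3 * v 3 + u 4 * v 4
/-- the hermitian form -/
def fb4 (u v : Fin 4 → K4) : K4 :=
  star (u 0) * v 0 + star (u 1) * v 1 + star (u 2) * v 2 + star (u 3) * v 3
/-- the alternating form -/
def g6 (a b : Fin 6 → ZMod 2) : ZMod 2 :=
  a 0 * b 1 + a 1 * b 0 + a 2 * b 3 + a 3 * b 2 + a 4 * b 5 + a 5 * b 4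
/-- the quadratic form -/
def q6 (a : Fin 6 → ZMod 2) : ZMod 2 :=
  a 0 * a 0 + a 0 * a 1 + a 1 * a 1 + a 2 * a 2 + a 2 * a 3 + a 3 * a 3 + a 4 * a 4 + a 4 * a 5 + a 5 * a 5

/-- equality of vectors up to a sign -/
def pm5 (u v : Fin 5 → ZMod 3) : Prop :=
  (u 0 = v 0 ∧ u 1 = v 1 ∧ u 2 = v 2 ∧ u 3 = v 3 ∧ u 4 = v 4) ∨
    (u 0 = -v 0 ∧ u 1 = -v 1 ∧ u 2 = -v 2 ∧ u 3 = -v 3 ∧ u 4 = -v 4)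

instance decPm5 (u v : Fin 5 → ZMod 3) : Decidable (pm5 u v) := by unfold pm5; infer_instance

theorem pm5_iff {u v : Fin 5 → ZMod 3} : pm5 u v ↔ u = v ∨ u = -v := by
  simp [pm5, funext_iff, Fin.forall_fin_succ]

theorem e6_1 : ∀ i, q6 (e6a i) = 1 ∧ dt5 (e6b i) (e6b i) = 2 := by decide +kernel
theorem e6_2 : ∀ i j, i ≠ j → (g6 (e6a i) (e6a j) = 0 ↔ dt5 (e6b i) (e6b j) = 0) ∧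
    ¬ pm5 (e6b i) (e6b j) ∧ e6a i ≠ e6a j := by decide +kernel
theorem e6_3 : ∀ a b c d e, dt5 ![a, b, c, d, e] ![a, b, c, d, e] = 2 → ∃ i, pm5 ![a, b, c, d, e] (e6b i) := by
  decide +kernel
theorem e6_4 : ∀ a b c d e f, q6 ![a, b, c, d, e, f] = 1 → ∃ i, ![a, b, c, d, e, f] = e6a i := by
  decide +kernel
theorem u4_1 : ∀ i, fb4 (u4a i) (u4a i) = 0 ∧ u4a i ≠ 0 ∧ dt5 (u4b i) (u4b i) = 1 := by decide +kernel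
theorem u4_2 : ∀ i j, i ≠ j → (fb4 (u4a i) (u4a j) = 0 ↔ dt5 (u4b i) (u4b j) = 0) ∧
    ¬ pm5 (u4b i) (u4b j) ∧ ∃ k, ¬ (fb4 (u4a i) (u4a k) = 0 ↔ fb4 (u4a j) (u4a k) = 0) := by
  decide +kernel
theorem u4_3 : ∀ a b c d e, dt5 ![a, b, c, d, e] ![a, b, c, d, e] = 1 → ∃ i, pm5 ![a, b, c, d, e] (u4b i) := by
  decide +kernel
theorem u4_4 : ∀ a b c d : K4, fb4 ![a, b, c, d] ![a, b, c, d] = 0 → (a = 0 ∧ b = 0 ∧ c = 0 ∧ d = 0) ∨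
    ∃ i s, s ≠ 0 ∧ a = s * u4a i 0 ∧ b = s * u4a i 1 ∧ c = s * u4a i 2 ∧ d = s * u4a i 3 := by
  decide +kernel

/-- the polar form -/
def b5 : (Fin 5 → ZMod 3) →ₗ[ZMod 3] (Fin 5 → ZMod 3) →ₗ[ZMod 3] ZMod 3 :=
  LinearMap.mk₂ _ (fun u v => 2 * dt5 u v) (fun _ _ _ => by simp [dt5]; ring)
    (fun _ _ _ => by simp [dt5]; ring) (fun _ _ _ => by simp [dt5]; ring) (fun _ _ _ => by simp [dt5]; ring)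

theorem eta5 {α : Type*} (z : Fin 5 → α) : z = ![z 0, z 1, z 2, z 3, z 4] := by
  funext i; fin_cases i <;> rfl

theorem m3_of_tab {G : Type*} [Group G] {E : Set G} {n : ℕ} {c : ZMod 3} (c0 : c ≠ 0)
    (v : Fin n → Fin 5 → ZMod 3) (R : G → Fin n → Prop) (t1 : ∀ i, dt5 (v i) (v i) = c)
    (t2 : ∀ i j, i ≠ j → ¬ pm5 (v i) (v j))
    (t3 : ∀ a b c' d e, dt5 ![a, b, c', d, e] ![a, b, c', d, e] = c → ∃ i, pm5 ![a, b, c', d, e] (v i))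
    (r1 : ∀ x i, R x i → x ∈ E) (r2 : ∀ x ∈ E, ∃ i, R x i) (r3 : ∀ i, ∃ x, R x i)
    (r4 : ∀ x y i, R x i → R y i → x = y) (r5 : ∀ x i j, R x i → R x j → i = j)
    (r6 : ∀ x y i j, R x i → R y j → i ≠ j → (Commute x y ↔ dt5 (v i) (v j) = 0)) : M3 E := by
  have two : (2 : ZMod 3) ≠ 0 := by decide
  refine ⟨_, _, _, inferInstance, b5, fun z => dt5 z z, c, fun x z => ∃ i, R x i ∧ (z = v i ∨ z = -v i),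
    IsQuad.of_add_smul (fun x y => by simp [b5, dt5]; ring) fun t x => by simp [dt5]; ring,
    fun x k => funext fun i => ?_, by simp, c0, fun ⟨i, k, _⟩ => r1 _ i k, ?_,
    fun k => (r2 _ k).elim fun i k => ⟨_, i, k, .inl rfl⟩, fun {z} k => ?_, ?_, ?_, ?_, ?_⟩
  · have := k (Pi.single i 1)
    fin_cases i <;> simpa [b5, dt5, two] using this
  · rintro d _ ⟨i, -, rfl | rfl⟩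
    · exact t1 i
    · simpa [dt5] using t1 i
  · obtain ⟨i, hi⟩ := t3 _ _ _ _ _ (eta5 z ▸ k)
    obtain ⟨x, hx⟩ := r3 i
    exact ⟨x, i, hx, pm5_iff.1 (eta5 z ▸ hi)⟩
  · rintro d _ ⟨i, k, rfl | rfl⟩
    · exact ⟨i, k, .inr rfl⟩
    · exact ⟨i, k, .inl (neg_neg _)⟩
  · rintro d e z ⟨i, k, h⟩ ⟨j, k', h'⟩
    by_cases ij : i = j
    · exact r4 _ _ _ k (ij ▸ k')
    refine (t2 i j ij (pm5_iff.2 ?_)).elim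
    rcases h with rfl | rfl
    · exact h'
    · exact h'.symm.imp (fun e => neg_injective e) neg_eq_iff_eq_neg.1
  · rintro d z w ⟨i, k, h⟩ ⟨j, k', h'⟩
    obtain rfl := r5 _ _ _ k k'
    rcases h with rfl | rfl <;> rcases h' with rfl | rfl <;> simp
  · rintro d e z w ⟨i, k, h⟩ ⟨j, k', h'⟩ ne
    rw [r6 _ _ _ _ k k' fun ij => ne (r4 _ _ _ k (ij ▸ k'))]
    have : b5 (v i) (v j) = 0 ↔ dt5 (v i) (v j) = 0 := by simp [b5, two]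
    rcases h with rfl | rfl <;> rcases h' with rfl | rfl <;> simp [this]

end Cfsg.Agent.H21.FS
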