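import Mathlib
import Cfsg.Agent.H21.Fc5
import Cfsg.Agent.H21.FcT

/-! Fischer's classification: spaces with residues of symplectic type. -/

set_option autoImplicit false
set_option linter.unusedSectionVars false
set_option linter.unusedVariables false
set_option linter.style.haveILetI false

namespace Cfsg.Agent.H21.FS

open Cfsg Subgroup Cfsg.Agent.H19 Cfsg.Agent.H11 Module

universe u

variable {G : Type u} [Group G]

/-- thick lines -/
def TK (E : Set G) (n : ℕ) : Prop := ∀ u v, Ad E u v → (Ln E u v).ncard = n ∧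
  (∀ a ∈ Ln E u v, ∀ b ∈ Ln E u v, Commute a b) ∧
  (∀ a ∈ Ln E u v, ∀ b ∈ Ln E u v, a ≠ b → ∀ y ∈ E, Commute y a → Commute y b →
    ∀ c ∈ Ln E u v, Commute y c) ∧ ∀ y ∈ E, ∃ c ∈ Ln E u v, Commute y c

theorem tk_of [Finite G] {D : Set G} (h : PG D) {n : ℕ} (h3 : 3 ≤ n) (t : Th D n) : TK D n :=
  fun u v a => ⟨t u v a, (line h a).comm, (line h a).two, fun y hy =>
    (one h (line h a) ((t u v a).symm ▸ h3) hy).imp fun c k => k⟩

theorem Iso.tk {H : Type*} [Group H] {E : Set G} {E' : Set H} {π : G → H} (i : Iso E E' π) {n : ℕ}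
    (t : ∀ u v, Ad E' u v → (Ln E' u v).ncard = n ∧
  (∀ a ∈ Ln E' u v, ∀ b ∈ Ln E' u v, Commute a b) ∧
  (∀ a ∈ Ln E' u v, ∀ b ∈ Ln E' u v, a ≠ b → ∀ y ∈ E', Commute y a → Commute y b →
    ∀ c ∈ Ln E' u v, Commute y c) ∧ ∀ y ∈ E', ∃ c ∈ Ln E' u v, Commute y c) : TK E n := by
  intro u v a
  obtain ⟨h1, h2, h3, h4⟩ := t _ _ (i.ad a)
  have m : ∀ {f}, f ∈ Ln E u v → π f ∈ Ln E' (π u) (π v) := fun k => (i.ln a.l a.r k.1).2 k
  refine ⟨?_, fun x hx y hy => (i.cm _ hx.1 _ hy.1).1 (h2 _ (m hx) _ (m hy)),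
    fun x hx y hy ne z hz c1 c2 c hc => (i.cm _ hz _ hc.1).1 (h3 _ (m hx) _ (m hy)
      ((i.eq hx.1 hy.1).not.2 ne) _ (i.mem hz) ((i.cm _ hz _ hx.1).2 c1) ((i.cm _ hz _ hy.1).2 c2) _ (m hc)),
    fun y hy => ?_⟩
  · rw [← h1, ← i.image_ln a.l a.r, Set.InjOn.ncard_image (i.bij.injOn.mono fun _ k => k.1)]
  · obtain ⟨c, hc, k⟩ := h4 _ (i.mem hy)
    obtain ⟨c, hc', rfl⟩ := i.ex hc.1
    exact ⟨c, (i.ln a.l a.r hc').1 hc, (i.cm _ hy _ hc').1 k⟩

theorem ln_swap {D : Set G} {d y p z : G} (hz : z ∈ Ln (Dd D y) d p) (hd : d ∈ Dd D y) (dp : Commute d p)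
    (ne : z ≠ d) : z ∈ Ln (Dd D d) y p :=
  ⟨⟨hz.1.1, ne, hz.2 d hd (Commute.refl d) dp⟩, fun t ht c1 c2 => by
    by_cases e : t = y
    · exact e ▸ hz.1.2.2
    · exact hz.2 t ⟨ht.1, e, c1.symm⟩ ht.2.2.symm c2⟩

/-- the perp of a point is a line -/
def PL' (E : Set G) : Prop := ∀ d ∈ E, ∀ u ∈ Dd E d, ∀ v ∈ Dd E d, u ≠ v → ¬ Commute u v ∧
  ∀ z ∈ Dd E d, z = u ∨ z = v ∨ z = J u v

theorem Iso.pl {H : Type*} [Group H] {E : Set G} {E' : Set H} {π : G → H} (i : Iso E E' π)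
    (t : T3 E') (p : PL E') : PL' E := fun d hd u hu v hv ne => by
  obtain ⟨h1, h2⟩ := p.line t (i.mem hd) ((i.dd hd hu.1).2 hu) ((i.dd hd hv.1).2 hv)
    ((i.eq hu.1 hv.1).not.2 ne)
  refine ⟨(i.cm _ hu.1 _ hv.1).not.1 h1, fun z hz => ?_⟩
  have := h2.subset ((i.dd hd hz.1).2 hz)
  rwa [← i.hJ _ hu.1 _ hv.1, Set.mem_insert_iff, Set.mem_insert_iff, Set.mem_singleton_iff,
    i.eq hz.1 hu.1, i.eq hz.1 hv.1, i.eq hz.1 (i.cl _ hu.1 _ hv.1)] at this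

theorem Iso.ni {H : Type*} [Group H] {E : Set G} {E' : Set H} {π : G → H} (i : Iso E E' π)
    (p : ∀ d ∈ E', ∀ a ∈ E', ¬ Commute d a → ∀ m ∈ E', Commute m d → Commute m a →
      ∃ y ∈ E', Commute y d ∧ Commute y a ∧ ¬ Commute y m) : NI E := fun d hd a ha n m hm c1 c2 => by
  obtain ⟨y, hy, k1, k2, k3⟩ := p _ (i.mem hd) _ (i.mem ha) ((i.cm _ hd _ ha).not.2 n) _ (i.mem hm)
    ((i.cm _ hm _ hd).2 c1) ((i.cm _ hm _ ha).2 c2)
  obtain ⟨y, hy', rfl⟩ := i.ex hy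
  exact ⟨y, hy', (i.cm _ hy' _ hd).1 k1, (i.cm _ hy' _ ha).1 k2, (i.cm _ hy' _ hm).not.1 k3⟩

/-- no diagram of type `A₃` in the perp of a line -/
def NA (E : Set G) (d a : G) : Prop := ∀ t ∈ E, ∀ y ∈ E, ∀ y' ∈ E, Commute t d → Commute t a →
  Commute y d → Commute y a → Commute y' d → Commute y' a → y ≠ y' → Commute y y' →
  Commute t y ∨ Commute t y'

theorem swap_fix {α : Type*} [DecidableEq α] {σ : Equiv.Perm α} (hσ : σ.IsSwap) {i j : α} (ij : i ≠ j)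
    (ne : σ ≠ Equiv.swap i j) (c : Commute σ (Equiv.swap i j)) : σ i = i := by
  by_contra n
  have e : σ = Equiv.swap i (σ i) := by
    obtain ⟨p, q, pq, rfl⟩ := hσ
    by_cases e1 : i = p
    · rw [e1, Equiv.swap_apply_left]
    by_cases e2 : i = q
    · rw [e2, Equiv.swap_apply_right, Equiv.swap_comm]
    exact absurd (Equiv.swap_apply_of_ne_of_ne e1 e2) n
  have k := congrArg (fun τ : Equiv.Perm α => τ i) c.eq
  simp only [Equiv.Perm.mul_apply, Equiv.swap_apply_left] at k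
  rw [Equiv.swap_apply_of_ne_of_ne n fun e' : σ i = j => ne (e.trans (by rw [e']))] at k
  exact ij (σ.injective k).symm

theorem e6_model [Finite G] {E : Set G} (h : PG E) (s : Sy E) (t : Thin E) (w : WT E) {d a : G}
    (hd : d ∈ E) (ha : a ∈ E) (n : ¬ Commute d a) (na : NA E d a) : M3 E := by
  obtain ⟨u1, m1, u2, m2, ne, c12, c1, c2, c3, c4⟩ := res_cp h t w d hd a ha n
  obtain ⟨v1, m3, c5, c6, n1⟩ := ni h s t w d hd a ha n u1 m1 c1 c2
  obtain ⟨v2, m4, c7, c8, n2⟩ := ni h s t w d hd a ha n u2 m2 c3 c4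
  have k1 : Commute v1 u2 := (na v1 m3 u1 m1 u2 m2 c5 c6 c1 c2 c3 c4 ne c12).resolve_left n1
  have k2 : Commute v2 u1 := (na v2 m4 u1 m1 u2 m2 c7 c8 c1 c2 c3 c4 ne c12).resolve_right n2
  have k3 : Commute v2 v1 := (na v2 m4 u2 m2 v1 m3 c7 c8 c3 c4 c5 c6 (fun e => n1 (e ▸ c12.symm))
    k1.symm).resolve_left n2
  by_cases d4 : D4 E
  swap
  · exfalso
    obtain ⟨n, e, -, he⟩ := sym_class h s d4
    have sw : ∀ x ∈ E, (e x).IsSwap := fun x hx => he.subset ⟨x, hx, rfl⟩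
    have cm : ∀ {x y}, Commute (e x) (e y) ↔ Commute x y := commute_map (φ := e.toMonoidHom) e.injective
    obtain ⟨i, j, ij, e1⟩ := sw u1 m1
    obtain ⟨k, l, kl, e2⟩ := sw u2 m2
    have f1 : ∀ x ∈ E, x ≠ u1 → Commute x u1 → e x i = i := fun x hx ne c =>
      swap_fix (sw x hx) ij (e1 ▸ e.injective.ne ne) (e1 ▸ cm.2 c)
    have f2 : ∀ x ∈ E, x ≠ u2 → Commute x u2 → e x k = k := fun x hx ne c =>
      swap_fix (sw x hx) kl (e2 ▸ e.injective.ne ne) (e2 ▸ cm.2 c)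
    have ik : i ≠ k := fun r => kl (by
      have := f1 u2 m2 ne.symm c12.symm
      rwa [e2, r, Equiv.swap_apply_left, eq_comm] at this)
    have il : i ≠ l := fun r => kl (by
      have := f1 u2 m2 ne.symm c12.symm
      rwa [e2, r, Equiv.swap_apply_right] at this)
    have jk : j ≠ k := fun r => ij (by
      have := f2 u1 m1 ne c12
      rwa [e1, ← r, Equiv.swap_apply_right] at this)
    obtain ⟨z, hz, ez⟩ := he.symm.subset (⟨i, k, ik, rfl⟩ : (Equiv.swap i k).IsSwap)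
    have cz : ∀ x ∈ E, Commute u1 x → Commute v1 x → Commute u2 x → Commute v2 x → Commute z x :=
      fun x hx a1 a2 a3 a4 => (cm.1 (J_eq_self.1 (by
        rw [ez, J_swap, f1 x hx (fun r => n1 (r ▸ a2)) a1.symm, f2 x hx (fun r => n2 (r ▸ a4)) a3.symm]))).symm
    rcases na z hz u1 m1 u2 m2 (cz d hd c1 c5 c3 c7) (cz a ha c2 c6 c4 c8) c1 c2 c3 c4 ne c12 with r | r <;>
      rw [← cm, ez] at r
    · rw [e1, Equiv.swap_comm] at r; exact swap_nc ik.symm ij jk.symm r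
    · rw [e2] at r; exact swap_nc ik kl il r
  obtain ⟨V, _, _, _, B, Q, ψ, m⟩ := o2_model h s t w d4
  have q := m.q
  have b0 : ∀ {x y}, x ∈ E → y ∈ E → Commute x y → B (ψ x) (ψ y) = 0 := fun hx hy c => (m.cm _ hx _ hy).1 c
  have b1 : ∀ {x y}, x ∈ E → y ∈ E → ¬ Commute x y → B (ψ x) (ψ y) = 1 := fun hx hy c =>
    z2 _ ((m.cm _ hx _ hy).not.1 c)
  have q1 : ∀ {x}, x ∈ E → Q (ψ x) = 1 := fun hx => m.bij.mapsTo hx
  have bb := quad_self q
  have G1 := And.intro (b1 hd ha n) (b1 ha hd fun c => n c.symm)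
  have G2 := And.intro (b1 m3 m1 n1) (b1 m1 m3 fun c => n1 c.symm)
  have G3 := And.intro (b1 m4 m2 n2) (b1 m2 m4 fun c => n2 c.symm)
  have G4 : ∀ {x y}, x ∈ E → y ∈ E → Commute x y → B (ψ x) (ψ y) = 0 ∧ B (ψ y) (ψ x) = 0 :=
    fun hx hy c => ⟨b0 hx hy c, b0 hy hx c.symm⟩
  have G5 := And.intro (And.intro (G4 m1 hd c1) (G4 m1 ha c2)) (And.intro (G4 m2 hd c3) (G4 m2 ha c4))
  have G6 := And.intro (And.intro (G4 m3 hd c5) (G4 m3 ha c6)) (And.intro (G4 m4 hd c7) (G4 m4 ha c8))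
  have G7 := And.intro (And.intro (G4 m1 m2 c12) (G4 m3 m2 k1)) (And.intro (G4 m4 m1 k2) (G4 m4 m3 k3))
  have tot : ∀ v, B (ψ d) v = 0 → B (ψ a) v = 0 → B (ψ u1) v = 0 → B (ψ v1) v = 0 → B (ψ u2) v = 0 →
      B (ψ v2) v = 0 → v = 0 := fun v a1 a2 a3 a4 a5 a6 => by
    by_contra v0
    rcases z2c (Q v) with e | e
    · obtain ⟨z, hz, ez⟩ := m.bij.surjOn (show ψ u1 + v ∈ {v | Q v = 1} by simp [q.add', q1 m1, e, a3])
      have cz : ∀ x ∈ E, Commute x z ↔ B (ψ x) (ψ u1 + v) = 0 := fun x hx => ez ▸ m.cm x hx z hz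
      rcases na v1 m3 u1 m1 z hz c5 c6 c1 c2 ((cz d hd).2 (by simp [G5, a1])).symm
        ((cz a ha).2 (by simp [G5, a2])).symm (fun r => v0 (by simpa [← r] using ez))
        ((cz u1 m1).2 (by simp [bb, a3])) with r | r
      · exact n1 r
      · simp [cz v1 m3, G2, a4] at r
    · obtain ⟨z, hz, ez⟩ := m.bij.surjOn (show ψ u1 + ψ u2 + v ∈ {v | Q v = 1} by
        simp [q.add', q1 m1, q1 m2, e, a3, a5, G7, z2s])
      have cz : ∀ x ∈ E, Commute x z ↔ B (ψ x) (ψ u1 + ψ u2 + v) = 0 := fun x hx => ez ▸ m.cm x hx z hz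
      rcases na z hz v1 m3 v2 m4 ((cz d hd).2 (by simp [G5, a1])).symm
        ((cz a ha).2 (by simp [G5, a2])).symm c5 c6 c7 c8 (fun r => n1 (r ▸ k2)) k3.symm with r | r
      · simp [Commute.symm_iff (a := z), cz v1 m3, G2, G7, a4] at r
      · simp [Commute.symm_iff (a := z), cz v2 m4, G3, G7, a6] at r
  let L := Fintype.linearCombination (ZMod 2) ![ψ d, ψ a, ψ u1, ψ v1, ψ u2, ψ v2]
  have LL : ∀ c, L c = c 0 • ψ d + c 1 • ψ a + c 2 • ψ u1 + c 3 • ψ v1 + c 4 • ψ u2 + c 5 • ψ v2 :=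
    fun c => by simp [L, Fintype.linearCombination_apply, Fin.sum_univ_six]
  have BL : ∀ x y, B (L x) (L y) = g6 x y := fun x y => by
    simp [LL, g6, bb, G1, G2, G3, G5, G6, G7, mul_comm, add_comm, add_left_comm, add_assoc]
  have QL : ∀ x, Q (L x) = q6 x := fun x => by
    simp [LL, q6, q.add', q.smul', G1, G2, G3, G5, G6, G7, q1 hd, q1 ha, q1 m1, q1 m2, q1 m3, q1 m4]; ring
  have sj : ∀ v, ∃ a b c d e f, v = L ![a, b, c, d, e, f] := fun v =>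
    ⟨B (ψ a) v, B (ψ d) v, B (ψ v1) v, B (ψ u1) v, B (ψ v2) v, B (ψ u2) v, sub_eq_zero.1 (by
      apply tot <;> simp [LL, bb, G1, G2, G3, G5, G6, G7])⟩
  have inj : ∀ x y, L x = L y → x = y := fun x y e => by
    have := fun z => (BL z x).symm.trans ((congrArg (B (L z)) e).trans (BL z y))
    have h0 := this (Pi.single 0 1)
    have h1 := this (Pi.single 1 1)
    have h2 := this (Pi.single 2 1)
    have h3 := this (Pi.single 3 1)
    have h4 := this (Pi.single 4 1)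
    have h5 := this (Pi.single 5 1)
    simp [g6] at h0 h1 h2 h3 h4 h5
    funext i; fin_cases i <;> simpa
  refine m3_of_tab (by decide) e6b (fun x i => x ∈ E ∧ ψ x = L (e6a i)) (fun i => (e6_1 i).2)
    (fun i j ij => (e6_2 i j ij).2.1) e6_3 (fun x i k => k.1) (fun x hx => ?_) (fun i => ?_)
    (fun x y i k k' => m.bij.injOn k.1 k'.1 (k.2.trans k'.2.symm))
    (fun x i j k k' => by_contra fun ij => (e6_2 i j ij).2.2 (inj _ _ (k.2.symm.trans k'.2)))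
    fun x y i j k k' ij => by rw [m.cm _ k.1 _ k'.1, k.2, k'.2, BL, (e6_2 i j ij).1]
  · obtain ⟨a, b, c, d, e, f, k⟩ := sj (ψ x)
    obtain ⟨i, hi⟩ := e6_4 a b c d e f (by rw [← QL, ← k, q1 hx])
    exact ⟨i, hx, hi ▸ k⟩
  · exact m.bij.surjOn (show L (e6a i) ∈ {v | Q v = 1} from (QL _).trans (e6_1 i).1)

/-- a line in the perp of `d` missing the perp of `a` -/
structure LM (D : Set G) (d a p q : G) : Prop where
  hd : d ∈ D
  ha : a ∈ D
  n : ¬ Commute d a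
  hp : p ∈ Dd D d
  hq : q ∈ Dd D d
  pq : ¬ Commute p q
  ap : ¬ Commute a p
  aq : ¬ Commute a q
  ar : ¬ Commute a (J p q)

namespace LM
variable {D : Set G} {d a p q : G} (l : LM D d a p q) (h : TG D) (s : ∀ x ∈ D, Sy (Dd D x))
include l h s

theorem symm : LM D d a q p :=
  ⟨l.hd, l.ha, l.n, l.hq, l.hp, fun c => l.pq c.symm, l.aq, l.ap, h.br p l.hp.1 q l.hq.1 l.pq ▸ l.ar⟩

theorem third : LM D d a p (J p q) :=
  ⟨l.hd, l.ha, l.n, l.hp, Cl.dd h.toT3 h.cl d p l.hp q l.hq, h.not_commute_J_left l.pq, l.ap, l.ar,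
    by rw [h.JJ l.hp.1]; exact l.aq⟩

theorem one {y : G} (hy : y ∈ Dd D d) (ay : Commute y a) (c1 : Commute y p) : ¬ Commute y q := fun c2 => by
  rcases s y hy.1 p ⟨l.hp.1, fun e => l.ap (e ▸ ay.symm), c1⟩ q ⟨l.hq.1, fun e => l.aq (e ▸ ay.symm), c2⟩
    a ⟨l.ha, fun e => l.n (e ▸ hy.2.2), ay⟩ l.pq with k | k | k
  exacts [l.ap k, l.aq k, l.ar k]

theorem same {y y' : G} (hy : y ∈ Dd D d) (ay : Commute y a) (c1 : Commute y p) (hy' : y' ∈ Dd D d)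
    (ay' : Commute y' a) (c2 : Commute y' p) : Commute y y' := by
  by_contra n
  rcases s d l.hd y hy y' hy' q l.hq n with k | k | k
  · exact l.one h s hy ay c1 k.symm
  · exact l.one h s hy' ay' c2 k.symm
  · exact l.one h s (Cl.dd h.toT3 h.cl d y hy y' hy') (T3.commute_J_both ay.symm ay'.symm).symm
      (T3.commute_J_both c1.symm c2.symm).symm k.symm

theorem col {y : G} (hy : y ∈ Dd D d) : ∃ p q, LM D d a p q ∧ Commute y p := by
  rcases s d l.hd p l.hp q l.hq y hy l.pq with k | k | k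
  exacts [⟨_, _, l, k⟩, ⟨_, _, l.symm h s, k⟩, ⟨_, _, (l.third h s).symm h s, k⟩]

theorem col2 {y z : G} (hz : z ∈ Dd D d) (c : ¬ Commute z p) : ∃ q, LM D d a p q ∧ Commute z q := by
  rcases s d l.hd p l.hp q l.hq z hz l.pq with k | k | k
  exacts [absurd k c, ⟨_, l, k⟩, ⟨_, l.third h s, k⟩]

theorem col3 {z : G} (hz : z ∈ Dd D d) (c1 : ¬ Commute z p) (c2 : ¬ Commute z q) : Commute z (J p q) :=
  ((s d l.hd p l.hp q l.hq z hz l.pq).resolve_left c1).resolve_left c2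

theorem comp {u v t : G} (hu : u ∈ Dd D d) (au : Commute u a) (hv : v ∈ Dd D d) (av : Commute v a)
    (ht : t ∈ Dd D d) (ta : Commute t a) (uv : Commute u v) (up : Commute u p) (n1 : ¬ Commute t u)
    (n2 : ¬ Commute t v) : Commute v p := by
  by_contra vp
  obtain ⟨q, l', vq⟩ := l.col2 h s (y := u) hv vp
  have m := Cl.dd h.toT3 h.cl d t ht u hu
  have am := (T3.commute_J_both ta.symm au.symm).symm
  have tp : ¬ Commute t p := fun c => n1 (l'.same h s ht ta c hu au up)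
  have tq : ¬ Commute t q := fun c => n2 ((l'.symm h s).same h s ht ta c hv av vq)
  have tr := l'.col3 h s ht tp tq
  have k : Commute (J t u) q := by
    by_contra c
    have c1 : ¬ Commute (J t u) p := fun c =>
      h.not_commute_J_right ht.1 hu.1 n1 (l'.same h s hu au up m am c)
    exact h.not_commute_J_left n1 (((l'.third h s).symm h s).same h s ht ta tr m am (l'.col3 h s m c1 c))
  exact n2 (h.commute_of_J ht.1 hu.1 n1 uv.symm ((l'.symm h s).same h s hv av vq m am k)).symm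

theorem not_tk (t : ∀ x ∈ D, TK (Dd D x) 3) {y : G} (hy : y ∈ Dd D d) (ay : Commute y a) : False := by
  obtain ⟨p, q, l, c⟩ := l.col h s hy
  have yp : y ≠ p := fun e => l.ap (e ▸ ay.symm)
  have md : d ∈ Dd D y := ⟨l.hd, hy.2.1.symm, hy.2.2.symm⟩
  obtain ⟨-, -, -, k⟩ := t y hy.1 d p ⟨md, ⟨l.hp.1, yp.symm, c⟩, l.hp.2.1.symm, l.hp.2.2⟩
  obtain ⟨z, hz, az⟩ := k a ⟨l.ha, fun e => l.n (e ▸ hy.2.2), ay⟩
  have hz' := ln_swap hz md l.hp.2.2 fun e => l.n (e ▸ az.symm)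
  obtain ⟨k1, -, -, k⟩ := t d l.hd y p ⟨hy, l.hp, yp, c⟩
  obtain ⟨f, hf, qf⟩ := k q l.hq
  have zp : Commute z p := (hz'.2 p l.hp c.symm (Commute.refl p)).symm
  rcases mem_three k1 (left_mem hy _) (right_mem l.hp _) hz' yp hz.1.2.1.symm
    (fun e => l.ap (e ▸ az)) hf with rfl | rfl | rfl
  · exact l.one h s hy ay c qf.symm
  · exact l.pq qf.symm
  · exact l.one h s hz'.1 az.symm zp qf.symm

theorem na (t : ∀ x ∈ D, NI (Dd D x)) {x : G} (hx : x ∈ D) : NA (Dd D x) d a := by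
  intro t0 ht y hy y' hy' c1 c2 c3 c4 c5 c6 ne c
  by_contra k
  push Not at k
  have mk : ∀ {y}, y ∈ Dd D x → Commute y d → Commute y a → y ∈ Dd D d := fun hy c1 c2 =>
    ⟨hy.1, fun e => l.n (e ▸ c2), c1.symm⟩
  have mt := mk ht c1 c2
  have my := mk hy c3 c4
  have my' := mk hy' c5 c6
  obtain ⟨p, q, l, yp⟩ := l.col h s my
  have yp' := l.comp h s my c4 my' c6 mt c2 c yp k.1 k.2
  obtain ⟨z, hz, z1, z2, z3⟩ := t y hy.1 d ⟨l.hd, my.2.1.symm, c3⟩ a ⟨l.ha, fun e => l.n (e ▸ c3.symm), c4⟩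
    l.n y' ⟨hy'.1, ne.symm, c⟩ c5 c6
  have mz : z ∈ Dd D d := ⟨hz.1, fun e => l.n (e ▸ z2), z1.symm⟩
  have : ∃ t ∈ Dd D d, Commute t a ∧ ¬ Commute t y ∧ ¬ Commute t z := by
    by_cases e : Commute t0 z
    · refine ⟨J y' t0, Cl.dd h.toT3 h.cl d _ my' _ mt, (T3.commute_J_both c6.symm c2.symm).symm,
        by rw [commute_J_of c.symm]; exact k.1, fun r => z3 ?_⟩
      exact h.commute_of_J hy'.1 ht.1 (fun r => k.2 r.symm) e.symm r.symm
    · exact ⟨t0, mt, c2, k.1, e⟩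
  obtain ⟨t, ht, t1, t2, t3⟩ := this
  exact z3 (l.same h s mz z2 (l.comp h s my c4 mz z2 ht t1 hz.2.2 yp t2 t3) my' c6 yp')

end LM

theorem LM.not_pl [Finite G] {D : Set G} {d a p q : G} (l : LM D d a p q) (h : PG D)
    (s : ∀ x ∈ D, Sy (Dd D x)) (c : CP D) (t : ∀ x ∈ D, PL' (Dd D x)) : False := by
  obtain ⟨u, hu, v, hv, ne, c1, c2, c3, c4, c5⟩ := c d l.hd a l.ha l.n
  have mu : u ∈ Dd D d := ⟨hu, fun e => l.n (e ▸ c3), c2.symm⟩
  have mv : v ∈ Dd D d := ⟨hv, fun e => l.n (e ▸ c5), c4.symm⟩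
  have cl := Cl.dd h.toT3 h.toTG.cl d
  obtain ⟨z, hz, n1, n2⟩ := h.toT3.diam2 (fun _ k => k.1) cl mu (h.rankD l.hd mu mv) ne c1
  have n1' : ¬ Commute z u := fun c => n1 c.symm
  have n2' : ¬ Commute z v := fun c => n2 c.symm
  have key : ∀ u ∈ D, ∀ v ∈ D, Commute u v → ¬ Commute u z → ¬ Commute v z →
      J (J z u * J z v) u = v := fun u hu v hv c n1 n2 => by
    rw [← J_map_mul, J_J_left', h.inv hz.1, J_mul, ← h.br u hu z hz.1 n1, J_comm c.symm, h.JJ hu,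
      h.br v hv z hz.1 n2, h.JJ hz.1]
  have ce : Commute (J z u) (J z v) := commute_J.2 c1
  have g1 := key u hu v hv c1 n1 n2
  have g2 := key v hv u hu c1.symm n2 n1
  rw [← ce.eq] at g2
  have gd : Commute (J z u * J z v) d := (cl z hz u mu).2.2.symm.mul_left (cl z hz v mv).2.2.symm
  have mk : ∀ x ∈ D, Commute u x → Commute v x → x ≠ u → x ≠ v → x ∈ Dd (Dd D u) v :=
    fun x hx a1 a2 a3 a4 => ⟨⟨hx, a3, a1⟩, a4, a2⟩
  have au : a ≠ u := fun e => l.n (e ▸ c2.symm)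
  have av : a ≠ v := fun e => l.n (e ▸ c4.symm)
  have := (t u hu v ⟨hv, ne.symm, c1⟩ d (mk d l.hd c2 c4 mu.2.1.symm mv.2.1.symm) a
    (mk a l.ha c3 c5 au av) fun e => l.n (e ▸ Commute.refl _)).2 (J (J z u * J z v) a)
    (mk _ (h.conj _ _ l.ha) (by simpa only [g2] using (commute_J (g := J z u * J z v)).2 c5)
      (by simpa only [g1] using (commute_J (g := J z u * J z v)).2 c3)
      (fun e => av (J_inj.1 (e.trans g2.symm))) fun e => au (J_inj.1 (e.trans g1.symm)))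
  have ae := t1 h.toT3 l.hd l.ha (cl z hz u mu) (cl z hz v mv) l.n (fun e => ne (J_inj.1 e)) ce
    (this.resolve_left fun e => l.n (by rw [← commute_J (g := J z u * J z v), e, J_of_commute gd]))
  have az := h.commute_of_J hz.1 hu n1' c3.symm ae
  obtain ⟨p, q, l, up⟩ := l.col h.toTG s mu
  have vp := l.comp h.toTG s mu c3 mv c5 hz az.symm c1 up n1' n2'
  exact (t d l.hd p l.hp u ⟨mu, fun e => l.ap (e ▸ c3.symm), up.symm⟩ v
    ⟨mv, fun e => l.ap (e ▸ c5.symm), vp.symm⟩ ne).1 c1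

theorem sy_step [Finite G] {D : Set G} (h : PG D) (hZ : center G = ⊥) (t : Thin D) (w : WT D) {d0 : G}
    (hd0 : d0 ∈ D) (s : Sy (qt (Dd D d0))) (n5 : ¬ Th (qt (Dd D d0)) 5) : Sy D ∨ M3 D := by
  have p := res_pg h t w hd0
  have c := res_cp h t w
  have s' : ∀ x ∈ D, Sy (Dd D x) := fun x hx => (iso_res h hd0 hx).elim fun π i => i.sy s
  refine or_iff_not_imp_left.2 fun k => ?_
  simp only [Sy] at k
  push Not at k
  obtain ⟨p0, hp, q, hq, a, ha, pq, ap, aq, ar⟩ := k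
  obtain ⟨d, hd, -, -, -, -, c1, c2, -⟩ := c p0 hp q hq pq
  have mp : p0 ∈ Dd D d := ⟨hp, fun e => pq (e ▸ c2), c1⟩
  have mq : q ∈ Dd D d := ⟨hq, fun e => pq (e ▸ c1).symm, c2⟩
  have n : ¬ Commute d a := fun k => by
    rcases s' d hd p0 mp q mq a ⟨ha, fun e => ap (e ▸ c1), k⟩ pq with k | k | k
    exacts [ap k, aq k, ar k]
  have l : LM D d a p0 q := ⟨hd, ha, n, mp, mq, pq, ap, aq, ar⟩
  obtain ⟨x, hx, -, -, -, -, c3, c4, -⟩ := c d hd a ha n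
  rcases tri p with k | k | k | ⟨k1, k2⟩
  · exact (l.not_tk h.toTG s' (fun x hx => (iso_res h hd0 hx).elim fun π i => i.tk (tk_of p le_rfl k))
      ⟨hx, fun e => n (e ▸ c4), c3.symm⟩ c4).elim
  · exact absurd k n5
  · exact (l.not_pl h s' c fun x hx => (iso_res h hd0 hx).elim fun π i => i.pl p.toT3 k).elim
  have na := l.na h.toTG s' (fun x hx => (iso_res h hd0 hx).elim fun π i => i.ni (ni p s k1 k2)) hx
  obtain ⟨π, i⟩ := iso_res h hd0 hx
  have md : d ∈ Dd D x := ⟨hd, fun e => n (e ▸ c4), c3⟩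
  have ma : a ∈ Dd D x := ⟨ha, fun e => n (e ▸ c3).symm, c4⟩
  refine m3_step h hZ t w hx (i.m3' (e6_model p s k1 k2 (i.mem md) (i.mem ma) ((i.cm _ md _ ma).not.2 n)
    fun t ht y hy y' hy' => ?_))
  obtain ⟨t, mt, rfl⟩ := i.ex ht
  obtain ⟨y, my, rfl⟩ := i.ex hy
  obtain ⟨y', my', rfl⟩ := i.ex hy'
  simp only [i.cm _ mt _ md, i.cm _ mt _ ma, i.cm _ my _ md, i.cm _ my _ ma, i.cm _ my' _ md,
    i.cm _ my' _ ma, i.cm _ my _ my', i.cm _ mt _ my, i.cm _ mt _ my', ne_eq, i.eq my my']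
  exact na t mt y my y' my'

end Cfsg.Agent.H21.FS
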