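import Mathlib
import Cfsg.Agent.H21.Fc6

/-! Fischer's classification: hyperovals of unitary polar spaces. -/

set_option autoImplicit false
set_option linter.unusedSectionVars false
set_option linter.unusedVariables false
set_option linter.style.haveILetI false

namespace Cfsg.Agent.H21.FS

open Cfsg Subgroup Cfsg.Agent.H19 Cfsg.Agent.H11 Module

/-- the hermitian form -/
abbrev HB (n : ℕ) := hermB (Fin n) (starRingEnd K4)
/-- a generator -/
abbrev om : K4 := ⟨0, 1⟩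

theorem HB_symm {n : ℕ} (u v : Fin n → K4) : HB n u v = star (HB n v u) :=
  ((qcK4.isHerm (Fin n)).symm v u).symm

theorem HB_flip {n : ℕ} {u v : Fin n → K4} {c : K4} (h : HB n u v = c) : HB n v u = star c := by
  rw [HB_symm, h]

theorem HB_ex {n : ℕ} {f : Fin n → K4} (h : f ≠ 0) : ∃ g, HB n g f = 1 := by
  by_contra k
  refine h (hermB_sep (σ := starRingEnd K4) _ f fun g => by_contra fun e => k ⟨(HB n f g)⁻¹ • g, ?_⟩)
  rw [HB_symm, map_smul, smul_eq_mul, inv_mul_cancel₀ e, star_one]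

/-- hyperovals closed under reflections -/
structure HO {V : Type} [AddCommGroup V] [Module K4 V] (B : V → V → K4) (L : V → Prop) : Prop where
  iso : ∀ {v}, L v → B v v = 0
  smul : ∀ {v} (s : K4), L v → s ≠ 0 → L (s • v)
  refl : ∀ {u v}, L u → L v → L (v + B u v • u)
  two : ∀ {u} p w, L u → B p p = 0 → B u p = 0 → B w u = 0 → B w p ≠ 0 → ∃ t : K4, L (p + t • u)
  thr : ∀ {u p} w (t : K4), L u → L p → L (p + t • u) → B u p = 0 → B w u = 0 → B w p ≠ 0 → t = 0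

/-- every singular line meets the set -/
def MT {V : Type} [AddCommGroup V] [Module K4 V] (B : V → V → K4) (L : V → Prop) : Prop :=
  ∀ p q w w', B p p = 0 → B q q = 0 → B q p = 0 → B w q = 0 → B w p ≠ 0 → B w' q ≠ 0 →
    L q ∨ ∃ t : K4, L (p + t • q)

/-- a Gram matrix -/
def gu5 (x y : Fin 5 → K4) : K4 := star (x 0) * y 1 + star (x 1) * y 0 + star (x 2) * (y 3 + y 4) +
  star (x 3) * (y 2 + om * y 4) + star (x 4) * (y 2 + (om + 1) * y 3)

namespace HO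

theorem refl' {V : Type} [AddCommGroup V] [Module K4 V] {B : V → V → K4} {L : V → Prop} (h : HO B L)
    {u v : V} (hu : L u) (hv : L v) (w : V) (e : w = v + B u v • u) : L w := e ▸ h.refl hu hv

theorem comap {V W : Type} [AddCommGroup V] [Module K4 V] [AddCommGroup W] [Module K4 W]
    {B : V → V → K4} {L : V → Prop} (h : HO B L) {B' : W → W → K4} (Φ : W →ₗ[K4] V)
    (e : ∀ x y, B (Φ x) (Φ y) = B' x y) : HO B' fun x => L (Φ x) :=
  ⟨fun k => e _ _ ▸ h.iso k, fun s k hs => by rw [map_smul]; exact h.smul s k hs,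
    fun k k' => by rw [map_add, map_smul, ← e]; exact h.refl k k',
    fun p w k a b c d => by
      simp only [map_add, map_smul]
      exact h.two _ (Φ w) k (e _ _ ▸ a) (e _ _ ▸ b) (e _ _ ▸ c) (e _ _ ▸ d),
    fun w t k1 k2 k3 b c d => by
      simp only [map_add, map_smul] at k3
      exact h.thr (Φ w) t k1 k2 k3 (e _ _ ▸ b) (e _ _ ▸ c) (e _ _ ▸ d)⟩

theorem zz {n : ℕ} {L : (Fin n → K4) → Prop} (h : HO (fun u v => HB n u v) L) {e1 e2 e3 f : Fin n → K4}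
    (l1 : L e1) (l2 : L e2) (l3 : L e3) {β : K4} (hβ : β = om ∨ β = om + 1) (a12 : HB n e1 e2 = 1)
    (a13 : HB n e1 e3 = 1) (a23 : HB n e2 e3 = β) (f0 : f ≠ 0) (ff : HB n f f = 0)
    (f1 : HB n e1 f = 0) (f2 : HB n e2 f = 0) (f3 : HB n e3 f = 0) : L f := by
  have a21 := HB_flip a12
  have a31 := HB_flip a13
  have a32 := HB_flip a23
  have a11 : HB n e1 e1 = 0 := h.iso l1
  have a22 : HB n e2 e2 = 0 := h.iso l2
  have a33 : HB n e3 e3 = 0 := h.iso l3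
  obtain ⟨g, hg⟩ := HB_ex f0
  have w1 : HB n (g + star (HB n g e1) • e2) e1 = 0 := by
    simp [a21, starRingEnd_apply, f4K4.add_self]
  have w2 : HB n (g + star (HB n g e1) • e2) f ≠ 0 := by simp [hg, f2]
  obtain ⟨t, k0⟩ := h.two f _ l1 ff f1 w1 w2
  have k1 := h.refl' l3 k0 (f + t • e1 + t • e3) (by simp [*])
  have k2 := h.refl' l2 k1 (f + t • e1 + t • e3 + (t + t * β) • e2) (by simp [*])
  have k3 := h.refl' l1 k2 (f + t • e1 + t • e3 + (t + t * β) • e2 + (t + (t + t * β)) • e1) (by simp [*])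
  have k4 := h.refl' l3 k3 (f + t • e1 + t • e3 + (t + t * β) • e2 + (t + (t + t * β)) • e1 + t • e3) (by
    simp only [map_add, map_smul, smul_eq_mul, *, star_one]
    congr 2
    rcases hβ with rfl | rfl <;> rcases f4K4.cases t with rfl | rfl | rfl | rfl <;> decide)
  have k5 := h.refl' l2 k4 (f + t • e1 + (t * β) • e1) (by
    simp only [map_add, map_smul, smul_eq_mul, *, star_one]
    rcases hβ with rfl | rfl <;> match_scalars <;> rcases f4K4.cases t with rfl | rfl | rfl | rfl <;> decide)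
  have := h.thr _ _ l1 k0 k5 (by simp [*]) w1 (by rwa [map_add, map_smul, w1, smul_zero, add_zero])
  have t0 : t = 0 := (mul_eq_zero.1 this).resolve_right (by rcases hβ with rfl | rfl <;> decide)
  simpa [t0] using k0

theorem five {L : (Fin 5 → K4) → Prop} (h : HO gu5 L) (mt : MT gu5 L) (l0 : L ![1, 0, 0, 0, 0])
    (l0' : L ![0, 1, 0, 0, 0]) (l1 : L ![0, 0, 1, 0, 0]) (l2 : L ![0, 0, 0, 1, 0])
    (l3 : L ![0, 0, 0, 0, 1]) : False := by
  have nb : ∀ u p w v, L u → L p → gu5 u p = 0 ∧ gu5 w u = 0 ∧ gu5 w p ≠ 0 ∧ v = p + (1 : K4) • u → ¬ L v :=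
    fun u p w v a b c k => one_ne_zero (h.thr w 1 a b (c.2.2.2 ▸ k) c.1 c.2.1 c.2.2.1)
  have both : ∀ p q, ¬ L p → ¬ L q → ¬ L (p + q) → gu5 p p = 0 ∧ gu5 q q = 0 ∧ gu5 q p = 0 ∧
      gu5 ![0, 1, 0, 0, 0] q = 0 ∧ gu5 ![0, 1, 0, 0, 0] p ≠ 0 ∧ gu5 ![1, 0, 0, 0, 0] q ≠ 0 ∧
      gu5 (p + (om + 1) • q) q = 0 ∧ gu5 ![1, om, 0, 0, 0] (p + (om + 1) • q) = 0 ∧
      gu5 ![1, om, 0, 0, 0] q ≠ 0 → L (p + om • q) := fun p q n1 n2 n3 ⟨c1, c2, c3, c4, c5, c6, c7, c8, c9⟩ => by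
    obtain ⟨t, k⟩ := (mt p q _ _ c1 c2 c3 c4 c5 c6).resolve_left n2
    rcases f4K4.cases t with rfl | rfl | rfl | rfl
    · exact absurd (by simpa using k) n1
    · exact absurd (by simpa using k) n3
    · exact k
    obtain ⟨t, k⟩ := h.two q _ k c2 c7 c8 c9
    rcases f4K4.cases t with rfl | rfl | rfl | rfl
    · exact absurd (by simpa using k) n2
    · convert k using 1; match_scalars <;> decide
    · refine absurd ?_ n1
      convert h.smul (om + 1) k (by decide) using 1; match_scalars <;> decide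
    · refine absurd ?_ n3
      convert h.smul om k (by decide) using 1; match_scalars <;> decide
  have l00 := h.refl' l0 l0' ![1, 1, 0, 0, 0] (by decide)
  have l12 := h.refl' l1 l2 ![0, 0, 1, 1, 0] (by decide)
  have l13 := h.refl' l1 l3 ![0, 0, 1, 0, 1] (by decide)
  have y1 := h.smul om l2 (by decide)
  have y2 := h.smul (om + 1) l13 (by decide)
  have y3 := h.refl y1 y2
  have v1 := both ![1, 0, 1, 0, 0] ![0, 1, 0, 1, 0] (nb _ _ ![0, 0, 0, 1, 0] _ l0 l1 (by decide))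
    (nb _ _ ![0, 0, 1, 0, 0] _ l0' l2 (by decide)) (nb _ _ ![0, 0, 1, 0, 0] _ l00 l12 (by decide))
    (by decide)
  have v2 := both ![1, 0, 0, om, 0] ![0, 1, om + 1, 0, om + 1]
    (nb _ _ ![0, 0, 1, 0, 0] _ l0 y1 (by decide)) (nb _ _ ![0, 0, 1, 0, 0] _ l0' y2 (by decide))
    (nb _ _ ![0, 0, 1, 0, 0] _ l00 y3 (by decide)) (by decide)
  exact nb _ _ ![0, 1, 0, 0, 0] _ l3 v1 (by decide) v2

theorem five' {L : (Fin 5 → K4) → Prop} (h : HO (fun u v => HB 5 u v) L) (mt : MT (fun u v => HB 5 u v) L)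
    {e0 e1 e2 e3 : Fin 5 → K4} (l0 : L e0) (l1 : L e1) (l2 : L e2) (l3 : L e3) (a12 : HB 5 e1 e2 = 1)
    (a13 : HB 5 e1 e3 = 1) (a23 : HB 5 e2 e3 = om) (f0 : e0 ≠ 0)
    (f1 : HB 5 e1 e0 = 0) (f2 : HB 5 e2 e0 = 0) (f3 : HB 5 e3 e0 = 0) : False := by
  have a21 := HB_flip a12
  have a31 := HB_flip a13
  have a32 := HB_flip a23
  have a00 : HB 5 e0 e0 = 0 := h.iso l0
  have a11 : HB 5 e1 e1 = 0 := h.iso l1
  have a22 : HB 5 e2 e2 = 0 := h.iso l2
  have a33 : HB 5 e3 e3 = 0 := h.iso l3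
  have g1 := HB_flip f1
  have g2 := HB_flip f2
  have g3 := HB_flip f3
  obtain ⟨f, b0, b1, b2, b3⟩ : ∃ f, HB 5 e0 f = 1 ∧ HB 5 e1 f = 0 ∧ HB 5 e2 f = 0 ∧ HB 5 e3 f = 0 := by
    obtain ⟨g, hg⟩ := HB_ex f0
    have hg' := HB_flip hg
    refine ⟨g + (HB 5 e1 g + (om + 1) * HB 5 e2 g + om * HB 5 e3 g) • e1 +
      (om * HB 5 e1 g + HB 5 e2 g + HB 5 e3 g) • e2 + ((om + 1) * HB 5 e1 g + HB 5 e2 g + HB 5 e3 g) • e3,
      ?_, ?_, ?_, ?_⟩ <;> simp only [map_add, map_smul, smul_eq_mul, *] <;>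
    generalize HB 5 e1 g = x <;> generalize HB 5 e2 g = y <;> generalize HB 5 e3 g = z <;>
    revert x y z <;> decide
  obtain ⟨f, b0, b1, b2, b3, bb⟩ : ∃ f, HB 5 e0 f = 1 ∧ HB 5 e1 f = 0 ∧ HB 5 e2 f = 0 ∧ HB 5 e3 f = 0 ∧
      HB 5 f f = 0 := by
    refine ⟨f + (om * HB 5 f f) • e0, by simp [*], by simp [*], by simp [*], by simp [*], ?_⟩
    have := HB_symm f f
    simp only [map_add, map_smulₛₗ, LinearMap.add_apply, LinearMap.smul_apply, smul_eq_mul, b0,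
      HB_flip b0, a00, RingHom.id_apply]
    generalize HB 5 f f = x at this
    revert x
    decide
  have lf := h.zz l1 l2 l3 (.inl rfl) a12 a13 a23 (fun e => by simp [e] at b0) bb b1 b2 b3
  let Φ := Fintype.linearCombination K4 ![e0, f, e1, e2, e3]
  have LL : ∀ c, Φ c = c 0 • e0 + c 1 • f + c 2 • e1 + c 3 • e2 + c 4 • e3 :=
    fun c => by simp [Φ, Fintype.linearCombination_apply, Fin.sum_univ_five]
  have c0 := HB_flip b0
  have c1 := HB_flip b1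
  have c2 := HB_flip b2
  have c3 := HB_flip b3
  have so : star om = om + 1 := by decide
  have BL : ∀ x y, HB 5 (Φ x) (Φ y) = gu5 x y := fun x y => by
    simp [gu5, starRingEnd_apply, *]; ring
  refine (h.comap Φ BL).five (fun p q w w' a b c d e e' => ?_) ?_ ?_ ?_ ?_ ?_
  · simp only [map_add, map_smul]
    exact mt _ _ (Φ w) (Φ w') ((BL _ _).trans a) ((BL _ _).trans b) ((BL _ _).trans c) ((BL _ _).trans d)
      ((BL _ _).trans_ne e) ((BL _ _).trans_ne e')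
  all_goals simpa [LL]

end HO

universe u

variable {G : Type u} [Group G]

/-- unitary models -/
structure UMM (E : Set G) (n : ℕ) (P : G → (Fin n → K4) → Prop) : Prop where
  hl : HL E
  mem : ∀ {x v}, P x v → x ∈ E
  nz : ∀ {x v}, P x v → v ≠ 0
  ex1 : ∀ {x}, x ∈ E → ∃ v, P x v
  ex2 : ∀ {v}, v ≠ 0 → HB n v v = 0 → ∃ x, P x v
  smul : ∀ {x v} (s : K4), P x v → s ≠ 0 → P x (s • v)
  un1 : ∀ {x y v}, P x v → P y v → x = y
  un2 : ∀ {x v w}, P x v → P x w → ∃ s : K4, w = s • v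
  cm : ∀ {x y v w}, P x v → P y w → (Commute x y ↔ HB n v w = 0)

theorem umm_of [Finite G] {E : Set G} (h : PG E) (t : Th E 5) (hZ : center G = ⊥) :
    ∃ n P, 4 ≤ n ∧ UMM E n P := by
  obtain ⟨hl, n, ψ, n4, h1, h2, h3⟩ := u_model h t hZ f4K4 qcK4
  have cm : ∀ {x y v w}, (x ∈ E ∧ ∃ s : K4, s ≠ 0 ∧ v = s • ψ x) → (y ∈ E ∧ ∃ s : K4, s ≠ 0 ∧ w = s • ψ y) →
      (Commute x y ↔ HB n v w = 0) := by
    rintro x y _ _ ⟨hx, s, hs, rfl⟩ ⟨hy, r, hr, rfl⟩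
    simp [h2 x hx y hy, hs, hr]
  refine ⟨n, fun x v => x ∈ E ∧ ∃ s : K4, s ≠ 0 ∧ v = s • ψ x, n4, hl, fun k => k.1, ?_,
    fun k => ⟨_, k, 1, one_ne_zero, (one_smul _ _).symm⟩, fun a b => h3 _ a b, ?_, fun a b => ?_, ?_, cm⟩
  · rintro x _ ⟨hx, s, hs, rfl⟩; exact smul_ne_zero hs (h1 x hx)
  · rintro x _ r ⟨hx, s, hs, rfl⟩ hr; exact ⟨hx, r * s, mul_ne_zero hr hs, smul_smul _ _ _⟩
  · refine h.V b.1 a.1 fun y hy => ?_
    have k : y ∈ E ∧ ∃ s : K4, s ≠ 0 ∧ ψ y = s • ψ y := ⟨hy, 1, one_ne_zero, (one_smul _ _).symm⟩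
    rw [cm a k, cm b k]
  · rintro x _ _ ⟨hx, s, hs, rfl⟩ ⟨-, r, hr, rfl⟩
    exact ⟨r / s, by rw [smul_smul, div_mul_cancel₀ _ hs]⟩

theorem Iso.umm {H : Type*} [Group H] {E : Set G} {E' : Set H} {π : G → H} (i : Iso E E' π) {n : ℕ}
    {P : H → (Fin n → K4) → Prop} (hl : HL E') (mem : ∀ {x v}, P x v → x ∈ E')
    (nz : ∀ {x v}, P x v → v ≠ 0) (ex1 : ∀ {x}, x ∈ E' → ∃ v, P x v)
    (ex2 : ∀ {v}, v ≠ 0 → HB n v v = 0 → ∃ x, P x v)
    (smul : ∀ {x v} (s : K4), P x v → s ≠ 0 → P x (s • v)) (un1 : ∀ {x y v}, P x v → P y v → x = y)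
    (un2 : ∀ {x v w}, P x v → P x w → ∃ s : K4, w = s • v)
    (cm : ∀ {x y v w}, P x v → P y w → (Commute x y ↔ HB n v w = 0)) :
    UMM E n fun x v => x ∈ E ∧ P (π x) v :=
  ⟨i.hl hl, fun k => k.1, fun k => nz k.2, fun k => (ex1 (i.mem k)).imp fun v k' => ⟨k, k'⟩,
    fun a b => by
      obtain ⟨x, k⟩ := ex2 a b
      obtain ⟨y, hy, rfl⟩ := i.ex (mem k)
      exact ⟨y, hy, k⟩,
    fun s k hs => ⟨k.1, smul s k.2 hs⟩, fun a b => (i.eq a.1 b.1).1 (un1 a.2 b.2),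
    fun a b => un2 a.2 b.2, fun a b => (i.cm _ a.1 _ b.1).symm.trans (cm a.2 b.2)⟩

namespace UMM
variable {E : Set G} {n : ℕ} {P : G → (Fin n → K4) → Prop} (m : UMM E n P)
include m

theorem iso {x : G} {v : Fin n → K4} (k : P x v) : HB n v v = 0 := (m.cm k k).1 (Commute.refl x)

theorem refl (t : T3 E) (cl : Cl E) {x y : G} {u v : Fin n → K4} (hx : P x u) (hy : P y v) :
    P (J x y) (v + HB n u v • u) := by
  by_cases c : Commute x y
  · rwa [(m.cm hx hy).1 c, zero_smul, add_zero, J_of_commute c]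
  have c0 := (m.cm hx hy).not.1 c
  have uu := m.iso hx
  have vv := m.iso hy
  have e1 : HB n u (v + HB n u v • u) = HB n u v := by simp [uu]
  obtain ⟨z, hz⟩ := m.ex2 (v := v + HB n u v • u) (fun e => c0 (by rw [← e1, e, map_zero])) (by
    simp only [map_add, map_smulₛₗ, LinearMap.add_apply, LinearMap.smul_apply, smul_eq_mul, uu, vv,
      HB_symm v u, RingHom.id_apply]
    generalize HB n u v = x
    revert x
    decide)
  rcases m.hl x (m.mem hx) y (m.mem hy) c z (m.mem hz) fun r hr c1 c2 => by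
    obtain ⟨w, hw⟩ := m.ex1 hr
    simp [m.cm hw hz, (m.cm hw hx).1 c1, (m.cm hw hy).1 c2] with rfl | rfl | rfl
  · exact absurd (e1 ▸ (m.cm hx hz).1 (Commute.refl _)) c0
  · have := (m.cm hy hz).1 (Commute.refl _)
    simp [vv, c0, HB_symm v u] at this
  · exact hz

theorem line {x : G} {u p w : Fin n → K4} (hx : P x u) (pp : HB n p p = 0) (up : HB n u p = 0)
    (w1 : HB n w u = 0) (w2 : HB n w p ≠ 0) : ∃ z : K4 → G, (∀ t, P (z t) (p + t • u)) ∧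
    Function.Injective z ∧ (∀ t, z t ≠ x) ∧ (∀ t, z t ∈ Ln E x (z 0)) ∧ Ad E x (z 0) ∧
    (TK E 5 → ∀ r ∈ Ln E x (z 0), r = x ∨ ∃ t, r = z t) := by
  have wt : ∀ t : K4, HB n w (p + t • u) = HB n w p := fun t => by simp [w1]
  have : ∀ t : K4, ∃ z, P z (p + t • u) := fun t => m.ex2 (fun e => w2 (by rw [← wt t, e, map_zero]))
    (by simp [pp, up, HB_flip up, m.iso hx])
  choose z hz using this
  have inj : Function.Injective z := fun t t' e => by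
    obtain ⟨s, k⟩ := m.un2 (hz t) (e ▸ hz t')
    have := congrArg (HB n w) k
    rw [map_smul, wt, wt, smul_eq_mul, eq_comm, mul_eq_right₀ w2] at this
    rw [this, one_smul, add_right_inj] at k
    exact (smul_left_injective _ (m.nz hx) k).symm
  have ne : ∀ t, z t ≠ x := fun t e => by
    obtain ⟨s, k⟩ := m.un2 hx (e ▸ hz t)
    exact w2 (by rw [← wt t, k, map_smul, w1, smul_zero])
  have ln : ∀ t, z t ∈ Ln E x (z 0) := fun t => ⟨m.mem (hz t), fun y hy c1 c2 => by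
    obtain ⟨v, hv⟩ := m.ex1 hy
    have := (m.cm hv (hz 0)).1 c2
    simp only [zero_smul, add_zero] at this
    simp [m.cm hv (hz t), (m.cm hv hx).1 c1, this]⟩
  have ad : Ad E x (z 0) := ⟨m.mem hx, m.mem (hz 0), (ne 0).symm, (m.cm hx (hz 0)).2 (by simpa)⟩
  refine ⟨z, hz, inj, ne, ln, ad, fun tk r hr => ?_⟩
  rcases mem_five (tk _ _ ad).1 (left_mem ad.l _) (ln 0) (ln 1) (ln om) (ln (om + 1)) (ne _).symm
    (ne _).symm (ne _).symm (ne _).symm (inj.ne (by decide)) (inj.ne (by decide)) (inj.ne (by decide))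
    (inj.ne (by decide)) (inj.ne (by decide)) (inj.ne (by decide)) hr with k | k | k | k | k
  exacts [.inl k, .inr ⟨_, k⟩, .inr ⟨_, k⟩, .inr ⟨_, k⟩, .inr ⟨_, k⟩]

theorem norm3 (t : T3 E) (cl : Cl E) {x1 x2 x3 : G} (h1 : x1 ∈ E) (h2 : x2 ∈ E) (h3 : x3 ∈ E)
    (n12 : ¬ Commute x1 x2) (n13 : ¬ Commute x1 x3) (n23 : ¬ Commute x2 x3)
    (n : ¬ Commute x3 (J x1 x2)) : ∃ e1 e2 e3, P x1 e1 ∧ P x2 e2 ∧ P x3 e3 ∧ HB _ e1 e2 = 1 ∧
      HB _ e1 e3 = 1 ∧ (HB _ e2 e3 = om ∨ HB _ e2 e3 = om + 1) := by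
  obtain ⟨e1, k1⟩ := m.ex1 h1
  have : ∀ x ∈ E, ¬ Commute x1 x → ∃ e, P x e ∧ HB _ e1 e = 1 := fun x hx c => by
    obtain ⟨e, k⟩ := m.ex1 hx
    have := (m.cm k1 k).not.1 c
    exact ⟨_, m.smul _ k (inv_ne_zero this), by rw [map_smul, smul_eq_mul, inv_mul_cancel₀ this]⟩
  obtain ⟨e2, k2, a2⟩ := this x2 h2 n12
  obtain ⟨e3, k3, a3⟩ := this x3 h3 n13
  refine ⟨e1, e2, e3, k1, k2, k3, a2, a3, ?_⟩
  rw [m.cm k2 k3] at n23
  rw [m.cm k3 (m.refl t cl k1 k2), a2, one_smul, map_add, HB_flip a3, HB_symm] at n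
  generalize HB _ e2 e3 = β at n n23
  revert β
  decide

end UMM

end Cfsg.Agent.H21.FS
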