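import Mathlib
import Cfsg.Agent.H21.Fc7
import Cfsg.Agent.H19.Iso23

/-! Fischer's classification: spaces with unitary residues. -/

set_option autoImplicit false
set_option linter.unusedSectionVars false
set_option linter.unusedVariables false
set_option linter.style.haveILetI false

namespace Cfsg.Agent.H21.FS

open Cfsg Subgroup Cfsg.Agent.H19 Cfsg.Agent.H11 Module

universe u

variable {G : Type u} [Group G]

theorem HB_emb {k n : ℕ} (h : k ≤ n) : ∃ Φ : (Fin k → K4) →ₗ[K4] (Fin n → K4),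
    ∀ x y, HB n (Φ x) (Φ y) = HB k x y := by
  obtain ⟨l, rfl⟩ := Nat.exists_eq_add_of_le h
  refine ⟨⟨⟨fun w => Fin.append w (0 : Fin l → K4), fun x y => funext fun i => ?_⟩,
    fun s x => funext fun i => ?_⟩, fun x y => by simp [hermB_apply, Fin.sum_univ_add]⟩ <;>
  induction i using Fin.addCases <;> simp

theorem qc_image {A S : Type*} [Group A] [Group S] (φ : A ≃* S) (e : G ≃* S ⧸ center S) {D : Set G}
    {T : G → S} (he : ∀ d ∈ D, e d = QuotientGroup.mk (T d)) {E : Set S} (bij : Set.BijOn T D E)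
    {E' : Set A} (hE : ∀ s, s ∈ E' ↔ φ s ∈ E) :
    ∃ e' : G ≃* A ⧸ center A, e' '' D = (QuotientGroup.mk : A → _) '' E' := by
  refine ⟨e.trans (quotCenterEquiv φ).symm, ?_⟩
  ext z
  constructor
  · rintro ⟨a, ha, rfl⟩
    refine ⟨φ.symm (T a), (hE _).2 (by simpa using bij.mapsTo ha), ?_⟩
    rw [MulEquiv.trans_apply, he a ha, MulEquiv.eq_symm_apply]
    exact congrArg _ (φ.apply_symm_apply _)
  · rintro ⟨s, hs, rfl⟩
    obtain ⟨a, ha, e'⟩ := bij.surjOn ((hE s).1 hs)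
    refine ⟨a, ha, ?_⟩
    rw [MulEquiv.trans_apply, he a ha, MulEquiv.symm_apply_eq, e']
    rfl

theorem UMM.psu {D : Set G} {n : ℕ} {P : G → (Fin n → K4) → Prop} (m : UMM D n P) (h : TG D)
    (hZ : center G = ⊥) (n4 : 4 ≤ n) : ∃ e : G ≃* PSU n K4 2, e '' D =
      (QuotientGroup.mk : SU n K4 2 → PSU n K4 2) '' {g : SU n K4 2 |
        (((g : Matrix.SpecialLinearGroup (Fin n) K4) : Matrix (Fin n) (Fin n) K4) - 1).rank = 1} := by
  have q := qcK4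
  have hh := q.isHerm (Fin n)
  have c := c2_herm q hh (hermB_sep _)
  have k : (1 : K4) + starRingEnd K4 1 = 0 := by decide
  obtain ⟨g, -, -⟩ := tclass_iff.1 (u_class q hh (hermB_sep _) (by simpa))
  have : ∀ a, a ∈ D → ∃ s : SIsom (HB n), ∃ v, P a v ∧ Elm (HB n) s.1.1 v := fun a ha => by
    obtain ⟨v, hv⟩ := m.ex1 ha
    exact ⟨⟨hh.trv (m.iso hv) k, hh.eich_mem_sisom _ _ _⟩, v, hv, el_trv q hh (m.iso hv) k⟩
  choose! T ψ hψ hT using this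
  have cm : ∀ a ∈ D, ∀ a' ∈ D, Commute a a' ↔ Commute (T a) (T a') := fun a ha a' ha' => by
    rw [m.cm (hψ a ha) (hψ a' ha'), commute_coe, commute_coe,
      Elm.commute_iff c (hT a ha) (hT a' ha') (m.iso (hψ a ha)) (m.iso (hψ a' ha'))]
  have bij : Set.BijOn T D (UD (HB n)) := ⟨fun a ha => ⟨_, ⟨m.nz (hψ a ha), m.iso (hψ a ha)⟩, hT a ha⟩,
    fun a ha a' ha' e => by
      obtain ⟨s, hs, k⟩ := Elm.prop c (hT a ha) (e ▸ hT a' ha') (m.nz (hψ a ha))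
      exact m.un1 (hψ a ha) (k ▸ m.smul s (hψ a' ha') hs),
    fun s ⟨w, hw, k⟩ => by
      obtain ⟨a, ha⟩ := m.ex2 hw.1 hw.2
      obtain ⟨r, rfl⟩ := m.un2 (hψ a (m.mem ha)) ha
      exact ⟨a, m.mem ha, Subtype.ext (Subtype.ext (((hT a (m.mem ha)).smul c
        (left_ne_zero_of_smul hw.1)).ext k))⟩⟩
  obtain ⟨e, he⟩ := kei' h g T bij (hJ_of_hl h.toT3 h.cl g.toT3 g.cl T bij cm m.hl) hZ
  exact qc_image (suEquiv q n) e he bij fun s => by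
    rw [mem_UD q hh (hermB_sep _), Set.mem_ofPred_eq, rank_eq_finrank _ _ (suEquiv_apply q s)]

theorem UMM.m3 {E : Set G} {P : G → (Fin 4 → K4) → Prop} (m : UMM E 4 P) : M3 E := by
  have hb : ∀ u v, HB 4 u v = fb4 u v := fun u v => by
    simp [hermB_apply, Fin.sum_univ_four, fb4, starRingEnd_apply]
  have ex : ∀ i, ∃ x, P x (u4a i) := fun i => m.ex2 (u4_1 i).2.1 ((hb _ _).trans (u4_1 i).1)
  refine m3_of_tab one_ne_zero u4b (fun x i => P x (u4a i)) (fun i => (u4_1 i).2.2)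
    (fun i j ij => (u4_2 i j ij).2.1) u4_3 (fun x i k => m.mem k) (fun x hx => ?_) ex
    (fun x y i k k' => m.un1 k k') (fun x i j k k' => by_contra fun ij => ?_)
    fun x y i j k k' ij => by rw [m.cm k k', hb, (u4_2 i j ij).1]
  · obtain ⟨v, hv⟩ := m.ex1 hx
    have e : v = ![v 0, v 1, v 2, v 3] := by funext i; fin_cases i <;> rfl
    rcases u4_4 _ _ _ _ (e ▸ (hb _ _).symm.trans (m.iso hv)) with k | ⟨i, s, hs, k⟩
    · exact absurd (by rw [e]; simp [k]) (m.nz hv)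
    · refine ⟨i, ?_⟩
      convert m.smul _ hv (inv_ne_zero hs) using 1
      rw [eq_inv_smul_iff₀ hs]
      funext j; fin_cases j <;> simp [k]
  · obtain ⟨l, k''⟩ := (u4_2 i j ij).2.2
    obtain ⟨y, hy⟩ := ex l
    exact k'' (by rw [← hb, ← hb, ← m.cm k hy, ← m.cm k' hy])

/-- residues are unitary -/
structure UC (D : Set G) (n : ℕ) : Prop where
  tg : TG D
  tk : ∀ x ∈ D, TK (Dd D x) 5
  md : ∀ x ∈ D, ∃ P, UMM (Dd D x) n P

namespace UC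
variable {D : Set G} {n : ℕ} (c : UC D n)
include c

theorem t3 (x : G) : T3 (Dd D x) := c.tg.toT3.mono fun _ k => k.1
theorem cl (x : G) : Cl (Dd D x) := Cl.dd c.tg.toT3 c.tg.cl x

theorem ho {d a : G} (hd : d ∈ D) (ha : a ∈ D) (da : ¬ Commute d a) {P : G → (Fin n → K4) → Prop}
    (m : UMM (Dd D d) n P) : HO (fun u v => HB n u v) fun v => ∃ x, P x v ∧ Commute x a := by
  have md : ∀ {x}, x ∈ Dd D d → d ∈ Dd D x := fun hx => ⟨hd, hx.2.1.symm, hx.2.2.symm⟩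
  have ad : ∀ {x y}, Ad (Dd D d) x y → Ad (Dd D x) d y := fun k =>
    ⟨md k.l, ⟨k.r.1, k.ne.symm, k.c⟩, k.r.2.1.symm, k.r.2.2⟩
  have ma : ∀ {x}, x ∈ Dd D d → Commute x a → a ∈ Dd D x := fun hx k =>
    ⟨ha, fun e => da (e ▸ hx.2.2), k⟩
  refine ⟨fun ⟨x, k, _⟩ => m.iso k, fun s ⟨x, k, k'⟩ hs => ⟨x, m.smul s k hs, k'⟩,
    fun ⟨x, k, k'⟩ ⟨y, l, l'⟩ => ⟨_, m.refl (c.t3 d) (c.cl d) k l,
      (T3.commute_J_both k'.symm l'.symm).symm⟩, fun p w ⟨x, hx, xa⟩ pp up w1 w2 => ?_,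
    fun w t ⟨x, hx, xa⟩ ⟨y, hy, ya⟩ ⟨r, hr, ra⟩ up w1 w2 => by_contra fun t0 => ?_⟩
  · obtain ⟨z, h1, -, -, -, h5, h6⟩ := m.line hx pp up w1 w2
    obtain ⟨r, hr, ar⟩ := (c.tk x h5.l.1 _ _ (ad h5)).2.2.2 a (ma h5.l xa)
    obtain ⟨t, rfl⟩ := (h6 (c.tk d hd) r (ln_swap hr (md h5.l) h5.r.2.2 fun e => da (e ▸ ar.symm))).resolve_left
      hr.1.2.1
    exact ⟨t, _, h1 t, ar.symm⟩
  · obtain ⟨z, h1, h2, h3, h4, h5, -⟩ := m.line hx (m.iso hy) up w1 w2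
    obtain rfl : y = z 0 := m.un1 hy (by simpa using h1 0)
    obtain rfl : r = z t := m.un1 hr (h1 t)
    exact da ((c.tk x h5.l.1 _ _ (ad h5)).2.2.1 _ (right_mem (ad h5).r _) _
      (ln_swap (h4 t) h5.l h5.c (h3 t)) (h2.ne (Ne.symm t0)) a (ma h5.l xa) ya.symm ra.symm d
      (left_mem (md h5.l) _)).symm

theorem key {h : G} (hh : h ∈ D) {k : ℕ} (kn : k ≤ n) {vd va v1 v2 v3 : Fin k → K4}
    (i : HB k vd vd = 0 ∧ HB k va va = 0 ∧ HB k v1 v1 = 0 ∧ HB k v2 v2 = 0 ∧ HB k v3 v3 = 0 ∧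
      HB k vd va ≠ 0 ∧ HB k vd v1 = 0 ∧ HB k vd v2 = 0 ∧ HB k vd v3 = 0 ∧ HB k v1 va = 0 ∧
      HB k v2 va = 0 ∧ HB k v3 va = 0 ∧ HB k v1 v2 = 1 ∧ HB k v1 v3 ≠ 0 ∧ HB k v2 v3 ≠ 0 ∧
      HB k v3 (v2 + v1) ≠ 0) : ∃ d ∈ D, ∃ a ∈ D, ¬ Commute d a ∧ ∃ P, UMM (Dd D d) n P ∧
      ∃ e0 e1 e2 e3, (∃ x, P x e0 ∧ Commute x a) ∧ (∃ x, P x e1 ∧ Commute x a) ∧
        (∃ x, P x e2 ∧ Commute x a) ∧ (∃ x, P x e3 ∧ Commute x a) ∧ HB n e1 e2 = 1 ∧ HB n e1 e3 = 1 ∧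
        (HB n e2 e3 = om ∨ HB n e2 e3 = om + 1) ∧ HB n e1 e0 = 0 ∧ HB n e2 e0 = 0 ∧ HB n e3 e0 = 0 ∧
        ∀ u y, HB k u u = 0 → HB k y y = 0 → HB k u y ≠ 0 → HB k vd u = 0 → HB k vd y = 0 →
          HB k v1 u = 0 → HB k v2 u = 0 → HB k v3 u = 0 → ∃ p w, HB n p p = 0 ∧ HB n e0 p = 0 ∧
            HB n e1 p = 0 ∧ HB n e2 p = 0 ∧ HB n e3 p = 0 ∧ HB n w e0 = 0 ∧ HB n w p ≠ 0 := by
  obtain ⟨i1, i2, i3, i4, i5, j1, j2, j3, j4, j5, j6, j7, j8, j9, j10, j11⟩ := i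
  obtain ⟨R, m⟩ := c.md h hh
  obtain ⟨Φ, hΦ⟩ := HB_emb kn
  have pt : ∀ {v w}, HB k v v = 0 → HB k v w ≠ 0 → ∃ x, R x (Φ v) := fun {v w} a b =>
    m.ex2 (fun e => b (by rw [← hΦ, e, map_zero, LinearMap.zero_apply])) (hΦ _ _ ▸ a)
  have fl : ∀ {v w}, HB k v w ≠ 0 → HB k w v ≠ 0 := fun a => by rwa [HB_symm, star_ne_zero]
  have cm : ∀ {x y v w}, R x (Φ v) → R y (Φ w) → (Commute x y ↔ HB k v w = 0) := fun a b => by
    rw [m.cm a b, hΦ]
  obtain ⟨d, rd⟩ := pt i1 j1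
  obtain ⟨a, ra⟩ := pt i2 (fl j1)
  obtain ⟨x1, r1⟩ := pt i3 j9
  obtain ⟨x2, r2⟩ := pt i4 j10
  obtain ⟨x3, r3⟩ := pt i5 (fl j9)
  have da := (cm rd ra).not.2 j1
  have mk : ∀ {x y v w}, R x (Φ v) → R y (Φ w) → HB k vd v = 0 → HB k vd w = 0 → HB k v w ≠ 0 →
      x ∈ Dd D d := fun r r' a b e => ⟨(m.mem r).1, fun e' => e ((cm r r').1 (e' ▸ (cm rd r').2 b)),
        (cm rd r).2 a⟩
  have m1 := mk r1 r3 j2 j4 j9
  have m2 := mk r2 r3 j3 j4 j10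
  have m3 := mk r3 r1 j4 j2 (fl j9)
  have m0 : h ∈ Dd D d := ⟨hh, (m.mem rd).2.1.symm, (m.mem rd).2.2.symm⟩
  obtain ⟨P, m'⟩ := c.md d (m.mem rd).1
  obtain ⟨e1, e2, e3, p1, p2, p3, a12, a13, a23⟩ := m'.norm3 (c.t3 d) (c.cl d) m1 m2 m3
    ((cm r1 r2).not.2 (by rw [j8]; exact one_ne_zero)) ((cm r1 r3).not.2 j9) ((cm r2 r3).not.2 j10) (by
      have := m.refl (c.t3 h) (c.cl h) r1 r2
      rw [hΦ, j8, one_smul, ← map_add] at this
      exact (cm r3 this).not.2 j11)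
  obtain ⟨e0, p0⟩ := m'.ex1 m0
  refine ⟨d, (m.mem rd).1, a, (m.mem ra).1, da, P, m', e0, e1, e2, e3, ⟨h, p0, (m.mem ra).2.2⟩,
    ⟨_, p1, (cm r1 ra).2 j5⟩, ⟨_, p2, (cm r2 ra).2 j6⟩, ⟨_, p3, (cm r3 ra).2 j7⟩, a12, a13, a23,
    (m'.cm p1 p0).1 (m.mem r1).2.2.symm, (m'.cm p2 p0).1 (m.mem r2).2.2.symm,
    (m'.cm p3 p0).1 (m.mem r3).2.2.symm, fun u y b1 b2 b3 b4 b5 b6 b7 b8 => ?_⟩
  obtain ⟨xu, ru⟩ := pt b1 b3
  obtain ⟨xy, ry⟩ := pt b2 (fl b3)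
  obtain ⟨p, pu⟩ := m'.ex1 (mk ru ry b4 b5 b3)
  obtain ⟨w, py⟩ := m'.ex1 (mk ry ru b5 b4 (fl b3))
  exact ⟨p, w, m'.iso pu, (m'.cm p0 pu).1 (m.mem ru).2.2, (m'.cm p1 pu).1 ((cm r1 ru).2 b6),
    (m'.cm p2 pu).1 ((cm r2 ru).2 b7), (m'.cm p3 pu).1 ((cm r3 ru).2 b8),
    (m'.cm py p0).1 (m.mem ry).2.2.symm, (m'.cm py pu).not.1 ((cm ry ru).not.2 (fl b3))⟩

theorem seven {h : G} (hh : h ∈ D) (n7 : 7 ≤ n) : False := by
  obtain ⟨d, hd, a, ha, da, P, m, e0, e1, e2, e3, l0, l1, l2, l3, a12, a13, a23, b1, b2, b3, k⟩ :=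
    c.key hh n7 (vd := ![1, 1, 0, 0, 0, 0, 0]) (va := ![1, om, 0, 0, 0, 0, 0])
      (v1 := ![0, 0, 1, om, 0, 0, 0]) (v2 := ![0, 0, om + 1, om + 1, 0, 0, 0]) (v3 := ![0, 0, 1, 0, 1, 0, 0])
      (by simp only [hermB_apply]; decide)
  obtain ⟨p, w, c0, c1, c2, c3, c4, c5, c6⟩ := k ![0, 0, 0, 0, 0, 1, 1] ![0, 0, 0, 0, 0, 1, om]
    (by simp only [hermB_apply]; decide) (by simp only [hermB_apply]; decide)
    (by simp only [hermB_apply]; decide) (by simp only [hermB_apply]; decide)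
    (by simp only [hermB_apply]; decide) (by simp only [hermB_apply]; decide)
    (by simp only [hermB_apply]; decide) (by simp only [hermB_apply]; decide)
  have o := c.ho hd ha da m
  have wt : HB n w (p + (1 : K4) • e0) = HB n w p := by simp [c5]
  have e00 : HB n e0 e0 = 0 := o.iso l0
  exact one_ne_zero (o.thr w 1 l0 (o.zz l1 l2 l3 a23 a12 a13 rfl (fun e => c6 (by simp [e])) c0 c2 c3 c4)
    (o.zz l1 l2 l3 a23 a12 a13 rfl (fun e => c6 (by rw [← wt, e, map_zero]))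
      (by simp [c0, c1, HB_flip c1, e00]) (by simp [*]) (by simp [*]) (by simp [*])) c1 c5 c6)

end UC

theorem iso_max {u p w w' v : Fin 5 → K4} (uu : HB 5 u u = 0) (pp : HB 5 p p = 0) (up : HB 5 u p = 0)
    (w1 : HB 5 w u = 0) (w2 : HB 5 w p ≠ 0) (w3 : HB 5 w' u ≠ 0) (vv : HB 5 v v = 0)
    (uv : HB 5 u v = 0) (pv : HB 5 p v = 0) : ∃ a b : K4, a • u + b • p = v := by
  have li : LinearIndependent K4 ![u, p] := LinearIndependent.pair_iff.2 fun s t e => by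
    have e1 := congrArg (HB 5 w) e
    simp only [map_add, map_smul, w1, smul_eq_mul, mul_zero, zero_add, map_zero, mul_eq_zero, w2,
      or_false] at e1
    have e2 := congrArg (HB 5 w') e
    simp only [e1, map_add, map_smul, smul_eq_mul, zero_mul, add_zero, map_zero, mul_eq_zero, w3,
      or_false] at e2
    exact ⟨e2, e1⟩
  have h1 := finrank_span_eq_card li
  rw [Matrix.range_cons_cons_empty, Fintype.card_fin] at h1
  have h2 := finrank_add_finrank_perp (B := HB 5) qcK4.invol (hermB_sep (Fin 5)) (Submodule.span K4 {u, p, v})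
  have h3 : Submodule.span K4 {u, p, v} ≤ perp (HB 5) (Submodule.span K4 {u, p, v}) := by
    rw [Submodule.span_le]
    intro x hx
    refine mem_perp_span.2 fun y hy => ?_
    rcases hx with rfl | rfl | rfl <;> rcases hy with rfl | rfl | rfl <;>
      first | assumption | (rw [HB_symm, star_eq_zero]; assumption)
  have h4 := Submodule.finrank_mono h3
  rw [Module.finrank_fin_fun] at h2
  rw [← Submodule.mem_span_pair, Submodule.eq_of_le_of_finrank_le (Submodule.span_mono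
    (show ({u, p} : Set _) ⊆ {u, p, v} by simp [Set.insert_subset_iff])) (by omega)]
  exact Submodule.subset_span (by simp)

theorem UC.five [Finite G] {D : Set G} (c : UC D 5) (h : PG D) (hZ : center G = ⊥) (hl : HL D) : False := by
  obtain ⟨x0, hx0, -⟩ := h.wide
  obtain ⟨d, hd, a, ha, da, P, m, e0, e1, e2, e3, l0, l1, l2, l3, a12, a13, a23, b1, b2, b3, -⟩ :=
    c.key hx0 le_rfl (vd := ![1, 1, 0, 0, 0]) (va := ![1, om, 0, 0, 0])
      (v1 := ![0, 0, 1, om, 0]) (v2 := ![0, 0, om + 1, om + 1, 0]) (v3 := ![0, 0, 1, 0, 1])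
      (by simp only [hermB_apply]; decide)
  have o := c.ho hd ha da m
  have mt : MT (fun u v => HB 5 u v) fun v => ∃ x, P x v ∧ Commute x a := by
    intro p u w w' pp uu up w1 w2 w3
    by_contra k
    push Not at k
    obtain ⟨x, hx⟩ := m.ex2 (fun e => w3 (by simp [e])) uu
    obtain ⟨z, h1, h2, h3, h4, h5, h6⟩ := m.line hx pp up w1 w2
    have pu := HB_flip up
    have mz : ∀ t, z t ∈ Dd D d := fun t => m.mem (h1 t)
    have cz : ∀ t t', Commute (z t) (z t') := fun t t' => (m.cm (h1 t) (h1 t')).2 (by simp [*])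
    have cx : ∀ t, Commute x (z t) := fun t => (m.cm hx (h1 t)).2 (by simp [*])
    let y : Fin 5 → G := Fin.cons x fun i => z (![0, 1, om, om + 1] i)
    have my : ∀ i, y i ∈ Dd D d := Fin.forall_fin_succ.2 ⟨h5.l, fun i => mz _⟩
    refine six h.toT3 h.toTG.cl ha (e := Fin.cons d y) (Fin.forall_fin_succ.2 ⟨hd, fun i => (my i).1⟩)
      (Fin.cons_injective_iff.2 ⟨fun ⟨i, e⟩ => (my i).2.1 e, Fin.cons_injective_iff.2
        ⟨fun ⟨i, e⟩ => h3 _ e, h2.comp (by decide)⟩⟩)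
      (Fin.forall_fin_succ.2 ⟨Fin.forall_fin_succ.2 ⟨Commute.refl _, fun i => (my i).2.2⟩, fun i =>
        Fin.forall_fin_succ.2 ⟨(my i).2.2.symm, ?_⟩⟩)
      (Fin.forall_fin_succ.2 ⟨da, Fin.forall_fin_succ.2 ⟨k.1 x hx, fun i => k.2 _ _ (h1 _)⟩⟩) ?_
      fun r hr cm => ?_
    · revert i
      exact Fin.forall_fin_succ.2 ⟨Fin.forall_fin_succ.2 ⟨Commute.refl _, fun i => cx _⟩, fun i =>
        Fin.forall_fin_succ.2 ⟨(cx _).symm, fun j => cz _ _⟩⟩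
    · refine hl.zc h hZ hd (((my 0).2.2.symm.mul_left (my 1).2.2.symm).mul_left
        (((my 2).2.2.symm.mul_left (my 3).2.2.symm).mul_left (my 4).2.2.symm)) fun r hr => ?_
      obtain ⟨v, hv⟩ := m.ex1 hr
      have rf := fun {x y u v} => m.refl (c.t3 d) (c.cl d) (x := x) (y := y) (u := u) (v := v)
      have := rf hx (rf (h1 0) (rf (h1 1) (rf (h1 om) (rf (h1 (om + 1)) hv))))
      rw [← J_eq_self]
      simp only [J_mul]
      refine m.un1 this ?_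
      convert hv using 1
      simp only [map_add, map_smulₛₗ, LinearMap.add_apply, LinearMap.smul_apply, smul_eq_mul, uu, pp,
        up, pu, RingHom.id_apply, star_zero, mul_zero, add_zero]
      generalize HB 5 u v = α
      generalize HB 5 p v = γ
      match_scalars <;> revert α γ <;> decide
    · by_cases e : r = d
      · exact ⟨0, e⟩
      obtain ⟨v, hv⟩ := m.ex1 (show r ∈ Dd D d from ⟨hr, e, cm 0⟩)
      obtain ⟨s, t, rfl⟩ := iso_max uu pp up w1 w2 w3 (m.iso hv) ((m.cm hx hv).1 (cm 1))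
        (by simpa using (m.cm (h1 0) hv).1 (cm 2))
      rcases h6 (c.tk d hd) r ⟨m.mem hv, fun y hy c1 c2 => by
        obtain ⟨v', hv'⟩ := m.ex1 hy
        have := (m.cm hv' (h1 0)).1 c2
        simp only [zero_smul, add_zero] at this
        simp [m.cm hv' hv, (m.cm hv' hx).1 c1, this]⟩ with k | ⟨t, k⟩
      · exact ⟨1, k⟩
      · rcases f4K4.cases t with rfl | rfl | rfl | rfl
        exacts [⟨2, k⟩, ⟨3, k⟩, ⟨4, k⟩, ⟨5, k⟩]
  have n0 : e0 ≠ 0 := l0.elim fun x k => m.nz k.1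
  rcases a23 with a23 | a23
  · exact o.five' mt l0 l1 l2 l3 a12 a13 a23 n0 b1 b2 b3
  · exact o.five' mt l0 l1 l3 l2 a13 a12 ((HB_flip a23).trans (by decide)) n0 b1 b3 b2

/-- labelled by a table -/
def Lb (R : Raw) (D : Set G) : Prop := ∃ c, Lab R c ∧ Im R c = D

theorem u_step [Finite G] {D : Set G} (h : PG D) (hZ : center G = ⊥) (t : Thin D) (w : WT D) {d0 : G}
    (hd0 : d0 ∈ D) (t5 : Th (qt (Dd D d0)) 5) : M3 D ∨ Lb R22 D := by
  have p := res_pg h t w hd0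
  have z := center_qt (h.toT3.mono fun _ k => k.1 : T3 (Dd D d0)) (Cl.dd h.toT3 h.toTG.cl d0)
  obtain ⟨n, P, n4, m⟩ := umm_of p t5 z
  have c : UC D n := ⟨h.toTG, fun x hx => (iso_res h hd0 hx).elim fun π i => i.tk (tk_of p (by decide) t5),
    fun x hx => (iso_res h hd0 hx).elim fun π i =>
      ⟨_, i.umm m.hl m.mem m.nz m.ex1 m.ex2 m.smul m.un1 m.un2 m.cm⟩⟩
  obtain rfl | rfl | rfl | n7 : n = 4 ∨ n = 5 ∨ n = 6 ∨ 7 ≤ n := by omega
  · exact .inl (m3_step h hZ t w hd0 ((c.md _ hd0).elim fun P m => m.m3))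
  · exact (c.five h hZ (hl_of_res (res_cp h t w) fun x hx => (c.md x hx).elim fun P m => m.hl)).elim
  · obtain ⟨e', -⟩ := m.psu p.toTG z n4
    obtain ⟨c, l, -, k, -⟩ := psu_lab cardK4 e'
    obtain ⟨e, rfl⟩ := core22 h hZ (h.loc_of_qt hd0 l (k _ p.toTG).symm)
    obtain ⟨c, l, i, -⟩ := M22.lab
    exact .inr ⟨_, (l.equiv e).1, i ▸ (l.equiv e).2⟩
  · exact (c.seven hd0 n7).elim

end Cfsg.Agent.H21.FS
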