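import Mathlib
import Cfsg.Agent.H21.Fc8
import Cfsg.Agent.H19.Refl3

/-! Fischer's classification: the sporadic tower and the induction. -/

set_option autoImplicit false
set_option linter.unusedSectionVars false
set_option linter.unusedVariables false
set_option linter.style.haveILetI false
set_option maxRecDepth 100000

namespace Cfsg.Agent.H21.FS

open Cfsg Subgroup Cfsg.Agent.H19 Cfsg.Agent.H11 Cfsg.Agent.H14 Cfsg.Agent.H15 Module

universe u

variable {G : Type u} [Group G]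

theorem hl_of_lc {E : Set G} (l : LC' E) : HL E := fun a ha b hb n z hz k =>
  l a ha b hb n z hz fun y hy => k y hy.1.1 hy.1.2.2.symm hy.2.2.2.symm

theorem tab24 : R23.mul (R23.mul 25870 1826) 1823 < R23.n ∧
    R23.rel 25870 (R23.mul (R23.mul 25870 1826) 1823) = 0 ∧ ∀ r ∈ Rec24.l1, r < R23.n ∧
      tb Rec24.M1 (R23.mul (R23.mul r (R23.mul (R23.mul 25870 1826) 1823)) 25870) = true := by
  decide +kernel

theorem c24_step [Finite G] {D : Set G} (h : PG D) (hZ : center G = ⊥) (cp : CP D) (loc : Loc R23 D) :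
    ∃ l k c, C24 D l k c := by
  obtain ⟨l, hl, -⟩ := h.wide
  obtain ⟨k, hk, lk⟩ := h.exA hl
  obtain ⟨u, hu, -, -, -, -, c1, c2, -⟩ := cp l hl k hk lk
  obtain ⟨c, lab, im, m1, m | m⟩ := rec24 h.toT3 h.cl loc hl hk lk
    ⟨u, ⟨hu, fun e => lk (e ▸ c2), c1.symm⟩, hu, fun e => lk (e ▸ c1).symm, c2.symm⟩
  · refine ⟨l, k, c, h, hZ, loc, hl, hk, lk, lab, im, fun p hp => ?_, fun e => ?_⟩
    · have := (by decide +kernel : ∀ p ∈ Rec24.l3, p < R23.n ∧ tb Rec24.M3 p = true) p hp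
      exact (comm_of_mask lk im m this.1).2 this.2
    · exact absurd ((comm_of_mask lk im m (by decide)).1 e) (by decide +kernel)
  have HL' : HL D := hl_of_res cp fun x hx =>
    hl_of_lc (lev23 (h.toT3.mono fun _ k => k.1) (loc x hx)).lc
  obtain ⟨f1, f2, f3⟩ := tab24
  generalize R23.mul (R23.mul 25870 1826) 1823 = f at f1 f2 f3
  have e1 : 25870 < R23.n := by decide
  have r := rel_zero.1 ((lab.rel_iff e1 f1).2 f2)
  have me : c 25870 ∈ Dd D l := im ▸ mem_Im e1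
  have mf : c f ∈ Dd D l := im ▸ mem_Im f1
  have s : Pts c Rec24.l1 ⊆ Dd D l ∩ Dd D k := by rintro _ ⟨p, hp, rfl⟩; exact m1 p hp
  have cl := cl_perp h.toT3 h.cl l k
  have sq : ∀ x ∈ Dd D l ∩ Dd D k, x * x = 1 := fun x hx => h.sq x hx.1.1
  have g1 : ∀ x ∈ Pts c Rec24.l1, J (c 25870 * c f) x ∈ Dd D l ∩ Dd D k := by
    rintro _ ⟨p, hp, rfl⟩
    have a1 := lab.mul_lt (f3 p hp).1 f1
    rw [J_mul, ← lab.mul_eq (f3 p hp).1 f1, ← lab.mul_eq a1 e1]
    refine Sp.sub (fun x hx => sq x (s hx)) s cl ((lab.mem_sp (by decide +kernel) Rec24.f1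
      (lab.mul_lt a1 e1)).resolve_left fun ⟨_, k⟩ => ?_)
    simp [(f3 p hp).2] at k
  have g2 : ∀ x ∈ Dd D l ∩ Dd D k, J (c 25870 * c f) x ∈ Dd D l ∩ Dd D k := fun x hx => by
    obtain ⟨g, hg, m'⟩ := m hx
    have : J (c 25870 * c f) g ∈ closure (Dd D l ∩ Dd D k) :=
      (closure_le (K := (closure (Dd D l ∩ Dd D k)).comap (MulAut.conj (c 25870 * c f)).toMonoidHom)).2
        (fun y hy => subset_closure (g1 y hy)) hg
    rw [← J_mem_iff sq subset_rfl cl this, J_J]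
    exact g1 _ m'
  have ke := t1 h.toT3 hl hk me mf lk r.1 r.2 (HL'.fix h.toTG hl hk lk
    (me.2.2.symm.mul_left mf.2.2.symm) fun y hy y1 y2 => by
      have := (g2 y ⟨⟨hy, fun e => lk (e ▸ y2), y1.symm⟩, hy, fun e => lk (e ▸ y1).symm, y2.symm⟩).2.2.2
      rw [Commute.symm_iff, commute_J_left, mul_inv_rev, h.inv me.1, h.inv mf.1, ← r.2.eq]
      exact this)
  refine ⟨l, k, c, h, hZ, loc, hl, hk, lk, lab, im, fun p hp => ?_, fun e => ?_⟩
  · rcases (by decide : ∀ p ∈ Rec24.l3, p ∈ Rec24.l1 ∨ p = 25870) p hp with hp | rfl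
    · exact (m1 p hp).2.2.2.symm
    · exact ke.symm
  · obtain ⟨y, hy, n⟩ := h.W' hl hk lk
    refine n (lab.commute_all (fun i hi => ?_) y (im ▸ hy)).symm
    rcases (by decide +kernel : ∀ i < R23.L, R23.lp i ∈ Rec24.l1 ∨ R23.lp i = 2400) i hi with hp | hp
    · exact (m1 _ hp).2.2.2
    · exact hp ▸ e.symm

theorem steiner {α : Type*} [DecidableEq α] {B : Finset α} (hB : B.card = 25) (cl : Finset α → Finset α)
    (h1 : ∀ T ⊆ B, T.card = 6 → T ⊆ cl T ∧ cl T ⊆ B ∧ (cl T).card = 9)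
    (h2 : ∀ T T', T' ⊆ cl T → cl T' ⊆ cl T) : False := by
  have e := Finset.card_eq_sum_card_image cl (B.powersetCard 6)
  have d : 84 ∣ (B.powersetCard 6).card := by
    rw [e]
    refine Finset.dvd_sum fun b hb => ?_
    obtain ⟨T, hT, rfl⟩ := Finset.mem_image.1 hb
    obtain ⟨t1, t2⟩ := Finset.mem_powersetCard.1 hT
    obtain ⟨a1, a2, a3⟩ := h1 T t1 t2
    have : {a ∈ B.powersetCard 6 | cl a = cl T} = (cl T).powersetCard 6 := by
      ext S
      simp only [Finset.mem_filter, Finset.mem_powersetCard]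
      refine ⟨fun ⟨⟨s1, s2⟩, s3⟩ => ⟨s3 ▸ (h1 S s1 s2).1, s2⟩, fun ⟨s1, s2⟩ => ⟨⟨s1.trans a2, s2⟩, ?_⟩⟩
      exact Finset.eq_of_subset_of_card_le (h2 _ _ s1) (by rw [a3, (h1 S (s1.trans a2) s2).2.2])
    rw [this, Finset.card_powersetCard, a3]
    decide
  rw [Finset.card_powersetCard, hB] at d
  revert d
  decide +kernel

theorem Iso.pre {H : Type*} [Group H] {E : Set G} {E' : Set H} {π : G → H} (i : Iso E E' π) {l : List H}
    (k : CL E' l) : ∃ S : Finset G, S.card = l.length ∧ ∀ v, v ∈ S ↔ v ∈ E ∧ π v ∈ l := by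
  classical
  choose! ρ h1 h2 using fun x (hx : x ∈ E') => i.ex hx
  refine ⟨l.toFinset.image ρ, ?_, fun v => ?_⟩
  · rw [Finset.card_image_of_injOn, List.toFinset_card_of_nodup k.nd]
    intro x hx y hy e
    rw [← h2 x (k.mem x (by simpa using hx)), e, h2 y (k.mem y (by simpa using hy))]
  · simp only [Finset.mem_image, List.mem_toFinset]
    refine ⟨?_, fun ⟨a, b⟩ => ⟨_, b, (i.eq (h1 _ (i.mem a)) a).1 (h2 _ (i.mem a))⟩⟩
    rintro ⟨x, hx, rfl⟩
    exact ⟨h1 x (k.mem x hx), (h2 x (k.mem x hx)).symm ▸ hx⟩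

theorem not_lev3 [Finite G] {D : Set G} (h : PG D) {d : G} (hd : d ∈ D) (lv : Lev 3 (qt (Dd D d))) :
    False := by
  classical
  haveI := Fintype.ofFinite G
  obtain ⟨l, ⟨k, mx⟩, ln⟩ := lv.base
  have i := iso_qt h hd
  obtain ⟨S, s1, s2⟩ := i.pre k
  have dS : d ∉ S := fun e => ((s2 d).1 e).1.2.1 rfl
  have b1 : ∀ v ∈ insert d S, v ∈ D := fun v hv =>
    (Finset.mem_insert.1 hv).elim (fun e => e ▸ hd) fun e => ((s2 v).1 e).1.1
  have b2 : ∀ v ∈ insert d S, ∀ w ∈ insert d S, Commute v w := fun v hv w hw => by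
    rcases Finset.mem_insert.1 hv with e | a <;> rcases Finset.mem_insert.1 hw with e' | b
    · exact e ▸ e' ▸ Commute.refl _
    · exact e ▸ ((s2 w).1 b).1.2.2
    · exact e' ▸ ((s2 v).1 a).1.2.2.symm
    · exact (i.cm _ ((s2 v).1 a).1 _ ((s2 w).1 b).1).1 (k.cm _ ((s2 v).1 a).2 _ ((s2 w).1 b).2)
  have b3 : ∀ v ∈ D, (∀ w ∈ insert d S, Commute w v) → v ∈ insert d S := fun v hv c => by
    by_cases e : v = d
    · exact e ▸ Finset.mem_insert_self _ _
    have m : v ∈ Dd D d := ⟨hv, e, c d (Finset.mem_insert_self _ _)⟩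
    refine Finset.mem_insert_of_mem ((s2 v).2 ⟨m, mx _ (i.mem m) fun a ha => ?_⟩)
    obtain ⟨a, ha', rfl⟩ := i.ex (k.mem a ha)
    exact (i.cm _ m _ ha').2 (c a (Finset.mem_insert_of_mem ((s2 a).2 ⟨ha', ha⟩))).symm
  refine steiner (B := insert d S) (by rw [Finset.card_insert_of_notMem dS, s1, ln])
    (fun T => Finset.univ.filter fun v => v ∈ D ∧ ∀ e ∈ D, (∀ a ∈ T, Commute a e) → Commute v e)
    (fun T hT cT => ⟨fun v hv => ?_, fun v hv => ?_, ?_⟩) fun T T' hT v hv => ?_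
  · exact Finset.mem_filter.2 ⟨Finset.mem_univ _, b1 v (hT hv), fun e he c => c v hv⟩
  · obtain ⟨-, h1, h2⟩ := Finset.mem_filter.1 hv
    exact b3 v h1 fun w hw => (h2 w (b1 w hw) fun a ha => b2 a (hT ha) w hw).symm
  · obtain ⟨x, hx⟩ : T.Nonempty := Finset.card_pos.1 (by omega)
    obtain ⟨π, j⟩ := iso_res h hd (b1 x (hT hx))
    have mT : ∀ a ∈ T.erase x, a ∈ Dd D x := fun a ha =>
      ⟨b1 a (hT (Finset.mem_of_mem_erase ha)), Finset.ne_of_mem_erase ha,
        b2 x (hT hx) a (hT (Finset.mem_of_mem_erase ha))⟩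
    have mt : ∀ {a}, a ∈ (T.erase x).toList.map π ↔ ∃ b ∈ T.erase x, π b = a := by simp
    have ct : CL (qt (Dd D d)) ((T.erase x).toList.map π) := ⟨(Finset.nodup_toList _).map_on
      fun a ha b hb e => (j.eq (mT a (Finset.mem_toList.1 ha)) (mT b (Finset.mem_toList.1 hb))).1 e,
      fun a ha => by obtain ⟨b, hb, rfl⟩ := mt.1 ha; exact j.mem (mT b hb), fun a' ha' b' hb' => by
        obtain ⟨a, ha, rfl⟩ := mt.1 ha'
        obtain ⟨b, hb, rfl⟩ := mt.1 hb'
        exact (j.cm _ (mT a ha) _ (mT b hb)).2 (b2 a (hT (Finset.mem_of_mem_erase ha)) b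
          (hT (Finset.mem_of_mem_erase hb)))⟩
    have lt : ((T.erase x).toList.map π).length = 3 + 2 := by simp [Finset.card_erase_of_mem hx, cT]
    obtain ⟨s, r1, r2, r3, r4⟩ := lv.rel ct lt
    obtain ⟨U, u1, u2⟩ := j.pre r2
    have : (Finset.univ.filter fun v => v ∈ D ∧ ∀ e ∈ D, (∀ a ∈ T, Commute a e) → Commute v e) =
        insert x U := by
      ext v
      simp only [Finset.mem_filter, Finset.mem_univ, true_and, Finset.mem_insert, u2]
      refine ⟨fun ⟨h1, h2⟩ => or_iff_not_imp_left.2 fun ne => ?_, ?_⟩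
      · have m : v ∈ Dd D x := ⟨h1, ne, (h2 x (b1 x (hT hx)) fun a ha => b2 a (hT ha) x (hT hx)).symm⟩
        refine ⟨m, r4 _ (j.mem m) fun e he c => ?_⟩
        obtain ⟨e, he', rfl⟩ := j.ex he
        refine (j.cm _ m _ he').2 (h2 e he'.1 fun a ha => ?_)
        by_cases ax : a = x
        · exact ax ▸ he'.2.2
        · have ma := Finset.mem_erase.2 ⟨ax, ha⟩
          exact (j.cm _ (mT a ma) _ he').1 (c _ (mt.2 ⟨a, ma, rfl⟩))
      · rintro (rfl | ⟨m, hv⟩)
        · exact ⟨b1 v (hT hx), fun e he c => c v hx⟩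
        refine ⟨m.1, fun e he c => ?_⟩
        by_cases ex : e = x
        · exact ex ▸ m.2.2.symm
        have me : e ∈ Dd D x := ⟨he, ex, c x hx⟩
        have ce : ∀ a ∈ (T.erase x).toList.map π, Commute a (π e) := fun a' ha' => by
          obtain ⟨a, ha, rfl⟩ := mt.1 ha'
          exact (j.cm _ (mT a ha) _ me).2 (c a (Finset.mem_of_mem_erase ha))
        refine (j.cm _ m _ me).1 ((List.mem_append.1 hv).elim (ce _) fun hv => ?_)
        exact mem_of_prod lv.t3 (r2.sublist (List.sublist_append_right _ _)) r1.le r3 hv (j.mem me) ce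
    rw [this, Finset.card_insert_of_notMem fun e => ((u2 x).1 e).1.2.1 rfl, u1, List.length_append, lt, r1]
  · obtain ⟨-, h1, h2⟩ := Finset.mem_filter.1 hv
    exact Finset.mem_filter.2 ⟨Finset.mem_univ _, h1, fun e he c => h2 e he fun a ha =>
      (Finset.mem_filter.1 (hT ha)).2.2 e he c⟩

/-- the known spaces -/
def Kn (D : Set G) : Prop := Sy D ∨ Th D 5 ∨ M3 D ∨ Lb R22 D ∨ Lb R23 D ∨ ∃ l k c, C24 D l k c

theorem kn_aux (n : ℕ) : ∀ (G : Type u) [Group G] [Finite G] (D : Set G), D.ncard = n → PG D →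
    center G = ⊥ → Kn D := by
  induction n using Nat.strong_induction_on with
  | _ n ih =>
  intro G _ _ D hn h hZ
  rcases tri h with t | t | t | ⟨t, w⟩
  · exact .inl fun a ha b hb x hx ab => hyp h t ha hb hx ab
  · exact .inr (.inl t)
  · exact .inl (sy_of_pl h t)
  obtain ⟨d, hd, -⟩ := h.wide
  have p := res_pg h t w hd
  have z := center_qt (h.toT3.mono fun _ k => k.1 : T3 (Dd D d)) (Cl.dd h.toT3 h.toTG.cl d)
  have i := iso_qt h hd
  have lt : (qt (Dd D d)).ncard < n := by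
    rw [← hn, ← i.bij.image_eq, Set.InjOn.ncard_image i.bij.injOn]
    exact Set.ncard_lt_ncard ⟨fun _ k => k.1, fun k => (k hd).2.1 rfl⟩ (Set.toFinite _)
  have u5 : Th (qt (Dd D d)) 5 → Kn D := fun k => (u_step h hZ t w hd k).elim
    (fun k => .inr (.inr (.inl k))) fun k => .inr (.inr (.inr (.inl k)))
  rcases ih _ lt _ _ rfl p z with k | k | k | ⟨c, l, k⟩ | ⟨c, l, k⟩ | ⟨l, k, c, k'⟩
  · by_cases k5 : Th (qt (Dd D d)) 5
    · exact u5 k5
    · exact (sy_step h hZ t w hd k k5).elim .inl fun k => .inr (.inr (.inl k))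
  · exact u5 k
  · exact .inr (.inr (.inl (m3_step h hZ t w hd (i.m3' k))))
  · obtain ⟨e, rfl⟩ := core23 h hZ (h.loc_of_qt hd l k)
    obtain ⟨c', l', i', -⟩ := M23.lab
    exact .inr (.inr (.inr (.inr (.inl ⟨_, (l'.equiv e).1, i' ▸ (l'.equiv e).2⟩))))
  · exact .inr (.inr (.inr (.inr (.inr (c24_step h hZ (res_cp h t w) (h.loc_of_qt hd l k))))))
  · exact (not_lev3 h hd k'.f24.lev).elim

theorem kn [Finite G] {D : Set G} (h : PG D) (hZ : center G = ⊥) : Kn D := kn_aux _ G D rfl h hZ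

end Cfsg.Agent.H21.FS
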