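import Mathlib
import Cfsg.Agent.H21.Fc9
import Cfsg.Agent.H19.Mod2

/-! Fischer's classification of the primitive groups generated by 3-transpositions. -/

set_option autoImplicit false
set_option linter.unusedSectionVars false
set_option linter.unusedVariables false
set_option linter.style.haveILetI false

namespace Cfsg.Agent.H21.FS

open Cfsg Subgroup Cfsg.Agent.H19 Cfsg.Agent.H11 Module

universe u

variable {G : Type u} [Group G] {D : Set G}

/-- symmetric groups -/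
def CS (D : Set G) (k : ℕ) : Prop :=
  ∃ n : ℕ, k ≤ n ∧ ∃ e : G ≃* Equiv.Perm (Fin n), e '' D = {σ : Equiv.Perm (Fin n) | σ.IsSwap}
/-- symplectic groups -/
def CSp (D : Set G) : Prop := ∃ m : ℕ, ∃ e : G ≃* Matrix.symplecticGroup (Fin m) (ZMod 2),
  e '' D = {g : Matrix.symplecticGroup (Fin m) (ZMod 2) |
    ((g : Matrix (Fin m ⊕ Fin m) (Fin m ⊕ Fin m) (ZMod 2)) - 1).rank = 1}
/-- unitary groups -/
def CU (D : Set G) : Prop := ∃ n : ℕ, ∃ e : G ≃* PSU n K4 2, e '' D =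
  (QuotientGroup.mk : SU n K4 2 → PSU n K4 2) '' {g : SU n K4 2 |
    (((g : Matrix.SpecialLinearGroup (Fin n) K4) : Matrix (Fin n) (Fin n) K4) - 1).rank = 1}
/-- orthogonal groups over the field with two elements -/
def CO (D : Set G) {ι : Type} [Fintype ι] [DecidableEq ι] (Q : (ι → ZMod 2) → ZMod 2) : Prop :=
  ∃ e : G ≃* isometryGroup (ZMod 2) Q, e '' D = {g : isometryGroup (ZMod 2) Q |
    (((g : GL ι (ZMod 2)) : Matrix ι ι (ZMod 2)) - 1).rank = 1}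
/-- reflection groups over the field with three elements -/
def CR (D : Set G) : Prop := ∃ n : ℕ, 5 ≤ n ∧ ∃ Q : QuadraticForm (ZMod 3) (Fin n → ZMod 3),
  (QuadraticMap.polarBilin Q).Nondegenerate ∧ ∃ c : ZMod 3, c ≠ 0 ∧
    ∃ e : G ≃* reflectionSubgroup (⇑Q) c ⧸ center (reflectionSubgroup (⇑Q) c),
      e '' D = (QuotientGroup.mk : reflectionSubgroup (⇑Q) c → _) '' {g : reflectionSubgroup (⇑Q) c |
        (g : isometryGroup (ZMod 3) (⇑Q)) ∈ reflectionsOfNorm (⇑Q) c}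

theorem eq_image {A S : Type*} [Group A] [Group S] (φ : A ≃* S) {E : Set S}
    (k : ∃ e : G ≃* S, e '' D = E) {E' : Set A} (hE : ∀ s, s ∈ E' ↔ φ s ∈ E) :
    ∃ e' : G ≃* A, e' '' D = E' := by
  obtain ⟨e, rfl⟩ := k
  refine ⟨e.trans φ.symm, Set.ext fun s => ?_⟩
  simp only [hE, Set.mem_image, MulEquiv.trans_apply, MulEquiv.symm_apply_eq]

theorem tv_hJ {S V : Type*} [Group S] [AddCommGroup V] [Module (ZMod 2) V]
    {B : V →ₗ[ZMod 2] V →ₗ[ZMod 2] ZMod 2} {ψ : G → V} {a b : G} {g k : V ≃ₗ[ZMod 2] V}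
    (cm : Commute a b ↔ B (ψ a) (ψ b) = 0) (hJ : ¬ Commute a b → ψ (J a b) = ψ a + ψ b)
    (h1 : Elm B g (ψ a)) (h2 : Elm B k (ψ b)) (hg : ∀ x y, B (g x) (g y) = B x y) :
    Elm B (J g k) (ψ (J a b)) := by
  have := h2.conj hg
  rw [h1] at this
  by_cases k : Commute a b
  · rw [cm.1 k, zero_smul, add_zero] at this
    rw [J_of_commute k]; exact this
  · rw [z2 _ fun e => k (cm.2 e), one_smul, add_comm] at this
    rw [hJ k]; exact this

open Cfsg.Agent.H10 in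
theorem csp [Finite G] (h : PG D) (t : Th D 3) (hZ : center G = ⊥) : CSp D := by
  obtain ⟨n, ψ, bij, cm, hJ⟩ := sp_model h t
  have hB := spBilin_nondegenerate (l := Fin n) (F := ZMod 2)
  have hA := spBilin_isAlt (l := Fin n) (F := ZMod 2)
  have c := c2_alt hB.1 hA
  haveI : Nontrivial (Fin n ⊕ Fin n → ZMod 2) := by
    obtain ⟨a, ha, -⟩ := h.wide
    exact ⟨⟨_, _, bij.mapsTo ha⟩⟩
  obtain ⟨g, -, -⟩ := tclass_iff.1 (sp_class hB hA)
  have z : center (isomGroup (spBilin (Fin n) (ZMod 2))) = ⊥ := eq_bot_iff.2 fun s hs => by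
    rcases (mem_center_isom_iff hB hA s).1 hs with rfl | rfl
    · exact one_mem _
    · exact negIsom_eq_one_iff.2 c.two
  refine ⟨n, eq_image spEquiv (kei'' h.toTG g (fun d => tv hA (ψ d) 1)
    ⟨fun d hd => ⟨_, bij.mapsTo hd, el_tv hA _⟩, fun a ha b hb k => ?_, fun s ⟨v, hv, k⟩ => ?_⟩
    (fun a ha b hb => Subtype.ext ((el_tv hA _).ext (tv_hJ (S := G) (cm a ha b hb) (hJ a ha b hb)
      (el_tv hA _) (el_tv hA _) (tv hA (ψ a) 1).2))) hZ z) fun s => ?_⟩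
  · obtain ⟨s, hs, e⟩ := Elm.prop c (el_tv hA (ψ a)) (by
      have := el_tv hA (ψ b); rwa [← show _ = tv hA (ψ b) 1 from k] at this) (bij.mapsTo ha)
    exact bij.injOn ha hb (by rw [e, z2 s hs, one_smul])
  · obtain ⟨d, hd, rfl⟩ := bij.surjOn hv
    exact ⟨d, hd, Subtype.ext ((el_tv hA _).ext k)⟩
  · rw [mem_SpD hB hA, Set.mem_ofPred_eq, rank_eq_finrank _ _ (spEquiv_apply s)]

theorem O2M.co {ι : Type} [Fintype ι] [DecidableEq ι]
    {B : (ι → ZMod 2) →ₗ[ZMod 2] (ι → ZMod 2) →ₗ[ZMod 2] ZMod 2} {Q : (ι → ZMod 2) → ZMod 2}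
    {ψ : G → ι → ZMod 2} (m : O2M D B Q ψ) (h : TG D) (hZ : center G = ⊥)
    (hn : 5 ≤ finrank (ZMod 2) (ι → ZMod 2)) : CO D Q := by
  have q := m.q
  have c := c2_quad q m.sep
  obtain ⟨g, -, -⟩ := tclass_iff.1 (o_class q m.sep hn)
  have z : center (Isom B Q) = ⊥ := eq_bot_iff.2 fun s hs => by
    obtain ⟨e, he0, he⟩ := q.exists_singular (by omega)
    rcases q.eq_of_fix_points m.sep (by omega) he he0 s fun u hu => q.fix_point_of_comm m.sep
      (by omega) s hu fun w huw => (commute_of_mem_center hs _).eq with rfl | rfl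
    · exact one_mem _
    · exact q.negI_eq_one c.two
  have el : ∀ a ∈ D, Elm B (q.reflO (ψ a)).1 (ψ a) := fun a ha => el_refl q (m.bij.mapsTo ha)
  refine eq_image (oEquiv q) (kei'' h g (fun d => q.reflO (ψ d))
    ⟨fun d hd => ⟨_, m.bij.mapsTo hd, el d hd⟩, fun a ha b hb k => ?_, fun s ⟨v, hv, k⟩ => ?_⟩
    (fun a ha b hb => Subtype.ext ((el _ (h.conj _ _ hb)).ext (tv_hJ (S := G) (m.cm a ha b hb)
      (m.hJ a ha b hb) (el a ha) (el b hb) (q.reflO (ψ a)).2.1))) hZ z) fun s => o_class_mat q s m.sep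
  · obtain ⟨s, hs, e⟩ := Elm.prop c (el a ha) (by
      have := el b hb; rwa [← show _ = q.reflO (ψ b) from k] at this) (fun e => by
        have := m.bij.mapsTo ha
        have q0 : Q 0 = 0 := by simpa using q.smul' 0 0
        simp [e, q0] at this)
    exact m.bij.injOn ha hb (by rw [e, z2 s hs, one_smul])
  · obtain ⟨d, hd, rfl⟩ := m.bij.surjOn hv
    exact ⟨d, hd, Subtype.ext ((el d hd).ext k)⟩

theorem O2M.map {V V' : Type*} [AddCommGroup V] [Module (ZMod 2) V] [AddCommGroup V'] [Module (ZMod 2) V']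
    {B : V →ₗ[ZMod 2] V →ₗ[ZMod 2] ZMod 2} {Q : V → ZMod 2} {ψ : G → V} (m : O2M D B Q ψ)
    {B' : V' →ₗ[ZMod 2] V' →ₗ[ZMod 2] ZMod 2} {Q' : V' → ZMod 2} (q : IsQuad B' Q')
    (s : B'.SeparatingLeft) (k : ∃ e : V ≃ₗ[ZMod 2] V', (∀ x y, B' (e x) (e y) = B x y) ∧
      ∀ x, Q' (e x) = Q x) : ∃ ψ', O2M D B' Q' ψ' := by
  obtain ⟨e, h1, h2⟩ := k
  refine ⟨fun d => e (ψ d), q, s, Set.BijOn.comp (g := e) ⟨fun v hv => (h2 v).trans hv,
    e.injective.injOn, fun v hv => ⟨e.symm v, (h2 _).symm.trans (by simpa using hv), by simp⟩⟩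
    m.bij, fun a ha b hb => by rw [h1, m.cm a ha b hb], fun a ha b hb n => by
      rw [m.hJ a ha b hb n, map_add]⟩

theorem co [Finite G] (h : PG D) (hZ : center G = ⊥) (s : Sy D) (t : Thin D) (w : WT D) (d4 : D4 D) :
    (∃ m, 3 ≤ m ∧ CO D (quadFormPlus m (ZMod 2))) ∨ ∃ m, 2 ≤ m ∧ CO D (quadFormMinus m (ZMod 2) 1 1) := by
  obtain ⟨V, _, _, _, B, Q, ψ, m⟩ := o2_model h s t w d4
  obtain ⟨y, hy, a, ha, e, he, f, hf, n1, n2, n3, c1, c2, c3, -⟩ := d4
  have q := m.q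
  have q1 : ∀ {x}, x ∈ D → Q (ψ x) = 1 := fun hx => m.bij.mapsTo hx
  have b1 := (m.cm a ha e he).1 c1
  have b2 := (m.cm a ha f hf).1 c2
  have b3 := (m.cm e he f hf).1 c3
  have ne : ∀ {x y}, x ∈ D → y ∈ D → x ≠ y → ψ x + ψ y ≠ 0 := fun hx hy n k =>
    n (m.bij.injOn hx hy (by rw [eq_neg_of_add_eq_zero_left k, ZModModule.neg_eq_self]))
  have q0 : Q 0 = 0 := by simpa using q.smul' 0 0
  have li : LinearIndependent (ZMod 2) ![ψ a, ψ e, ψ f] := Fintype.linearIndependent_iff.2 fun g k => by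
    simp only [Fin.sum_univ_three, Matrix.cons_val] at k
    have k' := congrArg Q k
    simp only [q.add', q.smul', q1 ha, q1 he, q1 hf, map_add, map_smul, LinearMap.add_apply,
      LinearMap.smul_apply, b1, b2, b3, q0] at k'
    rw [Fin.forall_fin_succ, Fin.forall_fin_two]
    rcases z2c (g 0) with e0 | e0 <;> rcases z2c (g 1) with e1 | e1 <;> rcases z2c (g 2) with e2 | e2 <;>
      simp [e0, e1, e2, ne ha he n1, ne ha hf n2, ne he hf n3] at k k' ⊢
    exact absurd k' (by decide)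
  have h1 := finrank_span_eq_card li
  have h2 := q.finrank_perp m.sep (Submodule.span _ (Set.range ![ψ a, ψ e, ψ f]))
  have h3 : Submodule.span _ (Set.range ![ψ a, ψ e, ψ f]) ≤
      perp B (Submodule.span _ (Set.range ![ψ a, ψ e, ψ f])) := by
    rw [Submodule.span_le]
    rintro _ ⟨i, rfl⟩
    refine mem_perp_span.2 ?_
    rintro _ ⟨j, rfl⟩
    fin_cases i <;> fin_cases j <;> simp [quad_self q, b1, b2, b3, q.comm (ψ e) (ψ a),
      q.comm (ψ f) (ψ a), q.comm (ψ f) (ψ e)]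
  have h4 := Submodule.finrank_mono h3
  rw [Fintype.card_fin] at h1
  obtain ⟨k, hk⟩ := q.even_finrank_of_char_two m.sep rfl
  obtain ⟨k, rfl⟩ : ∃ l, k = l + 1 := ⟨k - 1, by omega⟩
  have an : ∀ z₁ z₂ : ZMod 2, z₁ ^ 2 + 1 * z₁ * z₂ + 1 * z₂ ^ 2 = 0 → z₁ = 0 ∧ z₂ = 0 := by decide
  rcases q.wittIdx_even_cases m.sep (m := k) (by omega) with r | r
  · have d : finrank (ZMod 2) (Fin (k + 1) ⊕ Fin (k + 1) → ZMod 2) = k + 1 + (k + 1) := by simp
    obtain ⟨ψ', m'⟩ := m.map (isQuad_plus _ _) (bPlus_sep _ _) (q.exists_equiv_of_wittIdx m.sep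
      (isQuad_plus _ _) (bPlus_sep _ _) ⟨_, hk⟩ (hk.trans d.symm) r (wittIdx_plus _ _))
    exact .inl ⟨k + 1, by omega, m'.co h.toTG hZ (by omega)⟩
  · have d : finrank (ZMod 2) ((Fin k ⊕ Fin k) ⊕ Fin 2 → ZMod 2) = k + 1 + (k + 1) := by simp; ring
    obtain ⟨ψ', m'⟩ := m.map (isQuad_minus _ _ _ _) (bMinus_sep _ an) (q.exists_equiv_of_wittIdx m.sep
      (isQuad_minus _ _ _ _) (bMinus_sep _ an) ⟨_, hk⟩ (hk.trans d.symm) r (wittIdx_minus _ an))
    exact .inr ⟨k, by omega, m'.co h.toTG hZ (by omega)⟩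

theorem M3.cr (m : M3 D) (h : TG D) (hZ : center G = ⊥) : CR D := by
  obtain ⟨V, _, _, _, B, Q, c, P, m⟩ := m
  let b := (Module.finBasis (ZMod 3) V).equivFun.symm
  let Q' := m.q.toQF.comp b.toLinearMap
  have hQ : ∀ x, Q' x = Q (b x) := fun x => rfl
  have hB : ∀ x y, Q'.polarBilin x y = B (b x) (b y) := fun x y => by
    rw [← m.q.toQF_polarBilin]; simp [Q', QuadraticMap.polar]
  have q := isForm_quad Q'
  have sep : Q'.polarBilin.SeparatingLeft := fun x k => b.map_eq_zero_iff.1 (m.sep _ fun y => by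
    rw [← b.apply_symm_apply y, ← hB, k])
  have c0 := m.c0
  obtain ⟨g, -, -⟩ := tclass_iff.1 (class_R3 (h := q) sep (by simpa using m.dim) c0)
  have : ∀ a, a ∈ D → ∃ s : closure (R3 q c), ∃ v, P a (b v) ∧ s.1 = IsQuad.reflO q v := fun a ha => by
    obtain ⟨v, hv⟩ := m.ex1 ha
    obtain ⟨v, rfl⟩ := b.surjective v
    exact ⟨⟨_, subset_closure ⟨v, m.nm hv, rfl⟩⟩, v, hv, rfl⟩
  choose! T ψ hψ hT using this
  have pm : ∀ {a v}, P a (b v) → T a = IsQuad.reflO q v := fun {a v} k => by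
    rw [hT a (m.mem k)]
    rcases m.un2 (hψ a (m.mem k)) k with e | e
    · rw [b.injective e]
    · rw [← map_neg] at e
      rw [b.injective e, refl_neg]
  have bij : Set.BijOn T D (sub (R3 q c)) := ⟨fun a ha => ⟨_, m.nm (hψ a ha), hT a ha⟩,
    fun a ha a' ha' e => by
      rcases refl_inj q ((m.nm (hψ a ha)).trans_ne c0) ((hT a ha).symm.trans (e ▸ hT a' ha')) with k | k
      · exact m.un1 (hψ a ha) (k ▸ hψ a' ha')
      · exact m.un1 (hψ a ha) (by rw [k, map_neg]; exact m.neg (hψ a' ha')),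
    fun s ⟨w, hw, k⟩ => by
      obtain ⟨a, ha⟩ := m.ex2 (v := b w) hw
      exact ⟨a, m.mem ha, Subtype.ext ((pm ha).trans k.symm)⟩⟩
  obtain ⟨e, he⟩ := kei' h g T bij (fun a ha a' ha' => Subtype.ext (by
    have := m.refl h.toT3 h.cl (hψ a ha) (hψ a' ha')
    rw [← map_smul, ← map_sub] at this
    rw [pm this, J_coe, hT a ha, hT a' ha', J_refl, hB, hQ, m.nm (hψ a ha),
      inv_eq_of_mul_eq_one_right (z3sq c c0)])) hZ
  exact ⟨_, m.dim, Q', ⟨sep, fun x k => sep x fun y => (IsQuad.comm q x y).trans (k y)⟩, c, c0,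
    qc_image (rEquiv Q' c) e he bij fun s => mem_reflN Q' c s⟩

theorem not_thin [Finite G] (h : PG D) {n : ℕ} (hn : 3 ≤ n) (t : Th D n) : ¬ Thin D := fun k => by
  obtain ⟨d, hd, x, hx, ne, c⟩ := h.wide
  have := Set.ncard_le_ncard (s := Ln D d x) (t := {d, x}) (k d x ⟨hd, hx, ne, c⟩)
  rw [t d x ⟨hd, hx, ne, c⟩, Set.ncard_pair ne] at this
  omega

theorem fischer [Finite G] (h : PG D) (hZ : center G = ⊥) : CS D 5 ∨ (¬ Thin D ∧ (CSp D ∨ CU D)) ∨
    ((∃ m, 3 ≤ m ∧ CO D (quadFormPlus m (ZMod 2))) ∨ ∃ m, 2 ≤ m ∧ CO D (quadFormMinus m (ZMod 2) 1 1)) ∨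
    CR D ∨ Lb R22 D ∨ Lb R23 D ∨ ∃ l k c, C24 D l k c := by
  have u : Th D 5 → ¬ Thin D ∧ (CSp D ∨ CU D) := fun t => ⟨not_thin h (by decide) t, .inr (by
    obtain ⟨n, P, n4, m⟩ := umm_of h t hZ
    exact ⟨n, m.psu h.toTG hZ n4⟩)⟩
  rcases kn h hZ with s | t | m | k
  · by_cases d4 : D4 D
    swap
    · obtain ⟨n, e, n5, he⟩ := sym_class h s d4
      exact .inl ⟨n, n5, e, he⟩
    rcases tri h with t | t | t | ⟨t, w⟩
    · exact .inr (.inl ⟨not_thin h le_rfl t, .inl (csp h t hZ)⟩)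
    · exact .inr (.inl (u t))
    · obtain ⟨y, hy, a, ha, e, he, f, hf, n1, n2, n3, c1, c2, c3, -⟩ := d4
      exact absurd c3 (t.line h.toT3 ha ⟨he, n1.symm, c1⟩ ⟨hf, n2.symm, c2⟩ n3).1
    · exact .inr (.inr (.inl (co h hZ s t w d4)))
  · exact .inr (.inl (u t))
  · exact .inr (.inr (.inr (.inl (m.cr h.toTG hZ))))
  · exact .inr (.inr (.inr (.inr k)))

theorem types [Finite G] (h : PG D) (hZ : center G = ⊥)
    (k : Lb R22 D ∨ Lb R23 D ∨ ∃ l k c, C24 D l k c) :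
    IsOfTypeM22 G D ∨ IsOfTypeM23 G D ∨ IsOfTypeM24 G D :=
  k.imp (fun k => type22 hZ (lev22 h.toT3 k)) (Or.imp (fun k => type23 h hZ (lev23 h.toT3 k))
    fun ⟨l, k, c, m⟩ => m.type24)

theorem sw7 : ∀ n, n = 5 ∨ n = 6 → ∀ a b c i j k l : Fin n, (a : ℕ) = 0 → (b : ℕ) = 1 → (c : ℕ) = 2 →
    i ≠ j → k ≠ l → Equiv.swap i j ≠ Equiv.swap k l →
    Equiv.swap i j * Equiv.swap k l = Equiv.swap k l * Equiv.swap i j →
    Equiv.swap i j * Equiv.swap a b = Equiv.swap a b * Equiv.swap i j →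
    Equiv.swap i j * Equiv.swap b c = Equiv.swap b c * Equiv.swap i j →
    Equiv.swap k l * Equiv.swap a b = Equiv.swap a b * Equiv.swap k l →
    Equiv.swap k l * Equiv.swap b c ≠ Equiv.swap b c * Equiv.swap k l := by
  rintro _ (rfl | rfl) a b c i j k l h1 h2 h3 <;> obtain rfl : a = 0 := Fin.ext h1 <;>
    obtain rfl : b = 1 := Fin.ext h2 <;> obtain rfl : c = 2 := Fin.ext h3 <;> revert i j k l <;>
    decide +kernel

theorem CS.seven (k : CS D 5) (c : CP D) : CS D 7 := by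
  obtain ⟨n, n5, e, he⟩ := k
  refine ⟨n, by_contra fun n7 => ?_, e, he⟩
  have cm : ∀ {x y}, Commute (e x) (e y) ↔ Commute x y := commute_map (φ := e.toMonoidHom) e.injective
  let a : Fin n := ⟨0, by omega⟩
  let b : Fin n := ⟨1, by omega⟩
  let c' : Fin n := ⟨2, by omega⟩
  have ab : a ≠ b := by simp [a, b]
  have bc : b ≠ c' := by simp [c', b]
  obtain ⟨x, hx, ex⟩ := he.symm.subset (⟨a, b, ab, rfl⟩ : (Equiv.swap a b).IsSwap)
  obtain ⟨y, hy, ey⟩ := he.symm.subset (⟨b, c', bc, rfl⟩ : (Equiv.swap b c').IsSwap)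
  obtain ⟨u, hu, v, hv, ne, c1, c2, c3, c4, c5⟩ := c x hx y hy (by
    rw [← cm, ex, ey]; exact swap_nc ab bc (by simp [a, c']))
  obtain ⟨i, j, ij, e1⟩ := he.subset ⟨u, hu, rfl⟩
  obtain ⟨k, l, kl, e2⟩ := he.subset ⟨v, hv, rfl⟩
  rw [← cm] at c1 c2 c3 c4 c5
  simp only [ex, ey, e1, e2] at c1 c2 c3 c4 c5
  exact sw7 n (by omega) a b c' i j k l rfl rfl rfl ij kl (e1 ▸ e2 ▸ e.injective.ne ne) c1 c2 c3 c4 c5

theorem thin_wt [Finite G] (h : PG D) {d : G} (hd : d ∈ D)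
    (h3 : pCore 3 (closure (Dd D d)) ≤ center _) (h2 : pCore 2 (closure (Dd D d)) ≤ center _) :
    Thin D ∧ WT D := by
  have tg := sub_tg (h.toT3.mono fun _ k => k.1 : T3 (Dd D d)) (Cl.dd h.toT3 h.toTG.cl d)
  refine ⟨fun d' e a f hf => or_iff_not_imp_left.2 fun ne => ?_, fun d' hd' e he w hw r => ?_⟩
  · obtain ⟨g, rfl⟩ := h.trans d' a.l d hd
    have i := iso_conj h.toTG g d'
    have mf : f ∈ Dd D d' := ⟨hf.1, ne, hf.2 d' a.l (Commute.refl _) a.c⟩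
    obtain ⟨y, hy, n⟩ := h.noiso hd (i.mem a.dd)
    refine J_inj.1 (congrArg Subtype.val (tg.V_triv h2 (x := ⟨_, subset_closure (i.mem a.dd)⟩)
      (v := ⟨_, subset_closure (i.mem mf)⟩) (y := ⟨_, subset_closure hy⟩) (i.mem a.dd) (i.mem mf) hy
      (by rwa [commute_coe]) fun z hz => ?_))
    obtain ⟨z', hz', ez⟩ := i.ex hz
    rw [commute_coe, commute_coe, ← ez, commute_J, commute_J]
    exact ⟨fun c => (step h a hf ne hz'.1 hz'.2.2.symm c.symm).symm,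
      fun c => (hf.2 _ hz'.1 hz'.2.2.symm c.symm).symm⟩
  · obtain ⟨g, rfl⟩ := h.trans d' hd' d hd
    have i := iso_conj h.toTG g d'
    refine J_inj.1 (congrArg Subtype.val (tg.W_triv h3 (x := ⟨_, subset_closure (i.mem he)⟩)
      (w := ⟨_, subset_closure (i.mem hw)⟩) (i.mem he) (i.mem hw) (Set.ext fun z => ?_)))
    have : ∀ x (hx : x ∈ Dd D d'), z ∈ Dd (sub (Dd D (J g d'))) ⟨_, subset_closure (i.mem hx)⟩ ↔
        z.1 ∈ Dd (Dd D (J g d')) (J g x) := fun x hx => by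
      simp only [Dd, sub, Set.mem_ofPred_eq, commute_coe, Ne, Subtype.ext_iff]
    rw [this e he, this w hw]
    constructor <;> intro k <;> obtain ⟨z', hz', ez⟩ := i.ex k.1 <;> rw [← ez] at k ⊢
    · exact (i.dd hw hz').2 (r ▸ (i.dd he hz').1 k)
    · exact (i.dd he hz').2 (r ▸ (i.dd hw hz').1 k)

theorem s5369 [Finite G] (h : PG D) (hZ : center G = ⊥) {d : G} (hd : d ∈ D)
    (h3 : pCore 3 (closure (Dd D d)) ≤ center _) (h2 : pCore 2 (closure (Dd D d)) ≤ center _) :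
    CS D 7 ∨ ((∃ m, 3 ≤ m ∧ CO D (quadFormPlus m (ZMod 2))) ∨
      ∃ m, 2 ≤ m ∧ CO D (quadFormMinus m (ZMod 2) 1 1)) ∨ CR D ∨
      (IsOfTypeM22 G D ∨ IsOfTypeM23 G D ∨ IsOfTypeM24 G D) := by
  obtain ⟨t, w⟩ := thin_wt h hd h3 h2
  rcases fischer h hZ with k | k | k | k | k
  · exact .inl (k.seven (res_cp h t w))
  · exact absurd t k.1
  · exact .inr (.inl k)
  · exact .inr (.inr (.inl k))
  · exact .inr (.inr (.inr (types h hZ k)))

theorem solv_case [Finite G] (h : TG D) (t : Trans D) (hs : IsSimpleGroup (commutator G))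
    (s : Group.IsSolvable G) : CS D 0 := by
  obtain ⟨a, ha, b, hb, n⟩ : ∃ a ∈ D, ∃ b ∈ D, ¬ Commute a b := by
    by_contra k
    push Not at k
    have : center G = ⊤ := by
      rw [eq_top_iff, ← h.top, closure_le]
      exact fun a ha => h.mem_center (k a ha)
    have := hs.toNontrivial
    rw [(commutator_eq_bot_iff_center_eq_top G).2 ‹_›] at this
    exact not_subsingleton (⊥ : Subgroup G) inferInstance
  obtain ⟨φ, inj, r⟩ := h.hom3 ha hb n
  have cm := IsSimpleGroup.comm_iff_isSolvable.2 (inferInstance : Group.IsSolvable (commutator G))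
  have top : closure {a, b} = ⊤ := by
    rw [eq_top_iff, ← h.sup_commutator t ha, sup_le_iff, zpowers_le]
    refine ⟨subset_closure (by simp), subgroupOf_eq_top.1 ((hs.eq_bot_or_eq_top_of_normal _
      ⟨fun x hx g => by rwa [cm g, mul_inv_cancel_right]⟩).resolve_left fun e => n ?_)⟩
    have : (⟨a * b, h.mul_mem_commutator t ha hb⟩ : commutator G) = 1 :=
      mem_bot.1 (e ▸ mul_mem (subset_closure (by simp)) (subset_closure (by simp)))
    rw [eq_inv_of_mul_eq_one_left (congrArg Subtype.val this)]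
    exact (Commute.refl b).inv_left
  let e := (MulEquiv.ofBijective φ ⟨inj, MonoidHom.range_eq_top.1 (r.trans top)⟩).symm
  have sw : ∀ x ∈ D, (e x).IsSwap := fun x hx =>
    (by decide : ∀ σ : Equiv.Perm (Fin 3), σ * σ = 1 → σ ≠ 1 → ∃ i j, i ≠ j ∧ σ = Equiv.swap i j) _
      (by rw [← map_mul, h.sq x hx, map_one]) (e.map_eq_one_iff.not.2 (h.ne x hx))
  refine ⟨3, by omega, e, Set.Subset.antisymm (by rintro _ ⟨x, hx, rfl⟩; exact sw x hx) fun σ hσ => ?_⟩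
  obtain ⟨i, j, ij, e1⟩ := sw a ha
  obtain ⟨k, l, kl, rfl⟩ := hσ
  obtain ⟨g, hg⟩ := isConj_iff.1 (Equiv.Perm.isConj_swap ij kl)
  exact ⟨J (e.symm g) a, h.conj _ _ ha, by rw [← hg, ← e1]; simp [J]⟩

theorem s5368 [Finite G] (hD : IsThreeTranspositionClass D) (hZ : center G = ⊥)
    (hs : IsSimpleGroup (commutator G)) : CS D 0 ∨ CSp D ∨ CU D ∨
    ((∃ m, CO D (quadFormPlus m (ZMod 2))) ∨ ∃ m, CO D (quadFormMinus m (ZMod 2) 1 1)) ∨ CR D ∨
      (IsOfTypeM22 G D ∨ IsOfTypeM23 G D ∨ IsOfTypeM24 G D) := by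
  obtain ⟨tg, t, -⟩ := tclass_iff.1 hD
  by_cases s : Group.IsSolvable G
  · exact .inl (solv_case tg t hs s)
  have h := tg.pg_of_commutator t s (normal_cases_of_simple hs)
  rcases fischer h hZ with ⟨n, -, k⟩ | ⟨-, k | k⟩ | k | k | k
  · exact .inl ⟨n, n.zero_le, k⟩
  · exact .inr (.inl k)
  · exact .inr (.inr (.inl k))
  · exact .inr (.inr (.inr (.inl (k.imp (fun ⟨m, _, k⟩ => ⟨m, k⟩) fun ⟨m, _, k⟩ => ⟨m, k⟩))))
  · exact .inr (.inr (.inr (.inr (.inl k))))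
  · exact .inr (.inr (.inr (.inr (.inr (types h hZ k)))))

theorem no_sign [IsSimpleGroup G] (hna : ∃ x y : G, x * y ≠ y * x) {A : Type*} [CommGroup A]
    (f : G →* A) (d : G) : f d = 1 := by
  obtain ⟨x, y, n⟩ := hna
  rcases IsSimpleGroup.eq_bot_or_eq_top_of_normal f.ker inferInstance with e | e
  · exact absurd ((MonoidHom.ker_eq_bot_iff f).1 e (by rw [map_mul, map_mul, mul_comm])) n
  · exact MonoidHom.mem_ker.1 (e ▸ mem_top d)

theorem CO.not_simple [IsSimpleGroup G] (hna : ∃ x y : G, x * y ≠ y * x) {ι : Type} [Fintype ι]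
    [DecidableEq ι] {B : (ι → ZMod 2) →ₗ[ZMod 2] (ι → ZMod 2) →ₗ[ZMod 2] ZMod 2}
    {Q : (ι → ZMod 2) → ZMod 2} (q : IsQuad B Q) (s : B.SeparatingLeft) (k : CO D Q) {d : G}
    (hd : d ∈ D) : False := by
  obtain ⟨e, he⟩ := k
  have h1 := (mem_OD q s _).1 ((o_class_mat q _ s).1 (he.subset ⟨d, hd, rfl⟩))
  have h2 : dick (oEquiv q (e d)).1 = 0 :=
    no_sign hna ((q.dickHom s).comp (e.trans (oEquiv q)).toMonoidHom) d
  rw [dick, h1] at h2
  exact absurd h2 (by decide)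

theorem CR.odd [IsSimpleGroup G] (hna : ∃ x y : G, x * y ≠ y * x) (k : CR D) :
    ∃ m : ℕ, Nonempty (G ≃* POmega (ZMod 3) (quadFormOdd m (ZMod 3))) := by
  obtain ⟨n, n5, Q, hQ, c, c0, e, -⟩ := k
  have q : IsQuad _ _ := isForm_quad Q
  have hn : 5 ≤ finrank (ZMod 3) (Fin n → ZMod 3) := by simpa
  have two : (2 : ZMod 3) ≠ 0 := by decide
  let e' : G ≃* Qt (Rf q c) := e.trans (quotCenterEquiv (rEquiv Q c))
  obtain ⟨x, hx, y, hy, nc⟩ := exn_R3 (h := q) hQ.1 hn c0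
  rcases Nat.even_or_odd' n with ⟨m, rfl | rfl⟩
  · exfalso
    have := no_sign hna ((QuotientGroup.lift (center _) ((q.dickHom hQ.1).comp (closure (Rf q c)).subtype)
      fun z hz => by
        rcases zc_Rf hQ.1 hn c0 hx hy nc (mem_center_closure.1 hz) with k | k
        · simp [k]
        · change Multiplicative.ofAdd (dick z.1.1) = 1
          rw [k, dick, show movS q.negI.1 = ⊤ from eq_top_iff.mpr fun x _ => mem_movS.mpr
            ⟨(-2 : ZMod 3)⁻¹ • x, by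
              rw [q.negI_apply, ← neg_add', ← two_smul (ZMod 3), smul_smul, ← neg_smul]
              field_simp; simp⟩, finrank_top]
          simp [show (2 : ZMod 2) = 0 from rfl]).comp e'.toMonoidHom)
      (e'.symm (QuotientGroup.mk ⟨x, subset_closure hx⟩))
    obtain ⟨v, hv, rfl⟩ := hx
    simp only [MonoidHom.comp_apply, MulEquiv.coe_toMonoidHom, MulEquiv.apply_symm_apply,
      QuotientGroup.lift_mk] at this
    have h2 : dick (q.reflO v).1 = 0 := this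
    rw [q.dick_reflO hQ.1 (hv ▸ c0)] at h2
    exact absurd h2 (by decide)
  · obtain ⟨f⟩ := comm_qt hQ.1 hn c0 hx hy nc
    obtain ⟨s, g, s0, g1, g2⟩ := q.exists_equiv_of_odd hQ.1 (isQuad_odd m _) (bOdd_sep m two)
      (by simp) (by simp; ring)
    have top : commutator G = ⊤ := (IsSimpleGroup.eq_bot_or_eq_top_of_normal _ inferInstance).resolve_left
      fun k => by
        obtain ⟨x, y, n⟩ := hna
        exact n (mem_center_iff.1 ((commutator_eq_bot_iff_center_eq_top G).1 k ▸ mem_top y) x)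
    have eq : Isom Q.polarBilin Q = Isom (s • Q.polarBilin) fun x => s * Q x := Subgroup.ext fun g => by
      simp [q.mem_isom, (q.smul_form s).mem_isom, s0]
    exact ⟨m, ⟨((topEquiv.symm.trans (MulEquiv.subgroupCongr top.symm)).trans (commutatorEquiv e')).trans
      (f.trans ((quotCenterEquiv (commutatorEquiv ((MulEquiv.subgroupCongr eq).trans
        (isomCongr g g1 g2)))).trans (pomegaEquiv (isQuad_odd m _)).symm))⟩⟩

theorem s0480 [Finite G] [IsSimpleGroup G] (hna : ∃ x y : G, x * y ≠ y * x)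
    (hD : IsThreeTranspositionClass D) :
    (∃ n : ℕ, Nonempty (G ≃* Matrix.symplecticGroup (Fin n) (ZMod 2))) ∨
    (∃ n : ℕ, Nonempty (G ≃* PSU n K4 2)) ∨
    (∃ m : ℕ, Nonempty (G ≃* POmega (ZMod 3) (quadFormOdd m (ZMod 3)))) ∨ IsFi22 G ∨ IsFi23 G := by
  have hZ : center G = ⊥ := hna.elim fun x k => k.elim fun y n => center_bot_of_simple n
  have h := pg_of_simple hD hZ
  obtain ⟨d, hd, -⟩ := h.wide
  rcases fischer h hZ with ⟨n, -, e, k⟩ | ⟨-, ⟨n, e, -⟩ | ⟨n, e, -⟩⟩ | (⟨m, -, k⟩ | ⟨m, -, k⟩) | k | k | k |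
    ⟨l, k, c, m⟩
  · have := no_sign hna (Equiv.Perm.sign.comp e.toMonoidHom) d
    exact absurd ((k.subset ⟨d, hd, rfl⟩).sign_eq.symm.trans this) (by decide)
  · exact .inl ⟨n, ⟨e⟩⟩
  · exact .inr (.inl ⟨n, ⟨e⟩⟩)
  · exact (k.not_simple hna (isQuad_plus _ _) (bPlus_sep _ _) hd).elim
  · exact (k.not_simple hna (isQuad_minus _ _ _ _) (bMinus_sep _ (by decide)) hd).elim
  · exact .inr (.inr (.inl (k.odd hna)))
  · exact .inr (.inr (.inr (.inl ⟨‹_›, FG.card22 ⟨h, hZ, lev22 h.toT3 k⟩⟩)))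
  · exact .inr (.inr (.inr (.inr ⟨‹_›, FG.card23 ⟨h, hZ, lev23 h.toT3 k⟩ k⟩)))
  · exact absurd ((QuotientGroup.eq_one_iff d).1 (no_sign hna Abelianization.of d)) (m.f24.not_mem hd)

end Cfsg.Agent.H21.FS
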