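import Mathlib
import Cfsg.Agent.H21.Fc10

/-! Components of a disconnected commuting graph: the primitive space of a component. -/

set_option autoImplicit false
set_option linter.unusedSectionVars false
set_option linter.unusedVariables false
set_option linter.style.haveILetI false

namespace Cfsg.Agent.H21.FS

open Cfsg Subgroup Cfsg.Agent.H19 Cfsg.Agent.H11 Module

universe u

variable {G : Type u} [Group G] {E : Set G}

/-- no fixed points -/
def NF (E : Set G) (g : G) : Prop := ∀ a ∈ E, ¬ Commute g a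

/-- the properties of a component -/
structure Tw (E : Set G) : Prop where
  pg : PG E
  z : center G = ⊥
  two : ∃ g, g * g = 1 ∧ NF E g ∧ ∀ a ∈ E, Commute a (J g a)
  three : ∃ g, g ^ 3 = 1 ∧ NF E g
  wd : ∃ k, commutingWidth E = 2 ^ k

theorem Tw.not_cs (t : Tw E) (k : CS E 5) : False := by
  obtain ⟨n, -, e, he⟩ := k
  obtain ⟨g, g2, nf, -⟩ := t.two
  obtain ⟨a, ha, -⟩ := t.pg.wide
  have : e g ≠ 1 := fun k => nf a ha (by rw [e.map_eq_one_iff.1 k]; exact Commute.one_left a)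
  obtain ⟨i, hi⟩ : ∃ i, e g i ≠ i := by
    by_contra k
    push Not at k
    exact this (Equiv.ext k)
  obtain ⟨x, hx, ex⟩ := he.symm.subset (⟨i, e g i, hi.symm, rfl⟩ : (Equiv.swap i (e g i)).IsSwap)
  refine nf x hx ((commute_map (φ := e.toMonoidHom) e.injective).1 (J_eq_self.1 ?_))
  change J (e g) (e x) = e x
  rw [ex, J_swap, ← Equiv.Perm.mul_apply, ← map_mul, g2, map_one, Equiv.swap_comm]
  rfl

theorem Tw.thin [Finite G] (t : Tw E) : Thin E := fun d e a f hf => by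
  by_contra k
  push Not at k
  obtain ⟨g, g2, nf, c⟩ := t.two
  have h := t.pg
  have gg : ∀ x, J g (J g x) = x := fun x => by rw [← J_mul, g2, J_one]
  have a' : Ad E d (J g d) := ⟨a.l, h.conj g d a.l, fun e => nf d a.l (J_eq_self.1 e.symm), c d a.l⟩
  have h3 : 3 ≤ (Ln E d (J g d)).ncard := by
    rw [ncard_Ln h a' a]
    exact (Set.two_lt_ncard_iff (Set.toFinite _)).2 ⟨d, e, f, left_mem a.l _, right_mem a.r _, hf,
      a.ne, k.1.symm, k.2.symm⟩
  refine Nat.not_even_iff_odd.2 (odd_line h (line h a') h3) (even_of_invol (Set.toFinite _) (J g)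
    (fun x hx => ?_) (fun x _ => gg x) fun x hx e => nf x hx.1 (J_eq_self.1 e))
  have := J_mem_Ln h.toTG g hx
  rwa [gg, Ln_symm] at this

theorem not_pow {k n : ℕ} (e : n = 2 ^ k) {j : ℕ} (h1 : 2 ^ j < n) (h2 : n < 2 ^ (j + 1)) : False := by
  rw [e, Nat.pow_lt_pow_iff_right (by decide)] at h1 h2
  omega

theorem Tw.not_lev [Finite G] (t : Tw E) {n : ℕ} (l : Lev n E) (hn : n ≤ 3) : False := by
  obtain ⟨k, e⟩ := t.wd
  rw [l.width] at e
  exact not_pow e (j := 4) (by omega) (by omega)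

section two
variable {ι : Type} [Fintype ι] [DecidableEq ι]
  {B : (ι → ZMod 2) →ₗ[ZMod 2] (ι → ZMod 2) →ₗ[ZMod 2] ZMod 2} {Q : (ι → ZMod 2) → ZMod 2}

theorem CO.fix (q : IsQuad B Q) (s : B.SeparatingLeft) (k : CO E Q) :
    ∃ ρ : G →* Isom B Q, ∀ g, NF E g → ∀ v, Q v = 1 → (ρ g).1 v ≠ v := by
  obtain ⟨e, he⟩ := k
  refine ⟨(e.trans (oEquiv q)).toMonoidHom, fun g nf v hv k => ?_⟩
  obtain ⟨x, hx, ex⟩ := he.symm.subset ((o_class_mat q ((oEquiv q).symm (q.reflO v)) s).2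
    (by rw [MulEquiv.apply_symm_apply]; exact ⟨v, hv, el_refl q hv⟩))
  refine nf x hx ((commute_map (φ := (e.trans (oEquiv q)).toMonoidHom)
    (e.trans (oEquiv q)).injective).1 (J_eq_self.1 ?_))
  have : (e.trans (oEquiv q)).toMonoidHom x = q.reflO v := by simp [ex]
  rw [this, J, q.conj_reflO, k]

theorem Tw.not_minus (t : Tw E) {m : ℕ} (k : CO E (quadFormMinus m (ZMod 2) 1 1)) : False := by
  have an : ∀ z₁ z₂ : ZMod 2, z₁ ^ 2 + 1 * z₁ * z₂ + 1 * z₂ ^ 2 = 0 → z₁ = 0 ∧ z₂ = 0 := by decide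
  have q := isQuad_minus m (ZMod 2) 1 1
  have s := bMinus_sep m an
  obtain ⟨ρ, hρ⟩ := k.fix q s
  obtain ⟨g, g2, nf, -⟩ := t.two
  let N := (ρ g).1.toLinearMap - LinearMap.id
  have mN : ∀ x, x ∈ LinearMap.ker N ↔ (ρ g).1 x = x := fun x => by simp [N, sub_eq_zero]
  have q0 : ∀ x ∈ LinearMap.ker N, quadFormMinus m (ZMod 2) 1 1 x = 0 := fun x hx =>
    by_contra fun n => hρ g nf x (z2 _ n) ((mN x).1 hx)
  have h1 := q.finrank_le_wittIdx s (wittIdx_minus m an) (W := LinearMap.ker N) ⟨q0, fun x hx y hy => by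
    have := q.add' x y
    rw [q0 x hx, q0 y hy, q0 _ (add_mem hx hy)] at this
    simpa using this.symm⟩
  have h2 := N.finrank_range_add_finrank_ker
  have h3 : LinearMap.range N ≤ LinearMap.ker N := by
    rintro _ ⟨x, rfl⟩
    have : (ρ g).1 ((ρ g).1 x) = x := by
      rw [← LinearEquiv.mul_apply, ← coe_mul, ← map_mul, g2, map_one]; rfl
    rw [mN]
    simp only [N, LinearMap.sub_apply, LinearEquiv.coe_coe, LinearMap.id_apply, map_sub, this]
    rw [← neg_sub, ZModModule.neg_eq_self]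
  have h4 := Submodule.finrank_mono h3
  have h5 : finrank (ZMod 2) ((Fin m ⊕ Fin m) ⊕ Fin 2 → ZMod 2) = 2 * (m + 1) := by simp; ring
  omega

theorem card28 : Fintype.card {v : Fin 3 ⊕ Fin 3 → ZMod 2 // quadFormPlus 3 (ZMod 2) v = 1} = 28 := by
  decide +kernel

theorem Tw.not_plus3 (t : Tw E) (k : CO E (quadFormPlus 3 (ZMod 2))) : False := by
  obtain ⟨ρ, hρ⟩ := k.fix (isQuad_plus 3 _) (bPlus_sep 3 _)
  obtain ⟨g, g3, nf⟩ := t.three
  haveI : Fact (Nat.Prime 3) := ⟨Nat.prime_three⟩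
  obtain ⟨v, hv⟩ := Equiv.Perm.exists_fixed_point_of_prime (p := 3) (n := 1)
    (α := {v // quadFormPlus 3 (ZMod 2) v = 1}) (by rw [card28]; decide)
    (σ := Equiv.Perm.subtypePerm (ρ g).1.toEquiv fun v => by simp [(ρ g).2.2]) (Equiv.ext fun v => by
      have : (ρ g).1 ((ρ g).1 ((ρ g).1 v)) = v := by
        rw [← LinearEquiv.mul_apply, ← LinearEquiv.mul_apply, ← coe_mul, ← coe_mul, ← map_mul,
          ← map_mul, ← pow_three', g3, map_one]; rfl
      exact Subtype.ext this)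
  exact hρ g nf v v.2 (congrArg Subtype.val hv)

end two

section three
variable {V : Type} [AddCommGroup V] [Module (ZMod 3) V] [Finite V]
  {B : V →ₗ[ZMod 3] V →ₗ[ZMod 3] ZMod 3} {Q : V → ZMod 3} {c : ZMod 3} {P : G → V → Prop}

theorem M3M.iso (m : M3M E B Q c P) (h : TG E) (hZ : center G = ⊥) :
    ∃ e : G ≃* Qt (Rf m.q c), ∀ d v (k : P d v),
      e d = QuotientGroup.mk ⟨m.q.reflO v, subset_closure ⟨v, m.nm k, rfl⟩⟩ := by
  have q := m.q
  have c0 := m.c0
  obtain ⟨g, -, -⟩ := tclass_iff.1 (class_R3 (h := q) m.sep m.dim c0)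
  have : ∀ a, a ∈ E → ∃ s : closure (R3 q c), ∃ v, P a v ∧ s.1 = IsQuad.reflO q v := fun a ha => by
    obtain ⟨v, hv⟩ := m.ex1 ha
    exact ⟨⟨_, subset_closure ⟨v, m.nm hv, rfl⟩⟩, v, hv, rfl⟩
  choose! T ψ hψ hT using this
  have pm : ∀ {a v}, P a v → T a = IsQuad.reflO q v := fun {a v} k => by
    rw [hT a (m.mem k)]
    rcases m.un2 (hψ a (m.mem k)) k with e | e
    · rw [e]
    · rw [e, refl_neg]
  have bij : Set.BijOn T E (sub (R3 q c)) := ⟨fun a ha => ⟨_, m.nm (hψ a ha), hT a ha⟩,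
    fun a ha a' ha' e => by
      rcases refl_inj q ((m.nm (hψ a ha)).trans_ne c0) ((hT a ha).symm.trans (e ▸ hT a' ha')) with k | k
      · exact m.un1 (hψ a ha) (k ▸ hψ a' ha')
      · exact m.un1 (hψ a ha) (by rw [k]; exact m.neg (hψ a' ha')),
    fun s ⟨w, hw, k⟩ => by
      obtain ⟨a, ha⟩ := m.ex2 hw
      exact ⟨a, m.mem ha, Subtype.ext ((pm ha).trans k.symm)⟩⟩
  obtain ⟨e, he⟩ := kei' h g T bij (fun a ha a' ha' => Subtype.ext (by
    have := m.refl h.toT3 h.cl (hψ a ha) (hψ a' ha')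
    rw [pm this, J_coe, hT a ha, hT a' ha', J_refl, m.nm (hψ a ha),
      inv_eq_of_mul_eq_one_right (z3sq c c0)])) hZ
  exact ⟨e, fun d v k => (he d (m.mem k)).trans (congrArg _ (Subtype.ext (pm k)))⟩

theorem eig (q : IsQuad B Q) (g : Isom B Q) (g2 : ∀ x, g.1 (g.1 x) = x) {s : ZMod 3} (s2 : s * s = 1) :
    NondegOn B (LinearMap.ker ((g.1 : V →ₗ[ZMod 3] V) - s • LinearMap.id)) ∨ ¬ B.SeparatingLeft := by
  refine or_iff_not_imp_right.2 fun sep x hx k => not_not.1 sep x fun y => ?_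
  have hx' : g.1 x = s • x := by simpa [sub_eq_zero] using hx
  have := k (y + s • g.1 y) (by simp [g2, smul_smul, s2, add_comm])
  have e : B x (g.1 y) = s * B x y := by
    rw [← g.2.1 x (g.1 y), g2, hx']; simp
  rw [map_add, map_smul, e, smul_eq_mul, ← mul_assoc, s2, one_mul, ← two_mul] at this
  exact (mul_eq_zero.1 this).resolve_left (by decide)

theorem Tw.even (t : Tw E) (m : M3M E B Q c P) : Even (finrank (ZMod 3) V) := by
  obtain ⟨e, he⟩ := m.iso t.pg.toTG t.z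
  obtain ⟨z, z2, nf, -⟩ := t.two
  obtain ⟨g, hg⟩ := QuotientGroup.mk_surjective (e z)
  obtain ⟨x, hx, y, hy, nc⟩ := exn_R3 (h := m.q) m.sep m.dim m.c0
  have : g * g ∈ center _ := by
    rw [← QuotientGroup.eq_one_iff, QuotientGroup.mk_mul, hg, ← map_mul, z2, map_one]
  rcases zc_Rf m.sep m.dim m.c0 hx hy nc (mem_center_closure.1 this) with k | k
  · exfalso
    have g2 : ∀ x, g.1.1 (g.1.1 x) = x := fun x => by
      rw [← LinearEquiv.mul_apply, ← coe_mul, ← coe_mul, k]; rfl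
    have key : ∀ s : ZMod 3, s * s = 1 → finrank (ZMod 3)
        (LinearMap.ker ((g.1.1 : V →ₗ[ZMod 3] V) - s • LinearMap.id)) < 2 := fun s s2 => by
      by_contra n
      obtain ⟨v, hv, qv⟩ := m.q.exists_eq_on ((eig m.q g.1 g2 s2).resolve_right (not_not.2 m.sep))
        (not_lt.1 n) c
      have hv' : g.1.1 v = s • v := by simpa [sub_eq_zero] using hv
      obtain ⟨d, hd⟩ := m.ex2 qv
      refine nf d (m.mem hd) ((commute_map (φ := e.toMonoidHom) e.injective).1 ?_)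
      change Commute (e z) (e d)
      rw [he d v hd, ← hg]
      refine Commute.map (f := QuotientGroup.mk' _) (commute_coe.2 (J_eq_self.1 ?_))
      rw [J, m.q.conj_reflO, hv', m.q.reflO_smul (left_ne_zero_of_mul_eq_one s2)]
    have h1 := key 1 rfl
    have h2 := key (-1) rfl
    have h3 := Submodule.finrank_add_le_finrank_add_finrank
      (LinearMap.ker ((g.1.1 : V →ₗ[ZMod 3] V) - (1 : ZMod 3) • LinearMap.id))
      (LinearMap.ker ((g.1.1 : V →ₗ[ZMod 3] V) - (-1 : ZMod 3) • LinearMap.id))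
    have h4 : LinearMap.ker ((g.1.1 : V →ₗ[ZMod 3] V) - (1 : ZMod 3) • LinearMap.id) ⊔
        LinearMap.ker ((g.1.1 : V →ₗ[ZMod 3] V) - (-1 : ZMod 3) • LinearMap.id) = ⊤ :=
      eq_top_iff.2 fun x _ => Submodule.mem_sup.2 ⟨-(x + g.1.1 x), by simp [g2, add_comm],
        -(x - g.1.1 x), by simp [g2], by
          have t : (3 : ZMod 3) • x = 0 := by rw [show (3 : ZMod 3) = 0 from rfl, zero_smul]
          linear_combination (norm := module) -t⟩
    rw [h4, finrank_top] at h3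
    have := m.dim
    omega
  · have h1 : g.1.1.toLinearMap * g.1.1.toLinearMap = (-1 : ZMod 3) • LinearMap.id := LinearMap.ext fun x => by
      have := congrArg (fun γ : Isom B Q => γ.1 x) k
      simpa using this
    have h2 := congrArg LinearMap.det h1
    rw [map_mul, LinearMap.det_smul, LinearMap.det_id, mul_one] at h2
    by_contra n
    rw [(Nat.not_even_iff_odd.1 n).neg_one_pow] at h2
    exact (by decide : ∀ a : ZMod 3, a * a ≠ -1) _ h2

theorem Tw.not_six [Finite G] (t : Tw E) (m : M3M E B Q c P) (h6 : finrank (ZMod 3) V = 6) : False := by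
  classical
  obtain ⟨k, e⟩ := t.wd
  refine not_pow e (j := 2) ?_ ?_
  · obtain ⟨b, b1, b2, -⟩ := m.q.exists_orth_basis m.sep (by decide) (n := 5) h6 m.c0
    choose d hd using fun i => m.ex2 (b2 i)
    have key : ∀ i j, i ≠ j → d i ≠ d j ∧ Commute (d i) (d j) := fun i j n =>
      m.cm0 (hd i) (hd j) (b1 _ _ fun e => n (Fin.castSucc_injective _ e))
    have := ncard_le_width (D := E) (E := Set.range d) (by rintro _ ⟨i, rfl⟩; exact m.mem (hd i)) (by
      rintro _ ⟨i, rfl⟩ _ ⟨j, rfl⟩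
      by_cases n : i = j
      · rw [n]
      · exact (key i j n).2)
    rw [Set.ncard_range_of_injective fun i j e => by_contra fun n => (key i j n).1 e] at this
    simp only [Nat.card_eq_fintype_card, Fintype.card_fin] at this
    omega
  · obtain ⟨S⟩ : Nonempty (Sylow 2 G) := inferInstance
    rw [← t.pg.toTG.width_eq S]
    choose v hv using fun x : {d | d ∈ E ∧ d ∈ S} => m.ex1 x.2.1
    haveI := Fintype.ofFinite {d | d ∈ E ∧ d ∈ S}
    have := (LinearMap.linearIndependent_of_isOrthoᵢ (B := B) (v := v) (fun i j n =>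
      (m.cm (hv i) (hv j) fun e => n (Subtype.ext e)).1 (t.pg.toT3.commute_of_pgroup2 S.isPGroup'
        i.2.1 j.2.1 i.2.2 j.2.2)) fun i => m.self_ne (hv i)).fintype_card_le_finrank
    rw [← Nat.card_eq_fintype_card, h6] at this
    exact Nat.lt_of_le_of_lt this (by decide)

theorem Tw.m3 [Finite G] (t : Tw E) (m : M3M E B Q c P) :
    (∃ m, 4 ≤ m ∧ Nonempty (commutator G ≃* POmega (ZMod 3) (quadFormPlus m (ZMod 3)))) ∨
      ∃ m, 4 ≤ m ∧ Nonempty (commutator G ≃* POmega (ZMod 3) (quadFormMinus (m - 1) (ZMod 3) 0 1)) := by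
  obtain ⟨e, -⟩ := m.iso t.pg.toTG t.z
  obtain ⟨x, hx, y, hy, nc⟩ := exn_R3 (h := m.q) m.sep m.dim m.c0
  obtain ⟨f⟩ := comm_qt m.sep m.dim m.c0 hx hy nc
  obtain ⟨k, hk⟩ := t.even m
  have := m.dim
  have : finrank (ZMod 3) V ≠ 6 := t.not_six m
  obtain ⟨k, rfl⟩ : ∃ l, k = l + 1 := ⟨k - 1, by omega⟩
  have k4 : 4 ≤ k + 1 := by omega
  have an : ∀ z₁ z₂ : ZMod 3, z₁ ^ 2 + 0 * z₁ * z₂ + 1 * z₂ ^ 2 = 0 → z₁ = 0 ∧ z₂ = 0 := by decide
  rcases m.q.wittIdx_even_cases m.sep (m := k) (by omega) with r | r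
  · have d : finrank (ZMod 3) (Fin (k + 1) ⊕ Fin (k + 1) → ZMod 3) = k + 1 + (k + 1) := by simp
    obtain ⟨g, g1, g2⟩ := m.q.exists_equiv_of_wittIdx m.sep
      (isQuad_plus _ _) (bPlus_sep _ _) ⟨_, hk⟩ (hk.trans d.symm) r (wittIdx_plus _ _)
    exact .inl ⟨k + 1, k4, ⟨(commutatorEquiv e).trans (f.trans ((quotCenterEquiv
      (commutatorEquiv (isomCongr g g1 g2))).trans (pomegaEquiv (isQuad_plus _ _)).symm))⟩⟩
  · have d : finrank (ZMod 3) ((Fin k ⊕ Fin k) ⊕ Fin 2 → ZMod 3) = k + 1 + (k + 1) := by simp; ring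
    obtain ⟨g, g1, g2⟩ := m.q.exists_equiv_of_wittIdx m.sep
      (isQuad_minus _ _ _ _) (bMinus_sep _ an) ⟨_, hk⟩ (hk.trans d.symm) r (wittIdx_minus _ an)
    exact .inr ⟨k + 1, k4, ⟨(commutatorEquiv e).trans (f.trans ((quotCenterEquiv
      (commutatorEquiv (isomCongr g g1 g2))).trans (pomegaEquiv (isQuad_minus _ _ _ _)).symm))⟩⟩

end three

theorem Tw.cases [Finite G] (t : Tw E) :
    (∃ m, 4 ≤ m ∧ Nonempty (commutator G ≃* Omega (ZMod 2) (quadFormPlus m (ZMod 2)))) ∨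
    (∃ m, 4 ≤ m ∧ Nonempty (commutator G ≃* POmega (ZMod 3) (quadFormPlus m (ZMod 3)))) ∨
      ∃ m, 4 ≤ m ∧ Nonempty (commutator G ≃* POmega (ZMod 3) (quadFormMinus (m - 1) (ZMod 3) 0 1)) := by
  have h := t.pg
  rcases kn h t.z with s | k | ⟨V, _, _, _, B, Q, c, P, m⟩ | k | k | ⟨l, k, c, m⟩
  · by_cases d4 : D4 E
    swap
    · obtain ⟨n, e, n5, he⟩ := sym_class h s d4
      exact (t.not_cs ⟨n, n5, e, he⟩).elim
    rcases tri h with k | k | k | ⟨k, w⟩
    · exact (not_thin h le_rfl k t.thin).elim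
    · exact (not_thin h (by decide) k t.thin).elim
    · obtain ⟨y, hy, a, ha, e, he, f, hf, n1, n2, n3, c1, c2, c3, -⟩ := d4
      exact absurd c3 (k.line h.toT3 ha ⟨he, n1.symm, c1⟩ ⟨hf, n2.symm, c2⟩ n3).1
    rcases co h t.z s k w d4 with ⟨m, m3, k⟩ | ⟨m, -, k⟩
    · rcases m3.eq_or_lt with rfl | m4
      · exact (t.not_plus3 k).elim
      · obtain ⟨e, -⟩ := k
        exact .inl ⟨m, m4, ⟨commutatorEquiv e⟩⟩
    · exact (t.not_minus k).elim
  · exact (not_thin h (by decide) k t.thin).elim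
  · exact .inr (t.m3 m)
  · exact (t.not_lev (lev22 h.toT3 k) (by decide)).elim
  · exact (t.not_lev (lev23 h.toT3 k) (by decide)).elim
  · exact (t.not_lev m.f24.lev le_rfl).elim

end Cfsg.Agent.H21.FS
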