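import Mathlib
import Cfsg.Agent.H21.Fd1
import Cfsg.Agent.H11.Tri4
import Cfsg.Agent.S2606
import Cfsg.Agent.S2607
import Cfsg.Agent.S2608

/-! Groups generated by 3-transpositions with a disconnected commuting graph. -/

set_option autoImplicit false
set_option linter.unusedSectionVars false
set_option linter.unusedVariables false
set_option linter.style.haveILetI false

namespace Cfsg.Agent.H21.FS

open Cfsg Subgroup Cfsg.Agent.H19 Cfsg.Agent.H11 Module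

universe u

variable {G : Type u} [Group G]

/-- the hypotheses -/
structure Dc (D : Set G) (L : Subgroup G) : Prop where
  tg : TG D
  tr : Trans D
  z : center G = ⊥
  qs : IsQuasisimple L
  nc : ¬ Conn D

namespace Dc
variable [Finite G] {D : Set G} {L : Subgroup G} [L.Normal] (h : Dc D L) {d e c : G}
include h

theorem cen : centralizer (L : Set G) = ⊥ :=
  eq_bot_iff.2 (h.z ▸ (h.tg.normal_cases h.tr h.qs _ inferInstance).resolve_right
    (H2.not_le_centralizer_of_isQuasisimple h.qs))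

theorem le (hd : d ∈ D) : L ≤ closure (cls L d) :=
  le_cls_of_qs h.qs (by simp [normalizer_eq_top]) (h.tg.exists_moved h.tr (not_le_center_of_qs h.qs) hd)

theorem mul_mem (hd : d ∈ D) (he : e ∈ cls L d) : d * e ∈ L := by
  obtain ⟨y, hy, rfl⟩ := he
  exact mul_J_mem' (h.tg.sq d hd) hy

theorem mul_mem' (hd : d ∈ D) (he : e ∈ cls L d) (hc : c ∈ cls L d) : e * c ∈ L := by
  have := L.mul_mem (L.inv_mem (h.mul_mem hd he)) (h.mul_mem hd hc)
  rwa [mul_inv_rev, mul_assoc, inv_mul_cancel_left, h.tg.inv (h.tg.cls_sub L hd he)] at this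

theorem mem_cls (hd : d ∈ D) (he : e ∈ D) (m : d * e ∈ L) : e ∈ cls L d := by
  by_contra n
  refine h.tg.ne e he (mem_bot.1 (h.cen ▸ fun x hx => (commute_of_mem_closure (fun x hx => ?_)
    (h.le hd hx)).symm.eq))
  by_contra k
  have hx' := h.tg.cls_sub L hd hx
  have m' : x * e ∈ L := by
    have := L.mul_mem (L.inv_mem (h.mul_mem hd hx)) m
    rwa [mul_inv_rev, mul_assoc, inv_mul_cancel_left, h.tg.inv hx'] at this
  obtain ⟨y, hy, rfl⟩ := hx
  exact n ⟨_, L.mul_mem m' hy, by rw [J_mul, J_mul, h.tg.J_J_self he hx' k]⟩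

theorem nc' (hd : d ∈ D) (hc : c ∈ D) (n : c ∉ cls L d) (he : e ∈ cls L d) : ¬ Commute e c := fun k => by
  have he' := h.tg.cls_sub L hd he
  have := L.mul_mem (h.mul_mem hd he) (h.tg.mul_mem_of_commute h.tr h.qs he' hc
    (k.map (QuotientGroup.mk' L)))
  rw [mul_assoc, h.tg.cancel he'] at this
  exact n (h.mem_cls hd hc this)

theorem out (hd : d ∈ D) (hc : c ∈ D) (n : c ∉ cls L d) (he : e ∈ cls L c) : e ∉ cls L d := fun k => by
  obtain ⟨y, hy, rfl⟩ := he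
  obtain ⟨x, hx, e⟩ := k
  exact n ⟨_, L.mul_mem (L.inv_mem hy) hx, by rw [J_mul, e, J_inv_J]⟩

theorem tt (hd : d ∈ D) : (∃ e ∈ cls L d, ¬ Commute d e) ∧ ∃ e ∈ cls L d, e ≠ d ∧ Commute d e := by
  obtain ⟨⟨x, hx, k⟩, y, hy, k'⟩ := h.tg.two_three h.qs hd (by simp [normalizer_eq_top])
    (h.tg.exists_moved h.tr (not_le_center_of_qs h.qs) hd)
  exact ⟨⟨_, ⟨x, hx, rfl⟩, k⟩, _, ⟨y, hy, rfl⟩, k'⟩

theorem ex (hd : d ∈ D) : ∃ c ∈ D, c ∉ cls L d := by
  by_contra n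
  push Not at n
  obtain ⟨-, e, he, ne, k⟩ := h.tt hd
  have he' := h.tg.cls_sub L hd he
  exact h.nc (PG.conn ⟨h.tg, h.tg.prim_of_sup h.tr ⟨d, hd, e, he', ne.symm⟩ (h.tg.normal_cases h.tr h.qs)
    fun a ha => h.tg.sup_eq_top L ha fun b hb => h.mul_mem' hd (n a ha) (n b hb),
    d, hd, e, he', ne.symm, k⟩)

theorem not_mem (hd : d ∈ D) : d ∉ L := fun m => by
  obtain ⟨c, hc, n⟩ := h.ex hd
  obtain ⟨g, rfl⟩ := h.tr d hd c hc
  exact n (h.mem_cls hd hc (L.mul_mem m (J_mem_normal g m)))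

theorem pg (hd : d ∈ D) : PG (sub (cls L d)) ∧ center (closure (cls L d)) = ⊥ ∧
    Nonempty (commutator (closure (cls L d)) ≃* L) := by
  have tg := sub_tg (h.tg.toT3.mono (h.tg.cls_sub L hd)) (cls_cl (L := L) (d := d) (by simp [normalizer_eq_top]))
  have f := subgroupOfEquivOfLe (h.le hd)
  have qs := H2.isQuasisimple_of_equiv f.symm h.qs
  have tr : Trans (sub (cls L d)) := by
    rintro a ⟨x, hx, ea⟩ b ⟨y, hy, eb⟩
    exact ⟨⟨_, h.le hd (L.mul_mem hy (L.inv_mem hx))⟩, Subtype.ext (by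
      rw [J_coe, ← ea, ← eb, J_mul, J_inv_J])⟩
  obtain ⟨-, e, he, ne, k⟩ := h.tt hd
  have top : ∀ a ∈ sub (cls L d), zpowers a ⊔ L.subgroupOf (closure (cls L d)) = ⊤ := fun a ha =>
    tg.sup_eq_top _ ha fun b hb => h.mul_mem' hd ha hb
  have md := self_mem_cls L d
  have ne' : (⟨d, subset_closure md⟩ : closure (cls L d)) ≠ ⟨e, subset_closure he⟩ :=
    fun k => ne (congrArg Subtype.val k).symm
  have p : PG (sub (cls L d)) := ⟨tg, tg.prim_of_sup tr ⟨_, md, _, he, ne'⟩ (tg.normal_cases tr qs) top,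
    _, md, _, he, ne', commute_coe.2 k⟩
  have z : center (closure (cls L d)) = ⊥ := eq_bot_iff.2 fun z hz => Subtype.ext (mem_bot.1
    (h.cen ▸ fun x hx => congrArg Subtype.val (mem_center_iff.1 hz ⟨x, h.le hd hx⟩)))
  refine ⟨p, z, ⟨(MulEquiv.subgroupCongr (le_antisymm (commutator_le_of_sup
    (top ⟨d, subset_closure md⟩ md)) ((tg.normal_cases tr qs _ inferInstance).resolve_left
      fun k => ?_))).trans f⟩⟩
  rw [z, le_bot_iff, commutator_eq_bot_iff_center_eq_top] at k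
  exact p.not_central (v := ⟨d, subset_closure md⟩) md (k ▸ mem_top _)

theorem nf (hd : d ∈ D) (hc : c ∈ D) (n : c ∉ cls L d) (he : e ∈ cls L c) (ne : e ≠ c) :
    NF (sub (cls L d)) ⟨c * e, h.le hd (h.mul_mem hc he)⟩ := fun a ha k =>
  h.nc' hd hc n ha (h.tg.commute_mul hc (h.tg.cls_sub L hc he) (h.tg.cls_sub L hd ha) ne.symm
    (commute_coe.1 k).symm).1

theorem wd (hd : d ∈ D) : ∃ k, commutingWidth (sub (cls L d)) = 2 ^ k := by
  obtain ⟨c, hc, n⟩ := h.ex hd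
  obtain ⟨g, rfl⟩ := h.tr d hd c hc
  have p := (h.pg hd).1
  have pos : ∀ S : Sylow 2 (closure (cls L d)), ∃ a, a ∈ sub (cls L d) ∧ a ∈ S := fun S => by
    have := ncard_le_width (D := sub (cls L d)) (E := {⟨d, subset_closure (self_mem_cls L d)⟩})
      (by rintro _ rfl; exact self_mem_cls L d) (by rintro _ rfl _ rfl; rfl)
    rw [Set.ncard_singleton, ← p.toTG.width_eq S] at this
    exact Set.nonempty_of_ncard_ne_zero (Nat.one_le_iff_ne_zero.1 this)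
  obtain ⟨S0⟩ : Nonempty (Sylow 2 (closure (cls L d))) := inferInstance
  obtain ⟨x0, h0, h0'⟩ := pos S0
  have mc : ∀ x ∈ sub (cls L d), J g x ∈ cls L (J g d) := by
    rintro x ⟨y, hy, e⟩
    exact ⟨J g y, J_mem_normal g hy, by rw [J_J, e]⟩
  have mD : ∀ x ∈ sub (cls L d), J g x ∈ D := fun x hx => h.tg.cls_sub L hc (mc x hx)
  let t : {x | x ∈ sub (cls L d) ∧ x ∈ S0} → closure (cls L d) := fun x =>
    ⟨J g x0 * J g x.1, h.le hd (h.mul_mem' hc (mc _ h0) (mc _ x.2.1))⟩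
  have cm : ∀ x y : closure (cls L d), x ∈ sub (cls L d) ∧ x ∈ S0 → y ∈ sub (cls L d) ∧ y ∈ S0 →
      Commute (J g x.1) (J g y.1) := fun x y hx hy => commute_J.2 (commute_coe.1
        (p.toT3.commute_of_pgroup2 S0.isPGroup' hx.1 hy.1 hx.2 hy.2))
  have pg2 : IsPGroup 2 (closure (Set.range t)) := isPGroup_closure_of_commute (by
    rintro _ ⟨x, rfl⟩
    exact Subtype.ext (h.tg.mul_sq (mD _ h0) (mD _ x.2.1) (cm _ _ ⟨h0, h0'⟩ x.2))) (by
    rintro _ ⟨x, rfl⟩ _ ⟨y, rfl⟩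
    exact commute_coe.2 (((Commute.refl _).mul_right (cm _ _ ⟨h0, h0'⟩ y.2)).mul_left
      ((cm _ _ x.2 ⟨h0, h0'⟩).mul_right (cm _ _ x.2 y.2))))
  obtain ⟨S, hS⟩ := pg2.exists_le_sylow
  obtain ⟨a, ha, ha'⟩ := pos S
  obtain ⟨k, hk⟩ := (pg2.map (MulAut.conj : _ →* MulAut _)).card_orbit a
  refine ⟨k, hk ▸ le_antisymm ?_ ?_⟩
  · rw [← p.toTG.width_eq S0]
    refine Nat.card_le_card_of_injective (fun x => ⟨J (t x) a,
      ⟨_, _, subset_closure ⟨x, rfl⟩, rfl⟩, rfl⟩) fun x y e => ?_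
    have e' : J (J g x0 * J g x.1) a.1 = J (J g x0 * J g y.1) a.1 :=
      congrArg (fun z => z.1.1) e
    rw [J_mul, J_mul, J_inj] at e'
    exact Subtype.ext (Subtype.ext (J_inj.1 (h.tg.eq_of_J_eq (mD _ x.2.1) (h.tg.cls_sub L hd ha)
      (mD _ y.2.1) (fun k => h.nc' hd (mD _ x.2.1) (h.out hd hc n (mc _ x.2.1)) ha k.symm)
      (fun k => h.nc' hd (mD _ y.2.1) (h.out hd hc n (mc _ y.2.1)) ha k.symm) e')))
  · rw [← p.toTG.width_eq S]
    refine Set.ncard_le_ncard ?_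
    rintro _ ⟨⟨_, y, hy, rfl⟩, rfl⟩
    exact ⟨p.conj y a ha, show J y a ∈ S.1 from J_mem (hS hy) ha'⟩

theorem tw (hd : d ∈ D) : Tw (sub (cls L d)) := by
  obtain ⟨c, hc, n⟩ := h.ex hd
  obtain ⟨⟨x, hx, k⟩, y, hy, ne, k'⟩ := h.tt hc
  have hx' := h.tg.cls_sub L hc hx
  have hy' := h.tg.cls_sub L hc hy
  exact ⟨(h.pg hd).1, (h.pg hd).2.1, ⟨_, Subtype.ext (h.tg.mul_sq hc hy' k'), h.nf hd hc n hy ne,
    fun a ha => commute_coe.2 (by
      rw [J_coe, J_mul]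
      exact h.tg.s4 hc (h.tg.cls_sub L hd ha) hy' k' (fun k => h.nc' hd hc n ha k.symm)
        fun k => h.nc' hd hy' (h.out hd hc n hy) ha k.symm)⟩,
    ⟨_, Subtype.ext (h.tg.cube hc hx' k), h.nf hd hc n hx fun e => k (e ▸ Commute.refl _)⟩, h.wd hd⟩

theorem quot (hd : d ∈ D) : (∃ φ : Equiv.Perm (Fin 3) →* G ⧸ L, Function.Injective φ) ∧ ¬ 4 ∣ L.index := by
  have t := h.tg.image (QuotientGroup.mk' L) (QuotientGroup.mk'_surjective L)
    fun a ha e => h.not_mem ha ((QuotientGroup.eq_one_iff a).1 e)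
  obtain ⟨c, hc, n⟩ := h.ex hd
  obtain ⟨φ, inj, -⟩ := t.toT3.hom3 ⟨d, hd, rfl⟩ ⟨c, hc, rfl⟩
    fun k => n (h.mem_cls hd hc (h.tg.mul_mem_of_commute h.tr h.qs hd hc k))
  refine ⟨⟨φ, inj⟩, fun k => ?_⟩
  have w : W1 (QuotientGroup.mk' L '' D) := by
    rintro _ ⟨a, ha, rfl⟩ _ ⟨b, hb, rfl⟩ k
    have := h.tg.mul_mem_of_commute h.tr h.qs ha hb k
    rw [← h.tg.inv ha] at this
    exact QuotientGroup.eq.2 this
  have i := index_le_two_of_sup (t.sq _ ⟨d, hd, rfl⟩) (t.sup_eq_top (pCore 3 (G ⧸ L)) ⟨d, hd, rfl⟩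
    fun a ha => t.mul_mem_O3 w ⟨d, hd, rfl⟩ ha)
  haveI : Fact (Nat.Prime 3) := ⟨Nat.prime_three⟩
  obtain ⟨j, hj⟩ := IsPGroup.iff_card.1 (H2.pCore_isPGroup (G := G ⧸ L) (p := 3))
  rw [index, ← card_mul_index (pCore 3 (G ⧸ L)), hj] at k
  have := Nat.le_of_dvd (Nat.pos_of_ne_zero index_ne_zero_of_finite)
    ((Nat.Coprime.pow_right j (by decide : Nat.Coprime 4 3)).dvd_of_dvd_mul_left k)
  omega

theorem zL : center L = ⊥ := eq_bot_iff.2 fun z hz => Subtype.ext (mem_bot.1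
  (h.cen ▸ fun x hx => congrArg Subtype.val (mem_center_iff.1 hz ⟨x, hx⟩)))

theorem dvd {X : Type*} [Group X] (e : L ≃* X) : L.index ∣ Nat.card (Out X) := by
  obtain ⟨S, -, hS⟩ := exists_out_sub e ((injective_iff_map_eq_one _).2 fun x hx => by
    obtain ⟨x, rfl⟩ := e.surjective x
    rw [mem_bot.1 (h.zL ▸ mem_center_iff.2 fun y => Eq.symm <| e.injective (by
      have := congrArg (fun β : MulAut X => β (e y)) hx
      simpa [mul_inv_eq_iff_eq_mul] using this) : x ∈ ⊥), map_one]) (h.cen ▸ bot_le)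
  exact hS ▸ S.card_subgroup_dvd_card

theorem main (hd : d ∈ D) : Nonempty (G ⧸ L ≃* Equiv.Perm (Fin 3)) ∧
    (Nonempty (L ≃* Omega (ZMod 2) (quadFormPlus 4 (ZMod 2))) ∨
      Nonempty (L ≃* POmega (ZMod 3) (quadFormPlus 4 (ZMod 3)))) := by
  obtain ⟨⟨φ, inj⟩, n4⟩ := h.quot hd
  obtain ⟨f⟩ := (h.pg hd).2.2
  have c6 : Nat.card (Equiv.Perm (Fin 3)) = 6 := by simp [Fintype.card_perm, Nat.factorial]
  have c24 : Nat.card (Equiv.Perm (Fin 4)) = 24 := by simp [Fintype.card_perm, Nat.factorial]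
  have d6 : 6 ∣ L.index := c6 ▸ card_dvd_of_injective φ inj
  have n8 : ¬ L.index ∣ 8 := fun k => absurd (d6.trans k) (by decide)
  have fin : L.index ∣ 24 → Nonempty (G ⧸ L ≃* Equiv.Perm (Fin 3)) := fun k =>
    ⟨(MulEquiv.ofBijective φ ((Nat.bijective_iff_injective_and_card φ).2 ⟨inj, by
      rw [c6, ← index]
      have := Nat.le_of_dvd (by decide) k
      generalize L.index = i at *
      interval_cases i <;> omega⟩)).symm⟩
  have an : ∀ z₁ z₂ : ZMod 3, z₁ ^ 2 + 0 * z₁ * z₂ + 1 * z₂ ^ 2 = 0 → z₁ = 0 ∧ z₂ = 0 := by decide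
  rcases (h.tw hd).cases with ⟨m, m4, ⟨e⟩⟩ | ⟨m, m4, ⟨e⟩⟩ | ⟨m, m4, ⟨e⟩⟩
  · have k := h.dvd (((QuotientGroup.quotientBot.symm.trans (QuotientGroup.quotientMulEquivOfEq
      h.zL.symm))).trans (quotCenterEquiv (f.symm.trans e)))
    have o := S2607.result (F := ZMod 2) (f := 1) le_rfl (by simp) m4
    split_ifs at o with H
    · subst H
      obtain ⟨o⟩ := o
      rw [Nat.card_congr o.toEquiv, Nat.card_prod, c6] at k
      exact ⟨fin (k.trans (by simp)), .inl ⟨f.symm.trans e⟩⟩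
    · obtain ⟨o⟩ := o
      rw [Nat.card_congr o.toEquiv] at k
      exact (n8 (k.trans (by simp))).elim
  · have k := h.dvd (f.symm.trans e)
    have o := S2608.result (F := ZMod 3) (p := 3) (f := 1) le_rfl (by simp) (by decide) m4
    split_ifs at o with H H'
    · subst H
      obtain ⟨o⟩ := o
      rw [Nat.card_congr o.toEquiv, Nat.card_prod, c24] at k
      exact ⟨fin (k.trans (by simp)), .inr ⟨f.symm.trans e⟩⟩
    · obtain ⟨o⟩ := o
      rw [Nat.card_congr o.toEquiv] at k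
      exact (n8 (k.trans (by simp))).elim
    · obtain ⟨o⟩ := o
      rw [Nat.card_congr o.toEquiv] at k
      exact (n8 (k.trans (by simp [DihedralGroup.card]))).elim
  · have k := h.dvd (f.symm.trans e)
    have o := S2606.result (F := ZMod 3) (p := 3) (f := 1) le_rfl (by simp) (by decide) m4 0 1 an
    split_ifs at o with H
    · obtain ⟨o⟩ := o
      rw [Nat.card_congr o.toEquiv] at k
      exact (n8 (k.trans (by simp [DihedralGroup.card]))).elim
    · obtain ⟨o⟩ := o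
      rw [Nat.card_congr o.toEquiv] at k
      exact (n8 (k.trans (by simp))).elim

end Dc

theorem s5362 [Finite G] {D : Set G} (hD : IsThreeTranspositionClass D) (hZ : center G = ⊥)
    (h2 : pCore 2 G = ⊥) (h3 : pCore 3 G = ⊥) (nc : ¬ (commutingGraph D).Connected) (F : Subgroup G)
    [F.Normal] (hF : F = generalizedFittingSubgroup G) : Nonempty (G ⧸ F ≃* Equiv.Perm (Fin 3)) ∧
    (Nonempty (F ≃* Omega (ZMod 2) (quadFormPlus 4 (ZMod 2))) ∨
      Nonempty (F ≃* POmega (ZMod 3) (quadFormPlus 4 (ZMod 3)))) := by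
  obtain ⟨tg, t, d, hd⟩ := tclass_iff.1 hD
  rw [conn_iff ⟨d, hd⟩] at nc
  obtain ⟨L, -, qs, e⟩ := tg.exists_L t (by
    by_contra n
    push Not at n
    exact nc fun B hB ⟨b, hb⟩ _ a ha => n b (hB hb) a ha ▸ hb) (h2 ▸ bot_le) (h3 ▸ bot_le)
  rw [hZ, sup_bot_eq, ← hF] at e
  exact Dc.main ⟨tg, t, hZ, e ▸ qs, nc⟩ hd

end Cfsg.Agent.H21.FS
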