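import Mathlib
import Cfsg.Agent.FT.BG01
import Cfsg.Agent.H10.SL
import Cfsg.Agent.H10.SL2
import Cfsg.Agent.H19.SL2
/-! Normalizers in a simple group of order `1092`. -/
set_option autoImplicit false
set_option linter.unusedSectionVars false
set_option linter.unusedVariables false
set_option linter.style.haveILetI false
namespace Cfsg.Agent.H21.L13
open Subgroup Cfsg.Agent.FT

variable {G : Type*} [Group G] [Finite G] {H M P : Subgroup G} {p : ℕ} {u x : G}

theorem cnt (hp : p.Prime) (hP : Syl p P M) : N(P).relIndex M % p = 1 := by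
  have := Fact.mk hp
  obtain ⟨T, hT⟩ := (syl_iff_sylow hp hP.le).1 hP
  have := card_sylow_modEq_one p M
  rwa [T.card_eq_index_normalizer, ← T.coe_coe, hT, ← so_nrm hP.le, ← relIndex, Nat.ModEq,
    Nat.mod_eq_of_lt hp.one_lt] at this

section
variable [IsSimpleGroup G] (hG : Nat.card G = 1092)
include hG

theorem dv (M : Subgroup G) : #M ∣ 1092 := hG ▸ card_subgroup_dvd_card M

theorem le84 (h : M ≠ ⊤) : #M ≤ 84 := by
  have f1 : M.normalCore.index ∣ M.index.factorial := by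
    rw [normalCore_eq_ker, index_ker]
    refine (card_subgroup_dvd_card _).trans ?_
    rw [Nat.card_perm]; rfl
  rw [(M.normalCore_normal.eq_bot_or_eq_top).resolve_right fun e => h (top_le_iff.1 (e ▸ M.normalCore_le)),
    index_bot, hG] at f1
  have f2 := (Nat.Prime.dvd_factorial (by norm_num)).1 ((show 13 ∣ 1092 by norm_num).trans f1)
  have f3 := M.card_mul_index
  rw [hG] at f3
  nlinarith

theorem nt (h1 : H ≠ ⊥) (h2 : H ≠ ⊤) : N(H) ≠ ⊤ := fun e =>
  ((normalizer_eq_top_iff.1 e).eq_bot_or_eq_top).elim h1 h2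

theorem nt' {n : ℕ} (h : #H = n) (h1 : n ≠ 1) (h2 : n ≠ 1092) : N(H) ≠ ⊤ :=
  nt hG (fun e => h1 (by rw [← h, e, card_bot])) fun e => h2 (by rw [← h, e, card_top, hG])

theorem sy (hp : p.Prime) {k : ℕ} (hP : #P = p ^ k) (h : ¬ p ^ (k + 1) ∣ 1092) (hle : P ≤ M) : Syl p P M :=
  syl_of_not_dvd hle (pGrp_of_card hp hP) fun e => h (by
    refine Dvd.dvd.trans ?_ (dv hG M)
    rw [← card_mul_relIndex hle, hP, pow_succ]; exact Nat.mul_dvd_mul_left _ e)

theorem burn (hS : Syl p P ⊤) (h1 : P ≠ ⊥) (h2 : P ≠ ⊤) : ¬ N(P) ≤ C(P) := fun h => by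
  have a := (Burnside_normal_complement hS (inf_le_right.trans h)).sd hS
  rcases (nml_top_iff.1 a.nml).eq_bot_or_eq_top with e | e
  · exact h2 (by simpa [e] using a.sup)
  · exact h1 (by simpa [e] using a.inf)

theorem ix (M : Subgroup G) : #M * M.relIndex ⊤ = 1092 := by rw [relIndex_top_right, M.card_mul_index, hG]

theorem n13 (h : #P = 13) : #N(P) = 78 := by
  have a := cnt (by norm_num) (sy hG (p := 13) (k := 1) (by norm_num) h (by norm_num) le_top)
  have b := le84 hG (nt' hG h (by norm_num) (by norm_num))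
  have c := ix hG N(P)
  obtain ⟨k, hk⟩ := h ▸ card_dvd_of_le (le_normalizer : P ≤ N(P))
  rw [hk] at b c ⊢
  have : k ≤ 6 := by omega
  interval_cases k <;> omega

theorem n7 (h : #P = 7) : #N(P) = 14 := by
  have a := cnt (by norm_num) (sy hG (p := 7) (k := 1) (by norm_num) h (by norm_num) le_top)
  have b := le84 hG (nt' hG h (by norm_num) (by norm_num))
  have c := ix hG N(P)
  obtain ⟨k, hk⟩ := h ▸ card_dvd_of_le (le_normalizer : P ≤ N(P))
  rw [hk] at b c ⊢
  have : k ≤ 12 := by omega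
  interval_cases k <;> omega

theorem big (h : M ≠ ⊤) (hp : p = 7 ∨ p = 13) (hP : #P = p) (hle : P ≤ M) : M ≤ N(P) := by
  have a := cnt (by rcases hp with rfl | rfl <;> norm_num) (sy hG (p := p) (k := 1)
    (by rcases hp with rfl | rfl <;> norm_num) (by rw [hP, pow_one]) (by rcases hp with rfl | rfl <;> norm_num) hle)
  have b := le84 hG h
  have c := card_inf_mul_relIndex N(P) M
  have d := hP ▸ card_le_of_le (le_inf le_normalizer hle : P ≤ N(P) ⊓ M)
  have e := (relIndex_dvd N(P) M).trans (dv hG M)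
  rw [← relIndex_eq_one]
  generalize N(P).relIndex M = n at *
  have : n ≤ 12 := by rcases hp with rfl | rfl <;> nlinarith
  rcases hp with rfl | rfl <;> interval_cases n <;> omega

omit hG in
theorem ex (hp : p.Prime) (h : p ∣ #M) : ∃ P, P ≤ M ∧ #P = p := by
  obtain ⟨x, hx, ho⟩ := exists_elt_of_prime_dvd hp h
  exact ⟨⟪x⟫, zpowers_le.2 hx, by rw [Nat.card_zpowers, ho]⟩

theorem twelve (h7 : ¬ 7 ∣ #M) (h13 : ¬ 13 ∣ #M) : #M ∣ 12 :=
  ((Nat.coprime_comm.1 ((Nat.Prime.coprime_iff_not_dvd (by norm_num)).2 h7)).mul_right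
    (Nat.coprime_comm.1 ((Nat.Prime.coprime_iff_not_dvd (by norm_num)).2 h13))).dvd_of_dvd_mul_left (dv hG M)

theorem prop (h : M ≠ ⊤) : #M ∣ 78 ∨ #M ∣ 14 ∨ #M ∣ 12 := by
  by_cases h13 : 13 ∣ #M
  · obtain ⟨P, a, b⟩ := ex (by norm_num) h13
    exact Or.inl (n13 hG b ▸ card_dvd_of_le (big hG h (Or.inr rfl) b a))
  by_cases h7 : 7 ∣ #M
  · obtain ⟨P, a, b⟩ := ex (by norm_num) h7
    exact Or.inr (Or.inl (n7 hG b ▸ card_dvd_of_le (big hG h (Or.inl rfl) b a)))
  exact Or.inr (Or.inr (twelve hG h7 h13))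

omit hG in
theorem num {k n : ℕ} (h : n ∣ 78 ∨ n ∣ 14 ∨ n ∣ 12) (hk : k ∣ n) : (k = 78 ∨ k = 14 ∨ k = 12 → n = k) ∧
    (k = 4 → n = 4 ∨ n = 12) ∧ (k = 6 → n = 6 ∨ n = 12 ∨ n = 78) := by
  have : n ≤ 78 := by rcases h with h | h | h <;> have := Nat.le_of_dvd (by norm_num) h <;> omega
  refine ⟨?_, ?_, ?_⟩
  · rintro (rfl | rfl | rfl) <;> interval_cases n <;> omega
  · rintro rfl; interval_cases n <;> omega
  · rintro rfl; interval_cases n <;> omega

theorem up (h1 : H ≠ ⊥) (h2 : H ≠ ⊤) (hM : M ≤ N(H)) (h : #M = 78 ∨ #M = 14 ∨ #M = 12) : IsCoatom N(H) := by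
  refine ⟨nt hG h1 h2, fun L hL => by_contra fun e => hL.ne (eq_of_le_of_card_ge hL.le ?_)⟩
  rw [(num (prop hG e) (card_dvd_of_le (hM.trans hL.le))).1 h]
  exact card_le_of_le hM

theorem n3 (h : #P = 3) : #N(P) = 12 ∧ 2 ∣ #C(P) := by
  have s := sy hG (p := 3) (k := 1) (by norm_num) h (by norm_num) le_top
  have a := cnt (by norm_num) s
  have b := one_lt_relIndex (burn hG s (fun e => by simp [e] at h) fun e => by simp [e, hG] at h)
  have c := Nat.le_of_dvd (by norm_num) (relIndex_cen_dvd_pred Nat.prime_three h le_rfl)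
  have d := card_mul_relIndex (cen_le_nrm P)
  have e := h ▸ card_dvd_of_le (ab_of_card_dvd_sq Nat.prime_three (h ▸ by norm_num : #P ∣ 3 ^ 2)).le_cen
  have f := (num (prop hG (nt' hG h (by norm_num) (by norm_num))) (show 6 ∣ _ by
    rw [← d, show C(P).relIndex N(P) = 2 by omega]; omega)).2.2 rfl
  have g := ix hG N(P)
  have i : #N(P) = 12 := by rcases f with f | f | f <;> rw [f] at g <;> omega
  rw [show C(P).relIndex N(P) = 2 by omega] at d
  exact ⟨i, by omega⟩

theorem n4 (h : #P = 4) : #N(P) = 12 ∧ ¬ N(P) ≤ C(P) := by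
  have b := burn hG (sy hG (p := 2) (k := 2) (by norm_num) h (by norm_num) le_top) (fun e => by simp [e] at h)
    fun e => by simp [e, hG] at h
  refine ⟨((num (prop hG (nt' hG h (by norm_num) (by norm_num)))
    (h ▸ card_dvd_of_le le_normalizer)).2.1 rfl).resolve_left fun e => b ?_, b⟩
  rw [← eq_of_le_of_card_ge (le_normalizer : P ≤ N(P)) (e.trans h.symm).le]
  exact (ab_of_card_sq Nat.prime_two h).le_cen

theorem four (hu : orderOf u = 2) : ∃ V : Subgroup G, #V = 4 ∧ u ∈ V ∧ Syl 2 V ⊤ := by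
  obtain ⟨V, hV, h⟩ := (pGrp_of_card_prime Nat.prime_two ((Nat.card_zpowers u).trans hu)).exists_syl le_top
  refine ⟨V, ?_, h (mem_zpowers u), hV⟩
  rw [hV.card_syl Nat.prime_two, card_top, hG, show 1092 = 2 ^ 2 * 273 from rfl,
    Nat.factorization_mul (by norm_num) (by norm_num), Nat.prime_two.factorization_pow]
  simp [Nat.factorization_eq_zero_of_not_dvd]

theorem n2 (hu : orderOf u = 2) : #C[u] = 12 := by
  obtain ⟨Q, -, hQ⟩ := ex (M := (⊤ : Subgroup G)) Nat.prime_three (by rw [card_top, hG]; norm_num)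
  obtain ⟨t, ht, ot⟩ := exists_elt_of_prime_dvd Nat.prime_two (n3 hG hQ).2
  have ct : #C[t] = 12 := by
    obtain ⟨W, w1, w2, -⟩ := four hG ot
    have a := w1 ▸ card_dvd_of_le (le_cen1.2 ((ab_of_card_sq Nat.prime_two w1).le_cen w2))
    have b := hQ ▸ card_dvd_of_le (le_cen1.2 ht)
    have c := (num (prop hG (fun e => nt' hG ((Nat.card_zpowers t).trans ot) (by norm_num) (by norm_num)
      (top_le_iff.1 (e ▸ cen_zpowers t ▸ cen_le_nrm _)))) a).2.1 rfl
    omega
  obtain ⟨V, v1, v2, hV⟩ := four hG hu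
  have hA := ab_of_card_sq Nat.prime_two v1
  obtain ⟨g, -, hg⟩ := hV.syl_elt (mem_top t) (pElt_of_pow_eq_one Nat.prime_two (ot ▸ pow_orderOf_eq_one t))
  have cj1 : ∀ g x : G, #C[x] = 12 → #C[g * x * g⁻¹] = 12 := fun g x hx => by rw [← cj_cen1, card_cj, hx]
  have s1 : g * t * g⁻¹ ≠ 1 := fun e => by rw [conj_eq_one_iff.1 e] at ot; simp at ot
  have s2 := cj1 g t ct
  generalize g * t * g⁻¹ = s at *
  obtain ⟨r, hr, o⟩ := exists_elt_of_prime_dvd Nat.prime_three (show 3 ∣ #N(V) by rw [(n4 hG v1).1]; norm_num)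
  have r3 : r ^ 3 = 1 := o ▸ pow_orderOf_eq_one r
  have key : ∀ w ∈ V, w ≠ 1 → r * w * r⁻¹ ≠ w := fun w hw w1 e => by
    have a1 : ⟪r⟫ ≤ C(V) := by
      have b1 := card_mul_relIndex (inf_le_left : V ⊓ C(⟪r⟫) ≤ V)
      have b2 : 1 < #(V ⊓ C(⟪r⟫)) := (one_lt_card_iff_ne_bot _).2 (ne_bot_of_mem (x := w)
        ⟨hw, by rw [cen_zpowers]; exact mem_cen1.2 (mul_inv_eq_iff_eq_mul.1 e).symm⟩ w1)
      have b3 : (V ⊓ C(⟪r⟫)).relIndex V = 1 ∨ (V ⊓ C(⟪r⟫)).relIndex V = 2 := by
        rw [v1] at b1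
        have : #(V ⊓ C(⟪r⟫)) ≤ 4 := Nat.le_of_dvd (by norm_num) ⟨_, b1.symm⟩
        interval_cases #(V ⊓ C(⟪r⟫)) <;> omega
      rcases b3 with b3 | b3
      · exact centsC ((relIndex_eq_one.1 b3).trans inf_le_right)
      refine stable_factor_cent (N := V ⊓ C(⟪r⟫)) (zpowers_le.2 hr) (by
        show Nat.Coprime _ _
        rw [v1, Nat.card_zpowers, o]; norm_num) (commutator_le.2 fun x hx a ha => ?_) (centsC inf_le_right)
      have c1 : a * x⁻¹ * a⁻¹ ∈ V := conj_mem (zpowers_le.2 hr ha) (inv_mem hx)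
      have := mul_mem_iff_of_index_two (H := (V ⊓ C(⟪r⟫)).subgroupOf V) b3 (a := ⟨x, hx⟩) (b := ⟨_, c1⟩)
      simp only [mem_subgroupOf, coe_mul] at this
      rw [commutatorElement_def, show x * a * x⁻¹ * a⁻¹ = x * (a * x⁻¹ * a⁻¹) by group, this,
        ← mem_normalizer_iff.1 (normsI (zpowers_le.2 hr) (norms_cent le_normalizer) ha), inv_mem_iff]
    have a2 := card_dvd_of_le (le_inf le_normalizer hA.le_cen : V ≤ N(V) ⊓ C(V))
    have a3 := card_dvd_of_le (le_inf (zpowers_le.2 hr) a1)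
    rw [Nat.card_zpowers, o] at a3
    refine (n4 hG v1).2 (inf_eq_left.1 (eq_of_le_of_card_ge inf_le_left ?_))
    rw [(n4 hG v1).1]
    exact Nat.le_of_dvd Nat.card_pos (Nat.Coprime.mul_dvd_of_dvd_of_dvd (m := 4) (n := 3) (by norm_num) (v1 ▸ a2) a3)
  have a1 := conj_mem hr hg
  have a2 := conj_mem hr a1
  have b1 : r * s * r⁻¹ ≠ 1 := fun e => s1 (conj_eq_one_iff.1 e)
  have b2 : r * (r * s * r⁻¹) * r⁻¹ ≠ 1 := fun e => b1 (conj_eq_one_iff.1 e)
  have b3 : r * (r * s * r⁻¹) * r⁻¹ ≠ s := fun e => key _ a2 b2 (by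
    calc _ = r ^ 3 * s * (r ^ 3)⁻¹ := by rw [pow_three']; group
      _ = _ := by rw [r3, e]; group)
  have e : ({1, s, r * s * r⁻¹, r * (r * s * r⁻¹) * r⁻¹} : Set G) = V := by
    refine Set.eq_of_subset_of_ncard_le (by simp [Set.insert_subset_iff, hg, a1, a2]) ?_
    rw [Set.ncard_insert_of_notMem (by simp only [Set.mem_insert_iff, Set.mem_singleton_iff, not_or]
                                       exact ⟨s1.symm, b1.symm, b2.symm⟩),
      Set.ncard_insert_of_notMem (by simp only [Set.mem_insert_iff, Set.mem_singleton_iff, not_or]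
                                     exact ⟨(key s hg s1).symm, b3.symm⟩),
      Set.ncard_pair (key _ a1 b1).symm]
    exact v1.le
  have : u ∈ ({1, s, r * s * r⁻¹, r * (r * s * r⁻¹) * r⁻¹} : Set G) := e ▸ v2
  rcases this with rfl | rfl | rfl | rfl
  · simp at hu
  · exact s2
  · exact cj1 _ _ s2
  · exact cj1 _ _ (cj1 _ _ s2)

theorem cen_big (hp : p = 7 ∨ p = 13) (hP : #P = p) : C(P) ≤ P := by
  have a2 : ¬ 2 ∣ #C(P) := fun e => by
    obtain ⟨t, ht, ot⟩ := exists_elt_of_prime_dvd Nat.prime_two e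
    have := card_dvd_of_le (le_cen1.2 ht)
    rw [n2 hG ot, hP] at this
    rcases hp with rfl | rfl <;> omega
  have a3 : ¬ 3 ∣ #C(P) := fun e => by
    obtain ⟨Q, h1, h2⟩ := ex Nat.prime_three e
    have := card_dvd_of_le ((centsC h1).trans (cen_le_nrm Q))
    rw [(n3 hG h2).1, hP] at this
    rcases hp with rfl | rfl <;> omega
  have a4 := card_dvd_of_le (cen_le_nrm P)
  have pp : p.Prime := by rcases hp with rfl | rfl <;> norm_num
  refine (eq_of_le_of_card_ge (ab_of_card_dvd_sq pp (by rw [hP]; exact dvd_pow_self p two_ne_zero)).le_cen ?_).ge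
  rw [hP]
  rcases hp with rfl | rfl
  · rw [n7 hG hP] at a4
    have := Nat.le_of_dvd (by norm_num) a4
    interval_cases #C(P) <;> omega
  · rw [n13 hG hP] at a4
    have := Nat.le_of_dvd (by norm_num) a4
    interval_cases #C(P) <;> omega

theorem main (h1 : H ≠ ⊥) (h2 : H ≠ ⊤) : IsCoatom N(H) := by
  have bg : ∀ p, (p = 7 ∨ p = 13) → p ∣ #H → IsCoatom N(H) := fun p hp hd => by
    have pp : p.Prime := by rcases hp with rfl | rfl <;> norm_num
    obtain ⟨P, a, b⟩ := ex pp hd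
    refine up hG h1 h2 (nml_of_der_le ((((cyc_of_prime (b ▸ pp)).der_cents le_rfl).trans
      (cen_big hG hp b)).trans a) (big hG h2 hp b a)).nrm ?_
    rcases hp with rfl | rfl
    · exact Or.inr (Or.inl (n7 hG b))
    · exact Or.inl (n13 hG b)
  by_cases h13 : 13 ∣ #H
  · exact bg 13 (Or.inr rfl) h13
  by_cases h7 : 7 ∣ #H
  · exact bg 7 (Or.inl rfl) h7
  have a := twelve hG h7 h13
  have b := (one_lt_card_iff_ne_bot _).2 h1
  have c := Nat.le_of_dvd (by norm_num) a
  have d : #H = 2 ∨ #H = 3 ∨ #H = 4 ∨ #H = 6 ∨ #H = 12 := by interval_cases #H <;> omega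
  rcases d with d | d | d | d | d
  · obtain ⟨t, rfl⟩ := cyc_iff.1 (cyc_of_prime (A := H) (d ▸ Nat.prime_two))
    exact up hG h1 h2 (cen_zpowers t ▸ cen_le_nrm _) (Or.inr (Or.inr (n2 hG ((Nat.card_zpowers t).symm.trans d))))
  · exact up hG h1 h2 le_rfl (Or.inr (Or.inr (n3 hG d).1))
  · exact up hG h1 h2 le_rfl (Or.inr (Or.inr (n4 hG d).1))
  · obtain ⟨Q, q1, q2⟩ := ex (M := H) Nat.prime_three (d ▸ by norm_num)
    have e1 := card_mul_relIndex q1
    have e2 := card_mul_relIndex (le_normalizer : Q ≤ N(Q))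
    rw [q2, d] at e1
    rw [q2, (n3 hG q2).1] at e2
    have e3 : H ≤ N(Q) := le_nrm_iff.2 fun g hg x hx => by
      have : (Q.subgroupOf H).Normal := normal_of_index_eq_two (show Q.relIndex H = 2 by omega)
      exact this.conj_mem ⟨x, q1 hx⟩ hx ⟨g, hg⟩
    exact up hG h1 h2 (nml_of_der_le ((der_le_of_relIndex_dvd_sq Nat.prime_two le_rfl
      (by rw [show Q.relIndex N(Q) = 4 by omega]; norm_num)).trans q1) e3).nrm (Or.inr (Or.inr (n3 hG q2).1))
  · exact up hG h1 h2 le_normalizer (Or.inr (Or.inr d))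

theorem cover {K : Type*} [Group K] [Finite K] (π : K →* G) (hπ : Function.Surjective π)
    (hz : π.ker ≤ center K) (h2 : ∀ z ∈ π.ker, z * z = 1) (hi : ∀ z ∈ π.ker, ∀ t, orderOf t = 2 → z = 1 ∨ z = t)
    {H : Subgroup K} (hH : ¬ H.Normal) : IsCoatom N(H) := by
  have key : N(H.map π).comap π ≤ N(H) := fun g hg => mem_nrm.2 fun x hx => by
    obtain ⟨y, hy, e⟩ := conj_mem (mem_comap.1 hg) (mem_map_of_mem π hx)
    have hz1 : y⁻¹ * (g * x * g⁻¹) ∈ π.ker := by
      rw [MonoidHom.mem_ker, map_mul, map_inv, e]; simp only [map_mul, map_inv, inv_mul_cancel]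
    rw [← mul_mem_cancel_left (inv_mem hy)]
    by_cases e2 : 2 ∣ #H
    · obtain ⟨t, ht, ot⟩ := exists_elt_of_prime_dvd Nat.prime_two e2
      rcases hi _ hz1 t ot with e3 | e3 <;> rw [e3]
      exacts [one_mem _, ht]
    · have c : Commute y (y⁻¹ * (g * x * g⁻¹)) := mem_center_iff.1 (hz hz1) y
      have := c.mul_pow #H
      rw [mul_inv_cancel_left, conj_pow, pow_card hx, pow_card hy] at this
      obtain ⟨k, hk⟩ : Odd #H := Nat.odd_iff.2 (by omega)
      rw [hk, pow_succ, pow_mul, pow_two, h2 _ hz1] at this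
      simp only [mul_one, mul_inv_cancel, one_pow, one_mul] at this
      rw [← this]; exact one_mem _
  have nt : N(H) ≠ ⊤ := fun e => hH (normalizer_eq_top_iff.1 e)
  have c := isCoatom_comap_of_surjective hπ (main hG (H := H.map π)
    (fun e => nt (top_le_iff.1 (by rwa [e, nrm_bot, comap_top] at key)))
    fun e => nt (top_le_iff.1 (by rwa [e, nrm_top, comap_top] at key)))
  rwa [← (c.le_iff.1 key).resolve_left nt] at c

end

theorem prod {K S : Type*} [Group K] [CommGroup S] [Finite K] [Finite S]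
    (hK : ∀ H : Subgroup K, ¬ H.Normal → IsCoatom N(H)) (hKS : (Nat.card K).Coprime (Nat.card S))
    {H : Subgroup (K × S)} (hH : ¬ H.Normal) : IsCoatom N(H) := by
  have a : ∀ x ∈ H, x.1 ∈ H.comap (MonoidHom.inl K S) := fun x hx => by
    obtain ⟨n, h1, h2⟩ := Nat.chineseRemainder hKS 1 0
    have : MonoidHom.inl K S x.1 = x ^ n := Prod.ext
      (by show x.1 = x.1 ^ n
          rw [pow_eq_pow_iff_modEq.2 (h1.of_dvd (orderOf_dvd_natCard _)), pow_one])
      (by show 1 = x.2 ^ n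
          exact (orderOf_dvd_iff_pow_eq_one.1 ((_root_.orderOf_dvd_natCard x.2).trans (Nat.modEq_zero_iff_dvd.1 h2))).symm)
    rw [mem_comap, this]; exact pow_mem hx n
  have key : N(H.comap (MonoidHom.inl K S)).comap (MonoidHom.fst K S) ≤ N(H) := by
    refine le_nrm_iff.2 fun g hg x hx => ?_
    have hg' : g.1 ∈ N(H.comap (MonoidHom.inl K S)) := mem_comap.1 hg
    have b : ((g.1 * x.1 * g.1⁻¹, 1) : K × S) ∈ H := mem_comap.1 (conj_mem hg' (a x hx))
    have c : ((x.1, 1) : K × S) ∈ H := a x hx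
    have := mul_mem b (mul_mem (inv_mem c) hx)
    convert this using 1
    ext <;> simp
  have nt : N(H) ≠ ⊤ := fun e => hH (normalizer_eq_top_iff.1 e)
  have c := isCoatom_comap_of_surjective (φ := MonoidHom.fst K S) Prod.fst_surjective (hK (H.comap (MonoidHom.inl K S))
    fun e => nt (top_le_iff.1 (by rwa [normalizer_eq_top_iff.2 e, comap_top] at key)))
  rwa [← (c.le_iff.1 key).resolve_left nt] at c

open scoped MatrixGroups in
theorem s4234 {K : Type*} [Group K] [Finite K]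
    (hK : Nonempty (K ≃* PSL(2, ZMod 13)) ∨ Nonempty (K ≃* SL(2, ZMod 13))) (H : Subgroup K) (hH : ¬ H.Normal) :
    IsCoatom N(H) := by
  have h2 : (2 : ZMod 13) ≠ 0 := by decide
  haveI : Fact (Nat.Prime 13) := ⟨by norm_num⟩
  have : IsSimpleGroup PSL(2, ZMod 13) := H10.isSimpleGroup_PSL_fin le_rfl fun _ => by simp
  have c : Nat.card PSL(2, ZMod 13) = 1092 := by
    have := H10.card_PSL_two (F := ZMod 13)
    rw [ZMod.card, show Nat.gcd 2 (13 - 1) = 2 by norm_num] at this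
    exact Nat.eq_of_mul_eq_mul_left two_pos this
  rcases hK with ⟨⟨e⟩⟩ | ⟨⟨e⟩⟩
  · have k : ∀ z ∈ e.toMonoidHom.ker, z = 1 := fun z hz => e.map_eq_one_iff.1 hz
    exact cover c e.toMonoidHom e.surjective (fun z hz => k z hz ▸ one_mem _) (fun z hz => by rw [k z hz, one_mul])
      (fun z hz _ _ => Or.inl (k z hz)) hH
  · have k : ∀ z ∈ ((QuotientGroup.mk' (center SL(2, ZMod 13))).comp e.toMonoidHom).ker, e z = 1 ∨ e z = -1 :=
      fun z hz => H19.St.mem_center_iff.1 ((QuotientGroup.eq_one_iff _).1 hz)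
    refine cover c ((QuotientGroup.mk' (center SL(2, ZMod 13))).comp e.toMonoidHom)
      ((QuotientGroup.mk'_surjective _).comp e.surjective)
      (fun z hz => mem_center_iff.2 fun g => e.injective ?_) (fun z hz => e.injective ?_) (fun z hz t ot => ?_) hH
    · rcases k z hz with h | h <;> simp [h]
    · rcases k z hz with h | h <;> simp [h]
    · refine (k z hz).imp e.map_eq_one_iff.1 fun h => e.injective (h.trans ?_)
      refine ((H10.sl2_involution h2 (g := e t) ?_).resolve_left fun h1 => ?_).symm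
      · rw [← map_mul, ← pow_two, orderOf_dvd_iff_pow_eq_one.1 ot.dvd, map_one]
      · rw [e.map_eq_one_iff.1 h1] at ot; simp at ot

end Cfsg.Agent.H21.L13
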