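import Mathlib
import Cfsg.Agent.GW.Base
import Cfsg.Agent.H16.Zass2

/-! Groups with a large `TI`-subgroup: counting involutions in cosets. -/

set_option autoImplicit false
set_option linter.unusedSectionVars false
set_option linter.unusedVariables false

namespace Cfsg.Agent.H21.Lg

open Subgroup MulAction Cfsg.Agent.FT Cfsg.Agent.GW
open Cfsg.Agent.H16 (St2 mem_St2)

variable {G Ω : Type*} [Group G] [Finite G] [MulAction G Ω] [Finite Ω] {M : Ω → Subgroup G} {d : ℕ}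
  {K : Subgroup G} {a b c : Ω} {g h s t u v x y z : G}

/-- the local hypothesis -/
structure LS (K : Subgroup G) : Prop where
  ne : K ≠ ⊥
  ex : ∃ z ∈ N(K), Invo z
  odd : ∀ x ∈ K, x ≠ 1 → Odd #C[x]
  mul : ∀ u ∈ N(K), ∀ v ∈ N(K), Invo u → Invo v → u * v ∈ K

theorem inv_of_odd (odd : ∀ x ∈ K, x ≠ 1 → Odd #C[x]) (hu : Invo u) (hn : u ∈ N(K)) : Inverts u K :=
  inverts_of_fpf hu.sq hn (eq_bot_iff.2 fun x hx => by_contra fun c =>
    hu.not_mem_odd (odd x hx.1 c) (cen1_comm.1 hx.2))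

theorem odd_of_odd (odd : ∀ x ∈ K, x ≠ 1 → Odd #C[x]) : Odd #K :=
  odd_of_no_invo fun u hu i => i.not_mem_odd (odd u hu i.ne) (self_mem_cen1 u)

theorem ls_of (ne : K ≠ ⊥) (hz : Invo z) (zN : z ∈ N(K)) (fac : K ⊔ (N(K) ⊓ C[z]) = N(K))
    (odd : ∀ x ∈ K, x ≠ 1 → Odd #C[x]) : LS K := by
  have iz := inv_of_odd odd hz zN
  have k {u : G} (hn : u ∈ N(K)) (hu : Invo u) : u * z ∈ K := by
    obtain ⟨m, hm, c, hc, e⟩ := (mem_sup_norm inf_le_left).1 (fac.ge (mul_mem hn zN))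
    have h1 := (inv_of_odd odd hu hn).mul_mem_cen iz
    have h2 : c ∈ C(K) := (mul_mem_cancel_left (iz.ab.le_cen hm)).1 (e ▸ h1)
    obtain ⟨x, hx, x1⟩ := exists_ne_one ne
    have h3 : z * (u * z) * z⁻¹ = (u * z)⁻¹ := by rw [mul_inv_rev, hz.inv, hu.inv, mul_assoc z, hz.cancel']
    rw [e, ← conj_mul, iz m hm, ← mem_cen1.1 hc.2, mul_inv_cancel_right, mem_cen.1 h2 m hm, mul_inv_rev,
      mul_right_inj, eq_inv_iff_mul_eq_one] at h3
    rw [e, eq_one_of_sq_odd (odd x hx x1) (cen_le_cen1 hx h2) h3, mul_one]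
    exact hm
  refine ⟨ne, ⟨z, zN, hz⟩, odd, fun u h1 v h2 hu hv => ?_⟩
  have := mul_mem (k h1 hu) (inv_mem (k h2 hv))
  rwa [mul_inv_rev, hv.inv, hz.inv, mul_assoc, hz.cancel] at this

namespace LS

variable (L : LS K)
include L

theorem cj (g : G) : LS (cj g K) := by
  obtain ⟨z, h1, h2⟩ := L.ex
  refine ⟨fun e => L.ne (cj_eq_bot.1 e), ⟨_, cj_nrm g K ▸ conj_mem_cj.2 h1, h2.conj g⟩, fun x hx x1 => ?_,
    fun u h3 v h4 hu hv => ?_⟩
  · obtain ⟨x, h, rfl⟩ := mem_cj'.1 hx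
    rw [← cj_cen1, card_cj]
    exact L.odd x h fun e => x1 (by simp [e])
  · rw [← cj_nrm] at h3 h4
    obtain ⟨u, h5, rfl⟩ := mem_cj'.1 h3
    obtain ⟨v, h6, rfl⟩ := mem_cj'.1 h4
    rw [conj_mul]
    exact conj_mem_cj.2 (L.mul u h5 v h6 (invo_conj.1 hu) (invo_conj.1 hv))

theorem inv (hu : Invo u) (hn : u ∈ N(K)) : Inverts u K := inv_of_odd L.odd hu hn
theorem oddK : Odd #K := odd_of_odd L.odd
theorem ab : Ab K := let ⟨_, h1, h2⟩ := L.ex; (L.inv h2 h1).ab

theorem two_dvd : 2 ∣ K.relIndex N(K) := by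
  obtain ⟨z, h1, h2⟩ := L.ex
  exact (Nat.coprime_two_left.2 L.oddK).dvd_of_dvd_mul_left ((card_mul_relIndex (le_nrm K)).symm ▸ h2.two_dvd h1)

theorem conj (hu : Invo u) (h1 : u ∈ N(K)) (hv : Invo v) (h2 : v ∈ N(K)) : ∃ x ∈ K, x * u * x⁻¹ = v := by
  have h3 := L.mul v h2 u h1 hv hu
  obtain ⟨n, hn⟩ := L.oddK
  have h4 : (v * u) ^ (n + 1) * (v * u) ^ (n + 1) = v * u := by
    rw [← pow_add, show n + 1 + (n + 1) = 2 * n + 1 + 1 by ring, pow_succ, ← hn, orderOf_dvd_iff_pow_eq_one.1 (orderOf_dvd_natCard K h3), one_mul]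
  have h5 := L.inv hu h1 _ (pow_mem h3 (n + 1))
  refine ⟨_, pow_mem h3 (n + 1), ?_⟩
  rw [← h5, ← mul_assoc, ← mul_assoc, hu.cancel', h4, hu.inv, hu.cancel']

theorem ncard : (invs N(K)).ncard = #K := by
  obtain ⟨z, h1, h2⟩ := L.ex
  have : invs N(K) = (fun x => z * x) '' K := Set.ext fun u => ⟨fun h => ⟨_, L.mul z h1 u h.1 h2 h.2, h2.cancel u⟩, by
    rintro ⟨x, hx, rfl⟩
    exact ⟨mul_mem h1 (le_nrm K hx), invo_of (h2.mul_sq (L.inv h2 h1 x hx)) fun e =>
      h2.not_mem_odd L.oddK (by rw [eq_inv_of_mul_eq_one_left e]; exact inv_mem hx)⟩⟩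
  rw [this, Set.ncard_image_of_injective _ (mul_right_injective z)]
  rfl

end LS

/-- a conjugacy class of `TI`-subgroups -/
structure LA (M : Ω → Subgroup G) (d : ℕ) : Prop where
  eqv : ∀ (g : G) a, M (g • a) = cj g (M a)
  tr : ∀ a b : Ω, ∃ g : G, g • a = b
  st : ∀ a, stabilizer G a = N(M a)
  loc : ∀ a, LS (M a)
  ti : ∀ a b, a ≠ b → M a ⊓ M b = ⊥
  idx : ∀ a, (M a).relIndex (stabilizer G a) = d

/-- the involutions moving `a` to `b` -/
def Jb (G : Type*) [Group G] [MulAction G Ω] (a b : Ω) : Set G := {u | Invo u ∧ u • a = b}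

theorem smul_back (hu : Invo u) (e : u • a = b) : u • b = a := by rw [← e, ← mul_smul, hu.sq, one_smul]

theorem st_smul (g : G) (a : Ω) : stabilizer G (g • a) = cj g (stabilizer G a) :=
  Subgroup.ext fun x => by
    rw [mem_cj, mem_stabilizer_iff, mem_stabilizer_iff, mul_smul, mul_smul, inv_smul_eq_iff]

theorem ncard_Jb (hg : g • a = a) : (Jb G a (g • b)).ncard = (Jb G a b).ncard := by
  rw [← Set.ncard_image_of_injective (Jb G a b) (MulAut.conj g).injective]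
  congr 1
  ext u
  refine ⟨fun h => ⟨g⁻¹ * u * g⁻¹⁻¹, ⟨h.1.conj _, ?_⟩, by simp [mul_assoc]⟩, ?_⟩
  · rw [inv_inv, mul_smul, mul_smul, hg, h.2, inv_smul_smul]
  · rintro ⟨u, h, rfl⟩
    refine ⟨h.1.conj g, ?_⟩
    rw [MulAut.conj_apply, mul_smul, mul_smul, inv_smul_eq_iff.2 hg.symm, h.2]

namespace LA

variable (L : LA M d)
include L

theorem le (a : Ω) : M a ≤ stabilizer G a := (L.st a).symm ▸ le_nrm _

theorem card_st (a : Ω) : #(stabilizer G a) = #(M a) * d := by rw [← L.idx a, card_mul_relIndex (L.le a)]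

theorem card_le {X : Subgroup G} (h1 : X ≤ stabilizer G a) (h2 : M a ⊓ X = ⊥) : #X ≤ d := by
  rw [← L.idx a, ← card_inf_mul_relIndex (M a) X, h2, card_bot', one_mul]
  exact relIndex_le_of_le_right h1 (relIndex_pos _ _).ne'

theorem two_dvd (a : Ω) : 2 ∣ d := by rw [← L.idx a, L.st]; exact (L.loc a).two_dvd

theorem Jb_le (hab : a ≠ b) (hu : u ∈ Jb G a b) : (Jb G a b).ncard ≤ (M a).relIndex (St2 G a b) := by
  have k {v : G} (hv : v ∈ Jb G a b) : u * v ∈ St2 G a b :=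
    H16.swap_mul_swap hu.2 (smul_back hu.1 hu.2) hv.2 (smul_back hv.1 hv.2)
  have := Nat.card_le_card_of_injective (fun p : Jb G a b × (M a ⊓ St2 G a b : Subgroup G) =>
    (⟨u * p.1 * p.2, mul_mem (k p.1.2) p.2.2.2⟩ : St2 G a b)) (by
      rintro ⟨⟨v, hv⟩, x, hx⟩ ⟨⟨w, hw⟩, y, hy⟩ e
      have e1 : w = v * (x * y⁻¹) := by
        have : u * v * x = u * w * y := congrArg Subtype.val e
        rw [mul_assoc, mul_assoc, mul_right_inj] at this
        rw [← mul_assoc, this, mul_inv_cancel_right]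
      have h1 : x * y⁻¹ ∈ M a := mul_mem hx.1 (inv_mem hy.1)
      have h2 : v * (x * y⁻¹) * v⁻¹ ∈ M b := by rw [← hv.2, L.eqv]; exact conj_mem_cj.2 h1
      rw [inverts_of_mul_sq hv.1 (e1 ▸ hw.1.sq), inv_mem_iff] at h2
      have h3 := eq_one_of_mem_inf (L.ti a b hab) h1 h2
      rw [h3, mul_one] at e1
      rw [mul_inv_eq_one] at h3
      subst e1 h3
      rfl)
  rw [Nat.card_prod, ← card_inf_mul_relIndex (M a) (St2 G a b), mul_comm] at this
  exact Nat.le_of_mul_le_mul_left this (card_pos _)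

theorem dvd (a b : Ω) : (M a).relIndex (St2 G a b) ∣ d :=
  L.idx a ▸ relIndex_dvd_of_norm inf_le_left (L.st a).le

theorem Jb_le' (hab : a ≠ b) : (Jb G a b).ncard ≤ d := by
  rcases (Jb G a b).eq_empty_or_nonempty with e | ⟨u, hu⟩
  · simp [e]
  · exact (L.Jb_le hab hu).trans (Nat.le_of_dvd (L.idx a ▸ relIndex_pos _ _) (L.dvd a b))

theorem good (hab : a ≠ b) (h : d < (Jb G a b).ncard + #(M a ⊓ stabilizer G b : Subgroup G)) :
    M a ⊓ stabilizer G b = ⊥ ∧ #(St2 G a b) = d ∧ ∃ u, Invo u ∧ u • a = b ∧ Inverts u (St2 G a b) := by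
  rcases (Jb G a b).eq_empty_or_nonempty with e | ⟨u, hu⟩
  · have := L.card_le (X := M a ⊓ stabilizer G b) inf_le_right (by rw [← inf_assoc, L.ti b a hab.symm, bot_inf_eq])
    simp only [e, Set.ncard_empty] at h
    omega
  have e1 : cj u (M a ⊓ stabilizer G b) = M b ⊓ stabilizer G a := by
    rw [cj_inf, ← L.eqv, ← st_smul, hu.2, smul_back hu.1 hu.2]
  have h1 := L.Jb_le hab hu
  have h2 : #(M a ⊓ stabilizer G b : Subgroup G) ≤ (M a).relIndex (St2 G a b) := by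
    rw [← card_cj u, e1, ← card_inf_mul_relIndex (M a) (M b ⊓ _), ← inf_assoc, L.ti a b hab, bot_inf_eq, card_bot',
      one_mul]
    exact relIndex_le_of_le_right (le_inf inf_le_right (inf_le_left.trans (L.le b))) (relIndex_pos _ _).ne'
  obtain ⟨k, hk⟩ := L.dvd a b
  have h3 : (M a).relIndex (St2 G a b) = d := by
    rcases k with _ | _ | k
    · exact absurd (L.idx a ▸ hk) (relIndex_pos _ _).ne'
    · omega
    · nlinarith
  obtain ⟨t, ht, i⟩ := exists_invo ((h3 ▸ L.two_dvd a).trans (relIndex_dvd _ _))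
  have h4 : M b ⊓ stabilizer G a = ⊥ := eq_bot_iff.2 fun y hy => by
    have h5 := (L.loc a).mul _ (L.st a ▸ mul_mem (mul_mem hy.2 ht.1) (inv_mem hy.2)) t (L.st a ▸ ht.1) (i.conj y) i
    have h6 := (L.loc b).inv i (L.st b ▸ ht.2) _ (inv_mem hy.1)
    rw [i.inv, inv_inv] at h6
    rw [mul_assoc, mul_assoc, ← mul_assoc t, h6] at h5
    exact eq_one_of_sq_odd (L.loc b).oddK hy.1 (eq_one_of_mem_inf (L.ti a b hab) h5 (mul_mem hy.1 hy.1))
  have h5 : M a ⊓ stabilizer G b = ⊥ := cj_eq_bot.1 (e1.trans h4)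
  have h6 : #(St2 G a b) = d := by
    rw [← h3, ← card_inf_mul_relIndex (M a) (St2 G a b), inf_left_comm, h5, inf_bot_eq, card_bot', one_mul]
  refine ⟨h5, h6, u, hu.1, hu.2, fun x hx => ?_⟩
  rw [h5, card_bot'] at h
  have h7 : (fun v => u * v) '' Jb G a b = St2 G a b := Set.eq_of_subset_of_ncard_le (by
    rintro _ ⟨v, hv, rfl⟩
    exact H16.swap_mul_swap hu.2 (smul_back hu.1 hu.2) hv.2 (smul_back hv.1 hv.2)) (by
    rw [Set.ncard_image_of_injective _ (mul_right_injective u)]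
    change #(St2 G a b) ≤ _
    omega)
  obtain ⟨v, hv, rfl⟩ := h7.ge hx
  exact hu.1.inverts_mul hv.1

theorem sum_Jb [Fintype Ω] (a : Ω) : (invs (⊤ : Subgroup G)).ncard = ∑ b, (Jb G a b).ncard := by
  classical
  rw [Set.ncard_eq_toFinset_card _ (Set.toFinite _), Finset.card_eq_sum_card_fiberwise (f := fun u => u • a)
    (t := Finset.univ) (fun _ _ => Finset.mem_coe.2 (Finset.mem_univ _))]
  refine Finset.sum_congr rfl fun b _ => ?_
  rw [← Set.ncard_coe_finset]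
  congr 1
  ext u
  simp [Jb, invs]

theorem Jb_self (a : Ω) : (Jb G a a).ncard = #(M a) := by
  rw [← (L.loc a).ncard, ← L.st]
  exact congrArg _ (Set.ext fun u => and_comm)

theorem all_good (h : Nat.card Ω * d < (invs (⊤ : Subgroup G)).ncard) (hab : a ≠ b) :
    d < (Jb G a b).ncard + #(M a ⊓ stabilizer G b : Subgroup G) := by
  classical
  by_contra! c
  have := Fintype.ofFinite Ω
  obtain ⟨n, hn⟩ : ∃ n, n = #(M a ⊓ stabilizer G b : Subgroup G) := ⟨_, rfl⟩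
  have h1 : (Finset.univ.filter (· ∈ orbit (M a) b)).card * n = #(M a) := by
    rw [← card_inf_mul_relIndex (stabilizer G b) (M a), inf_comm, ← hn, mul_comm, ← Set.ncard_coe_finset]
    congr 1
    exact Eq.trans (by simp) (index_stabilizer (M a) b).symm
  have h2 : ∑ x, ((Jb G a x).ncard + if x ∈ orbit (M a) b then n else 0) ≤ ∑ x, if x = a then #(M a) else d :=
    Finset.sum_le_sum fun x _ => by
      by_cases c1 : x ∈ orbit (M a) b
      · obtain ⟨g, rfl⟩ := c1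
        have e : (g : G) • a = a := L.le a g.2
        rw [if_pos ⟨g, rfl⟩, if_neg fun e' => hab (smul_left_cancel (g : G) (e.trans e'.symm))]
        exact (congrArg (· + n) (ncard_Jb e)).trans_le (hn ▸ c)
      rw [if_neg c1, add_zero]
      split_ifs with c2
      · rw [c2, L.Jb_self]
      · exact L.Jb_le' (Ne.symm c2)
  have h3 : ∑ x, (if x = a then #(M a) else d) + d = #(M a) + Nat.card Ω * d := by
    rw [← Finset.add_sum_erase _ _ (Finset.mem_univ a), if_pos rfl, Finset.sum_congr rfl fun x hx =>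
      if_neg (Finset.ne_of_mem_erase hx), Finset.sum_const, smul_eq_mul, add_assoc, ← add_one_mul,
      Finset.card_erase_add_one (Finset.mem_univ a), Finset.card_univ, Nat.card_eq_fintype_card (α := Ω)]
  rw [Finset.sum_add_distrib, ← L.sum_Jb, ← Finset.sum_filter, Finset.sum_const, smul_eq_mul, h1] at h2
  omega

end LA

end Cfsg.Agent.H21.Lg
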