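import Mathlib
import Cfsg.Agent.H21.LgS1
import Cfsg.Agent.H16.ZRec

/-! Groups with a large `TI`-subgroup: the Zassenhaus case. -/

set_option autoImplicit false
set_option linter.unusedSectionVars false
set_option linter.unusedVariables false

namespace Cfsg.Agent.H21.Lg

open Subgroup MulAction Cfsg.Agent.FT Cfsg.Agent.GW
open Cfsg.Agent.H16 (St2 mem_St2 Z3 zker)

variable {G Ω : Type*} [Group G] [Finite G] [MulAction G Ω] [Finite Ω] {M : Ω → Subgroup G} {d : ℕ}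
  {K : Subgroup G} {a b c : Ω} {g h s t u v x y z : G}

/-- the conclusions of the count -/
structure LG (M : Ω → Subgroup G) (d : ℕ) : Prop extends LA M d where
  reg : ∀ a b, a ≠ b → M a ⊓ stabilizer G b = ⊥
  card : ∀ a b : Ω, a ≠ b → #(St2 G a b) = d
  sw : ∀ a b : Ω, a ≠ b → ∃ u, Invo u ∧ u • a = b ∧ Inverts u (St2 G a b)

theorem LA.lg (L : LA M d) (h : Nat.card Ω * d < (invs (⊤ : Subgroup G)).ncard) : LG M d :=
  ⟨L, fun _ _ hab => (L.good hab (L.all_good h hab)).1, fun _ _ hab => (L.good hab (L.all_good h hab)).2.1,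
    fun _ _ hab => (L.good hab (L.all_good h hab)).2.2⟩

namespace LG

variable (L : LG M d)
include L

theorem ab (hab : a ≠ b) : Ab (St2 G a b) := let ⟨_, _, _, h⟩ := L.sw a b hab; h.ab

theorem swap (hab : a ≠ b) (h1 : s • a = b) (h2 : s • b = a) : Invo s ∧ Inverts s (St2 G a b) := by
  obtain ⟨u, i, e, hu⟩ := L.sw a b hab
  have h3 := H16.swap_mul_swap e (smul_back i e) h1 h2
  rw [← i.cancel s]
  refine ⟨invo_of (i.mul_sq (hu _ h3)) fun c => hab ?_, fun x hx => ?_⟩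
  · rw [← h1, ← i.cancel s, c, one_smul]
  · rw [mul_inv_rev, mul_assoc u, ← (L.ab hab).comm hx h3, ← mul_assoc, ← mul_assoc, mul_inv_cancel_right, hu x hx]

theorem exists_t (hab : a ≠ b) : ∃ t ∈ St2 G a b, Invo t := exists_invo (L.card a b hab ▸ L.two_dvd a)

theorem eq_one (i : Invo t) (hx : x ∈ M a) (e : x * t = t * x) : x = 1 :=
  by_contra fun c => i.not_mem_odd ((L.loc a).odd x hx c) (mem_cen1.2 e.symm)

theorem st_cen (hab : a ≠ b) (ht : t ∈ St2 G a b) (i : Invo t) : St2 G a b = stabilizer G a ⊓ C[t] :=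
  eq_of_le_of_card_ge (le_inf inf_le_left fun x hx => mem_cen1.2 ((L.ab hab).comm hx ht)) <| L.card a b hab ▸
    L.card_le inf_le_left (eq_bot_iff.2 fun x hx => L.eq_one i hx.1 (mem_cen1.1 hx.2.2))

theorem uniq (hab : a ≠ b) (ht : t ∈ St2 G a b) (i : Invo t) (hu : u ∈ St2 G a b) (j : Invo u) : u = t := by
  have := eq_one_of_mem_inf (L.reg a b hab) ((L.loc a).mul u (L.st a ▸ hu.1) t (L.st a ▸ ht.1) j i)
    (mul_mem hu.2 ht.2)
  rwa [mul_eq_one_iff_eq_inv, i.inv] at this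

theorem cfix (hab : a ≠ b) (h1 : g • a = a) (h2 : g • b = b) (hx : x ∈ M a) (h3 : g • x • b = x • b) :
    x * g = g * x := by
  have h4 : g * x * g⁻¹ ∈ M a := by rw [← h1, L.eqv]; exact conj_mem_cj.2 hx
  have := eq_one_of_mem_inf (L.reg a b hab) (mul_mem (inv_mem hx) h4) (by
    rw [mem_stabilizer_iff, mul_smul, mul_smul, mul_smul, inv_smul_eq_iff.2 h2.symm, h3, inv_smul_smul])
  rw [inv_mul_eq_one, eq_mul_inv_iff_mul_eq] at this
  exact this

theorem fixpt (hab : a ≠ b) (i : Invo t) (ht : t • a = a) : ∃ x ∈ M a, t • x • b = x • b := by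
  obtain ⟨u, hu, j⟩ := L.exists_t hab
  obtain ⟨x, hx, rfl⟩ := (L.loc a).conj j (L.st a ▸ hu.1) i (L.st a ▸ ht)
  exact ⟨x, hx, by rw [mul_smul, inv_smul_smul, mul_smul, hu.2]⟩

theorem ne_of (hab : a ≠ b) (hx : x ∈ M a) : a ≠ x • b := fun e =>
  hab (smul_left_cancel x ((show x • a = a from L.le a hx).trans e))

theorem comm_of_swap (hab : a ≠ b) (h1 : s • a = b) (h2 : s • b = a) (ht : t ∈ St2 G a b) (i : Invo t) :
    s ∈ C[t] := by
  have := (L.swap hab h1 h2).2 t ht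
  rwa [i.inv, mul_inv_eq_iff_eq_mul, ← mem_cen1] at this

theorem fix2 (h2 : d ≠ 2) (hab : a ≠ b) (hac : a ≠ c) (ht : t ∈ St2 G a b) (i : Invo t) (hc : t • c = c) :
    b = c := by
  by_contra hbc
  obtain ⟨u, iu, u1, u2⟩ := L.sw a b hab
  obtain ⟨v, iv, v1, v2⟩ := L.sw a c hac
  obtain ⟨s, is, s1, s2⟩ := L.sw b c hbc
  have t1 : t ∈ St2 G a c := ⟨ht.1, hc⟩
  have t2 : t ∈ St2 G c b := ⟨hc, ht.2⟩
  have e1 : St2 G a c = St2 G a b := by rw [L.st_cen hab ht i, L.st_cen hac t1 i]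
  have e2 : St2 G c a = St2 G c b := by
    rw [L.st_cen (Ne.symm hbc) t2 i, L.st_cen hac.symm ⟨hc, ht.1⟩ i]
  have h3 : s * u * v ∈ St2 G a b := by
    rw [← e1, St2, inf_comm]
    refine (L.st_cen hac.symm ⟨hc, ht.1⟩ i).ge ⟨?_, mul_mem (mul_mem (L.comm_of_swap hbc s1 (smul_back is s1) ⟨ht.2, hc⟩ i)
      (L.comm_of_swap hab u1 (smul_back iu u1) ht i)) (L.comm_of_swap hac v1 (smul_back iv v1) t1 i)⟩
    change (s * u * v) • c = c
    rw [mul_smul, mul_smul, smul_back iv v1, u1, s1]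
  refine h2 ?_
  rw [← L.card a b hab, ← i.card]
  congr 2
  refine le_antisymm (fun x hx => i.mem_zpowers.2 ?_) (zpowers_le.2 ht)
  refine (em _).imp_right fun x1 => L.uniq hab ht i hx (invo_of ?_ x1)
  have h4 := (L.ab hab).comm h3 hx
  have h5 : x ∈ St2 G b c := by rw [St2, inf_comm]; change x ∈ St2 G c b; rw [← e2, St2, inf_comm]; exact e1.ge hx
  rw [← mul_inv_eq_iff_eq_mul, show s * u * v * x * (s * u * v)⁻¹ = s * (u * (v * x * v⁻¹) * u⁻¹) * s⁻¹ by group,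
    v2 x (e1.ge hx), u2 _ (inv_mem hx), inv_inv, s2 x h5] at h4
  exact inv_eq_iff_mul_eq_one.1 h4

theorem trans (h2 : d ≠ 2) (hab : a ≠ b) (hac : a ≠ c) : ∃ x ∈ M a, x • b = c := by
  obtain ⟨t, ht, i⟩ := L.exists_t hac
  obtain ⟨x, hx, e⟩ := L.fixpt hab i ht.1
  exact ⟨x, hx, (L.fix2 h2 hac (L.ne_of hab hx) ht i e).symm⟩

theorem fix3 (h2 : d ≠ 2) (hab : a ≠ b) (hbc : b ≠ c) (hac : a ≠ c) (h1 : g • a = a) (h3 : g • b = b)
    (h4 : g • c = c) : g = 1 := by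
  obtain ⟨x, hx, e⟩ := L.trans h2 hac.symm hbc.symm
  have c1 := L.cfix hac.symm h4 h1 hx (e ▸ h3)
  have h5 : b ≠ x • b := fun e' => hab (smul_left_cancel x (e.trans e'))
  obtain ⟨y, hy, e'⟩ := L.trans h2 h5 hab.symm
  have c2 := L.cfix h5 h3 (by rw [← mul_smul, ← c1, mul_smul, h3]) hy (e' ▸ h1)
  have h6 := (L.swap hab (s := y * x) (by rw [mul_smul, e]; exact L.le b hy) (by rw [mul_smul, e'])).2 g ⟨h1, h3⟩
  rw [mul_assoc y, c1, ← mul_assoc, c2, mul_assoc g, mul_inv_cancel_right, eq_inv_iff_mul_eq_one] at h6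
  exact eq_one_of_sq_odd ((L.loc c).odd x hx fun x1 => hab (by rw [← e, x1, one_smul])) (mem_cen1.2 c1.symm) h6

theorem three (h2 : d ≠ 2) (hab : a ≠ b) : 3 ≤ Nat.card Ω := by
  obtain ⟨x, hx, x1⟩ := exists_ne_one (L.loc a).ne
  have h3 : b ≠ x • b := fun e => x1 (eq_one_of_mem_inf (L.reg a b hab) hx e.symm)
  classical
  have := Fintype.ofFinite Ω
  rw [Nat.card_eq_fintype_card]
  exact Fintype.two_lt_card_iff.2 ⟨a, b, _, hab, L.ne_of hab hx, h3⟩

theorem z3 (h2 : d ≠ 2) (hab : a ≠ b) : Z3 G Ω := by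
  obtain ⟨c, h1, h3⟩ := H16.exists_ne_ne (L.three h2 hab) a b
  refine ⟨⟨fun {g h} e => ?_⟩, ?_, fun g a b c h1 h3 h4 => L.fix3 h2 h1 h3 h4⟩
  · refine (inv_mul_eq_one.1 (L.fix3 h2 hab h3.symm h1.symm ?_ ?_ ?_)).symm <;> rw [mul_smul, e, inv_smul_smul]
  · refine is_two_pretransitive_iff.2 fun {a b c e} h1 h3 => ?_
    obtain ⟨g, rfl⟩ := L.tr a c
    obtain ⟨x, hx, e'⟩ := L.trans h2 (fun e => h1 (smul_left_cancel g e)) h3
    exact ⟨x * g, by rw [mul_smul]; exact L.le _ hx, by rw [mul_smul, e']⟩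

theorem eq_zker (h2 : d ≠ 2) (hab : a ≠ b) : M a = zker G a := by
  refine (L.z3 h2 hab).eq_zker_of_reg (L.three h2 hab) (L.le a) fun y z hy hz => ?_
  obtain ⟨x, hx, e⟩ := L.trans h2 hy.symm hz.symm
  refine ⟨⟨x, hx⟩, e, fun w hw => Subtype.ext (inv_mul_eq_one.1 ?_).symm⟩
  exact eq_one_of_mem_inf (L.reg a y hy.symm) (mul_mem (inv_mem hx) w.2) (by
    rw [mem_stabilizer_iff, mul_smul, hw, inv_smul_eq_iff, e])

theorem zass (h2 : d ≠ 2) (hab : a ≠ b) : ∃ (F : Type) (_ : Field F) (_ : Fintype F) (p : ℕ) (_ : Fact p.Prime)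
    (_ : CharP F p), Fintype.card F = Nat.card (M a) ∧ Cfsg.IsElementaryAbelian p (M a) ∧
      (Nonempty (G ≃* (GL (Fin 2) F ⧸ center (GL (Fin 2) F))) ∨
        (Fintype.card F % 4 = 1 ∧ Nonempty (G ≃* Matrix.ProjectiveSpecialLinearGroup (Fin 2) F))) := by
  have Z := L.z3 h2 hab
  have h3 := L.three h2 hab
  have h4 : #(M a) + 1 = Nat.card Ω := L.eq_zker h2 hab ▸ Z.card_zker h3 a
  have he : Even #(St2 G a b) := even_iff_two_dvd.2 (L.card a b hab ▸ L.two_dvd a)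
  have h5 := Z.card_le_of_even hab he
  obtain ⟨h6, p, hp, h7⟩ := Z.elemAb_zker h3 hab h5
  rw [← L.eq_zker h2 hab] at h6 h7
  suffices ∃ (F : Type) (_ : Field F) (_ : Fintype F), Nat.card Ω = Nat.card F + 1 ∧
      (Nonempty (G ≃* (GL (Fin 2) F ⧸ center (GL (Fin 2) F))) ∨
        (Fintype.card F % 4 = 1 ∧ Nonempty (G ≃* Matrix.ProjectiveSpecialLinearGroup (Fin 2) F))) by
    obtain ⟨F, _, _, e, h⟩ := this
    obtain ⟨n, hn⟩ := Abelem.card (p := p) (A := M a) ⟨h6, h7⟩ hp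
    have e' : Fintype.card F = #(M a) := by rw [← Nat.card_eq_fintype_card]; omega
    have := Fact.mk hp
    exact ⟨F, inferInstance, inferInstance, p, this, charP_of_card_eq_prime_pow (e'.trans hn), e', ⟨h6, h7⟩, h⟩
  by_cases h8 : 2 * #(St2 G a b) ≤ Nat.card Ω - 2
  · obtain ⟨F, _, _, e, -, h⟩ := Z.psl_of_half_even h3 hab he h8
    refine ⟨F, inferInstance, inferInstance, e, Or.inr ⟨?_, h⟩⟩
    obtain ⟨k, hk⟩ := he
    rw [← Nat.card_eq_fintype_card]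
    omega
  have hd : #(St2 G a b) = Nat.card Ω - 2 := by
    obtain ⟨k, hk⟩ := Z.card_St2_dvd hab
    rcases k with _ | _ | k
    · omega
    · omega
    · exact absurd (by rw [hk]; nlinarith) h8
  obtain ⟨c, hca, hcb⟩ := H16.exists_ne_ne h3 a b
  obtain ⟨s, i, s1, s2⟩ := L.sw a b hab
  obtain ⟨F, _, _, κ, χ, h⟩ := Z.exists_coord_of_card h3 hab hca hcb le_rfl (L.ab hab) (by omega)
  obtain ⟨ι, i1, i2⟩ := h.exists_equiv
  have hs : Function.Surjective χ := by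
    rw [← MonoidHom.range_eq_top]
    apply eq_top_of_card_eq
    rw [h.card_range Z le_rfl, hd, h.card, Nat.card_units]
    rfl
  obtain ⟨r, r0, r1⟩ := h.exists_swap_eq s1 (smul_back i s1) (one_ne_zero (α := F))
  refine ⟨F, inferInstance, inferInstance, h.card, Or.inl (Z.equiv_pgl_of_repSub h3 hab ι ?_ hd)⟩
  refine Z.eq_top_of_zker_le h3 hab (h.zker_le_repSub Z h3 i1 i2 le_top) (s := s) (H16.mem_repSub_flip i1 i2
    (by rw [h.zero, s1]) (by rw [h.zero, smul_back i s1]) r0 (fun x hx => ?_) trivial) (s1 ▸ hab.symm)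
    (h.le_repSub le_rfl i1 i2 fun _ => trivial)
  obtain ⟨k, hk⟩ := hs (Units.mk0 x hx)
  simpa [hk] using h.swap_scale s2 r1 k

end LG

end Cfsg.Agent.H21.Lg
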