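import Mathlib
import Cfsg.Agent.H21.LgS2
import Cfsg.Agent.H21.Cit1
import Cfsg.Agent.H23.EA
import Cfsg.Agent.H3.RI1
import Cfsg.Agent.H10.SmallId
import Cfsg.Agent.L0.PSL2

/-! Groups with a large `TI`-subgroup of index two in its normaliser. -/

set_option autoImplicit false
set_option linter.unusedSectionVars false
set_option linter.unusedVariables false

namespace Cfsg.Agent.H21.Lg

open Subgroup MulAction Cfsg.Agent.FT Cfsg.Agent.GW
open Cfsg.Agent.H16 (St2 mem_St2)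

variable {G Ω : Type*} [Group G] [Finite G] [MulAction G Ω] [Finite Ω] {M : Ω → Subgroup G} {d : ℕ}
  {K : Subgroup G} {a b c : Ω} {g h s t u v x y z : G}

theorem arith {k m n c r : ℕ} (hr : r + 1 = 2 ^ k) (hm : Odd m) (m1 : 1 < m) (n2 : 2 ≤ n)
    (h1 : m * r + 2 = m + 2 * n) (h2 : c * (r + 1) = n * (m * 2)) (h3 : c ≤ m * r) :
    ∃ e s, 1 ≤ e ∧ k = e + 1 ∧ n = m * s + 1 ∧
      ((m = 2 ^ k + 1 ∧ c = m * r) ∨ (m = 2 ^ e + 1 ∧ n = 2 ^ (2 * e) ∧ c + n = m * r + 1)) := by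
  rcases k with _ | e
  · obtain rfl : r = 0 := by omega
    omega
  obtain ⟨s, hs⟩ : ∃ s, 2 ^ e = s + 1 := ⟨_, (Nat.succ_pred_eq_of_pos (by positivity)).symm⟩
  obtain rfl : r = 2 * s + 1 := by rw [pow_succ] at hr; omega
  obtain rfl : n = m * s + 1 := by nlinarith
  have s1 : 0 < s := Nat.pos_of_ne_zero (by rintro rfl; omega)
  have h4 : c * (s + 1) = (m * s + 1) * m := by nlinarith
  have h5 : s + 1 ∣ m * s + 1 := (hs ▸ Nat.Coprime.pow_left e (Nat.coprime_two_left.2 hm)).dvd_of_dvd_mul_right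
    (h4 ▸ dvd_mul_left _ _)
  obtain ⟨m, rfl⟩ : ∃ m', m = m' + 1 := ⟨m - 1, by omega⟩
  obtain ⟨j, rfl⟩ : s + 1 ∣ m := by
    rw [show (m + 1) * s + 1 = s + 1 + m * s by ring, Nat.dvd_add_right dvd_rfl] at h5
    exact (Nat.coprime_self_add_left.2 (Nat.coprime_one_left s)).dvd_of_dvd_mul_right h5
  obtain rfl : c = ((s + 1) * j + 1) * (j * s + 1) := Nat.eq_of_mul_eq_mul_right s.add_one_pos (by rw [h4]; ring)
  have h6 : j ≤ 2 := Nat.le_of_mul_le_mul_right (by simpa using Nat.le_of_mul_le_mul_left h3 (by omega)) s1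
  refine ⟨e, s, Nat.pos_of_ne_zero (by rintro rfl; omega), rfl, rfl, ?_⟩
  rw [pow_succ, two_mul e, pow_add, hs]
  interval_cases j
  · omega
  · exact Or.inr ⟨by ring, by ring, by ring⟩
  · exact Or.inl ⟨by ring, by ring⟩

namespace LA

variable (L : LA M d)
include L

theorem card_M (a b : Ω) : #(M a) = #(M b) := by
  obtain ⟨g, rfl⟩ := L.tr a b
  rw [L.eqv, card_cj]

theorem card_G (a : Ω) : Nat.card G = Nat.card Ω * (#(M a) * d) := by
  have : IsPretransitive G Ω := ⟨L.tr⟩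
  rw [← L.card_st, ← index_stabilizer_of_transitive G a, index_mul_card]

theorem fix_of (hy : y ∈ M c) (y1 : y ≠ 1) (h : g * y * g⁻¹ ∈ M c) : g • c = c :=
  by_contra fun e => y1 (by simpa using eq_one_of_mem_inf (L.ti _ _ e) (L.eqv g c ▸ conj_mem_cj.2 hy) h)

theorem conj_of_fix (i : Invo t) (ht : t • a = a) (j : Invo u) (hu : u • b = b) : ∃ g, g * t * g⁻¹ = u := by
  obtain ⟨g, rfl⟩ := L.tr a b
  obtain ⟨x, -, e⟩ := (L.loc (g • a)).conj (i.conj g) (L.st _ ▸ st_smul g a ▸ conj_mem_cj.2 ht) j (L.st _ ▸ hu)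
  exact ⟨x * g, by rw [← e]; group⟩

end LA

theorem LA.mem_of_odd (L : LA M 2) (hg : g • c = c) (ho : Odd (orderOf g)) : g ∈ M c :=
  le_of_coprime_relIndex (A := ⟪g⟫) (zpowers_le.2 hg) (L.st c).le
    (by rw [L.idx, card_zpowers']; exact ho.coprime_two_right) (mem_zpowers g)

theorem LA.exists_mem (L : LA M 2) {s p : ℕ} (hn : Nat.card Ω = #(M a) * s + 1) (hp : p.Prime) (h : p ∣ #(M a))
    (hy : p ∣ orderOf y) : ∃ c n, y ^ n ≠ 1 ∧ y ^ n ∈ M c := by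
  have := Fact.mk hp
  have e := orderOf_pow_orderOf_div (orderOf_pos y).ne' hy
  obtain ⟨c, hc⟩ := (IsPGroup.of_card (G := ⟪y ^ (orderOf y / p)⟫) (n := 1) (by
    rw [card_zpowers', e, pow_one])).nonempty_fixed_point_of_prime_not_dvd_card Ω fun c =>
      hp.ne_one (Nat.dvd_one.1 ((Nat.dvd_add_right (h.mul_right s)).1 (hn ▸ c)))
  exact ⟨c, _, fun c => hp.ne_one (by rw [← e, c, orderOf_one]),
    L.mem_of_odd (hc ⟨_, mem_zpowers _⟩) (e.symm ▸ (L.loc a).oddK.of_dvd_nat h)⟩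

namespace LG

variable (L : LG M 2) (hab : a ≠ b) (ht : t ∈ St2 G a b) (i : Invo t)
include L hab ht i

theorem St2_eq : St2 G a b = ⟪t⟫ := (eq_of_le_of_card_ge (zpowers_le.2 ht) (by rw [L.card a b hab, i.card])).symm

theorem eq_t (hg : g ∈ C[t]) (h1 : g • a = a) : g = 1 ∨ g = t :=
  i.mem_zpowers.1 (L.St2_eq hab ht i ▸ (L.st_cen hab ht i).ge ⟨h1, hg⟩)

omit L hab i in
theorem fix_smul (hg : g ∈ C[t]) : t • g • a = g • a := by rw [← mul_smul, ← mem_cen1.1 hg, mul_smul, ht.1]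

theorem abelem : Abelem 2 C[t] := abelem_of_sq fun g hg => by
  by_cases c : a = g • a
  · rcases L.eq_t hab ht i hg c.symm with rfl | rfl
    exacts [mul_one 1, i.sq]
  have h1 : t ∈ St2 G a (g • a) := ⟨ht.1, fix_smul ht hg⟩
  obtain ⟨u, j, e, -⟩ := L.sw a _ c
  have h2 := (L.st_cen c h1 i).ge ⟨(mul_smul u g a).trans (smul_back j e),
    mul_mem (L.comm_of_swap c e (smul_back j e) h1 i) hg⟩
  exact (L.swap c rfl (smul_left_cancel u ((mul_smul u g _).symm.trans (h2.2.trans e.symm)))).1.sq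

theorem count1 : (invs (⊤ : Subgroup G)).ncard + 2 = #(M a) + 2 * Nat.card Ω := by
  classical
  have := Fintype.ofFinite Ω
  rw [L.sum_Jb a, ← Finset.add_sum_erase _ _ (Finset.mem_univ a), L.Jb_self, Finset.sum_congr rfl (g := fun _ => 2),
    Finset.sum_const, smul_eq_mul, add_assoc, ← add_one_mul, Finset.card_erase_add_one (Finset.mem_univ a),
    Finset.card_univ, Nat.card_eq_fintype_card (α := Ω), mul_comm]
  intro c hc
  have hac := (Finset.ne_of_mem_erase hc).symm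
  obtain ⟨u, j, e, -⟩ := L.sw a c hac
  rw [← L.card a c hac, ← H16.card_swap e (smul_back j e)]
  exact congrArg _ (Set.ext fun v => ⟨fun h => ⟨h.2, smul_back h.1 h.2⟩, fun h => ⟨(L.swap hac h.1 h.2).1, h.1⟩⟩)

theorem count2 : (invs (⊤ : Subgroup G)).ncard = #(M a) * (invs C[t]).ncard := by
  refine ((Nat.card_prod (M a) (invs C[t])).symm.trans (Nat.card_eq_of_bijective
    (fun p => (⟨p.1 * p.2 * p.1⁻¹, trivial, p.2.2.2.conj _⟩ : invs (⊤ : Subgroup G))) ⟨?_, ?_⟩)).symm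
  · rintro ⟨⟨x, hx⟩, u, hu⟩ ⟨⟨y, hy⟩, v, hv⟩ e
    have e1 : y⁻¹ * x * u * (y⁻¹ * x)⁻¹ = v := by
      have : x * u * x⁻¹ = y * v * y⁻¹ := congrArg Subtype.val e
      rw [show y⁻¹ * x * u * (y⁻¹ * x)⁻¹ = y⁻¹ * (x * u * x⁻¹) * y by group, this]; group
    have h1 := mul_mem (inv_mem hy) hx
    have h2 : v • a = (y⁻¹ * x) • u • a := by
      rw [← e1, mul_smul, mul_smul, show (y⁻¹ * x)⁻¹ • a = a from L.le a (inv_mem h1)]
    have h3 : y⁻¹ * x = 1 := L.eq_one i h1 <| by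
      by_cases c : a = u • a
      · rw [← c, show (y⁻¹ * x) • a = a from L.le a h1] at h2
        rw [(L.eq_t hab ht i hu.1 c.symm).resolve_left hu.2.ne, (L.eq_t hab ht i hv.1 h2).resolve_left hv.2.ne] at e1
        exact mul_inv_eq_iff_eq_mul.1 e1
      · exact L.cfix c ht.1 (fix_smul ht hu.1) h1 (h2 ▸ fix_smul ht hv.1)
    rw [h3, one_mul, inv_one, mul_one] at e1
    rw [inv_mul_eq_one] at h3
    subst e1 h3
    rfl
  · rintro ⟨u, -, j⟩
    by_cases c : a = u • a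
    · obtain ⟨x, hx, e⟩ := (L.loc a).conj i (L.st a ▸ ht.1) j (L.st a ▸ c.symm)
      exact ⟨(⟨x, hx⟩, ⟨t, self_mem_cen1 t, i⟩), Subtype.ext e⟩
    obtain ⟨x, hx, e⟩ := L.fixpt c i ht.1
    have h1 : (x * u * x⁻¹) • a = x • u • a := by
      rw [mul_smul, mul_smul, show x⁻¹ • a = a from L.le a (inv_mem hx)]
    exact ⟨(⟨x⁻¹, inv_mem hx⟩, ⟨_, L.comm_of_swap (L.ne_of c hx) h1 (smul_back (j.conj x) h1) ⟨ht.1, e⟩ i, j.conj x⟩),
      Subtype.ext (by simp [mul_assoc])⟩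

theorem card_T : (invs C[t]).ncard + 1 = #C[t] := by
  rw [← Set.ncard_insert_of_notMem (a := 1) fun h => h.2.ne rfl]
  exact congrArg _ (Set.ext fun u => ⟨fun h => h.elim (· ▸ one_mem _) (·.1), fun h => (em _).imp_right fun c =>
    ⟨h, invo_of (sq_of_abelem (L.abelem hab ht i) h) c⟩⟩)

theorem psl {s k : ℕ} (hn : Nat.card Ω = #(M a) * s + 1) (k1 : 1 < k) (hk : #C[t] = 2 ^ k) (hm : #(M a) = 2 ^ k + 1)
    (hc : {y | ∃ g ∈ (⊤ : Subgroup G), g * t * g⁻¹ = y}.ncard = (invs (⊤ : Subgroup G)).ncard) :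
    ∃ (F : Type) (_ : Field F) (_ : Fintype F) (e : ℕ), 1 < e ∧ Fintype.card F = 2 ^ e ∧ IsCyclic (M a) ∧
      Nat.card (M a) = 2 ^ e + 1 ∧ Nonempty (G ≃* Matrix.ProjectiveSpecialLinearGroup (Fin 2) F) := by
  have h1 := Set.eq_of_subset_of_ncard_le (s := {y | ∃ g ∈ (⊤ : Subgroup G), g * t * g⁻¹ = y}) (t := invs ⊤)
    (by rintro _ ⟨g, -, rfl⟩; exact ⟨trivial, i.conj g⟩) hc.ge
  have hT := L.abelem hab ht i
  have h2 := L.count2 hab ht i
  have h3 := L.card_T hab ht i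
  have h4 : 2 ^ k = 2 * 2 ^ (k - 1) := by rw [← pow_succ']; congr 1; omega
  have h5 := Nat.one_lt_two_pow (show k - 1 ≠ 0 by omega)
  have E : H23.EA C[t] := by
    refine ⟨syl_of_not_dvd le_top (hT.pGrp Nat.prime_two) ?_, fun c => ?_, fun c => ?_, fun u j => ?_⟩
    · have := ncard_class ⊤ t
      rw [top_inf_eq, ← card_mul_relIndex (le_top : C[t] ≤ ⊤), mul_comm, mul_right_inj' (card_pos _).ne'] at this
      rw [← this, hc, h2]
      exact ((L.loc a).oddK.mul ⟨2 ^ (k - 1) - 1, by omega⟩).not_two_dvd_nat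
    · have := Nat.le_of_dvd two_pos (hT.card_dvd_of_cyc c)
      omega
    · have : (invs (⊤ : Subgroup G)).ncard ≤ (invs C[t]).ncard := Set.ncard_le_ncard fun u hu => by
        obtain ⟨g, -, rfl⟩ := h1.ge hu
        exact ⟨conj_mem (c.ge trivial) (self_mem_cen1 t), hu.2⟩
      rw [h2, hm] at this
      nlinarith
    · obtain ⟨g, -, rfl⟩ := h1.ge ⟨trivial, j⟩
      exact cj_cen1 g t ▸ hT.cj g
  obtain ⟨F, _, _, e, ⟨f⟩⟩ := E.psl
  rw [hk] at e
  refine ⟨F, inferInstance, inferInstance, k, k1, e, ?_, hm, ⟨f⟩⟩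
  have := charP_of_card_eq_prime_pow e
  obtain ⟨w, hw⟩ := L0.exists_orderOf_elS (F := F)
  obtain ⟨y, hy⟩ : ∃ y : G, orderOf y = #(M a) := ⟨f.symm (L0.pjEquiv (CharTwo.two_eq_zero) (L0.elS F w)), by
    rw [MulEquiv.orderOf_eq, MulEquiv.orderOf_eq, hw, e, hm]⟩
  obtain ⟨c, n, h6, h7⟩ := L.exists_mem hn (Nat.minFac_prime (n := #(M a)) (by omega)) (Nat.minFac_dvd _)
    ((Nat.minFac_dvd _).trans hy.symm.dvd)
  have h8 := L.mem_of_odd (L.fix_of (g := y) h7 h6 (by rwa [← pow_succ', pow_succ, mul_inv_cancel_right]))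
    (hy ▸ (L.loc a).oddK)
  obtain ⟨g, rfl⟩ := L.tr c a
  rw [L.eqv, ← eq_of_le_of_card_ge (zpowers_le.2 h8) (by rw [card_zpowers', hy, L.card_M])]
  exact (cyc_zpowers y).cj g

theorem aff {s e : ℕ} (hn : Nat.card Ω = #(M a) * s + 1) (e1 : 1 ≤ e) (hm : #(M a) = 2 ^ e + 1)
    (hΩ : Nat.card Ω = 2 ^ (2 * e))
    (hc : {y | ∃ g ∈ (⊤ : Subgroup G), g * t * g⁻¹ = y}.ncard + Nat.card Ω = (invs (⊤ : Subgroup G)).ncard + 1) :
    ∃ (d : ℕ) (E : Subgroup G), 1 ≤ d ∧ E.Normal ∧ Cfsg.IsElementaryAbelian 2 E ∧ Nat.card E = 2 ^ (2 * d) ∧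
      E ⊓ N(M a) = ⊥ ∧ E ⊔ N(M a) = ⊤ ∧ Nonempty (N(M a) ≃* DihedralGroup (2 ^ d + 1)) := by
  obtain ⟨J, hJ⟩ : ∃ J, J = invs (⊤ : Subgroup G) \ {y | ∃ g ∈ (⊤ : Subgroup G), g * t * g⁻¹ = y} := ⟨_, rfl⟩
  have i1 {u} (hu : u ∈ J) : Invo u := (hJ ▸ hu).1.2
  have i2 {u} (hu : u ∈ J) (c : Ω) : u • c ≠ c := fun e =>
    (hJ ▸ hu).2 (let ⟨g, h⟩ := L.conj_of_fix i ht.1 (i1 hu) e; ⟨g, trivial, h⟩)
  have i3 {u} (hu : u ∈ J) (g : G) : g * u * g⁻¹ ∈ J := hJ ▸ ⟨⟨trivial, (i1 hu).conj g⟩, fun ⟨x, _, e⟩ =>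
    (hJ ▸ hu).2 ⟨g⁻¹ * x, trivial, by rw [mul_inv_rev, mul_assoc g⁻¹, mul_assoc g⁻¹, ← mul_assoc _ x⁻¹, e]; group⟩⟩
  have h1 : (insert 1 J).ncard = Nat.card Ω := by
    have := Set.ncard_sdiff_add_ncard_of_subset (s := {y | ∃ g ∈ (⊤ : Subgroup G), g * t * g⁻¹ = y}) (t := invs ⊤)
      (by rintro _ ⟨g, -, rfl⟩; exact ⟨trivial, i.conj g⟩)
    rw [Set.ncard_insert_of_notMem fun h => (i1 h).ne rfl, hJ]
    omega
  have hP : PGrp 2 (closure J) := pGrp_of_isPGroup Nat.prime_two <| H3.Rt.pgroup_closure (fun _ h => (i1 h).sq)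
    (fun u hu v hv => by simpa [(i1 hv).inv] using i3 hu v) fun u hu v hv => by
    refine ⟨_, orderOf_dvd_iff_pow_eq_one.1 (Nat.eq_prime_pow_of_unique_prime_dvd (orderOf_pos _).ne'
      fun {p} hp h => by_contra fun p2 => ?_).dvd⟩
    have h2 := h.trans (orderOf_dvd_natCard _)
    have h3 := (Nat.coprime_primes hp Nat.prime_two).2 p2
    rw [L.card_G a, hΩ] at h2
    obtain ⟨c, n, h4, h5⟩ := L.exists_mem hn hp
      (h3.dvd_of_dvd_mul_right ((h3.pow_right _).dvd_of_dvd_mul_left h2)) h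
    exact i2 hu c (L.fix_of h5 h4 (by rw [← conj_pow, (i1 hu).inverts_mul (i1 hv), inv_pow]; exact inv_mem h5))
  have hN : (closure J).Normal := ⟨fun x hx g => by
    induction hx using closure_induction with
    | mem x hx => exact subset_closure (i3 hx g)
    | one => simp
    | mul x y _ _ h2 h3 => rw [← conj_mul]; exact mul_mem h2 h3
    | inv x _ h2 => rw [← conj_inv]; exact inv_mem h2⟩
  have h2 {X : Subgroup G} (h : Odd #X) : closure J ⊓ X = ⊥ := hP.inf_eq_bot (odd_iff_p'.1 h)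
  obtain ⟨x, hx, x1⟩ := exists_ne_one (L.loc a).ne
  have h3 : closure J ⊓ N(M a) = ⊥ := by
    rw [← h2 (odd_of_no_invo (H := closure J ⊓ N(M a)) fun w hw j => x1 ?_), ← inf_assoc, inf_idem]
    have h4 := mul_mem (hN.conj_mem w hw.1 x) (inv_mem hw.1)
    rw [mul_assoc, mul_assoc, ← mul_assoc w, (L.loc a).inv j hw.2 _ (inv_mem hx), inv_inv] at h4
    exact eq_one_of_sq_odd (L.loc a).oddK hx (eq_one_of_mem_inf (h2 (L.loc a).oddK) h4 (mul_mem hx hx))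
  have h4 := card_sup_of_inf (le_top.trans (normalizer_eq_top _).ge) h3
  have h5 : #(closure J) ≤ Nat.card Ω := by
    have := card_le_card_group (closure J ⊔ N(M a))
    rw [h4, ← L.st, L.card_st, L.card_G a] at this
    exact Nat.le_of_mul_le_mul_right this (mul_pos (card_pos _) two_pos)
  have h6 : insert 1 J = closure J := Set.eq_of_subset_of_ncard_le
    (Set.insert_subset (one_mem _) subset_closure) (h1 ▸ h5)
  have h7 : #(closure J) = Nat.card Ω := by rw [← h1, h6]; rfl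
  refine ⟨e, closure J, e1, hN, abelem_of_sq fun u hu => (h6.ge hu).elim (by rintro rfl; simp) (i1 · |>.sq),
    h7.trans hΩ, h3, eq_top_of_card_eq _ (by rw [h4, ← L.st, L.card_st, L.card_G a, h7]), ?_⟩
  obtain ⟨y, hy, e2, e3⟩ := Cyc.exists_gen (A := M a) <| by_contra fun c => by
    obtain ⟨x, hx, x1, h⟩ := coprime_abelian_exists_cent1_ne (K := closure J) (L.loc a).ab c
      (le_top.trans (normalizer_eq_top _).ge) (hP.cop (odd_iff_p'.1 (L.loc a).oddK)) fun e => by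
        rw [e, card_bot', hΩ] at h7
        exact (Nat.one_lt_two_pow (by omega)).ne h7
    exact h (h2 ((L.loc a).odd x hx x1))
  have h8 : closure {y, t} = N(M a) := by
    rw [Set.insert_eq, Subgroup.closure_union, ← zpowers_eq_closure, ← zpowers_eq_closure, ← e2, ← L.St2_eq hab ht i, ← L.st]
    refine eq_of_le_of_card_ge (sup_le (L.le a) inf_le_left) ?_
    rw [card_sup_of_inf (inf_le_left.trans (L.st a).le) (by rw [inf_left_comm, L.reg a b hab, inf_bot_eq]), L.card_st,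
      L.card a b hab]
  rw [← h8, ← hm, ← e3]
  exact H10.nonempty_closure_equiv_dihedral i.sq ((L.loc a).inv i (L.st a ▸ ht.1) y hy)
    (e2 ▸ i.not_mem_odd (L.loc a).oddK)

end LG

/-- the conjugates of `K`, indexed by the cosets of the normaliser -/
def fam (K : Subgroup G) (b : G ⧸ N(K)) : Subgroup G :=
  Quotient.liftOn' b (fun g => cj g K) fun g h e =>
    (cj_eq_cj_iff.2 (QuotientGroup.leftRel_apply.1 e)).symm

theorem fam_mk (K : Subgroup G) (g : G) : fam K g = cj g K := rfl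

theorem fam_one (K : Subgroup G) : fam K (1 : G) = K := cj_one K

theorem la_fam (L : LS K) (ti : ∀ g : G, K ⊓ cj g K ≠ ⊥ → cj g K = K) : LA (fam K) (K.relIndex N(K)) := by
  have st (g : G) : stabilizer G (g : G ⧸ N(K)) = cj g N(K) := by
    rw [← congrArg (cj g) (stabilizer_quotient N(K)), ← st_smul, Quotient.smul_coe, smul_eq_mul, mul_one]
  refine ⟨fun g a => ?_, fun a b => exists_smul_eq G a b, fun a => ?_, fun a => ?_, fun a b h => ?_, fun a => ?_⟩ <;>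
    obtain ⟨x, rfl⟩ := QuotientGroup.mk_surjective a
  · exact (cj_cj g x K).symm
  · rw [st, cj_nrm, fam_mk]
  · exact L.cj x
  · obtain ⟨y, rfl⟩ := QuotientGroup.mk_surjective b
    by_contra c
    refine h (QuotientGroup.eq.2 (cj_eq_self.1 (ti _ fun e => c ?_)))
    rw [fam_mk, fam_mk, ← mul_inv_cancel_left x y, ← cj_cj, ← cj_inf, e, cj_bot]
  · rw [st, fam_mk, relIndex_cj]

theorem s3043 (K : Subgroup G) (L : LS K) (ti : ∀ g : G, K ⊓ cj g K ≠ ⊥ → cj g K = K) (nn : ¬ K.Normal)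
    (h : K.index < Nat.card {g : G // orderOf g = 2}) :
    (∃ (F : Type) (_ : Field F) (_ : Fintype F) (p : ℕ) (_ : Fact p.Prime) (_ : CharP F p),
      Fintype.card F = Nat.card K ∧ Cfsg.IsElementaryAbelian p K ∧
        (Nonempty (G ≃* (GL (Fin 2) F ⧸ center (GL (Fin 2) F))) ∨
         (Fintype.card F % 4 = 1 ∧ Nonempty (G ≃* Matrix.ProjectiveSpecialLinearGroup (Fin 2) F)))) ∨
    (∃ (F : Type) (_ : Field F) (_ : Fintype F) (e : ℕ), 1 < e ∧ Fintype.card F = 2 ^ e ∧ IsCyclic K ∧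
      Nat.card K = 2 ^ e + 1 ∧ Nonempty (G ≃* Matrix.ProjectiveSpecialLinearGroup (Fin 2) F)) ∨
    (∃ (d : ℕ) (E : Subgroup G), 1 ≤ d ∧ E.Normal ∧ Cfsg.IsElementaryAbelian 2 E ∧ Nat.card E = 2 ^ (2 * d) ∧
      E ⊓ N(K) = ⊥ ∧ E ⊔ N(K) = ⊤ ∧ Nonempty (N(K) ≃* DihedralGroup (2 ^ d + 1))) := by
  have L := (la_fam L ti).lg (by
    rw [← index_eq_card, mul_comm, relIndex_mul_index (le_nrm K)]
    exact h.trans_eq (Nat.card_congr (Equiv.subtypeEquivRight fun u => ⟨fun h => ⟨trivial, h⟩, fun h => h.2⟩)))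
  obtain ⟨g, hg⟩ : ∃ g, g ∉ N(K) := by_contra fun c => nn (normalizer_eq_top_iff.1 (eq_top_iff.2 fun g _ =>
    by_contra fun c' => c ⟨g, c'⟩))
  have hab : ((1 : G) : G ⧸ N(K)) ≠ g := fun e => hg (by simpa using QuotientGroup.eq.1 e)
  by_cases h2 : K.relIndex N(K) = 2
  swap
  · exact Or.inl (fam_one K ▸ L.zass h2 hab)
  rw [h2] at L
  obtain ⟨t, ht, i⟩ := L.exists_t hab
  obtain ⟨k, hk⟩ := (L.abelem hab ht i).card Nat.prime_two
  have h3 := L.card_T hab ht i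
  have h4 := L.count2 hab ht i
  have h5 := ncard_class ⊤ t
  rw [top_inf_eq, card_top', L.card_G (1 : G), ← h3] at h5
  obtain ⟨e, s, e1, rfl, hn, h6 | h6⟩ := arith (h3.trans hk) (L.loc (1 : G)).oddK (one_lt_card (L.loc _).ne)
    (Finite.one_lt_card_iff_nontrivial.2 ⟨_, _, hab⟩) (h4 ▸ L.count1 hab ht i) h5
    (h4 ▸ Set.ncard_le_ncard (by rintro _ ⟨g, -, rfl⟩; exact ⟨trivial, i.conj g⟩))
  · exact Or.inr (Or.inl (fam_one K ▸ L.psl hab ht i hn (by omega) hk h6.1 (h6.2.trans h4.symm)))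
  · exact Or.inr (Or.inr (fam_one K ▸ L.aff hab ht i hn e1 h6.1 h6.2.1 (h4 ▸ h6.2.2)))

end Cfsg.Agent.H21.Lg
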