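import Mathlib
import Cfsg.Agent.H27.Mt0

/-! The centre of the Sylow `2`-subgroup acts quadratically on an extension of two natural modules. -/

set_option autoImplicit false
namespace Cfsg.Agent.H27.Mt
open Matrix Cfsg.Agent.H13

variable {G : Type*} [Group G] {F : Type} [Field F] (S : SzData G F) {E : Type*} [AddCommGroup E] [Module F E]
  {π : G →* (E →ₗ[F] E)} {τ₁ τ₂ : F →+* F} {j : (Fin 4 → F) →ₗ[F] E} {pr : E →ₗ[F] (Fin 4 → F)}

theorem e1_nat (τ : F →+* F) (b : F) (x : Fin 4 → F) :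
    nat S τ (S.u 0 b) x - x = ![τ b * x 2 + τ (S.θ b) * x 3, τ b * x 3, 0, 0] := by
  rw [nat_u]
  ext i
  fin_cases i <;> simp [szf]
  ring

include S in
theorem e1_two (x : E) : x + x = 0 := by
  haveI := S.charP
  rw [← two_smul F, show (2 : F) = 0 from CharP.cast_eq_zero F 2, zero_smul]

theorem e1_add (b c : F) (x : E) :
    D π (S.u 0 (b + c)) x = D π (S.u 0 b) x + D π (S.u 0 c) x + D π (S.u 0 b) (D π (S.u 0 c) x) := by
  simp only [D_apply, ← S.u_zero_mul, map_mul, Module.End.mul_apply, map_sub]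
  abel

theorem e1_zero (x : E) : D π (S.u 0 0) x = 0 := by simp [D_apply]

theorem e1_sq (b : F) (x : E) : D π (S.u 0 b) (D π (S.u 0 b) x) = 0 := by
  haveI := S.charP
  have := e1_add S (π := π) b b x
  rw [CharTwo.add_self_eq_zero, e1_zero, e1_two S, zero_add] at this
  exact this.symm

theorem e1_comm (b c : F) (x : E) : D π (S.u 0 b) (D π (S.u 0 c) x) = D π (S.u 0 c) (D π (S.u 0 b) x) := by
  have := e1_add S (π := π) b c x
  rw [add_comm b c, e1_add, add_comm (D π (S.u 0 c) x)] at this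
  exact (add_left_cancel this).symm

variable {S} (T : Two S τ₁ τ₂ π j pr)
include T

theorem e1_pr (b : F) (x : E) :
    pr (D π (S.u 0 b) x) = ![τ₁ b * pr x 2 + τ₁ (S.θ b) * pr x 3, τ₁ b * pr x 3, 0, 0] := by
  rw [D_apply, map_sub, T.pG, e1_nat]

theorem e1_j (b : F) (z : Fin 4 → F) :
    D π (S.u 0 b) (j z) = j ![τ₂ b * z 2 + τ₂ (S.θ b) * z 3, τ₂ b * z 3, 0, 0] := by
  rw [D_apply, ← T.jG, ← map_sub, e1_nat]

theorem e1_jW (b : F) {z : Fin 4 → F} (h2 : z 2 = 0) (h3 : z 3 = 0) : D π (S.u 0 b) (j z) = 0 := by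
  rw [e1_j T, h2, h3, ← map_zero j]
  congr 1; ext i; fin_cases i <;> simp

theorem e1_W (b c : F) {x : E} (h2 : pr x 2 = 0) (h3 : pr x 3 = 0) : D π (S.u 0 b) (D π (S.u 0 c) x) = 0 := by
  by_cases hc : c = 0
  · rw [hc, e1_zero, map_zero]
  have hc' : τ₁ c ≠ 0 := (map_ne_zero τ₁).2 hc
  obtain ⟨y, hy⟩ := T.psurj ![0, 0, (pr x 0 - τ₁ (S.θ c) * (pr x 1 / τ₁ c)) / τ₁ c, pr x 1 / τ₁ c]
  obtain ⟨z, hz⟩ := (T.ex (x - D π (S.u 0 c) y)).1 (by
    rw [map_sub, e1_pr T, hy]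
    ext i; fin_cases i <;> simp [h2, h3] <;> field_simp <;> ring)
  rw [eq_add_of_sub_eq hz.symm, map_add, e1_sq, add_zero, e1_j T, e1_jW T] <;> rfl

theorem e1_bi (b b' c : F) (x : E) : D π (S.u 0 (b + b')) (D π (S.u 0 c) x) =
    D π (S.u 0 b) (D π (S.u 0 c) x) + D π (S.u 0 b') (D π (S.u 0 c) x) := by
  rw [e1_add, e1_W T b b' (by rw [e1_pr T]; rfl) (by rw [e1_pr T]; rfl), add_zero]

theorem e1_del {b c : F} (hd : τ₁ c * τ₂ b + τ₁ b * τ₂ c ≠ 0) (hb : b ≠ 0) (x : E) :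
    D π (S.u 0 b) (D π (S.u 0 c) x) = 0 := by
  haveI := S.charP
  have two : (2 : F) = 0 := CharP.cast_eq_zero F 2
  have hb' : τ₁ b ≠ 0 := (map_ne_zero τ₁).2 hb
  obtain ⟨P, hP⟩ : ∃ P : E →ₗ[F] E, ∀ x, P x = τ₁ c • D π (S.u 0 b) x + τ₁ b • D π (S.u 0 c) x :=
    ⟨τ₁ c • D π (S.u 0 b) + τ₁ b • D π (S.u 0 c), fun _ => rfl⟩
  have PP (x) : P (P x) = 0 := by
    rw [hP, hP]
    simp only [map_add, map_smul, e1_sq, smul_zero, zero_add, add_zero, e1_comm S c b, smul_smul]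
    rw [mul_comm, e1_two S]
  have PA (x) : P (D π (S.u 0 b) x) = D π (S.u 0 b) (P x) := by
    rw [hP, hP, map_add, map_smul, map_smul, e1_comm S c b]
  have Pj {z} (h : P (j z) = 0) : D π (S.u 0 b) (j z) = 0 := by
    rw [hP, e1_j T, e1_j T, ← map_smul, ← map_smul, ← map_add, map_eq_zero_iff _ T.jinj] at h
    have h0 := congrFun h 0
    have h1 := congrFun h 1
    simp at h0 h1
    have h3 : z 3 = 0 := (mul_eq_zero.1 (by linear_combination h1)).resolve_left hd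
    rw [h3] at h0
    exact e1_jW T b ((mul_eq_zero.1 (by linear_combination h0)).resolve_left hd) h3
  have pP (x) : pr (P x) = ![(τ₁ c * τ₁ (S.θ b) + τ₁ b * τ₁ (S.θ c)) * pr x 3, 0, 0, 0] := by
    rw [hP, map_add, map_smul, map_smul, e1_pr T, e1_pr T]
    ext i; fin_cases i <;> simp
    · linear_combination τ₁ c * τ₁ b * pr x 2 * two
    · linear_combination τ₁ c * τ₁ b * pr x 3 * two
  obtain ⟨e, he⟩ := T.psurj ![0, 0, pr (P x) 0 / τ₁ b, 0]
  obtain ⟨z, hz⟩ := (T.ex (P e)).1 (by rw [pP, he]; ext i; fin_cases i <;> simp)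
  have a1 : D π (S.u 0 b) (P e) = 0 := hz ▸ Pj (hz ▸ PP e)
  obtain ⟨z', hz'⟩ := (T.ex (P x - D π (S.u 0 b) e)).1 (by
    rw [map_sub, e1_pr T, he]
    ext i; fin_cases i
    · simp; field_simp; ring
    all_goals simp [pP])
  have a2 := Pj (z := z') (by rw [hz', map_sub, PP, PA, a1, sub_zero])
  rw [hz', map_sub, e1_sq, sub_zero, hP, map_add, map_smul, map_smul, e1_sq, smul_zero, zero_add] at a2
  exact (smul_eq_zero.1 a2).resolve_left hb'

omit T in
variable (S) in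
theorem e1m {τ₁ τ₂ j pr} (T : Two S τ₁ τ₂ π j pr) (hne : τ₁ ≠ τ₂) : I1 S π := by
  haveI := S.charP
  have two : (2 : F) = 0 := CharP.cast_eq_zero F 2
  intro b c x
  by_cases hc : c = 0
  · rw [hc, e1_zero, map_zero]
  have k {b} (hd : τ₁ c * τ₂ b + τ₁ b * τ₂ c ≠ 0) := e1_del T hd (by rintro rfl; simp at hd) x
  obtain ⟨b0, h0⟩ : ∃ b0, τ₁ c * τ₂ b0 + τ₁ b0 * τ₂ c ≠ 0 := by
    by_contra! h
    have h1 := h 1
    rw [map_one, map_one] at h1
    refine hne (RingHom.ext fun y => mul_left_cancel₀ ((map_ne_zero τ₁).2 hc) ?_)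
    linear_combination h y + τ₁ y * h1 - (τ₁ c * τ₂ y + τ₁ y * τ₂ c) * two
  by_cases hd : τ₁ c * τ₂ b + τ₁ b * τ₂ c = 0
  · have := k (b := b + b0) (by
      rw [map_add, map_add]
      intro e
      exact h0 (by linear_combination e - hd))
    rwa [e1_bi T, k h0, add_zero] at this
  · exact k hd

end Cfsg.Agent.H27.Mt
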