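import Mathlib
import Cfsg.Agent.H21.Mte1m

/-! The quadratic action on a self-extension of a natural module. -/

set_option autoImplicit false
namespace Cfsg.Agent.H27.Mt
open Matrix Cfsg.Agent.H13

variable {G : Type*} [Group G] {F : Type} [Field F] (S : SzData G F) {E : Type*} [AddCommGroup E] [Module F E]
  {π : G →* (E →ₗ[F] E)}

theorem e1s_conj (g a a' : G) (h : g * a = a' * g) (x : E) : π g (D π a x) = D π a' (π g x) := by
  rw [D_apply, D_apply, map_sub, ← Module.End.mul_apply, ← map_mul, h, map_mul, Module.End.mul_apply]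

theorem e1s {τ j pr} (T : Two S τ τ π j pr) : I1 S π := by
  obtain ⟨L, hL⟩ := j.exists_leftInverse_of_injective (LinearMap.ker_eq_bot.2 T.jinj)
  have Lj (z) : L (j z) = z := LinearMap.congr_fun hL z
  obtain ⟨H, hH⟩ : ∃ H : F → F → E →ₗ[F] E, ∀ b c x, H b c x = D π (S.u 0 b) (D π (S.u 0 c) x) :=
    ⟨fun b c => D π (S.u 0 b) ∘ₗ D π (S.u 0 c), fun _ _ _ => rfl⟩
  have HW (b c) {x} (h2 : pr x 2 = 0) (h3 : pr x 3 = 0) : H b c x = 0 := (hH _ _ _).trans (e1_W T b c h2 h3)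
  have Hj (b c x) : j (L (H b c x)) = H b c x ∧ L (H b c x) 2 = 0 ∧ L (H b c x) 3 = 0 := by
    obtain ⟨z, hz⟩ := (T.ex (H b c x)).1 (by
      rw [hH, e1_pr T, e1_pr T]; ext i; fin_cases i <;> simp)
    have := e1_W T 1 b (x := D π (S.u 0 c) x) (by rw [e1_pr T]; rfl) (by rw [e1_pr T]; rfl)
    rw [← hH b c, ← hz, e1_j T, map_eq_zero_iff _ T.jinj] at this
    have h0 := congrFun this 0
    have h1 := congrFun this 1
    simp at h0 h1
    rw [← hz, Lj]
    exact ⟨rfl, by simpa [h1] using h0, h1⟩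
  have HG {g : G} {b c b' c' : F} (h1 : g * S.u 0 b = S.u 0 b' * g) (h2 : g * S.u 0 c = S.u 0 c' * g) (x) :
      L (H b' c' (π g x)) = nat S τ g (L (H b c x)) := by
    rw [hH, ← e1s_conj g _ _ h2, ← e1s_conj g _ _ h1, ← hH, ← (Hj b c x).1, ← T.jG, Lj, Lj]
  have alt (x : E) (i : Fin 4) (σ : F →+* F)
      (hw : ∀ (k : Fˣ) b c, L (H (k * S.θ k * b) (k * S.θ k * c) x) i = σ (k * S.θ k) * L (H b c x) i) (b c) :
      L (H b c x) i = 0 := by
    refine alt0 (fun b c => L (H b c x) i) σ (fun a b c => ?_) (fun a b c => ?_) (fun a => ?_)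
      (fun κ a b hκ => ?_) S b c
    · simp only [hH, e1_bi T, map_add, Pi.add_apply]
    · simp only [hH, e1_comm S a, e1_bi T, map_add, Pi.add_apply]
    · simp only [hH, e1_sq, map_zero, Pi.zero_apply]
    · have hθ : S.θ κ ≠ 0 := (map_ne_zero _).2 hκ
      have := hw (Units.mk0 (S.θ κ / κ) (div_ne_zero hθ hκ)) a b
      rwa [show ((Units.mk0 (S.θ κ / κ) (div_ne_zero hθ hκ) : Fˣ) : F) * S.θ ((Units.mk0 (S.θ κ / κ)
        (div_ne_zero hθ hκ) : Fˣ) : F) = κ by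
          rw [Units.val_mk0, map_div₀, S.θθ]; field_simp] at this
  have hk (k : Fˣ) (b : F) : S.h k * S.u 0 b = S.u 0 (k * S.θ k * b) * S.h k := by
    rw [← mul_inv_eq_iff_eq_mul, S.h_conj_u, mul_zero]
  have sc (k : Fˣ) (b c : F) {x : E} {l : F} (hl : l ≠ 0) (h2 : pr (π (S.h k) x) 2 = l⁻¹ * pr x 2)
      (h3 : pr (π (S.h k) x) 3 = l⁻¹ * pr x 3) :
      L (H (k * S.θ k * b) (k * S.θ k * c) x) = l • nat S τ (S.h k) (L (H b c x)) := by
    have := HW (k * S.θ k * b) (k * S.θ k * c) (x := π (S.h k) x - l⁻¹ • x) (by simp [h2]) (by simp [h3])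
    rw [map_sub, sub_eq_zero] at this
    rw [← HG (hk k b) (hk k c), this, map_smul, map_smul, smul_inv_smul₀ hl]
  have r2 (k : Fˣ) : (k : F) ^ 2 ^ S.m * (k : F) ^ 2 ^ S.m = S.θ k := by rw [← sq, ← S.θθ, S.θ_root]
  have n1 (k : Fˣ) : τ ((k : F) ^ 2 ^ S.m) ≠ 0 := (map_ne_zero τ).2 (pow_ne_zero _ k.ne_zero)
  have n0 (k : Fˣ) : τ ((k : F) ^ 2 ^ S.m * k) ≠ 0 := (map_ne_zero τ).2 (mul_ne_zero (pow_ne_zero _ k.ne_zero) k.ne_zero)
  obtain ⟨e2, he2⟩ := T.psurj ![0, 0, 1, 0]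
  obtain ⟨e3, he3⟩ := T.psurj ![0, 0, 0, 1]
  have s2 (k : Fˣ) (b c : F) := sc k b c (x := e2) (n1 k) (by rw [T.pG, nat_h]; rfl) (by rw [T.pG, nat_h, he2]; simp)
  have s3 (k : Fˣ) (b c : F) := sc k b c (x := e3) (n0 k) (by rw [T.pG, nat_h, he3]; simp) (by rw [T.pG, nat_h]; rfl)
  have z (b c) {x} (h0 : L (H b c x) 0 = 0) (h1 : L (H b c x) 1 = 0) : H b c x = 0 := by
    obtain ⟨a1, a2, a3⟩ := Hj b c x
    rw [← a1, ← map_zero j]
    congr 1; ext i; fin_cases i <;> assumption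
  intro b c x
  have a3 : H b c e3 = 0 := z b c
    (alt e3 0 (τ.comp S.θ) (fun k b c => by
      rw [s3, nat_h, RingHom.comp_apply, map_mul S.θ, S.θθ]
      simp only [Pi.smul_apply, smul_eq_mul, Matrix.cons_val_zero, ← mul_assoc, ← map_mul]
      congr 2
      linear_combination (k : F) ^ 2 * r2 k) b c)
    (alt e3 1 τ (fun k b c => by
      rw [s3, nat_h]
      simp only [Pi.smul_apply, smul_eq_mul, Matrix.cons_val_one, Matrix.cons_val_zero, ← mul_assoc, ← map_mul]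
      rw [← r2]; congr 2; ring) b c)
  have a2 : H b c e2 = 0 := z b c
    (alt e2 0 τ (fun k b c => by
      rw [s2, nat_h]
      simp only [Pi.smul_apply, smul_eq_mul, Matrix.cons_val_zero, ← mul_assoc, ← map_mul]
      rw [← r2]; congr 2; ring) b c) (by
      have c1 (b : F) : S.u 1 0 * S.u 0 b = S.u 0 b * S.u 1 0 := S.u_comm_iff.2 (by simp)
      have := HG (c1 b) (c1 c) e2
      have e := HW b c (x := π (S.u 1 0) e2 - e2) (by simp [T.pG, nat_u, he2]) (by simp [T.pG, nat_u, he2])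
      rw [map_sub, sub_eq_zero] at e
      rw [e, nat_u] at this
      have := congrFun this 0
      simpa [(Hj b c e2).2.1, (Hj b c e2).2.2] using this)
  have := HW b c (x := x - pr x 2 • e2 - pr x 3 • e3) (by simp [he2, he3, vecHead, vecTail]) (by simp [he2, he3, vecHead, vecTail])
  rwa [map_sub, map_sub, map_smul, map_smul, a2, a3, smul_zero, smul_zero, sub_zero, sub_zero, hH] at this

end Cfsg.Agent.H27.Mt
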