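import Mathlib
/-! Second maximal subgroups below a point stabilizer of a giant of odd degree. -/
set_option autoImplicit false
set_option linter.unusedSectionVars false
set_option linter.unusedVariables false
set_option linter.style.haveILetI false
namespace Cfsg.Agent.H21.SM
open Subgroup MulAction
open scoped Pointwise

theorem coatom_of {G : Type*} [Group G] {H K : Subgroup G} (hHK : H ≤ K) (h1 : ¬ K ≤ H)
    (h2 : ∀ L, H < L → L ≤ K → K ≤ L) : IsCoatom (H.subgroupOf K) := by
  refine ⟨fun h => h1 (subgroupOf_eq_top.1 h), fun L hL => ?_⟩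
  have h3 : H < L.map K.subtype := by
    refine lt_of_le_of_ne (fun x hx => ⟨⟨x, hHK hx⟩, hL.le (by simpa [mem_subgroupOf] using hx), rfl⟩) ?_
    intro h
    apply hL.ne
    apply le_antisymm hL.le
    intro x hx
    rw [mem_subgroupOf, h]
    exact ⟨x, hx, rfl⟩
  have h4 := h2 _ h3 (map_subtype_le _)
  rw [eq_top_iff]
  intro x _
  obtain ⟨y, hy, e⟩ := h4 x.2
  have : y = x := Subtype.ext e
  exact this ▸ hy

theorem of_coatom {G : Type*} [Group G] {H K : Subgroup G} (hHK : H ≤ K)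
    (h : IsCoatom (H.subgroupOf K)) (L : Subgroup G) (h1 : H ≤ L) (h2 : L ≤ K) : L ≤ H ∨ K ≤ L := by
  by_cases e : L.subgroupOf K = H.subgroupOf K
  · left
    intro x hx
    have : (⟨x, h2 hx⟩ : K) ∈ L.subgroupOf K := hx
    rw [e] at this
    exact this
  · right
    have : H.subgroupOf K < L.subgroupOf K :=
      lt_of_le_of_ne (fun x hx => h1 hx) (Ne.symm e)
    exact subgroupOf_eq_top.1 (h.2 _ this)

theorem main {G Ω : Type*} [Group G] [MulAction G Ω] [Finite Ω] [IsPretransitive G Ω]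
    (hodd : Odd (Nat.card Ω)) (a : Ω)
    (h3 : ∀ x y z : Ω, x ≠ y → y ≠ z → x ≠ z → ∃ g : G, g • x = y ∧ g • y = z ∧ g • z = x ∧
      ∀ w, w ≠ x → w ≠ y → w ≠ z → g • w = w)
    (hM : IsCoatom (stabilizer G a)) (H : Subgroup G) (hHM : H ≤ stabilizer G a)
    (hmax : IsCoatom (H.subgroupOf (stabilizer G a))) (K : Subgroup G) (hK : IsCoatom K)
    (hHK : H ≤ K) : IsCoatom (H.subgroupOf K) := by
  classical
  by_cases hKM : K = stabilizer G a
  · subst hKM; exact hmax
  have hMK : ¬ stabilizer G a ≤ K := fun h => by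
    rcases h.lt_or_eq with h | h
    · exact hK.1 (hM.2 _ h)
    · exact hKM h.symm
  have hKM' : ¬ K ≤ stabilizer G a := fun h => by
    rcases h.lt_or_eq with h | h
    · exact hM.1 (hK.2 _ h)
    · exact hKM h
  have hH : ∀ k ∈ K, k • a = a → k ∈ H := by
    intro k hk hka
    rcases of_coatom hHM hmax (K ⊓ stabilizer G a) (le_inf hHK hHM) inf_le_right with h | h
    · exact h ⟨hk, hka⟩
    · exact absurd (h.trans inf_le_left) hMK
  refine coatom_of hHK (fun h => hKM' (h.trans hHM)) fun L hL hLK => ?_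
  -- the block
  set B : Set Ω := {w | ∃ l ∈ L, l • a = w} with hB
  have aB : a ∈ B := ⟨1, L.one_mem, one_smul _ _⟩
  have LB : ∀ l ∈ L, ∀ w ∈ B, l • w ∈ B := by
    rintro l hl w ⟨m, hm, rfl⟩
    exact ⟨l * m, L.mul_mem hl hm, mul_smul _ _ _⟩
  have blk : ∀ k ∈ K, ∀ w ∈ B, k • w ∈ B → k ∈ L := by
    rintro k hk w ⟨m, hm, rfl⟩ ⟨l, hl, e⟩
    have : l⁻¹ * k * m ∈ H := hH _ (K.mul_mem (K.mul_mem (K.inv_mem (hLK hl)) hk) (hLK hm)) (by
      rw [mul_smul, mul_smul, ← e, inv_smul_smul])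
    have h2 := L.mul_mem (L.mul_mem hl (hL.le this)) (L.inv_mem hm)
    simpa [mul_assoc] using h2
  obtain ⟨l0, hl0, hl0H⟩ := SetLike.exists_of_lt hL
  set b := l0 • a with hb
  have bB : b ∈ B := ⟨l0, hl0, rfl⟩
  have ab : a ≠ b := fun e => hl0H (hH _ (hLK hl0) e.symm)
  by_contra hKL
  obtain ⟨k0, hk0, hk0L⟩ := SetLike.not_le_iff_exists.1 hKL
  have zB : k0 • a ∉ B := fun h => hk0L (blk _ hk0 a aB h)
  have zB' : k0 • b ∉ B := fun h => hk0L (blk _ hk0 b bB h)
  set D : Set Ω := {w | ∃ l ∈ K, l • a = w} with hD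
  by_cases hDu : D = Set.univ
  · -- K transitive
    let S : Subgroup G := stabilizer G a ⊓ stabilizer G B
    have hHS : H ≤ S := le_inf hHM fun h hh => by
      rw [mem_stabilizer_iff]
      ext w
      rw [Set.mem_smul_set_iff_inv_smul_mem]
      exact ⟨fun h' => by simpa using LB h (hL.le hh) _ h', fun h' => LB _ (L.inv_mem (hL.le hh)) _ h'⟩
    have hSH : S ≤ H := by
      rcases of_coatom hHM hmax S hHS inf_le_left with h | h
      · exact h
      · exfalso
        obtain ⟨g, g1, g2, g3, g4⟩ := h3 b (k0 • a) (k0 • b) (fun e => zB (e ▸ bB))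
          (fun e => ab (smul_left_cancel _ e)) (fun e => zB' (e ▸ bB))
        have ga : g • a = a := g4 a ab (fun e => zB (e ▸ aB)) (fun e => zB' (e ▸ aB))
        have gB : g • B = B := (h ga).2
        apply zB
        rw [← g1, ← gB]
        exact Set.smul_mem_smul_set bB
    have hz : ∃ z, z ∉ B ∧ z ∉ k0 • B := by
      by_contra hc
      push Not at hc
      have hdis : Disjoint B (k0 • B) := by
        rw [Set.disjoint_left]
        rintro w hw ⟨v, hv, rfl⟩
        exact hk0L (blk _ hk0 v hv hw)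
      have hun : B ∪ k0 • B = Set.univ := by
        ext w; simp only [Set.mem_union, Set.mem_univ, iff_true]
        by_cases h : w ∈ B
        · exact Or.inl h
        · exact Or.inr (hc w h)
      have := Set.ncard_union_eq hdis (Set.toFinite _) (Set.toFinite _)
      rw [hun, Set.ncard_univ, Set.ncard_smul_set] at this
      rw [this] at hodd
      exact (Nat.not_even_iff_odd.2 hodd) ⟨_, rfl⟩
    obtain ⟨z, z1, z2⟩ := hz
    obtain ⟨g, g1, g2, g3, g4⟩ := h3 (k0 • a) (k0 • b) z (fun e => ab (smul_left_cancel _ e))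
      (fun e => z2 (e ▸ Set.smul_mem_smul_set bB)) (fun e => z2 (e ▸ Set.smul_mem_smul_set aB))
    have gB : ∀ w ∈ B, g • w = w := fun w hw =>
      g4 w (fun e => zB (e ▸ hw)) (fun e => zB' (e ▸ hw)) (fun e => z1 (e ▸ hw))
    have gS : g ∈ S := by
      refine ⟨gB a aB, ?_⟩
      show g • B = B
      ext w
      constructor
      · rintro ⟨v, hv, rfl⟩
        show g • v ∈ B
        rw [gB v hv]; exact hv
      · intro hw
        exact ⟨w, hw, gB w hw⟩
    have gK : g ∈ K := hHK (hSH gS)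
    have : k0⁻¹ * g * k0 ∈ L := blk _ (K.mul_mem (K.mul_mem (K.inv_mem hk0) gK) hk0) a aB (by
      rw [mul_smul, mul_smul, g1, inv_smul_smul]; exact bB)
    have h5 := LB _ this b bB
    rw [mul_smul, mul_smul, g2] at h5
    exact z2 (Set.mem_smul_set_iff_inv_smul_mem.2 h5)
  · have KD : ∀ l ∈ K, ∀ w ∈ D, l • w ∈ D := by
      rintro l hl w ⟨m, hm, rfl⟩
      exact ⟨l * m, K.mul_mem hl hm, mul_smul _ _ _⟩
    have aD : a ∈ D := ⟨1, K.one_mem, one_smul _ _⟩
    have hKS : K ≤ stabilizer G D := fun h hh => by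
      rw [mem_stabilizer_iff]
      ext w
      rw [Set.mem_smul_set_iff_inv_smul_mem]
      exact ⟨fun h' => by simpa using KD h hh _ h', fun h' => KD _ (K.inv_mem hh) _ h'⟩
    have hSK : stabilizer G D ≤ K := by
      rcases hKS.lt_or_eq with h | h
      · exfalso
        apply hDu
        ext w
        simp only [Set.mem_univ, iff_true]
        obtain ⟨g, rfl⟩ := exists_smul_eq G a w
        have : g ∈ stabilizer G D := by rw [hK.2 _ h]; trivial
        rw [mem_stabilizer_iff] at this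
        rw [← this]
        exact Set.smul_mem_smul_set aD
      · exact h.ge
    obtain ⟨g, g1, g2, g3, g4⟩ := h3 a b (k0 • a) ab (fun e => zB (e ▸ bB)) (fun e => zB (e ▸ aB))
    have bD : b ∈ D := ⟨l0, hLK hl0, rfl⟩
    have zD : k0 • a ∈ D := ⟨k0, hk0, rfl⟩
    have gD : ∀ w ∈ D, g • w ∈ D := by
      intro w hw
      by_cases e1 : w = a
      · rw [e1, g1]; exact bD
      by_cases e2 : w = b
      · rw [e2, g2]; exact zD
      by_cases e3 : w = k0 • a
      · rw [e3, g3]; exact aD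
      rw [g4 w e1 e2 e3]; exact hw
    have gK : g ∈ K := by
      apply hSK
      rw [mem_stabilizer_iff]
      apply Set.eq_of_subset_of_ncard_le
      · rintro _ ⟨v, hv, rfl⟩; exact gD v hv
      · rw [Set.ncard_smul_set]
      · exact Set.toFinite _
    have gL := blk g gK a aB (g1 ▸ bB)
    exact zB (g2 ▸ LB g gL b bB)

theorem three {G Ω : Type*} [Group G] [MulAction G Ω] [Finite Ω] [IsPreprimitive G Ω] (n : ℕ)
    (hn : Nat.card Ω = n)
    (hA : ∀ P : Subgroup (Equiv.Perm (Fin n)), MulAction.IsPreprimitive P (Fin n) →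
      alternatingGroup (Fin n) ≤ P) (x y z : Ω) (hxy : x ≠ y) (hyz : y ≠ z) (hxz : x ≠ z) :
    ∃ g : G, g • x = y ∧ g • y = z ∧ g • z = x ∧ ∀ w, w ≠ x → w ≠ y → w ≠ z → g • w = w := by
  classical
  let e : Ω ≃ Fin n := Finite.equivFinOfCardEq hn
  let φ : G →* Equiv.Perm (Fin n) := (e.permCongrHom : _ →* _).comp (toPermHom G Ω)
  have hφ : ∀ g w, φ g (e w) = e (g • w) := fun g w => by simp [φ]
  let f : Ω →ₑ[φ.rangeRestrict] Fin n := ⟨e, fun g w => (hφ g w).symm⟩
  have hP : IsPreprimitive φ.range (Fin n) := IsPreprimitive.of_surjective (f := f) e.surjective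
  have hc : Equiv.swap (e x) (e z) * Equiv.swap (e x) (e y) ∈ alternatingGroup (Fin n) := by
    rw [Equiv.Perm.mem_alternatingGroup, map_mul, Equiv.Perm.sign_swap (e.injective.ne hxz),
      Equiv.Perm.sign_swap (e.injective.ne hxy)]
    simp
  obtain ⟨g, hg⟩ := hA _ hP hc
  have k : ∀ w, e (g • w) = Equiv.swap (e x) (e z) (Equiv.swap (e x) (e y) (e w)) := fun w => by
    rw [← hφ, hg]; rfl
  refine ⟨g, e.injective ?_, e.injective ?_, e.injective ?_, fun w h1 h2 h3 => e.injective ?_⟩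
  · rw [k, Equiv.swap_apply_left, Equiv.swap_apply_of_ne_of_ne (e.injective.ne hxy.symm)
      (e.injective.ne hyz)]
  · rw [k, Equiv.swap_apply_right, Equiv.swap_apply_left]
  · rw [k, Equiv.swap_apply_of_ne_of_ne (e.injective.ne hxz.symm) (e.injective.ne hyz.symm),
      Equiv.swap_apply_right]
  · rw [k, Equiv.swap_apply_of_ne_of_ne (e.injective.ne h1) (e.injective.ne h2),
      Equiv.swap_apply_of_ne_of_ne (e.injective.ne h1) (e.injective.ne h3)]

theorem s5885 {G : Type*} [Group G] [Finite G] (n : ℕ) (hodd : Odd n)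
    (hA : ∀ P : Subgroup (Equiv.Perm (Fin n)), MulAction.IsPreprimitive P (Fin n) →
      alternatingGroup (Fin n) ≤ P)
    (M : Subgroup G) (hM : IsCoatom M) (hn : M.index = n) (H : Subgroup G) (hHM : H ≤ M)
    (hmax : IsCoatom (H.subgroupOf M)) (K : Subgroup G) (hK : IsCoatom K) (hHK : H ≤ K) :
    IsCoatom (H.subgroupOf K) := by
  have hs : stabilizer G ((1 : G) : G ⧸ M) = M := stabilizer_quotient M
  have hc : Nat.card (G ⧸ M) = n := hn
  haveI : Nontrivial (G ⧸ M) := by
    rw [← Finite.one_lt_card_iff_nontrivial]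
    exact one_lt_index_of_ne_top hM.1
  have hM' : IsCoatom (stabilizer G ((1 : G) : G ⧸ M)) := hs.symm ▸ hM
  haveI : IsPreprimitive G (G ⧸ M) := (isCoatom_stabilizer_iff_preprimitive G _).1 hM'
  exact main (Ω := G ⧸ M) (hc.symm ▸ hodd) _ (three n hc hA) hM' H (hs.symm ▸ hHM)
    (hs.symm ▸ hmax) K hK hHK

end Cfsg.Agent.H21.SM
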