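import Mathlib
import Cfsg.Agent.FT.BG03a
import Cfsg.Agent.H6.Frobenius
/-! A subgroup central in each of its solvable overgroups is central. -/
set_option autoImplicit false
set_option linter.unusedSectionVars false
set_option linter.unusedVariables false
set_option linter.style.haveILetI false
namespace Cfsg.Agent.H21.SC
open Subgroup Cfsg.Agent.FT
universe u

theorem main (n : ℕ) : ∀ (G : Type u) [Group G] [Finite G] (A : Subgroup G), Nat.card G = n → Sol A →
    (∀ S, A ≤ S → Sol S → S ≤ C(A)) → ⊤ ≤ C(A) := by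
  induction n using Nat.strong_induction_on with
  | _ n ih =>
  intro G _ _ A hn hA h
  by_contra hG
  have a1 : ∀ L : Subgroup G, A ≤ L → L ≠ ⊤ → L ≤ C(A) := fun L h1 h2 => by
    have := ih _ (hn ▸ card_top (G := G) ▸ card_lt (lt_top_iff_ne_top.2 h2)) L (A.subgroupOf L) rfl
      (hA.so h1) fun S h3 h4 x hx => by
        rw [← so_cen h1]
        exact h (S.map L.subtype) (fun y hy => ⟨⟨y, h1 hy⟩, h3 hy, rfl⟩) (h4.map _) ⟨x, hx, rfl⟩
    rw [← so_cen h1] at this
    exact fun x hx => this (mem_top (⟨x, hx⟩ : L))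
  have a2 : ∀ W : Subgroup G, A ≤ W → W ⊴ ⊤ → ¬ Sol W := fun W h1 h2 h3 => hG fun g _ =>
    h (W ⊔ ⟪g⟫) (h1.trans le_sup_left) (h3.sup (cyc_zpowers g).ab.sol (le_top.trans h2.nrm))
      (mem_sup_right (mem_zpowers g))
  have a3 : ∀ L : Subgroup G, A ≤ L → L ⊴ ⊤ → L = ⊤ := fun L h1 h2 => by_contra fun e =>
    a2 Z(L) (le_inf h1 (centsC (a1 L h1 e))) h2.center (ab_center L).sol
  have hZ : center G = ⊥ := by
    by_contra e
    have b2 : ∀ S : Subgroup (G ⧸ center G), Sol S → Sol (S.comap (QuotientGroup.mk' (center G))) := fun S hS => by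
      haveI : Group.IsSolvable S := hS
      haveI : Group.IsSolvable (center G) := (ab_iff.2 fun x hx => mem_cen.2 fun y _ => mem_center_iff.1 hx y).sol
      exact Group.isSolvable_of_ker_le_range (inclusion (ker_le_comap (QuotientGroup.mk' (center G)) S |>.trans'
        (QuotientGroup.ker_mk' _).ge)) ((QuotientGroup.mk' (center G)).subgroupComap S) fun x hx =>
          ⟨⟨x, (QuotientGroup.eq_one_iff _).1 (congrArg Subtype.val hx)⟩, rfl⟩
    have b3 : Nat.card (G ⧸ center G) < n := by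
      rw [← hn, card_eq_card_quotient_mul_card_subgroup (center G)]
      exact lt_mul_of_one_lt_right Nat.card_pos ((one_lt_card_iff_ne_bot _).2 e)
    have := ih _ b3 (G ⧸ center G) (A.map (QuotientGroup.mk' _)) rfl (hA.map _)
      fun S h1 h2 => by
        rw [← map_comap_eq_self_of_surjective (QuotientGroup.mk'_surjective (center G)) S]
        exact map_cents _ (h _ (map_le_iff_le_comap.1 h1) (b2 S h2))
    refine a2 ((center (G ⧸ center G)).comap (QuotientGroup.mk' _)) (map_le_iff_le_comap.1 fun x hx =>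
      mem_center_iff.2 fun y => (mem_cen.1 (this (mem_top y)) x hx).symm) (nml_top_iff.2 inferInstance)
      (b2 _ (ab_iff.2 fun x hx => mem_cen.2 fun y _ => mem_center_iff.1 hx y).sol)
  have hM : C(A) ≠ ⊤ := fun e => hG e.ge
  have AM : A ≤ C(A) := h A le_rfl hA
  have a4 : N(C(A)) ≤ C(A) := a1 _ (AM.trans le_normalizer) fun e => hM (a3 _ AM ⟨le_top, e.ge⟩)
  have ti : ∀ g, g ∉ C(A) → ∀ x ∈ C(A), g * x * g⁻¹ ∈ C(A) → x ∈ (⊥ : Subgroup G) := fun g hg x h1 h2 => by
    by_contra e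
    have b1 : C[x] ≤ C(A) := a1 _ (le_cen1.2 h1) fun e1 => e (hZ ▸ mem_center_iff.2 fun y => mem_cen1.1 (e1 ▸ mem_top y))
    have b2 : cj g⁻¹ A ≤ C[x] := by rw [cj_le_iff, inv_inv, cj_cen1]; exact le_cen1.2 h2
    have b3 := a1 _ (centsC (b2.trans b1)) (by rwa [← cj_cen, Ne, cj_eq_top])
    rw [← cj_cen] at b3
    exact hg (inv_mem_iff.1 (a4 (mem_nrm_of_cj_le b3)))
  obtain ⟨K, hK, -, k1, k2⟩ := H6.exists_normal_of_TI C(A) ⊥ bot_le (fun _ _ x hx => by simp [mem_bot.1 hx]) ti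
  have hK' : K ⊴ ⊤ := nml_top_iff.2 hK
  have K0 : K ≠ ⊥ := fun e => hM (by simpa [e] using k2)
  have reg : SemiReg K A := fun x hx x1 => eq_bot_iff.2 fun y hy => k1 ▸ ⟨hy.1, by_contra fun e =>
    x1 (mem_bot.1 (ti y e x (AM hx) (by rw [mem_cen1.1 hy.2, mul_inv_cancel_right]; exact AM hx)))⟩
  obtain ⟨q, hq, hd⟩ := Nat.exists_prime_and_dvd ((one_lt_card_iff_ne_bot _).2 K0).ne'
  obtain ⟨Q, hQ, q1⟩ := coprime_Sylow_exists q (le_top.trans hK'.nrm)
    (reg.cop (le_top.trans hK'.nrm)) (Or.inr hA)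
  have := h (Q ⊔ A) le_sup_right (hQ.pi.nil.sol.sup hA q1)
  exact (hQ.syl_eq_bot_iff hq).not.2 (not_not.2 hd) (eq_bot_iff.2 (k1 ▸ le_inf hQ.le (le_sup_left.trans this)))

end Cfsg.Agent.H21.SC
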