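import Mathlib
import Cfsg.Agent.FT.BG01
import Cfsg.Agent.H19.CoxA
/-! Recognition of the wreath product `3 ≀ S₃`. -/
set_option autoImplicit false
set_option linter.unusedSectionVars false
set_option linter.unusedVariables false
set_option linter.style.haveILetI false
namespace Cfsg.Agent.H21.W3
open Subgroup Cfsg.Agent.FT

variable {G : Type*} [Group G] {J : Subgroup G} {s t v x y : G}

/-- the norm map -/
def nu (s x : G) : G := x * (s * x * s⁻¹) * (s⁻¹ * x * s)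

theorem nu_mul (hJ : Ab J) (hs : s ∈ N(J)) (hx : x ∈ J) (hy : y ∈ J) : nu s (x * y) = nu s x * nu s y := by
  letI : CommGroup J := { mul_comm := hJ.is_comm.comm }
  have key : ∀ a b c d e f : J, a * b * (c * d) * (e * f) = a * c * e * (b * d * f) := fun a b c d e f => by
    simp only [mul_comm, mul_left_comm]
  have := congrArg Subtype.val (key ⟨x, hx⟩ ⟨y, hy⟩ ⟨_, conj_mem hs hx⟩ ⟨_, conj_mem hs hy⟩ ⟨_, conj_mem' hs hx⟩
    ⟨_, conj_mem' hs hy⟩)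
  simp only [coe_mul] at this
  rw [nu, nu, nu, ← this]; group

theorem nu_mem (hs : s ∈ N(J)) (hx : x ∈ J) : nu s x ∈ J :=
  mul_mem (mul_mem hx (conj_mem hs hx)) (conj_mem' hs hx)

theorem conj_two (h3 : s ^ 3 = 1) (x : G) : s * (s * x * s⁻¹) * s⁻¹ = s⁻¹ * x * s := by
  have : s * s = s⁻¹ := by rw [eq_inv_iff_mul_eq_one, ← h3, pow_three']
  rw [show s * (s * x * s⁻¹) * s⁻¹ = (s * s) * x * (s * s)⁻¹ by group, this, inv_inv]

theorem nu_conj (hJ : Ab J) (hs : s ∈ N(J)) (h3 : s ^ 3 = 1) (hx : x ∈ J) : nu s (s * x * s⁻¹) = nu s x := by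
  rw [nu, nu, conj_two h3, show s⁻¹ * (s * x * s⁻¹) * s = x by group,
    ← hJ.comm hx (mul_mem (conj_mem hs hx) (conj_mem' hs hx)), mul_assoc x]

theorem conj_nu (hJ : Ab J) (hs : s ∈ N(J)) (h3 : s ^ 3 = 1) (hx : x ∈ J) : s * nu s x * s⁻¹ = nu s x := by
  rw [← nu_conj hJ hs h3 hx]
  conv_lhs => rw [nu_conj hJ hs h3 hx]
  rw [nu, nu]; group

/-- the kernel of the norm map -/
def nuK (hJ : Ab J) (hs : s ∈ N(J)) : Subgroup G where
  carrier := {x | x ∈ J ∧ nu s x = 1}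
  mul_mem' := fun {a b} ha hb => ⟨mul_mem ha.1 hb.1, by rw [nu_mul hJ hs ha.1 hb.1, ha.2, hb.2, one_mul]⟩
  one_mem' := ⟨one_mem _, by simp [nu]⟩
  inv_mem' := fun {a} ha => ⟨inv_mem ha.1, by
    have := nu_mul hJ hs ha.1 (inv_mem ha.1)
    rw [ha.2, one_mul, mul_inv_cancel] at this
    rw [← this]; simp [nu]⟩

/-- the relations -/
structure Rl (v s t : G) : Prop where
  v3 : v ^ 3 = 1
  s3 : s ^ 3 = 1
  t2 : t * t = 1
  ts : t * s * t⁻¹ = s⁻¹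
  tv : t * v * t⁻¹ = v
  cm : v * (s * v * s⁻¹) = s * v * s⁻¹ * v

/-- the base group -/
abbrev bs (v s : G) : Subgroup G := ⟪v⟫ ⊔ ⟪s * v * s⁻¹⟫ ⊔ ⟪s⁻¹ * v * s⟫

theorem card_zp_dvd {n : ℕ} (h : x ^ n = 1) : #⟪x⟫ ∣ n := by
  rw [Nat.card_zpowers]; exact orderOf_dvd_of_pow_eq_one h

theorem eq81 {n : ℕ} (a : n ∣ 81) (b : 27 < n) : n = 81 := by
  have := Nat.le_of_dvd (by norm_num) a
  interval_cases n <;> simp_all

theorem cg {A : Type*} [CommGroup A] (a b : A) : (a * b)⁻¹ / b / (b / a) = (b ^ 3)⁻¹ := by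
  rw [pow_three', mul_inv_rev, mul_inv_rev, mul_inv_rev, div_eq_mul_inv, div_eq_mul_inv, inv_div, div_eq_mul_inv,
    mul_right_comm b⁻¹ a⁻¹, mul_assoc, inv_mul_cancel_left, mul_assoc]

namespace Rl
variable [Finite G] (h : Rl v s t)
include h

theorem m0 : v ∈ bs v s := mem_sup_left (mem_sup_left (mem_zpowers _))
theorem m1 : s * v * s⁻¹ ∈ bs v s := mem_sup_left (mem_sup_right (mem_zpowers _))
theorem m2 : s⁻¹ * v * s ∈ bs v s := mem_sup_right (mem_zpowers _)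

theorem c2 : s⁻¹ * v * s * v = v * (s⁻¹ * v * s) := by
  have := congrArg (fun z => s⁻¹ * z * s) h.cm
  simp only [mul_assoc, inv_mul_cancel_left, inv_mul_cancel, mul_one] at this ⊢
  exact this

theorem c3 : s⁻¹ * v * s * (s * v * s⁻¹) = s * v * s⁻¹ * (s⁻¹ * v * s) := by
  have := congrArg (fun z => s * z * s⁻¹) h.cm
  rw [← conj_two h.s3 v]
  simp only [mul_assoc, inv_mul_cancel_left] at this ⊢
  exact this.symm

theorem cA : ⟪s * v * s⁻¹⟫ ≤ C(⟪v⟫) := by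
  rw [cen_zpowers]; exact zpowers_le.2 (mem_cen1.2 h.cm.symm)

theorem cB : ⟪s⁻¹ * v * s⟫ ≤ C(⟪v⟫ ⊔ ⟪s * v * s⁻¹⟫) := by
  rw [cen_sup, cen_zpowers, cen_zpowers]; exact zpowers_le.2 ⟨mem_cen1.2 h.c2, mem_cen1.2 h.c3⟩

theorem ab : Ab (bs v s) := ((ab_zpowers _).sup (ab_zpowers _) h.cA).sup (ab_zpowers _) h.cB

theorem card_bs_dvd : #(bs v s) ∣ 27 := by
  refine (card_sup_dvd (cents_norm h.cB)).trans (Nat.mul_dvd_mul (b := 9) (d := 3)
    ((card_sup_dvd (cents_norm h.cA)).trans (Nat.mul_dvd_mul (b := 3) (d := 3) (card_zp_dvd h.v3)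
      (card_zp_dvd ?_))) (card_zp_dvd ?_))
  · rw [conj_pow, h.v3]; group
  · rw [show s⁻¹ * v * s = s⁻¹ * v * s⁻¹⁻¹ by rw [inv_inv], conj_pow, h.v3]; group

omit h in
theorem nrm {g : G} (h0 : g * v * g⁻¹ ∈ bs v s) (h1 : g * (s * v * s⁻¹) * g⁻¹ ∈ bs v s)
    (h2 : g * (s⁻¹ * v * s) * g⁻¹ ∈ bs v s) : g ∈ N(bs v s) := by
  have : bs v s ≤ cj g⁻¹ (bs v s) :=
    sup_le (sup_le (zpowers_le.2 (mem_cj.2 (by rwa [inv_inv]))) (zpowers_le.2 (mem_cj.2 (by rwa [inv_inv]))))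
      (zpowers_le.2 (mem_cj.2 (by rwa [inv_inv])))
  exact mem_nrm.2 fun x hx => by simpa using mem_cj.1 (this hx)

theorem sN : s ∈ N(bs v s) :=
  nrm h.m1 (by rw [conj_two h.s3]; exact h.m2) (by rw [show s * (s⁻¹ * v * s) * s⁻¹ = v by group]; exact h.m0)

theorem tN : t ∈ N(bs v s) := by
  refine nrm (by rw [h.tv]; exact h.m0) ?_ ?_
  · rw [show t * (s * v * s⁻¹) * t⁻¹ = (t * s * t⁻¹) * (t * v * t⁻¹) * (t * s * t⁻¹)⁻¹ by group, h.ts, h.tv,
      inv_inv]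
    exact h.m2
  · rw [show t * (s⁻¹ * v * s) * t⁻¹ = (t * s * t⁻¹)⁻¹ * (t * v * t⁻¹) * (t * s * t⁻¹) by group, h.ts, h.tv,
      inv_inv]
    exact h.m1

theorem tN' : ⟪t⟫ ≤ N(bs v s ⊔ ⟪s⟫) := by
  refine normsY (zpowers_le.2 h.tN) (zpowers_le.2 (mem_nrm.2 ?_))
  rintro _ ⟨n, rfl⟩
  show t * s ^ n * t⁻¹ ∈ _
  rw [← conj_zpow, h.ts]
  exact zpow_mem (inv_mem (mem_zpowers s)) n

theorem card_dvd : #(bs v s ⊔ ⟪s⟫ ⊔ ⟪t⟫) ∣ 162 :=
  (card_sup_dvd h.tN').trans (Nat.mul_dvd_mul (b := 81) (d := 2)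
    ((card_sup_dvd (zpowers_le.2 h.sN)).trans (Nat.mul_dvd_mul (b := 27) (d := 3) h.card_bs_dvd (card_zp_dvd h.s3)))
    (card_zp_dvd (by rw [pow_two, h.t2])))

theorem cube (hx : x ∈ bs v s) : x ^ 3 = 1 := by
  letI : CommGroup (bs v s) := { mul_comm := h.ab.is_comm.comm }
  have : bs v s ≤ ((powMonoidHom 3 : bs v s →* bs v s).ker).map (bs v s).subtype := by
    refine sup_le (sup_le (zpowers_le.2 ⟨⟨_, h.m0⟩, Subtype.ext h.v3, rfl⟩)
      (zpowers_le.2 ⟨⟨_, h.m1⟩, Subtype.ext ?_, rfl⟩)) (zpowers_le.2 ⟨⟨_, h.m2⟩, Subtype.ext ?_, rfl⟩)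
    · show (s * v * s⁻¹) ^ 3 = 1
      rw [conj_pow, h.v3]; group
    · show (s⁻¹ * v * s) ^ 3 = 1
      rw [show s⁻¹ * v * s = s⁻¹ * v * s⁻¹⁻¹ by rw [inv_inv], conj_pow, h.v3]; group
  obtain ⟨y, hy, rfl⟩ := this hx
  exact congrArg Subtype.val hy

theorem card_eq (h1 : nu s v ≠ 1) (h2 : t ≠ 1) : #(bs v s ⊔ ⟪s⟫ ⊔ ⟪t⟫) = 162 := by
  have n1 := nu_mem h.sN h.m0
  have n2 := conj_nu h.ab h.sN h.s3 h.m0
  have d1 : v⁻¹ * (s * v * s⁻¹) ∈ nuK h.ab h.sN := ⟨mul_mem (inv_mem h.m0) h.m1, by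
    have := nu_mul h.ab h.sN h.m0 (mul_mem (inv_mem h.m0) h.m1)
    rw [mul_inv_cancel_left, nu_conj h.ab h.sN h.s3 h.m0] at this
    exact left_eq_mul.1 this⟩
  have d2 : bs v s ⊓ C[s] ≤ nuK h.ab h.sN := fun x hx => ⟨hx.1, by
    have e := mem_cen1.1 hx.2
    rw [nu, ← e, mul_inv_cancel_right, mul_assoc s⁻¹, e, inv_mul_cancel_left, ← h.cube hx.1, pow_three']⟩
  have d3 : v⁻¹ * (s * v * s⁻¹) ∉ bs v s ⊓ C[s] := fun e => h1 (by
    have e1 := mem_cen1.1 e.2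
    have e2 : s⁻¹ * v * s = s * v * s⁻¹ * (v⁻¹ * (s * v * s⁻¹)) := by
      rw [← conj_two h.s3]
      calc s * (s * v * s⁻¹) * s⁻¹ = s * v * s⁻¹ * (s * (v⁻¹ * (s * v * s⁻¹)) * s⁻¹) := by group
        _ = _ := by rw [← e1]; group
    rw [nu, e2, h.ab.comm h.m1 (mul_mem (inv_mem h.m0) h.m1), h.cm, ← h.cube h.m1, pow_three']; group)
  have l1 : ⊥ < bs v s ⊓ C[s] := bot_lt_iff_ne_bot.2 fun e => h1 (by
    have : nu s v ∈ bs v s ⊓ C[s] := ⟨n1, mem_cen1.2 (mul_inv_eq_iff_eq_mul.1 n2).symm⟩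
    rwa [e, mem_bot] at this)
  have l2 : bs v s ⊓ C[s] < nuK h.ab h.sN := lt_of_le_of_ne d2 fun e => d3 (e ▸ d1)
  have l3 : nuK h.ab h.sN < bs v s := lt_of_le_of_ne (fun x hx => hx.1) fun e => h1 (e.symm ▸ h.m0 : v ∈ nuK h.ab h.sN).2
  have dv : ∀ n, n ∣ 27 → n = 1 ∨ n = 3 ∨ n = 9 ∨ n = 27 := fun n hn => by
    have := Nat.le_of_dvd (by norm_num) hn
    interval_cases n <;> simp_all
  have b0 := h.card_bs_dvd
  have b1 := (card_dvd_of_le l3.le).trans b0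
  have b2 := (card_dvd_of_le l2.le).trans b1
  have b3 := card_lt l1
  have b4 := card_lt l2
  have b5 := card_lt l3
  rw [card_bot] at b3
  have hK : #(bs v s) = 27 := by
    have := dv _ b0; have := dv _ b1; have := dv _ b2; omega
  have s1 : v⁻¹ * (s * v * s⁻¹) ∈ bs v s := mul_mem (inv_mem h.m0) h.m1
  have s0 : s ∉ bs v s := fun e => d3 ⟨s1, h.ab.le_cen1 e s1⟩
  have b6 : #(bs v s) < #(bs v s ⊔ ⟪s⟫) :=
    card_lt (lt_of_le_of_ne le_sup_left fun e => s0 (e ▸ mem_sup_right (mem_zpowers s)))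
  have b7 : #(bs v s ⊔ ⟪s⟫) ∣ 81 :=
    (card_sup_dvd (zpowers_le.2 h.sN)).trans (Nat.mul_dvd_mul (b := 27) (d := 3) b0 (card_zp_dvd h.s3))
  have b8 : #(bs v s ⊔ ⟪s⟫) = 81 := eq81 b7 (hK ▸ b6)
  have b9 : 2 ∣ #(bs v s ⊔ ⟪s⟫ ⊔ ⟪t⟫) := by
    haveI : Fact (Nat.Prime 2) := ⟨Nat.prime_two⟩
    have o : orderOf t = 2 := orderOf_eq_prime (by rw [pow_two, h.t2]) h2
    exact o ▸ orderOf_dvd_natCard _ (mem_sup_right (mem_zpowers t))
  exact Nat.dvd_antisymm h.card_dvd (Nat.Coprime.mul_dvd_of_dvd_of_dvd (m := 81) (n := 2) (by norm_num)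
    (b8 ▸ card_dvd_of_le le_sup_left) b9)

end Rl

theorem iso {H : Type*} [Group H] [Finite G] [Finite H] {v' s' t' : H} (h : Rl v s t) (h' : Rl v' s' t')
    (h1 : nu s v ≠ 1) (h2 : t ≠ 1) (h1' : nu s' v' ≠ 1) (h2' : t' ≠ 1) (c : Nat.card G = 162)
    (c' : Nat.card H = 162) : Nonempty (G ≃* H) := by
  have hp : Rl ((v, v') : G × H) (s, s') (t, t') :=
    ⟨Prod.ext h.v3 h'.v3, Prod.ext h.s3 h'.s3, Prod.ext h.t2 h'.t2, Prod.ext h.ts h'.ts, Prod.ext h.tv h'.tv,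
      Prod.ext h.cm h'.cm⟩
  set Γ := bs ((v, v') : G × H) (s, s') ⊔ ⟪((s, s') : G × H)⟫ ⊔ ⟪((t, t') : G × H)⟫ with hΓ
  have e1 : Γ.map (MonoidHom.fst G H) = ⊤ := by
    rw [← eq_top_of_card_eq _ ((h.card_eq h1 h2).trans c.symm)]
    simp only [hΓ, Subgroup.map_sup, MonoidHom.map_zpowers]; rfl
  have e2 : Γ.map (MonoidHom.snd G H) = ⊤ := by
    rw [← eq_top_of_card_eq _ ((h'.card_eq h1' h2').trans c'.symm)]
    simp only [hΓ, Subgroup.map_sup, MonoidHom.map_zpowers]; rfl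
  obtain ⟨φ, hφ⟩ := H19.hom_of_card Γ (fun p => (e2 ▸ mem_top p : p ∈ Γ.map (MonoidHom.snd G H)))
    (c' ▸ Nat.le_of_dvd (by norm_num) hp.card_dvd)
  have hs : Function.Surjective φ := fun g => by
    obtain ⟨x, hx, rfl⟩ : g ∈ Γ.map (MonoidHom.fst G H) := e1 ▸ mem_top g
    exact ⟨_, hφ x hx⟩
  exact ⟨(MulEquiv.ofBijective φ (hs.bijective_of_nat_card_le (c'.trans c.symm).le)).symm⟩

theorem exists_rl [Finite G] {S T : Subgroup G} (hG : Nat.card G = 162) (hS : Syl 3 S ⊤) (hT : Syl 2 T ⊤)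
    (hJ : J ⊴ ⊤) (hA : Ab J) (h3 : ∀ a ∈ J, a ^ 3 = 1) (hc : #J = 27) (hZ : #Z(S) = 3) (hZT : Z(S) ≤ C(T))
    (hST : S ⊓ C(T) ≠ S) : ∃ v s t : G, Rl v s t ∧ nu s v ≠ 1 ∧ t ≠ 1 := by
  have cS : #S = 81 := by
    rw [hS.card_syl Nat.prime_three, card_top, hG, show 162 = 3 ^ 4 * 2 from rfl,
      Nat.factorization_mul (by norm_num) (by norm_num), Nat.prime_three.factorization_pow,
      Nat.prime_two.factorization]; simp
  have cT : #T = 2 := by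
    rw [hT.card_syl Nat.prime_two, card_top, hG, show 162 = 3 ^ 4 * 2 from rfl,
      Nat.factorization_mul (by norm_num) (by norm_num), Nat.prime_three.factorization_pow,
      Nat.prime_two.factorization]; simp
  have hSn : S ⊴ ⊤ := nml_top_iff.2 (normal_of_index_eq_two (by
    have := S.card_mul_index
    rw [cS, hG] at this; omega))
  have hJS : J ≤ S := hS.ge_of_nml (piGrp_iff_forall.2 fun x hx => pElt_of_pow_eq_one Nat.prime_three (h3 x hx)) hJ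
  obtain ⟨t, hT1⟩ := cyc_iff.1 (cyc_of_prime (A := T) (cT ▸ Nat.prime_two))
  have ot : orderOf t = 2 := by rw [← cT, hT1, Nat.card_zpowers]
  have t2 : t * t = 1 := by rw [← pow_two, ← ot, pow_orderOf_eq_one]
  have ti : t⁻¹ = t := inv_eq_of_mul_eq_one_right t2
  have t1 : t ≠ 1 := by rintro rfl; simp at ot
  subst hT1
  rw [cen_zpowers] at hZT hST
  have hi : J.relIndex S = 3 := by
    have := card_mul_relIndex hJS
    rw [hc, cS] at this; omega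
  have gen : ∀ s ∈ S, s ∉ J → J ⊔ ⟪s⟫ = S := fun s hs hn => by
    have a1 : J ⊔ ⟪s⟫ ≤ S := sup_le hJS (zpowers_le.2 hs)
    have a2 := card_lt (lt_of_le_of_ne (le_sup_left : J ≤ J ⊔ ⟪s⟫) fun e => hn (e ▸ mem_sup_right (mem_zpowers s)))
    have a3 := card_dvd_of_le a1
    rw [cS] at a3
    rw [hc] at a2
    exact eq_of_le_of_card_ge a1 (cS.trans (eq81 a3 a2).symm).le
  have cz : ∀ s ∈ S, s ∉ J → J ⊓ C[s] ≤ Z(S) := fun s hs hn x hx => ⟨hJS hx.1, by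
    rw [← gen s hs hn, cen_sup, cen_zpowers]; exact ⟨hA.le_cen hx.1, hx.2⟩⟩
  have inv1 : ∀ x ∈ J, x ∈ C[t] → t * x * t⁻¹ = x⁻¹ → x = 1 := fun x hx a b => by
    rw [← mem_cen1.1 a, mul_inv_cancel_right] at b
    have := h3 x hx
    rwa [pow_succ, pow_two, mul_eq_one_iff_eq_inv.2 b, one_mul] at this
  have ivt : ∀ x : G, t * (x * (t * x⁻¹ * t⁻¹)) * t⁻¹ = (x * (t * x⁻¹ * t⁻¹))⁻¹ := fun x => by
    calc t * (x * (t * x⁻¹ * t⁻¹)) * t⁻¹ = t * x * t * x⁻¹ * (t * t)⁻¹ := by group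
      _ = t * x * t⁻¹ * x⁻¹ := by rw [t2, ti]; group
      _ = _ := by group
  obtain ⟨s, hs, hn, hts⟩ : ∃ s ∈ S, s ∉ J ∧ t * s * t⁻¹ = s⁻¹ := by
    by_contra hx
    push Not at hx
    have a1 : ⁅S, ⟪t⟫⁆ ≤ J := by
      refine commutator_le.2 fun x hx1 u hu => ?_
      have hu' : u = 1 ∨ u = t := by
        classical
        rw [mem_zpowers_iff_mem_range_orderOf, ot] at hu
        simp only [Finset.mem_image, Finset.mem_range] at hu
        obtain ⟨k, hk, rfl⟩ := hu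
        interval_cases k <;> simp
      rcases hu' with rfl | rfl
      · simp
      · by_contra e
        refine hx _ (mul_mem hx1 (conj_mem (hSn.nrm (mem_top u)) (inv_mem hx1))) (fun e1 => e ?_) (ivt x)
        rwa [commutatorElement_def, show x * u * x⁻¹ * u⁻¹ = x * (u * x⁻¹ * u⁻¹) by group]
    have a2 := coprime_cent_prod_of_le hJS (le_top.trans hJ.nrm) (by
      show Nat.Coprime _ _
      rw [hc, cT]; norm_num) (Or.inl hA.sol) a1
    rw [cen_zpowers] at a2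
    obtain ⟨s, hs, hn⟩ : ∃ s ∈ S ⊓ C[t], s ∉ J := by
      by_contra e
      push Not at e
      have : S ≤ J := fun x hx => by
        obtain ⟨a, ha, b, hb, rfl⟩ := a2.mul x hx
        exact mul_mem ha (e b hb)
      have := card_le_of_le this
      omega
    let I : Subgroup G :=
      { carrier := {x | x ∈ J ∧ t * x * t⁻¹ = x⁻¹}
        mul_mem' := fun {a b} ha hb => ⟨mul_mem ha.1 hb.1, by
          rw [show t * (a * b) * t⁻¹ = (t * a * t⁻¹) * (t * b * t⁻¹) by group, ha.2, hb.2, hA.comm ha.1 hb.1]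
          group⟩
        one_mem' := ⟨one_mem _, by simp⟩
        inv_mem' := fun {a} ha => ⟨inv_mem ha.1, by
          rw [show t * a⁻¹ * t⁻¹ = (t * a * t⁻¹)⁻¹ by group, ha.2]⟩ }
    have hIJ : I ≤ J := fun x hx => hx.1
    have hI : I ⊴ S := ⟨hIJ.trans hJS, by
      rw [← gen s hs.1 hn]
      refine sup_le (hA.norms hIJ) (zpowers_le.2 (mem_nrm.2 fun x hx => ⟨conj_mem (hJ.nrm (mem_top s)) hx.1, ?_⟩))
      have e : t * s * t⁻¹ = s := by rw [← mem_cen1.1 hs.2]; group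
      rw [show t * (s * x * s⁻¹) * t⁻¹ = (t * s * t⁻¹) * (t * x * t⁻¹) * (t * s * t⁻¹)⁻¹ by group, e, hx.2]
      group⟩
    have hI0 : I = ⊥ := by
      by_contra e
      obtain ⟨x, hx, x1⟩ := (bot_or_exists_ne_one _).resolve_left (hS.pi.nil.meet_center hI e)
      exact x1 (inv1 x hx.1.1 (hZT hx.2) hx.1.2)
    refine hST (le_antisymm inf_le_left (le_inf le_rfl ?_))
    rw [← gen s hs.1 hn]
    refine sup_le (fun x hx => ?_) (zpowers_le.2 hs.2)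
    have : x * (t * x⁻¹ * t⁻¹) ∈ I := ⟨mul_mem hx (conj_mem (hJ.nrm (mem_top t)) (inv_mem hx)), ivt x⟩
    rw [hI0, mem_bot] at this
    refine mem_cen1.2 ?_
    calc x * t = x * (t * x⁻¹ * t⁻¹) * (t * x) := by group
      _ = _ := by rw [this, one_mul]
  have sN : s ∈ N(J) := hJ.nrm (mem_top s)
  have s3 : s ^ 3 = 1 := by
    have a1 : s ^ 3 ∈ J := hi ▸ pow_relIndex_mem (le_top.trans hJ.nrm) hs
    refine inv1 _ a1 (hZT (cz s hs hn ⟨a1, pow_mem (self_mem_cen1 s) 3⟩)) ?_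
    rw [← conj_pow, hts, inv_pow]
  obtain ⟨w, hw, w1⟩ : ∃ w ∈ J, nu s w ≠ 1 := by
    by_contra e
    push Not at e
    letI : CommGroup J := { mul_comm := hA.is_comm.comm }
    let σ : J →* J :=
      { toFun := fun x => ⟨s * x * s⁻¹, conj_mem sN x.2⟩
        map_one' := Subtype.ext (by simp)
        map_mul' := fun a b => Subtype.ext (by simp only [coe_mul]; group) }
    let δ : J →* J := σ / MonoidHom.id J
    have k1 : δ.range ≤ δ.ker := by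
      rintro _ ⟨x, rfl⟩
      have e1 : x * σ x * σ (σ x) = 1 := Subtype.ext (by
        have := e x x.2
        rw [nu, ← conj_two s3] at this
        exact this)
      have e2 : σ x ^ 3 = 1 := Subtype.ext (h3 _ (σ x).2)
      show σ (σ x / x) / (σ x / x) = 1
      rw [map_div, eq_inv_of_mul_eq_one_right e1]
      rw [cg, e2, inv_one]
    have k2 : δ.ker.map J.subtype ≤ Z(S) := by
      rintro _ ⟨x, hx, rfl⟩
      refine cz s hs hn ⟨x.2, mem_cen1.2 ?_⟩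
      have : σ x = x := div_eq_one.1 hx
      exact (mul_inv_eq_iff_eq_mul.1 (congrArg Subtype.val this)).symm
    have k3 := card_le_of_le k2
    rw [card_map_of_injective J.subtype_injective, hZ] at k3
    have k4 := (card_le_of_le k1).trans k3
    have k5 := δ.ker.card_mul_index
    rw [index_ker, hc] at k5
    have := Nat.mul_le_mul k3 k4
    omega
  have tw : t * w * t⁻¹ ∈ J := conj_mem (hJ.nrm (mem_top t)) hw
  have nz : nu s w ∈ C[t] := hZT (cz s hs hn ⟨nu_mem sN hw,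
    mem_cen1.2 (mul_inv_eq_iff_eq_mul.1 (conj_nu hA sN s3 hw)).symm⟩)
  have nt : nu s (t * w * t⁻¹) = nu s w := by
    have e1 : t⁻¹ * s * t = s⁻¹ := by rw [← hts, ti]
    calc nu s (t * w * t⁻¹)
        = t * (w * ((t⁻¹ * s * t) * w * (t⁻¹ * s * t)⁻¹ * ((t⁻¹ * s * t)⁻¹ * w * (t⁻¹ * s * t)))) * t⁻¹ := by
          rw [nu]; group
      _ = t * nu s w * t⁻¹ := by
          rw [e1, inv_inv, hA.comm (conj_mem' sN hw) (conj_mem sN hw), nu]; group
      _ = _ := by rw [← mem_cen1.1 nz]; group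
  have hv : w * (t * w * t⁻¹) ∈ J := mul_mem hw tw
  refine ⟨w * (t * w * t⁻¹), s, t, ⟨h3 _ hv, s3, t2, hts, ?_, hA.comm hv (conj_mem sN hv)⟩, ?_, t1⟩
  · rw [hA.comm hw tw]
    calc t * (t * w * t⁻¹ * w) * t⁻¹ = (t * t) * w * t⁻¹ * w * t⁻¹ := by group
      _ = w * (t * w * t⁻¹) := by rw [t2, ti]; group
      _ = _ := hA.comm hw tw
  · rw [nu_mul hA sN hw tw, nt]
    intro e
    have := h3 _ (nu_mem sN hw)
    rw [pow_succ, pow_two, e, one_mul] at this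
    exact w1 this

/-- a product of three disjoint `3`-cycles -/
abbrev g9 : Equiv.Perm (Fin 9) := Equiv.swap (0 : Fin 9) 1 * Equiv.swap 1 2 * Equiv.swap 3 4 * Equiv.swap 4 5 *
  Equiv.swap 6 7 * Equiv.swap 7 8

theorem iso9 [Finite G] (h : Rl v s t) (h1 : nu s v ≠ 1) (h2 : t ≠ 1) (c : Nat.card G = 162) :
    Nonempty (G ≃* C[g9]) := by
  refine iso (v' := ⟨Equiv.swap 0 1 * Equiv.swap 1 2, mem_cen1.2 (by decide +kernel)⟩)
    (s' := ⟨Equiv.swap 0 3 * Equiv.swap 3 6 * (Equiv.swap 1 4 * Equiv.swap 4 7) * (Equiv.swap 2 5 * Equiv.swap 5 8),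
      mem_cen1.2 (by decide +kernel)⟩)
    (t' := ⟨Equiv.swap 3 6 * Equiv.swap 4 7 * Equiv.swap 5 8, mem_cen1.2 (by decide +kernel)⟩) h
    ⟨Subtype.ext (by decide +kernel), Subtype.ext (by decide +kernel), Subtype.ext (by decide +kernel),
      Subtype.ext (by decide +kernel), Subtype.ext (by decide +kernel), Subtype.ext (by decide +kernel)⟩ h1 h2
    (fun e => absurd (congrArg Subtype.val e) (by decide +kernel))
    (fun e => absurd (congrArg Subtype.val e) (by decide +kernel)) c ?_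
  rw [Equiv.Perm.nat_card_centralizer, show g9.cycleType = {3, 3, 3} by decide +kernel]
  decide +kernel

end Cfsg.Agent.H21.W3
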